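import Mathlib
import Cfsg.Agent.H42.FvDefs

/-! A regular semisimple vector exists, and `E₈(3)` stabilises no line of the adjoint module. -/

set_option autoImplicit false
set_option maxRecDepth 100000

namespace Cfsg.Agent.H28.FvR

open Equiv Cfsg.Lie H37 H40 H34 H29 Module H50.E83 Cfsg.Agent.H42.Fv
open scoped Matrix

theorem co_cartan (r : Rt) : ∑ i : Rk, co chevE8 r i * chevE8.cartan i r = 2 := by
  rw [← C8.R.pair_self r, RS.pair_def]
  exact Finset.sum_congr rfl fun i _ => by rw [C8.co_eq, C8.wt_eq]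

theorem co_cartan' (r : Rt) :
    ∑ i : Rk, ((co chevE8 r i : ℤ) : K) * ((chevE8.cartan i r : ℤ) : K) = 2 := by
  exact_mod_cast congrArg (Int.cast : ℤ → K) (co_cartan r)

theorem three : (3 : K) = 0 := by exact_mod_cast CharP.cast_eq_zero K 3

theorem two : (2 : K) ≠ 0 := fun h => one_ne_zero (by linear_combination three - h : (1 : K) = 0)

theorem simple_lt : ∀ j < chevE8.rank, chevE8.simple j < chevE8.nroots := by decide +kernel

theorem reg : RegStmt := by
  let f : Rt → Module.Dual K (Rk → K) := fun r =>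
    ∑ i : Rk, ((chevE8.cartan i r : ℤ) : K) • LinearMap.proj i
  have hf : ∀ r c, f r c = ∑ i : Rk, c i * ((chevE8.cartan i r : ℤ) : K) := fun r c => by
    simp only [f, LinearMap.sum_apply, LinearMap.smul_apply, LinearMap.proj_apply, smul_eq_mul,
      mul_comm]
  obtain ⟨c, hc⟩ := Module.Dual.exists_forall_ne_zero_of_forall_exists f fun r =>
    ⟨fun i => ((co chevE8 r i : ℤ) : K), by rw [hf, co_cartan']; exact two⟩
  refine ⟨Sum.elim c fun _ => 0, fun r h => (h rfl).elim, fun r => ?_⟩
  have := hc r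
  rw [hf] at this
  exact this

theorem cart_zero {v : V} (h : ∀ r, al r v = 0) (i : Rk) : v (Sum.inl i) = 0 := by
  obtain ⟨B, hB⟩ : ∃ B, InvCert chevE8 1 B := ⟨_, invE8⟩
  have h1 : ∑ k : Rk, v (Sum.inl k) * ((∑ j ∈ Finset.range chevE8.rank,
      chevE8.cartan k (chevE8.simple j) * gt B i j : ℤ) : K) = v (Sum.inl i) := by
    rw [Finset.sum_eq_single i]
    · rw [hB i i.2 i i.2]; simp
    · intro k _ hk
      have : (k : ℕ) ≠ i := fun e => hk (Fin.ext e)
      rw [hB i i.2 k k.2]; simp [this]
    · simp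
  rw [← h1]
  simp only [Int.cast_sum, Int.cast_mul, Finset.mul_sum]
  rw [Finset.sum_comm]
  refine Finset.sum_eq_zero fun j hj => ?_
  simp only [← mul_assoc]
  have h2 : ∑ k : Rk, v (Sum.inl k) * ((chevE8.cartan k (chevE8.simple j) : ℤ) : K) = 0 :=
    h ⟨chevE8.simple j, simple_lt j (Finset.mem_range.1 hj)⟩
  rw [← Finset.sum_mul, h2, zero_mul]

theorem line (ent : EntStmt) : LineStmt := by
  intro v hv
  by_contra hc
  push Not at hc
  obtain ⟨cf, -, hE⟩ := ent
  have fix : ∀ r : Rt, xR K r 1 *ᵥ v = v := fun r => by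
    obtain ⟨c, e⟩ := hc (C8.xg (ZMod 3) r 1)
    have e1 : ι (C8.xg (ZMod 3) r 1) = C8.xg K r 1 := by
      have := C8.V.fieldHom_xE (algebraMap (ZMod 3) K) r 1
      rw [map_one] at this
      exact this
    rw [e1] at e
    have e3 : C8.xg K r 1 * C8.xg K r 1 * C8.xg K r 1 = 1 := by
      rw [← Cert.xg_add, ← Cert.xg_add, show (1 : K) + 1 + 1 = 0 by linear_combination three,
        Cert.xg_zero]
    have e4 : (c * c * c) • v = (1 : K) • v := by
      have : act (C8.xg K r 1 * C8.xg K r 1 * C8.xg K r 1) v = v := by rw [e3, map_one]; rfl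
      rw [act_mul, act_mul, e, map_smul, e, map_smul, map_smul, e, smul_smul, smul_smul] at this
      rw [this, one_smul]
    have e5 : c * c * c = 1 := smul_left_injective K hv e4
    have e6 : c = 1 := by
      have : (c - 1) ^ 3 = 0 := by linear_combination e5 + (c - c ^ 2) * three
      exact sub_eq_zero.1 (pow_eq_zero_iff three_ne_zero |>.1 this)
    rw [e6, one_smul, act_apply, xg_eq] at e
    exact e
  have h1 : ∀ r : Rt, v (Sum.inr (C8.R.neg r)) = 0 := fun r => by
    have h2 : ∀ i : Rk, v (Sum.inr (C8.R.neg r)) * ((co chevE8 r i : ℤ) : K) = 0 := fun i => by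
      have := (hE K r 1 v).1 i
      rw [fix, one_mul] at this
      linear_combination -this
    have h3 : v (Sum.inr (C8.R.neg r)) * 2 = 0 := by
      rw [← co_cartan' r, Finset.mul_sum]
      exact Finset.sum_eq_zero fun i _ => by rw [← mul_assoc, h2, zero_mul]
    exact (mul_eq_zero.1 h3).resolve_right two
  have h2 : ∀ r : Rt, v (Sum.inr r) = 0 := fun r => by
    have := h1 (C8.R.neg r)
    rwa [C8.R.neg_neg] at this
  have h3 : ∀ r : Rt, al r v = 0 := fun r => by
    have := (hE K r 1 v).2 r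
    rw [fix] at this
    simpa [h2] using this
  refine hv (funext fun k => ?_)
  rcases k with k | k
  · exact cart_zero h3 k
  · exact h2 k

end Cfsg.Agent.H28.FvR
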