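import Mathlib
import Cfsg.Agent.H11.CyDefs

/-! Project CY (row S3256), piece OLE. -/

set_option autoImplicit false

namespace Cfsg.Agent.H28.CyOle

open Subgroup MulAction Cfsg.Agent.H11.Cy

variable {G : Type} [Group G] [Finite G] {Ω : Type} [MulAction G Ω] {p : ℕ} {A : Ω → Subgroup G}

theorem fix_of_cen (S : St p A) {t : Ω} {c : G} (hc : ∀ a ∈ A t, a * c = c * a) : c • t = t := by
  have : Nontrivial (A t) := Finite.one_lt_card_iff_nontrivial.1 (by rw [S.card]; exact S.pp.one_lt)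
  obtain ⟨a, ha⟩ := exists_ne (1 : A t)
  refine (S.semi t _ a a.2 ?_).resolve_left fun h => ha (Subtype.ext h)
  rw [← mul_smul, hc a a.2, mul_smul, S.fix t a a.2]

theorem eq_one (S : St p A) (h1 : One A) {z w : Ω} (hzw : z ≠ w) {c : G}
    (hz : ∀ a ∈ A z, a * c = c * a) (hw : ∀ a ∈ A w, a * c = c * a) : c = 1 :=
  S.faith c fun t => fix_of_cen S fun a ha => mem_centralizer_singleton_iff.1
    ((sup_le (fun b hb => mem_centralizer_singleton_iff.2 (hz b hb))
      (fun b hb => mem_centralizer_singleton_iff.2 (hw b hb)) : Fl A z w ≤ centralizer {c})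
      ((show t ∈ Ln A z w from h1 z w hzw ▸ trivial) ha))

omit [Finite G] in
theorem conj_zpow' (S : St p A) {z : Ω} {h : G} (hz : h • z = z) :
    ∃ i : ℤ, ∀ b ∈ A z, h * b * h⁻¹ = b ^ i := by
  have := Fact.mk S.pp
  obtain ⟨a, ha⟩ := (isCyclic_of_prime_card (S.card z)).exists_generator
  obtain ⟨i, hi⟩ := ha ⟨h * a * h⁻¹, by simpa [hz] using S.eqv h z a a.2⟩
  refine ⟨i, fun b hb => ?_⟩
  obtain ⟨m, hm⟩ := ha ⟨b, hb⟩
  have e1 : (a : G) ^ i = h * a * h⁻¹ := by simpa using congrArg Subtype.val hi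
  have e2 : (a : G) ^ m = b := by simpa using congrArg Subtype.val hm
  rw [← e2, ← conj_zpow, ← e1, zpow_comm]

theorem comm (S : St p A) (h1 : One A) {z w : Ω} (hzw : z ≠ w) {h k : G} (hh : h ∈ Hs G z w)
    (hk : k ∈ Hs G z w) : h * k = k * h := by
  have key : ∀ t, h • t = t → k • t = t → ∀ a ∈ A t,
      a * ((k * h)⁻¹ * (h * k)) = (k * h)⁻¹ * (h * k) * a := fun t ht kt a ha => by
    obtain ⟨i, hi⟩ := conj_zpow' S ht
    obtain ⟨j, hj⟩ := conj_zpow' S kt
    have e : h * (k * a * k⁻¹) * h⁻¹ = k * (h * a * h⁻¹) * k⁻¹ := by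
      rw [hi a ha, hj a ha, ← conj_zpow, ← conj_zpow, hi a ha, hj a ha, zpow_comm]
    calc _ = (k * h)⁻¹ * (k * (h * a * h⁻¹) * k⁻¹) * (h * k) := by group
      _ = _ := by rw [← e]; group
  exact (inv_mul_eq_one.1 (eq_one S h1 hzw (key z hh.1 hk.1) (key w hh.2 hk.2))).symm

theorem ole : OleStmt := by
  intro G _ _ Ω _ _ p A S h1 x y hxy e he hc
  have hc' : ∀ a ∈ A x, a * e = e * a := mem_centralizer_iff.1 hc
  have back : ∀ (g : G) t, ∀ b ∈ A (g • t), g⁻¹ * b * g ∈ A t := fun g t b hb => by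
    simpa using S.eqv g⁻¹ _ b hb
  by_contra e1
  have fx : ∀ c, c * e = e * c → c • x = x := fun c h => by_contra fun hn =>
    e1 (eq_one S h1 hn (fun b hb => by
      have := hc' _ (back c x b hb)
      calc b * e = c * (c⁻¹ * b * c) * c⁻¹ * e := by group
        _ = c * (c⁻¹ * b * c * e) * c⁻¹ := by
          rw [mul_assoc _ c⁻¹, (show Commute c e from h).inv_left.eq]; group
        _ = e * b := by rw [this, ← mul_assoc, h]; group) hc')
  have cen : ∀ h ∈ Hs G x y, ∀ a ∈ A x, a * h = h * a := fun h hh a ha => by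
    by_cases a1 : a = 1
    · simp [a1]
    have hz : y ≠ a • y := fun h => (S.semi x y a ha h.symm).elim a1 fun h => hxy h.symm
    have ez : e ∈ Hs G y (a • y) := ⟨he.2, by
      change e • a • y = a • y
      rw [← mul_smul, ← hc' a ha, mul_smul, (show e • y = y from he.2)]⟩
    obtain ⟨g, -, g1, g2⟩ := S.two x trivial y trivial y trivial (a • y) trivial hxy hz
    have eq : Hs G y (a • y) = Hs G x y := by
      refine eq_of_le_of_card_ge (fun c hc => ⟨fx c (comm S h1 hz hc ez), hc.1⟩) ?_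
      refine Nat.card_le_card_of_injective (fun k => ⟨g * k * g⁻¹, ?_, ?_⟩)
        fun k k' h => Subtype.ext (mul_left_cancel (mul_right_cancel (congrArg Subtype.val h)))
      · change (g * k * g⁻¹) • y = y
        rw [mul_smul, mul_smul, inv_smul_eq_iff.2 g1.symm, (show k.1 • x = x from k.2.1), g1]
      · change (g * k * g⁻¹) • a • y = a • y
        rw [mul_smul, mul_smul, inv_smul_eq_iff.2 g2.symm, (show k.1 • y = y from k.2.2), g2]
    have h2 : h • a • y = a • y := (eq ▸ hh : h ∈ Hs G y (a • y)).2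
    have h3 : h * a * h⁻¹ ∈ A x := (show h • x = x from hh.1) ▸ S.eqv h x a ha
    have h4 := (S.semi x y _ (mul_mem (inv_mem ha) h3) (by
      rw [mul_smul, mul_smul, mul_smul, inv_smul_eq_iff.2 (show h • y = y from hh.2).symm, h2,
        inv_smul_smul])).resolve_right hxy.symm
    rw [inv_mul_eq_one, eq_mul_inv_iff_mul_eq] at h4
    exact h4
  obtain ⟨g, -, g1, g2⟩ := S.two x trivial y trivial y trivial x trivial hxy hxy.symm
  refine e1 (eq_one S h1 hxy hc' fun b hb => ?_)
  have h2 := cen (g⁻¹ * e * g) ⟨by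
    change (g⁻¹ * e * g) • x = x
    rw [mul_smul, mul_smul, g1, (show e • y = y from he.2), ← g1, inv_smul_smul], by
    change (g⁻¹ * e * g) • y = y
    rw [mul_smul, mul_smul, g2, (show e • x = x from he.1), ← g2, inv_smul_smul]⟩
    _ (back g x b (g1.symm ▸ hb))
  calc b * e = g * (g⁻¹ * b * g * (g⁻¹ * e * g)) * g⁻¹ := by group
    _ = e * b := by rw [h2]; group

end Cfsg.Agent.H28.CyOle
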