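import Mathlib
import Cfsg.Agent.H50.E83Defs2

/-!
# A configuration of elements in `L₂(32)`
-/

set_option autoImplicit false

namespace Cfsg.Agent.H28.E83EmbL

open Cfsg.Agent.H50.E83 Matrix Subgroup
open scoped MatrixGroups

universe u

/-- The field with 32 elements: polynomials modulo `t⁵ - t² - 1`. -/
@[ext] structure E where
  /-- coefficient -/
  a : ZMod 2
  /-- coefficient -/
  b : ZMod 2
  /-- coefficient -/
  c : ZMod 2
  /-- coefficient -/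
  d : ZMod 2
  /-- coefficient -/
  e : ZMod 2
  deriving DecidableEq

/-- The sum. -/
def ad (x y : E) : E := ⟨x.a + y.a, x.b + y.b, x.c + y.c, x.d + y.d, x.e + y.e⟩

/-- The product. -/
def ml (x y : E) : E :=
  ⟨x.a * y.a + (x.b * y.e + x.c * y.d + x.d * y.c + x.e * y.b) + x.e * y.e,
   x.a * y.b + x.b * y.a + (x.c * y.e + x.d * y.d + x.e * y.c),
   x.a * y.c + x.b * y.b + x.c * y.a + (x.b * y.e + x.c * y.d + x.d * y.c + x.e * y.b) +
     (x.d * y.e + x.e * y.d) + x.e * y.e,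
   x.a * y.d + x.b * y.c + x.c * y.b + x.d * y.a + (x.c * y.e + x.d * y.d + x.e * y.c) + x.e * y.e,
   x.a * y.e + x.b * y.d + x.c * y.c + x.d * y.b + x.e * y.a + (x.d * y.e + x.e * y.d)⟩

/-- The negative. -/
def ng (x : E) : E := ⟨-x.a, -x.b, -x.c, -x.d, -x.e⟩

instance ring : CommRing E :=
  letI : Add E := ⟨ad⟩
  letI : Mul E := ⟨ml⟩
  letI : Neg E := ⟨ng⟩
  letI : Zero E := ⟨⟨0, 0, 0, 0, 0⟩⟩
  letI : One E := ⟨⟨1, 0, 0, 0, 0⟩⟩
  CommRing.ofMinimalAxioms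
    (fun x y z => show ad (ad x y) z = ad x (ad y z) by ext <;> simp only [ad] <;> ring)
    (fun x => show ad ⟨0, 0, 0, 0, 0⟩ x = x by ext <;> simp only [ad] <;> ring)
    (fun x => show ad (ng x) x = ⟨0, 0, 0, 0, 0⟩ by ext <;> simp only [ad, ng] <;> ring)
    (fun x y z => show ml (ml x y) z = ml x (ml y z) by ext <;> simp only [ml] <;> ring)
    (fun x y => show ml x y = ml y x by ext <;> simp only [ml] <;> ring)
    (fun x => show ml ⟨1, 0, 0, 0, 0⟩ x = x by ext <;> simp only [ml] <;> ring)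
    (fun x y z => show ml x (ad y z) = ad (ml x y) (ml x z) by ext <;> simp only [ml, ad] <;> ring)

/-- Coordinates. -/
def co : (ZMod 2 × ZMod 2 × ZMod 2 × ZMod 2 × ZMod 2) ≃ E where
  toFun p := ⟨p.1, p.2.1, p.2.2.1, p.2.2.2.1, p.2.2.2.2⟩
  invFun x := (x.a, x.b, x.c, x.d, x.e)
  left_inv _ := rfl
  right_inv _ := rfl

instance fin : Fintype E := Fintype.ofEquiv _ co

/-- The element with the binary digits of `n` as coefficients. -/
def o (n : ℕ) : E := ⟨(n % 2 : ℕ), (n / 2 % 2 : ℕ), (n / 4 % 2 : ℕ), (n / 8 % 2 : ℕ), (n / 16 % 2 : ℕ)⟩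

/-- A matrix of determinant one. -/
def g (p q r s : ℕ) (h : o p * o s - o q * o r = 1 := by decide +kernel) : SL(2, E) :=
  ⟨!![o p, o q; o r, o s], by rw [det_fin_two_of, h]⟩

/-- The unitriangular matrices. -/
def U (s : E) : SL(2, E) := ⟨!![1, s; 0, 1], by simp [det_fin_two_of]⟩

theorem eqns : True := by
  have := @ad.eq_1
  have := @ml.eq_1
  have := @ng.eq_1
  have := @co.eq_1
  have := @o.eq_1
  have := @g.eq_1
  have := @U.eq_1
  trivial

theorem isField : IsField E :=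
  ⟨⟨0, 1, by decide +kernel⟩, mul_comm, fun {a} =>
    (by decide +kernel : ∀ a : E, a ≠ 0 → ∃ b, a * b = 1) a⟩

theorem exists_hom (F : Type u) [Field F] [Fintype F] (h : Fintype.card F = 32) :
    ∃ φ : E →+* F, Function.Injective φ := by
  letI := isField.toField
  have e := FiniteField.ringEquivOfCardEq (K := E) (K' := F) (by rw [h]; decide +kernel)
  exact ⟨e.toRingHom, e.injective⟩

theorem U_add (s t : E) : U (s + t) = U s * U t := by
  refine Subtype.ext (show (!![1, s + t; 0, 1] : Matrix _ _ E) = !![1, s; 0, 1] * !![1, t; 0, 1] from ?_)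
  simp [add_comm]

theorem pw11 {Γ : Type*} [Group Γ] {x x2 x4 x8 : Γ} (h2 : x * x = x2) (h4 : x2 * x2 = x4)
    (h8 : x4 * x4 = x8) (h : x8 * x2 * x = 1) : x ^ 11 = 1 := by
  rw [← h, ← h8, ← h4, ← h2]; simp only [pow_succ, pow_zero, one_mul, mul_assoc]

theorem key (s : E) (hs : s ≠ 0) :
    U s ∈ closure {g 1 1 0 1, g 0 18 2 1} ∧ IsConj (g 1 1 0 1) (U s) := by
  have ha : g 1 1 0 1 ∈ closure {g 1 1 0 1, g 0 18 2 1} := subset_closure (by simp)
  have hb : g 0 18 2 1 ∈ closure {g 1 1 0 1, g 0 18 2 1} := subset_closure (by simp)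
  have h1 : g 0 18 2 3 ∈ closure {g 1 1 0 1, g 0 18 2 1} :=
    (by decide +kernel : g 0 18 2 1 * g 1 1 0 1 = g 0 18 2 3) ▸ mul_mem hb ha
  have h2 : g 1 19 6 4 ∈ closure {g 1 1 0 1, g 0 18 2 1} :=
    (by decide +kernel : g 0 18 2 3 * g 0 18 2 3 = g 1 19 6 4) ▸ mul_mem h1 h1
  have h5 : g 15 24 15 21 ∈ closure {g 1 1 0 1, g 0 18 2 1} :=
    (by decide +kernel : g 1 19 6 4 * g 1 19 6 4 * g 0 18 2 3 = g 15 24 15 21) ▸
      mul_mem (mul_mem h2 h2) h1
  have hd : g 26 21 0 21 ∈ closure {g 1 1 0 1, g 0 18 2 1} :=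
    (by decide +kernel : g 15 24 15 21 * g 0 18 2 1 * g 0 18 2 1 = g 26 21 0 21) ▸
      mul_mem (mul_mem h5 hb) hb
  have e : ∀ s : E, g 26 21 0 21 * U s = U (o 3 * s) * g 26 21 0 21 := by decide +kernel
  have e1 : U (o 1) = g 1 1 0 1 := by decide +kernel
  refine List.IsChain.induction (r := fun x y => y = o 3 * x)
    (fun s => U s ∈ closure {g 1 1 0 1, g 0 18 2 1} ∧ IsConj (g 1 1 0 1) (U s))
    ([1, 3, 5, 15, 17, 22, 31, 4, 12, 20, 25, 14, 18, 19, 16, 21, 26, 11, 29, 2, 6, 10, 30, 7, 9,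
      27, 8, 24, 13, 23, 28].map o) (by decide +kernel) ?_ (fun _ => ?_) s
    ((by decide +kernel : ∀ s : E, s ≠ 0 → s ∈ [1, 3, 5, 15, 17, 22, 31, 4, 12, 20, 25, 14, 18, 19,
      16, 21, 26, 11, 29, 2, 6, 10, 30, 7, 9, 27, 8, 24, 13, 23, 28].map o) s hs)
  · rintro x _ rfl ⟨k1, k2⟩
    have := mul_inv_eq_iff_eq_mul.2 (e x)
    exact ⟨this ▸ mul_mem (mul_mem hd k1) (inv_mem hd), k2.trans (isConj_iff.2 ⟨_, this⟩)⟩
  · show U (o 1) ∈ _ ∧ IsConj _ (U (o 1))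
    rw [e1]
    exact ⟨ha, IsConj.refl _⟩

theorem exists_f (F : Type u) [Field F] [Fintype F] (hF : Fintype.card F = 32) :
    ∃ f : SL(2, E) →* PSL(2, F), ∀ x : SL(2, E), x.1 0 1 ≠ 0 → f x ≠ 1 := by
  obtain ⟨φ, hφ⟩ := exists_hom F hF
  refine ⟨(QuotientGroup.mk' (center SL(2, F))).comp (SpecialLinearGroup.map φ), fun x hx e => ?_⟩
  obtain ⟨r, -, hr⟩ := Matrix.SpecialLinearGroup.mem_center_iff.1
    ((QuotientGroup.eq_one_iff (SpecialLinearGroup.map φ x)).1 e)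
  have : (scalar (Fin 2) r) 0 1 = φ (x.1 0 1) := by rw [hr]; rfl
  exact hx (hφ (by rw [← this, map_zero]; simp))

theorem exists_u : ∃ u : Multiplicative (Fin 5 → ZMod 2) →* SL(2, E),
    ∀ e, e ≠ 1 → ∃ s, s ≠ 0 ∧ u e = U s := by
  let L : Multiplicative (Fin 5 → ZMod 2) → E := fun e =>
    ⟨e.toAdd 0, e.toAdd 1, e.toAdd 2, e.toAdd 3, e.toAdd 4⟩
  refine ⟨MonoidHom.mk' (fun e => U (L e)) fun a b => U_add (L a) (L b), fun e he =>
    ⟨L e, fun h => he ?_, rfl⟩⟩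
  obtain ⟨h0, h1, h2, h3, h4⟩ := E.ext_iff.1 h
  refine funext fun i => ?_
  fin_cases i
  exacts [h0, h1, h2, h3, h4]

theorem cfg {Γ : Type*} [Group Γ] (f : SL(2, E) →* Γ)
    (ne : ∀ x : SL(2, E), x.1 0 1 ≠ 0 → f x ≠ 1) : CfgL Γ := by
  obtain ⟨u, hu⟩ := exists_u
  have e1 : g 1 1 0 1 * g 1 1 0 1 = 1 := by decide +kernel
  have e2 : g 0 18 2 1 * (g 0 18 2 1 * g 0 18 2 1) = 1 := by decide +kernel
  have e3 : g 1 1 0 1 * g 0 18 2 1 = g 2 19 2 1 := by decide +kernel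
  have e4 : g 2 19 2 1 ^ 11 = 1 :=
    pw11 (x2 := g 7 16 6 2) (x4 := g 26 26 30 11) (x8 := g 7 6 8 11) (by decide +kernel)
      (by decide +kernel) (by decide +kernel) (by decide +kernel)
  have e5 : g 6 13 17 28 ^ 11 = 1 :=
    pw11 (x2 := g 23 19 6 20) (x4 := g 29 16 10 24) (x8 := g 7 26 7 22)
      (by decide +kernel) (by decide +kernel) (by decide +kernel) (by decide +kernel)
  have e6 : g 6 13 17 28 * g 0 18 2 1 = g 0 18 2 1 * g 6 13 17 28 := by decide +kernel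
  have e7 : g 6 13 17 28 * (g 0 18 2 0 * g 6 13 17 28) = g 0 18 2 0 := by decide +kernel
  have e8 : g 31 0 27 27 * g 1 1 0 1 = g 0 18 2 0 * g 31 0 27 27 := by decide +kernel
  have n1 := ne (g 1 1 0 1) (by decide +kernel)
  have n2 := ne (g 2 19 2 1) (by decide +kernel)
  have n3 := ne (g 6 13 17 28) (by decide +kernel)
  have k := key
  generalize g 1 1 0 1 = a, g 0 18 2 1 = b, g 6 13 17 28 = y, g 0 18 2 0 = t, g 2 19 2 1 = x,
    g 31 0 27 27 = c at *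
  refine ⟨f a, f b, f y, f t, f.comp u, ?_, n1, ?_, ?_, ?_, ?_, n3, Commute.map e6 f, ?_,
    f.map_isConj (isConj_iff.2 ⟨c, mul_inv_eq_iff_eq_mul.2 e8⟩), fun e he => ?_, fun e => ?_⟩
  · rw [← map_mul, e1, map_one]
  · rw [← map_pow, pow_three, e2, map_one]
  · rw [← map_mul, ← map_pow, e3, e4, map_one]
  · rwa [← map_mul, e3]
  · rw [← map_pow, e5, map_one]
  · rw [mul_inv_eq_iff_eq_mul, eq_inv_mul_iff_mul_eq, ← map_mul, ← map_mul, e7]
  · obtain ⟨s, hs, e⟩ := hu e he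
    exact f.map_isConj (e ▸ (k s hs).2)
  · rw [← Set.image_pair, ← MonoidHom.map_closure]
    refine mem_map_of_mem f ?_
    by_cases he : e = 1
    · rw [he, map_one]; exact one_mem _
    · obtain ⟨s, hs, e⟩ := hu e he
      exact e ▸ (k s hs).1

theorem embL : EmbLStmt.{u} := fun F _ _ hF =>
  let ⟨f, h⟩ := exists_f F hF
  cfg f h

end Cfsg.Agent.H28.E83EmbL
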