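import Mathlib
import Cfsg.Agent.H11.ElDefs

/-!
# The torus of a pair of subgroups of order 11 generating `L₂(11)`
-/

set_option autoImplicit false
open Subgroup

namespace Cfsg.Agent.H28.ElC

open Cfsg.Agent.H11.EL

universe u

variable {G : Type u} [Group G] [Finite G]

theorem burn (K : Type u) [Group K] [Finite K] [IsSimpleGroup K] (hK : Nat.card K = 660) (x : K)
    (hx : orderOf x = 5) (h : ∀ n : K, n * x * n⁻¹ ∈ zpowers x → Commute n x) : False := by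
  haveI : Fact (Nat.Prime 5) := ⟨by norm_num⟩
  have hP : Nat.card (zpowers x) = 5 ^ 1 := by rw [Nat.card_zpowers, hx, pow_one]
  have hidx : ¬ 5 ∣ (zpowers x).index := by
    have := (zpowers x).card_mul_index
    rw [hP, hK] at this
    omega
  let P : Sylow 5 K := (IsPGroup.of_card hP).toSylow hidx
  have hPN : normalizer ((P : Subgroup K) : Set K) ≤ centralizer ((P : Subgroup K) : Set K) := by
    intro g hg
    have hg' : Commute g x := h g ((mem_normalizer_iff.mp hg x).mp (mem_zpowers x))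
    intro y hy
    have hy' : y ∈ zpowers x := hy
    obtain ⟨k, rfl⟩ := mem_zpowers_iff.1 hy'
    exact (hg'.zpow_right k).eq.symm
  have hc := (MonoidHom.ker_transferSylow_isComplement' P hPN).card_mul_card
  have hP' : Nat.card (P : Subgroup K) = 5 := hP
  rw [hP', hK] at hc
  rcases (inferInstance : (MonoidHom.transferSylow P hPN).ker.Normal).eq_bot_or_eq_top with e | e
  · rw [e, card_bot] at hc; omega
  · rw [e, card_top, hK] at hc; omega

omit [Finite G] in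
theorem cj_inj (g : G) {A B : Subgroup G} (h : cj g A = cj g B) : A = B := by
  rw [← cj_one A, ← cj_one B, ← inv_mul_cancel g, cj_mul, cj_mul, h]

omit [Finite G] in
theorem cj_pts {L A : Subgroup G} {g : G} (hg : g ∈ L) (hA : A ∈ Pts L) : cj g A ∈ Pts L := by
  refine ⟨fun x hx => ?_, (card_cj g A).trans hA.2⟩
  have := L.mul_mem (L.mul_mem hg (hA.1 (mem_cj.1 hx))) (L.inv_mem hg)
  simpa [mul_assoc] using this

theorem gen_of {A : Subgroup G} (hA : Nat.card A = 11) {a : G} (ha : a ∈ A) (h1 : a ≠ 1) :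
    zpowers a = A := by
  haveI : Fact (Nat.Prime 11) := ⟨by norm_num⟩
  have h : a ^ 11 = 1 := by
    have := pow_card_eq_one' (x := (⟨a, ha⟩ : A))
    rw [hA] at this
    exact congrArg Subtype.val this
  refine eq_of_le_of_card_ge (zpowers_le.2 ha) ?_
  rw [Nat.card_zpowers, orderOf_eq_prime h h1, hA]

section
variable {L A B : Subgroup G} (H : LA L) (hA : A ∈ Pts L) (hB : B ∈ Pts L) (ne : A ≠ B)
include H hA hB ne

omit [Finite G] in
theorem triv_inf {a : G} (ha : a ∈ A) (hn : a ∈ Nm B) : a = 1 :=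
  (H.reg A hA B hB B hB ne.symm ne.symm).unique ⟨ha, cj_eq_iff.2 hn⟩ ⟨A.one_mem, cj_one B⟩

theorem card_T : Nat.card (L ⊓ Nm A ⊓ Nm B : Subgroup G) = 5 := by
  have e : Nat.card (A × (L ⊓ Nm A ⊓ Nm B : Subgroup G)) = Nat.card (L ⊓ Nm A : Subgroup G) := by
    refine Nat.card_congr (Equiv.ofBijective (fun x => ⟨x.1.1 * x.2.1,
      mul_mem ⟨hA.1 x.1.2, le_normalizer x.1.2⟩ x.2.2.1⟩) ⟨?_, ?_⟩)
    · rintro ⟨⟨a, ha⟩, ⟨t, ht⟩⟩ ⟨⟨a', ha'⟩, ⟨t', ht'⟩⟩ h
      have h1 : a * t = a' * t' := congrArg Subtype.val h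
      have h2 : a'⁻¹ * a = t' * t⁻¹ := by
        rw [inv_mul_eq_iff_eq_mul, ← mul_assoc, ← h1, mul_inv_cancel_right]
      have h3 : a'⁻¹ * a = 1 := triv_inf H hA hB ne (A.mul_mem (A.inv_mem ha') ha)
        (h2 ▸ mul_mem ht'.2 (inv_mem ht.2))
      have h4 : a' = a := inv_mul_eq_one.1 h3
      subst h4
      have h5 : t = t' := mul_left_cancel h1
      subst h5
      rfl
    · rintro ⟨n, hn⟩
      have h1 : cj n B ≠ A := fun e => ne (cj_inj n ((cj_eq_iff.2 hn.2).trans e.symm))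
      obtain ⟨a, ⟨ha, e⟩, -⟩ := H.reg A hA B hB _ (cj_pts hn.1 hB) ne.symm h1
      refine ⟨(⟨a, ha⟩, ⟨a⁻¹ * n, (L ⊓ Nm A).mul_mem
        ((L ⊓ Nm A).inv_mem ⟨hA.1 ha, le_normalizer ha⟩) hn, ?_⟩), ?_⟩
      · change a⁻¹ * n ∈ Nm B
        rw [← cj_eq_iff, cj_mul, ← e, ← cj_mul, inv_mul_cancel, cj_one]
      · exact Subtype.ext (mul_inv_cancel_left a n)
  rw [Nat.card_prod, hA.2, H.cN A hA] at e
  omega

theorem fix_two {f : G} (hf : f ∈ (L ⊓ Nm A ⊓ Nm B : Subgroup G)) (h1 : f ≠ 1) {E : Subgroup G}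
    (hE : E ∈ Pts L) (hn : f ∈ Nm E) : E = A ∨ E = B := by
  by_cases hEA : E = A
  · exact Or.inl hEA
  right
  obtain ⟨a, ⟨ha, e⟩, hu⟩ := H.reg A hA B hB E hE ne.symm hEA
  have h2 : f * a * f⁻¹ = a := by
    refine hu _ ⟨(mem_normalizer_iff.mp hf.1.2 a).mp ha, ?_⟩
    rw [cj_mul, cj_mul, cj_eq_iff.2 (inv_mem hf.2), e, cj_eq_iff.2 hn]
  by_cases h3 : a = 1
  · rw [← e, h3, cj_one]
  exfalso
  refine h1 (triv_inf H hA hB ne (H.cent A hA f hf.1.1 ?_) hf.2)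
  intro y hy
  have hy' : y ∈ zpowers a := by rw [gen_of hA.2 ha h3]; exact hy
  obtain ⟨k, rfl⟩ := mem_zpowers_iff.1 hy'
  have : Commute f a := mul_inv_eq_iff_eq_mul.1 h2
  exact (this.zpow_right k).eq.symm

theorem big {f : G} (hf : f ∈ (L ⊓ Nm A ⊓ Nm B : Subgroup G)) (ho : orderOf f = 5) : Big f A := by
  haveI : Fact (Nat.Prime 11) := ⟨by norm_num⟩
  obtain ⟨⟨a, ha⟩, oa⟩ := exists_prime_orderOf_dvd_card' (G := A) 11 (by rw [hA.2])
  have a1 : a ≠ 1 := fun e => by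
    have : (⟨a, ha⟩ : A) = 1 := Subtype.ext e
    rw [this, orderOf_one] at oa
    omega
  have hz := gen_of hA.2 ha a1
  have h1 : f * a * f⁻¹ ∈ zpowers a := hz ▸ (mem_normalizer_iff.mp hf.1.2 a).mp ha
  obtain ⟨i, hi⟩ := mem_zpowers_iff.1 h1
  have hE : Ex f A i := fun y hy => by
    rw [← hz] at hy
    obtain ⟨k, rfl⟩ := mem_zpowers_iff.1 hy
    rw [← conj_zpow, ← hi, ← zpow_mul, ← zpow_mul, mul_comm]
  refine ⟨i, hE, fun ⟨c, hc⟩ => ?_⟩
  have h2 : f * f = 1 := by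
    refine triv_inf H hA hB ne (H.cent A hA _ (mul_mem hf.1.1 hf.1.1) ?_) (mul_mem hf.2 hf.2)
    intro y hy
    have y11 : y ^ (11 : ℤ) = 1 := by
      have := pow_card_eq_one' (x := (⟨y, hy⟩ : A))
      rw [hA.2] at this
      have h11 : y ^ 11 = 1 := congrArg Subtype.val this
      exact_mod_cast h11
    have e1 : f * f * y * (f * f)⁻¹ = y := by
      calc f * f * y * (f * f)⁻¹ = f * (f * y * f⁻¹) * f⁻¹ := by group
        _ = y ^ (i * i) := by
          rw [hE y hy, hE _ (A.zpow_mem hy i), ← zpow_mul]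
        _ = y := by
          rw [show i * i = 11 * c + 1 by linear_combination hc, zpow_add, zpow_mul, y11]
          simp
    exact (mul_inv_eq_iff_eq_mul.1 e1).symm
  have := orderOf_dvd_of_pow_eq_one (show f ^ 2 = 1 by rw [pow_two, h2])
  rw [ho] at this
  omega

theorem swap : ∃ s ∈ L, orderOf s = 2 ∧ cj s A = B ∧ cj s B = A := by
  haveI : Fact (Nat.Prime 2) := ⟨by norm_num⟩
  obtain ⟨t, ht, e⟩ := H.tr A hA B hB
  have h1 : cj t B ≠ B := fun e' => ne (cj_inj t (e.trans e'.symm))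
  obtain ⟨b, ⟨hb, e'⟩, -⟩ := H.reg B hB _ (cj_pts ht hB) A hA h1 ne
  have uL : b * t ∈ L := mul_mem (hB.1 hb) ht
  have uA : cj (b * t) A = B := by rw [cj_mul, e, cj_eq_iff.2 (le_normalizer hb)]
  have uB : cj (b * t) B = A := by rw [cj_mul, e']
  generalize b * t = v at uL uA uB
  have vA : cj (v * v) A = A := by rw [cj_mul, uA, uB]
  have vB : cj (v * v) B = B := by rw [cj_mul, uB, uA]
  have vT : v * v ∈ (L ⊓ Nm A ⊓ Nm B : Subgroup G) :=
    ⟨⟨mul_mem uL uL, cj_eq_iff.1 vA⟩, cj_eq_iff.1 vB⟩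
  have v5 : (v * v) ^ 5 = 1 := by
    have := pow_card_eq_one' (x := (⟨v * v, vT⟩ : (L ⊓ Nm A ⊓ Nm B : Subgroup G)))
    rw [card_T H hA hB ne] at this
    exact congrArg Subtype.val this
  have e5 : v ^ 5 = v * (v * v) * (v * v) := by simp only [pow_succ, pow_zero, one_mul, mul_assoc]
  have sA : cj (v ^ 5) A = B := by rw [e5, cj_mul, cj_mul, vA, vA, uA]
  have sB : cj (v ^ 5) B = A := by rw [e5, cj_mul, cj_mul, vB, vB, uB]
  refine ⟨v ^ 5, pow_mem uL 5, orderOf_eq_prime ?_ fun e1 => ne ?_, sA, sB⟩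
  · rw [← pow_mul, ← v5, ← pow_two, ← pow_mul]
  · rw [← sA, e1, cj_one]

end

theorem lc1 (hLA : LAStmt.{u}) : LC1Stmt.{u} := by
  intro G _ _ A B hP
  classical
  haveI : Fact (Nat.Prime 5) := ⟨by norm_num⟩
  have H := hLA (A ⊔ B) hP.iso
  have hA : A ∈ Pts (A ⊔ B) := ⟨le_sup_left, hP.cA⟩
  have hB : B ∈ Pts (A ⊔ B) := ⟨le_sup_right, hP.cB⟩
  have ne := hP.ne
  have cT := card_T H hA hB ne
  obtain ⟨⟨f, hf⟩, of'⟩ := exists_prime_orderOf_dvd_card'
    (G := ((A ⊔ B) ⊓ Nm A ⊓ Nm B : Subgroup G)) 5 (by rw [cT])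
  have fo : orderOf f = 5 := by rw [← of', ← Subgroup.orderOf_coe]
  have f1 : f ≠ 1 := fun e => by rw [e, orderOf_one] at fo; omega
  have hz : zpowers f = ((A ⊔ B) ⊓ Nm A ⊓ Nm B : Subgroup G) :=
    eq_of_le_of_card_ge (zpowers_le.2 hf) (by rw [Nat.card_zpowers, fo, cT])
  have TL : ∀ g ∈ A ⊔ B, g ∈ Nm A → g ∈ Nm B → g ∈ zpowers f := fun g h1 h2 h3 =>
    hz ▸ (⟨⟨h1, h2⟩, h3⟩ : g ∈ ((A ⊔ B) ⊓ Nm A ⊓ Nm B : Subgroup G))
  obtain ⟨s, sL, so, sA, sB⟩ := swap H hA hB ne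
  have ss : s * s = 1 := by rw [← pow_two, ← so, pow_orderOf_eq_one]
  have si : s⁻¹ = s := inv_eq_of_mul_eq_one_right ss
  refine ⟨f, s, hf.1.1, fo, hf.1.2, hf.2, big H hA hB ne hf fo, sL, so, sA, sB, ?_, TL⟩
  have fA : cj f A = A := cj_eq_iff.2 hf.1.2
  have fB : cj f B = B := cj_eq_iff.2 hf.2
  have h1 : s * f * s⁻¹ ∈ zpowers f := by
    refine TL _ (mul_mem (mul_mem sL hf.1.1) (inv_mem sL)) (cj_eq_iff.1 ?_) (cj_eq_iff.1 ?_)
    · rw [si, cj_mul, cj_mul, sA, fB, sB]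
    · rw [si, cj_mul, cj_mul, sB, fA, sA]
  have nc : ¬ Commute s f := by
    intro hc
    haveI := H.simple
    refine burn (A ⊔ B : Subgroup G) H.card ⟨f, hf.1.1⟩ (by rw [← fo, ← Subgroup.orderOf_coe])
      fun n hn => Subtype.ext ?_
    obtain ⟨k, hk⟩ := mem_zpowers_iff.1 hn
    have hk' : f ^ k = n.1 * f * n.1⁻¹ := by simpa using congrArg Subtype.val hk
    have hT : n.1 * f * n.1⁻¹ ∈ ((A ⊔ B) ⊓ Nm A ⊓ Nm B : Subgroup G) := hk' ▸ zpow_mem hf k
    have hT1 : n.1 * f * n.1⁻¹ ≠ 1 := fun e => f1 (by simpa using e)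
    have key : ∀ E ∈ Pts (A ⊔ B), cj f E = E → cj n.1 E = A ∨ cj n.1 E = B := fun E hE hfE =>
      fix_two H hA hB ne hT hT1 (cj_pts n.2 hE) (cj_eq_iff.1 (by
        rw [← cj_mul, inv_mul_cancel_right, cj_mul, hfE]))
    have comm : ∀ g ∈ zpowers f, Commute g f := fun g hg => by
      obtain ⟨j, rfl⟩ := mem_zpowers_iff.1 hg
      exact (Commute.refl f).zpow_left j
    change Commute n.1 f
    rcases key A hA fA with e1 | e1 <;> rcases key B hB fB with e2 | e2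
    · exact (ne (cj_inj _ (e1.trans e2.symm))).elim
    · exact comm _ (TL _ n.2 (cj_eq_iff.1 e1) (cj_eq_iff.1 e2))
    · have := comm _ (TL (s * n.1) (mul_mem sL n.2) (cj_eq_iff.1 (by rw [cj_mul, e1, sB]))
        (cj_eq_iff.1 (by rw [cj_mul, e2, sA])))
      have h2 := hc.mul_left this
      rwa [← mul_assoc, ss, one_mul] at h2
    · exact (ne (cj_inj _ (e1.trans e2.symm))).elim
  rw [mem_zpowers_iff_mem_range_orderOf, fo] at h1
  obtain ⟨j, hj, e⟩ := Finset.mem_image.1 h1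
  have f5 : f ^ 5 = 1 := by rw [← fo, pow_orderOf_eq_one]
  have e2 : f ^ (j * j) = f ^ 1 := by
    rw [pow_mul, e, conj_pow, e, si, pow_one]
    calc s * (s * f * s) * s = (s * s) * f * (s * s) := by simp only [mul_assoc]
      _ = f := by rw [ss, one_mul, mul_one]
  rw [pow_eq_pow_iff_modEq, fo] at e2
  have hj' := Finset.mem_range.1 hj
  interval_cases j
  · exact absurd e2 (by decide)
  · exact (nc (mul_inv_eq_iff_eq_mul.1 (e.symm.trans (pow_one f)))).elim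
  · exact absurd e2 (by decide)
  · exact absurd e2 (by decide)
  · rw [← e]
    exact eq_inv_of_mul_eq_one_left (by rw [← pow_succ, f5])

end Cfsg.Agent.H28.ElC
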