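import Mathlib
import Cfsg.Agent.H11.ElDefs

/-!
# The centralizer of an inverting involution is doubly transitive on its fixed points
-/

set_option autoImplicit false
open Subgroup

namespace Cfsg.Agent.H28.ElZ

open Cfsg.Agent.H11.EL

universe u

variable {G : Type u} [Group G]

theorem ct_cj (g : G) (L : Subgroup G) : Ct (cj g L) = cj g (Ct L) := by
  ext x
  rw [mem_cj, mem_centralizer_iff, mem_centralizer_iff]
  constructor
  · intro h y hy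
    have := h (g * y * g⁻¹) (mem_cj.2 (by simpa [mul_assoc] using hy))
    calc y * (g⁻¹ * x * g) = g⁻¹ * (g * y * g⁻¹ * x) * g := by group
      _ = _ := by rw [this]; group
  · intro h y hy
    have := h _ (mem_cj.1 hy)
    calc y * x = g * (g⁻¹ * y * g * (g⁻¹ * x * g)) * g⁻¹ := by group
      _ = _ := by rw [this]; group

theorem nm_cj {g y : G} {A : Subgroup G} (h : y ∈ Nm A) : g * y * g⁻¹ ∈ Nm (cj g A) := by
  rw [← cj_eq_iff, ← cj_mul, inv_mul_cancel_right, cj_mul, cj_eq_iff.2 h]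

theorem ex_cj {g y : G} {A : Subgroup G} {i : ℤ} (h : Ex y A i) :
    Ex (g * y * g⁻¹) (cj g A) i := by
  intro a ha
  have := h _ (mem_cj.1 ha)
  calc g * y * g⁻¹ * a * (g * y * g⁻¹)⁻¹ = g * (y * (g⁻¹ * a * g) * y⁻¹) * g⁻¹ := by group
    _ = a ^ i := by
      rw [this, ← conj_zpow]
      congr 1
      group

theorem ct_le_nm {A L : Subgroup G} (h : A ≤ L) {k : G} (hk : k ∈ Ct L) : cj k A = A :=
  cj_eq_iff.2 (centralizer_le_normalizer _ (centralizer_le h hk))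

theorem n2z (hZ : Z3Stmt.{u}) : N2zStmt.{u} := by
  intro G _ _ D A B y H
  have hT := H.ne.toNT
  have hB := hT.toNB
  obtain ⟨z1, z2⟩ := hZ D A y hB H.hA H.yy H.yA
  refine ⟨fun A₁ h1 B₁ h2 A' h3 B' h4 n1 n2 => ?_, z2⟩
  obtain ⟨g, gA, gB⟩ := hT.tr2 A₁ h1.1 B₁ h2.1 A' h3.1 B' h4.1 n1 n2
  obtain ⟨w, wA, wB⟩ := hT.tr2 A H.hA B H.hB A' h3.1 B' h4.1 H.AB n2
  have odd : Odd (Nat.card (Ct (A' ⊔ B'))) := by
    rw [← wA, ← wB, ← cj_sup, ct_cj, card_cj]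
    exact H.odd
  have yi : y⁻¹ = y := inv_eq_of_mul_eq_one_right H.yy
  have e1 : Ex (g * y * g⁻¹) A' (-1) := gA ▸ ex_cj (z1 A₁ h1)
  have e2 : g * y * g⁻¹ ∈ Nm B' := gB ▸ nm_cj h2.2
  have yy' : g * y * g⁻¹ * (g * y * g⁻¹) = 1 := by
    calc g * y * g⁻¹ * (g * y * g⁻¹) = g * (y * y) * g⁻¹ := by group
      _ = 1 := by rw [H.yy]; group
  obtain ⟨y', hy'⟩ : ∃ y', y' = g * y * g⁻¹ := ⟨_, rfl⟩
  rw [← hy'] at e1 e2 yy'
  have kC : y * y' ∈ Ct (A' ⊔ B') := by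
    refine hB.cen A' h3.1 B' h4.1 _ (fun a ha => ?_) (mul_mem h4.2 e2)
    have : y * y' * a * (y * y')⁻¹ = a := by
      calc y * y' * a * (y * y')⁻¹ = y * (y' * a * y'⁻¹) * y⁻¹ := by group
        _ = a := by
          rw [e1 a ha, z1 A' h3 _ (A'.zpow_mem ha _)]
          group
    exact (mul_inv_eq_iff_eq_mul.1 this).symm
  obtain ⟨r, hr⟩ := odd
  have kn : (y * y') ^ (2 * r + 1) = 1 := by
    have := pow_card_eq_one' (x := (⟨y * y', kC⟩ : Ct (A' ⊔ B')))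
    rw [hr] at this
    exact congrArg Subtype.val this
  obtain ⟨k, hk⟩ : ∃ k, k = y * y' := ⟨_, rfl⟩
  rw [← hk] at kC kn
  have e3 : y' = y * k := by rw [hk, ← mul_assoc, H.yy, one_mul]
  have e4 : y * k * y⁻¹ = k⁻¹ := by
    rw [yi, ← e3, hk, mul_inv_rev, yi, inv_eq_of_mul_eq_one_right yy']
  have e5 : y * k ^ (r + 1) * y⁻¹ = (k ^ (r + 1))⁻¹ := by rw [← conj_pow, e4, inv_pow]
  have e6 : k ^ (r + 1) * k ^ (r + 1) = k := by
    rw [← pow_add, show r + 1 + (r + 1) = 2 * r + 1 + 1 by ring, pow_succ, kn, one_mul]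
  obtain ⟨h, hh⟩ : ∃ h, h = k ^ (r + 1) := ⟨_, rfl⟩
  have hC : h ∈ Ct (A' ⊔ B') := hh ▸ pow_mem kC _
  rw [← hh] at e5 e6
  refine ⟨h * g, ?_, by rw [cj_mul, gA, ct_le_nm le_sup_left hC],
    by rw [cj_mul, gB, ct_le_nm le_sup_right hC]⟩
  have e7 : h * y = y * h⁻¹ := by
    rw [← e5, yi, ← mul_assoc, ← mul_assoc, H.yy, one_mul]
  have e8 : h * g * y * (h * g)⁻¹ = y := by
    calc h * g * y * (h * g)⁻¹ = h * (g * y * g⁻¹) * h⁻¹ := by group
      _ = h * y * k * h⁻¹ := by rw [← hy', e3]; group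
      _ = y := by rw [e7, ← e6]; group
  exact mul_inv_eq_iff_eq_mul.1 e8

end Cfsg.Agent.H28.ElZ
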