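import Mathlib
import Cfsg.Agent.H2.FXDefs

/-! Adjoints of the Hecke elements for `L₂(13)`. -/

set_option autoImplicit false

namespace Cfsg.Agent.H28.FXA

open Module Cfsg.Agent.H2FX
open scoped Matrix MatrixGroups

section
variable {F W : Type} [Field F] [AddCommGroup W] [Module F W] (B : LinearMap.BilinForm F W)

/-- `Y` is adjoint to `X`. -/
def Adj (X Y : Module.End F W) : Prop := ∀ v w, B (X v) w = B v (Y w)

theorem eqns : True := by
  have := @Adj.eq_1
  trivial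

variable {B} {X Y X' Y' : Module.End F W}

theorem Adj.add (h : Adj B X Y) (h' : Adj B X' Y') : Adj B (X + X') (Y + Y') := fun v w => by
  simp [h v w, h' v w]

theorem Adj.sub (h : Adj B X Y) (h' : Adj B X' Y') : Adj B (X - X') (Y - Y') := fun v w => by
  simp [h v w, h' v w]

theorem Adj.mul (h : Adj B X Y) (h' : Adj B X' Y') : Adj B (X * X') (Y' * Y) := fun v w => by
  simp [h _ w, h' v _]

theorem adj_nat (n : ℕ) : Adj B (n : Module.End F W) (n : Module.End F W) := fun v w => by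
  simp

theorem adj_num (n : ℕ) [n.AtLeastTwo] :
    Adj B (OfNat.ofNat n : Module.End F W) (OfNat.ofNat n : Module.End F W) := adj_nat n

theorem adj_congr (h : Adj B X Y) (e : Y = Y') : Adj B X Y' := e ▸ h

theorem adj_one : Adj B 1 1 := fun _ _ => rfl

theorem adj_sum {s : Finset ℕ} {f g : ℕ → Module.End F W} (h : ∀ i ∈ s, Adj B (f i) (g i)) :
    Adj B (∑ i ∈ s, f i) (∑ i ∈ s, g i) := fun v w => by
  simp only [LinearMap.sum_apply, map_sum]
  exact Finset.sum_congr rfl fun i hi => h i hi v w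

end

theorem fin_eq {A : Type} [Ring A] {E T T' c d : A} (k1 : E * c = c * E) (k2 : E * d = d * E)
    (T1 : T * c = d * T') (T2 : T * d = c * T') (h : T = T') :
    E * (130 - d * 52 - c * 52) + T * (9 + d * 16 - c * 12) =
      (130 - 52 * c - 52 * d) * E + (9 + 16 * c - 12 * d) * T' := by
  have n : ∀ (x : A) (m : ℕ), x * (m : A) = m * x := fun x m => (Nat.cast_commute m x).eq.symm
  have n1 := n (d * E) 52
  have n2 := n (c * E) 52
  have n3 := n (c * T') 16
  have n4 := n (d * T') 12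
  have n5 := n E 130
  have n6 := n T' 9
  push_cast at n1 n2 n3 n4 n5 n6
  rw [mul_sub, mul_sub, mul_sub, mul_add, ← mul_assoc _ d, ← mul_assoc _ c, ← mul_assoc _ d,
    ← mul_assoc _ c, k1, k2, T1, T2, h, n1, n2, n3, n4, n5, n6]
  simp only [sub_mul, add_mul, mul_assoc]
  abel

/-- The formal adjoint of `hA`. -/
def hAd {A : Type} [Ring A] (ρ : S13 →* A) : A := hE ρ * (130 - ρ gc ^ 2 * 52 - ρ gc * 52) +
  hE ρ * (ρ gs * hE ρ) * (9 + ρ gc ^ 2 * 16 - ρ gc * 12)

theorem eqns' : True := by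
  have := @hAd.eq_1
  trivial

theorem hB_eq {A : Type} [Ring A] {ρ : S13 →* A} (R : Rel ρ) : hAd ρ = hA ρ := by
  have cE : Commute (ρ gc) (hE ρ) := R.cE
  have k1 : hE ρ * ρ gc = ρ gc * hE ρ := R.cE.symm
  have k2 : hE ρ * ρ gc ^ 2 = ρ gc ^ 2 * hE ρ := (cE.pow_left 2).eq.symm
  have k3 : ρ gs * ρ gc ^ 2 = ρ gc * ρ gs := R.cs.symm
  have T1 : hE ρ * (ρ gs * hE ρ) * ρ gc = ρ gc ^ 2 * (hE ρ * ρ gs * hE ρ) := by
    rw [mul_assoc, mul_assoc, k1, ← mul_assoc (ρ gs), R.sc, ← mul_assoc, ← mul_assoc, k2]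
    simp only [mul_assoc]
  have T2 : hE ρ * (ρ gs * hE ρ) * ρ gc ^ 2 = ρ gc * (hE ρ * ρ gs * hE ρ) := by
    rw [mul_assoc, mul_assoc, k2, ← mul_assoc (ρ gs), k3, ← mul_assoc, ← mul_assoc, k1]
    simp only [mul_assoc]
  exact fin_eq k1 k2 T1 T2 (mul_assoc _ _ _).symm

theorem u13 : gu ^ 13 = 1 := by decide +kernel

theorem adj : AdjStmt := by
  intro F W _ _ _ B ρ _ R hB
  have key : ∀ (g : S13) (Y : Module.End F W), ρ g * Y = 1 → Adj B (ρ g) Y := fun g Y h v w => by
    rw [← hB g v (Y w), ← Module.End.mul_apply (ρ g) Y, h, Module.End.one_apply]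
  have c1 : Adj B (ρ gc) (ρ gc ^ 2) := key _ _ (by rw [← pow_succ', R.c3])
  have c2 : Adj B (ρ gc ^ 2) (ρ gc) := by
    rw [← map_pow]
    exact key _ _ (by rw [map_pow, ← pow_succ, R.c3])
  have s1 : Adj B (ρ gs) (ρ gs) := key _ _ R.ss
  have t1 : Adj B (ρ gt) (ρ gt) := key _ _ R.tt
  have a13 : ρ gu ^ 13 = 1 := by rw [← map_pow, u13, map_one]
  have q1 : Adj B (hQ ρ) (hQ ρ) := by
    have h1 : Adj B (hQ ρ) (∑ i ∈ Finset.range 13, ρ gu * ρ gu ^ (13 - 1 - i)) :=
      adj_sum fun i hi => by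
        have := Finset.mem_range.1 hi
        rw [← map_pow]
        refine key _ _ ?_
        rw [map_pow, ← pow_succ', ← pow_add, show i + (13 - 1 - i + 1) = 13 by omega, a13]
    have h2 := mul_geom_sum (ρ gu) 13
    rw [a13, sub_self, sub_mul, one_mul, sub_eq_zero] at h2
    rwa [← Finset.mul_sum, Finset.sum_range_reflect (fun i => ρ gu ^ i) 13, h2] at h1
  have e1 : Adj B (hE ρ) (hE ρ) := by
    have := (adj_one.add t1).mul q1
    rwa [mul_add, mul_one, ← R.tQ, ← one_add_mul] at this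
  refine ⟨?_, fun v w => ?_⟩
  · have h : Adj B (hA ρ) (hAd ρ) :=
      ((((adj_num 130).sub ((adj_num 52).mul c1)).sub ((adj_num 52).mul c2)).mul e1).add
        ((((adj_num 9).add ((adj_num 16).mul c1)).sub ((adj_num 12).mul c2)).mul
          ((e1.mul s1).mul e1))
    exact adj_congr h (hB_eq R)
  · have h := (c1.sub c2) v w
    rw [hM, h]
    simp

end Cfsg.Agent.H28.FXA
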