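import Mathlib
import Cfsg.Agent.H98.GbL

/-! Project GB (S4536), piece PIP: the `p`-regular parts of the power sums. -/

set_option autoImplicit false
open Cfsg Finset
open scoped ComplexConjugate MatrixGroups

namespace Cfsg.Agent.H28.GbPip
open Cfsg.Agent.H98.GB

universe u

variable {F : Type u} [Field F] [Fintype F] [DecidableEq F] (C : Ctx F)

theorem P_congr (hV : VALStmt.{u}) {m a b : ℕ} (hm : 0 < m)
    (h : a ≡ b [MOD Fintype.card F ^ m - 1]) : C.P a m = C.P b m := by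
  funext g
  rcases hV F C m hm g with h0 | ⟨c, ζ, hζ, hP, -⟩
  · rw [h0, h0]
  · rw [hP, hP]
    congr 1
    exact sum_congr rfl fun i _ => pow_eq_pow_of_modEq (h.mul_right _) hζ

theorem P_q (hV : VALStmt.{u}) {m : ℕ} (a : ℕ) (hm : 0 < m) :
    C.P (a * Fintype.card F) m = C.P a m := by
  funext g
  rcases hV F C m hm g with h0 | ⟨c, ζ, hζ, hP, -⟩
  · rw [h0, h0]
  · rw [hP, hP]
    congr 1
    have h1 := sum_range_succ (fun i => ζ ^ (a * Fintype.card F ^ i)) m
    have h2 := sum_range_succ' (fun i => ζ ^ (a * Fintype.card F ^ i)) m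
    have h3 : ζ ^ (a * Fintype.card F ^ m) = ζ ^ (a * Fintype.card F ^ 0) := by
      refine pow_eq_pow_of_modEq (Nat.ModEq.mul_left _ ?_) hζ
      rw [pow_zero]
      exact ((Nat.modEq_iff_dvd' (Nat.one_le_pow _ _ Fintype.card_pos)).2 dvd_rfl).symm
    have h4 : ∀ i, a * Fintype.card F * Fintype.card F ^ i = a * Fintype.card F ^ (i + 1) :=
      fun i => by ring
    simp only [h4]
    rw [h1, h3] at h2
    exact (add_right_cancel h2).symm

theorem P_ex_pow (hV : VALStmt.{u}) (hL : C.Lab) {m : ℕ} (hm : 0 < m) {a : C.L}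
    (ha : C.qL ^ m * a = a) (i : ℕ) : C.P (C.ex (C.qL ^ i * a) m) m = C.P (C.ex a m) m := by
  induction i with
  | zero => simp
  | succ i ih =>
    have h : C.qL ^ m * (C.qL ^ i * a) = C.qL ^ i * a := by rw [mul_left_comm, ha]
    rw [pow_succ', mul_assoc, P_congr C hV hm (hL.ex_q _ _ h), P_q C hV _ hm, ih]

theorem reg_add (hV : VALStmt.{u}) {m : ℕ} (hm : 0 < m) (a : ℕ) {e i : ℕ}
    (h : Fintype.card F ^ m - 1 ∣ C.p ^ i * e) :
    pRegularPart C.p (C.P (a + e) m) = pRegularPart C.p (C.P a m) := by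
  funext g
  unfold pRegularPart
  split_ifs with hg
  · rcases hV F C m hm g with h0 | ⟨c, ζ, hζ, hP, -, -, ho⟩
    · rw [h0, h0]
    · have h1 : ζ ^ e = 1 := by
        have h2 : orderOf ζ ∣ C.p ^ i * e := (orderOf_dvd_of_pow_eq_one hζ).trans h
        have h3 : (orderOf ζ).Coprime (C.p ^ i) :=
          Nat.Coprime.pow_right _ ((C.hp.coprime_iff_not_dvd.2 fun h => hg (ho.2 h)).symm)
        exact orderOf_dvd_iff_pow_eq_one.1 (h3.dvd_of_dvd_mul_left h2)
      rw [hP, hP]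
      congr 1
      refine sum_congr rfl fun j _ => ?_
      rw [add_mul, pow_add, pow_mul ζ e, h1, one_pow, mul_one]
  · rfl

theorem reg_self (hV : VALStmt.{u}) {m : ℕ} (hm : 0 < m) (a : ℕ)
    (h : ¬ C.p ∣ Fintype.card F ^ m - 1) : pRegularPart C.p (C.P a m) = C.P a m := by
  funext g
  unfold pRegularPart
  split_ifs with hg
  · rfl
  · rcases hV F C m hm g with h0 | ⟨c, ζ, hζ, hP, -, -, ho⟩
    · rw [h0]
    · exact absurd ((ho.1 (not_not.1 hg)).trans (orderOf_dvd_of_pow_eq_one hζ)) h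

theorem reg_avg (hV : VALStmt.{u}) {m : ℕ} (hm : 0 < m) (a : ℕ) {v R : ℕ}
    (h : Fintype.card F ^ m - 1 = C.p ^ v * R) (hR : ¬ C.p ∣ R) (g : GL (Fin m) F) :
    pRegularPart C.p (C.P a m) g =
      ((C.p ^ v : ℕ) : ℂ)⁻¹ * ∑ j ∈ range (C.p ^ v), C.P (a + j * R) m g := by
  have hp0 : ((C.p ^ v : ℕ) : ℂ) ≠ 0 := Nat.cast_ne_zero.2 (pow_pos C.hp.pos _).ne'
  rcases hV F C m hm g with h0 | ⟨c, ζ, hζ, hP, -, -, ho⟩
  · simp [pRegularPart, h0]
  simp only [hP]
  rw [← mul_sum, sum_comm]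
  have e : ∀ i j, ζ ^ ((a + j * R) * Fintype.card F ^ i) =
      ζ ^ (a * Fintype.card F ^ i) * (ζ ^ (R * Fintype.card F ^ i)) ^ j := fun i j => by
    rw [← pow_mul, ← pow_add]; congr 1; ring
  simp only [e, ← mul_sum]
  unfold pRegularPart
  split_ifs with hg
  · have h1 : ζ ^ R = 1 := by
      have h2 : orderOf ζ ∣ C.p ^ v * R := h ▸ orderOf_dvd_of_pow_eq_one hζ
      have h3 : (orderOf ζ).Coprime (C.p ^ v) :=
        Nat.Coprime.pow_right _ ((C.hp.coprime_iff_not_dvd.2 fun h => hg (ho.2 h)).symm)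
      exact orderOf_dvd_iff_pow_eq_one.1 (h3.dvd_of_dvd_mul_left h2)
    simp only [pow_mul ζ R, h1, one_pow, sum_const, card_range, nsmul_eq_mul, mul_one, ← sum_mul]
    rw [hP]
    field_simp
  · have h1 : C.p ∣ orderOf ζ := ho.1 (not_not.1 hg)
    have h2 : ∀ i, ∑ j ∈ range (C.p ^ v), (ζ ^ (R * Fintype.card F ^ i)) ^ j = 0 := fun i => by
      have h3 : ζ ^ (R * Fintype.card F ^ i) ≠ 1 := fun h3 => by
        rcases (C.hp.dvd_mul).1 (h1.trans (orderOf_dvd_of_pow_eq_one h3)) with h4 | h4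
        · exact hR h4
        · have h5 : C.p ∣ Fintype.card F ^ m := dvd_pow (C.hp.dvd_of_dvd_pow h4) hm.ne'
          have h6 := h1.trans (orderOf_dvd_of_pow_eq_one hζ)
          have h7 := (Nat.dvd_sub_iff_right (Nat.one_le_pow _ _ Fintype.card_pos) h5).1 h6
          exact C.hp.one_lt.ne' (Nat.dvd_one.1 h7)
      rw [geom_sum_eq h3, ← pow_mul, mul_right_comm, mul_comm R, ← h, pow_mul, hζ, one_pow,
        sub_self, zero_div]
    simp [h2]

theorem inner_reg (hV : VALStmt.{u}) (hG : GRMStmt.{u}) {m : ℕ} (hm : 0 < m) {a b r : ℕ}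
    (hr : ¬ C.p ∣ r) (ha : Fintype.card F ^ m - 1 ∣ r * a) (hb : Fintype.card F ^ m - 1 ∣ r * b) :
    classInner (pRegularPart C.p (C.P a m)) (C.P b m) =
      ((C.p ^ (Fintype.card F ^ m - 1).factorization C.p : ℕ) : ℂ)⁻¹ *
        classInner (C.P a m) (C.P b m) := by
  have hq : Fintype.card F ^ m - 1 ≠ 0 := by
    have := Nat.one_lt_pow hm.ne' (Fintype.one_lt_card (α := F))
    omega
  set v := (Fintype.card F ^ m - 1).factorization C.p
  obtain ⟨R, h⟩ : C.p ^ v ∣ Fintype.card F ^ m - 1 := Nat.ordProj_dvd _ _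
  have hR : ¬ C.p ∣ R := fun ⟨t, ht⟩ =>
    Nat.pow_succ_factorization_not_dvd hq C.hp ⟨t, by rw [pow_succ, mul_assoc, ← ht, ← h]⟩
  have e1 : classInner (pRegularPart C.p (C.P a m)) (C.P b m) = ((C.p ^ v : ℕ) : ℂ)⁻¹ *
      ∑ j ∈ range (C.p ^ v), classInner (C.P (a + j * R) m) (C.P b m) := by
    simp only [classInner, reg_avg C hV hm a h hR]
    rw [← mul_sum, sum_comm, mul_left_comm]
    congr 1
    rw [mul_sum]
    refine sum_congr rfl fun g _ => ?_
    rw [← sum_mul, mul_assoc]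
  rw [e1, sum_eq_single 0]
  · simp
  · intro j hj hj0
    rw [hG F C _ _ m hm, Nat.cast_eq_zero, card_eq_zero, filter_eq_empty_iff]
    intro i _ hi
    have h1 : Fintype.card F ^ m - 1 ∣ r * (a + j * R) := by
      have h2 : Fintype.card F ^ m - 1 ∣ r * (b * Fintype.card F ^ i) := by
        rw [← mul_assoc]; exact hb.mul_right _
      exact ((hi.mul_left r).dvd_iff dvd_rfl).1 h2
    rw [mul_add, Nat.dvd_add_right ha, h, ← mul_assoc] at h1
    have hR0 : 0 < R := Nat.pos_of_ne_zero fun h0 => hR (h0 ▸ dvd_zero _)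
    have h3 : C.p ^ v ∣ r * j := Nat.dvd_of_mul_dvd_mul_right hR0 h1
    have h4 : (C.p ^ v).Coprime r := Nat.Coprime.pow_left _ (C.hp.coprime_iff_not_dvd.2 hr)
    exact hj0 (Nat.eq_zero_of_dvd_of_lt (h4.dvd_of_dvd_mul_left h3) (mem_range.1 hj))
  · intro h0
    exact absurd (mem_range.2 (pow_pos C.hp.pos _)) h0

theorem ev_pa (hB : BRStmt.{u}) (a m : ℕ) : C.H.ev (C.pa a m) = Pi.single m (C.P a m) :=
  C.H.ev_sg ((hB F C).1 a m)

theorem reg_zero {G : Type*} [Group G] (p : ℕ) : pRegularPart p (0 : G → ℂ) = 0 := by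
  funext g; simp [pRegularPart]

theorem pi_pa (hB : BRStmt.{u}) {a b m : ℕ}
    (h : pRegularPart C.p (C.P a m) = pRegularPart C.p (C.P b m)) :
    C.H.pi C.p (C.pa a m) = C.H.pi C.p (C.pa b m) := by
  unfold Hall.pi
  congr 1
  funext n
  rw [ev_pa C hB, ev_pa C hB]
  by_cases hn : n = m
  · subst hn; simpa using h
  · rw [Pi.single_eq_of_ne hn, Pi.single_eq_of_ne hn]

theorem inner_smul {G : Type*} [Group G] [Fintype G] (s t : ℂ) (f f' : G → ℂ) :
    classInner (s • f) (t • f') = s * conj t * classInner f f' := by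
  simp only [classInner, Pi.smul_apply, smul_eq_mul, map_mul, mul_sum]
  exact sum_congr rfl fun g _ => by ring

theorem pip (hP : PIMStmt.{u}) (hL : LABStmt.{u}) (hV : VALStmt.{u}) (hB : BRStmt.{u})
    (hG : GRMStmt.{u}) (hS : SYSStmt.{u}) : PIPStmt.{u} := by
  intro F _ _ _ C
  have L := hL F C
  obtain ⟨T, hT, hev, -, -, hid, hadj⟩ := hP F 1 C.H C.p C.hp C.hpF
  have hsm : ∀ (s : ℂ) x, C.H.pi C.p (s • x) = s • C.H.pi C.p x := fun s x => by
    rw [← hT, ← hT, map_smul]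
  have hfix : ∀ φ k, C.qL ^ (C.dg φ * k) * C.out φ = C.out φ := fun φ k =>
    (L.dg_iff _ _).2 (by rw [L.mk_out]; exact dvd_mul_right _ _)
  refine ⟨fun φ k k' hk h => ?_, fun φ k hk h => ?_, fun n φ k φ' k' hφ hφ' hk hk' hn hn' => ?_⟩
  · have hm : 0 < C.dg φ * k := Nat.mul_pos (L.dg_pos φ) hk
    have hf := hfix φ k
    have hs : ((-1 : ℂ) ^ (C.dg φ + 1)) ^ k =
        (-1 : ℂ) ^ (k + k') * ((-1 : ℂ) ^ (C.dg (C.lp φ) + 1)) ^ k' := by
      rw [← pow_mul, ← pow_mul, ← pow_add, add_mul, add_mul, ← h, one_mul, one_mul,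
        show k + k' + (C.dg φ * k + k') = C.dg φ * k + k + 2 * k' by ring, pow_add _ _ (2 * k'),
        pow_mul _ 2]
      simp
    unfold Ctx.pp
    rw [hsm, hsm, smul_smul, ← hs, ← h]
    congr 1
    refine pi_pa C hB ?_
    obtain ⟨i, hi⟩ := (L.mk_eq (C.uu * C.out φ) (C.out (C.lp φ))).1 (by rw [L.mk_out]; rfl)
    have hu : C.qL ^ (C.dg φ * k) * (C.uu * C.out φ) = C.uu * C.out φ := by
      rw [mul_left_comm, hf]
    have hb : C.qL ^ (C.dg φ * k) * (C.out φ - C.uu * C.out φ) = C.out φ - C.uu * C.out φ := by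
      rw [mul_sub, hu, hf]
    obtain ⟨j, hj⟩ := L.uu_p (C.out φ)
    have h1 := L.ex_ord _ _ (C.p ^ j) hb (by rw [← hj]; exact addOrderOf_nsmul_eq_zero _)
    have h2 := L.ex_add _ _ _ hu hb
    rw [add_sub_cancel] at h2
    rw [hi, P_ex_pow C hV L hm hu, P_congr C hV hm h2, reg_add C hV hm _ h1]
  · have hm : 0 < C.dg φ * k := Nat.mul_pos (L.dg_pos φ) hk
    unfold Ctx.pp
    rw [hsm]
    congr 1
    refine C.H.inj (funext fun n => ?_)
    rw [hev, ev_pa C hB]
    by_cases hn : n = C.dg φ * k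
    · subst hn
      simpa using reg_self C hV hm _ fun h' => h ((L.eG_iff φ k).1 h')
    · rw [Pi.single_eq_of_ne hn, reg_zero]
  · have hm : 0 < C.dg φ * k := Nat.mul_pos (L.dg_pos φ) hk
    have hg := (hS F C).2.2 n φ k φ' k' trivial trivial hk hk' hn hn'
    have key : C.H.ip (C.dg φ * k) (C.H.pi C.p (C.pp φ k)) (C.pp φ' k') =
        ((C.p ^ (Fintype.card F ^ (C.dg φ * k) - 1).factorization C.p : ℕ) : ℂ)⁻¹ *
          C.H.ip (C.dg φ * k) (C.pp φ k) (C.pp φ' k') := by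
      unfold Hall.ip
      rw [hev]
      unfold Ctx.pp
      rw [← hev, hsm]
      simp only [map_smul, Pi.smul_apply, inner_smul, hev, ev_pa C hB, Pi.single_eq_same]
      rw [mul_left_comm]
      congr 1
      by_cases e : C.dg φ * k = C.dg φ' * k'
      · have r1 : ¬ C.p ∣ addOrderOf (C.out φ) :=
          (L.uu_iff _).1 ((L.reg_iff _).1 (by rwa [L.mk_out]))
        have r2 : ¬ C.p ∣ addOrderOf (C.out φ') :=
          (L.uu_iff _).1 ((L.reg_iff _).1 (by rwa [L.mk_out]))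
        have d1 := L.ex_ord _ _ _ (hfix φ k) (addOrderOf_nsmul_eq_zero _)
        have d2 := L.ex_ord _ _ _ (hfix φ' k') (addOrderOf_nsmul_eq_zero _)
        rw [← e] at d2 ⊢
        rw [Pi.single_eq_same]
        refine inner_reg C hV hG hm (r := addOrderOf (C.out φ) * addOrderOf (C.out φ'))
          (fun h => (C.hp.dvd_mul.1 h).elim r1 r2) ?_ ?_
        · rw [mul_right_comm]; exact d1.mul_right _
        · rw [mul_assoc]; exact d2.mul_left _
      · rw [Pi.single_eq_of_ne e]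
        simp [classInner]
    show C.H.ip (C.dg φ * k) (C.H.pi C.p (C.pp φ k)) (C.H.pi C.p (C.pp φ' k')) = _
    rw [← hadj, hid, key, hg]
    split_ifs
    · exact (div_eq_inv_mul _ _).symm
    · rw [mul_zero]

end Cfsg.Agent.H28.GbPip
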