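import Mathlib
import Cfsg.Agent.H45.GdDefs

/-! Project CY (row S3256), chapter IV, piece QB: the quotient system is a basic system. -/

set_option autoImplicit false

namespace Cfsg.Agent.H28.GdQb

open Subgroup MulAction Cfsg.Agent.H11.Cy Cfsg.Agent.H45.Iv Cfsg.Agent.H45.Gd
open scoped commutatorElement

theorem one_of {H : Type} [Group H] {p k : ℕ} (pp : p.Prime) (p2 : p ≠ 2) {c : H} (h1 : c ^ p = 1)
    (h2 : c ^ 2 ^ k = 1) : c = 1 := by
  have := pow_gcd_eq_one.2 ⟨h1, h2⟩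
  rwa [(((Nat.coprime_primes pp Nat.prime_two).2 p2).pow_right k).gcd_eq_one, pow_one] at this

theorem pow_card {H : Type} [Group H] {p : ℕ} {X : Subgroup H} (h : Nat.card X = p) {c : H}
    (hc : c ∈ X) : c ^ p = 1 := by
  simpa [h] using congrArg Subtype.val (pow_card_eq_one' (x := (⟨c, hc⟩ : X)))

theorem qb : QbStmt := by
  intro G _ _ Ω _ _ H _ _ Θ _ _ p A P B π ρ S p2 _ _ ls _ pj pm n2
  have := Fact.mk S.pp
  have le : ∀ x ∈ P, A x ≤ Ms A P := fun x hx => le_iSup₂ (f := fun w (_ : w ∈ P) => A w) x hx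
  have card : ∀ w, Nat.card (B w) = p := fun w => by
    obtain ⟨x, hx, rfl⟩ := pj.rsurj w
    rw [← S.card x]
    refine (Nat.card_eq_of_bijective (fun a : A x => (⟨π ⟨a, le x hx a.2⟩,
      (pj.hB x hx _).2 ⟨_, a.2, rfl⟩⟩ : B (ρ x))) ⟨fun a b e => ?_, fun h => ?_⟩).symm
    · have e' : π ⟨a, le x hx a.2⟩ = π ⟨b, le x hx b.2⟩ := congrArg Subtype.val e
      obtain ⟨k, hk⟩ := pj.ker2 ⟨⟨a, le x hx a.2⟩⁻¹ * ⟨b, le x hx b.2⟩, by
        rw [MonoidHom.mem_ker, map_mul, map_inv, e', inv_mul_cancel]⟩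
      have h2 : ((a : G)⁻¹ * b) ^ 2 ^ k = 1 := by
        simpa using congrArg (fun t => t.1.1) hk
      exact Subtype.ext (inv_mul_eq_one.1
        (one_of S.pp p2 (pow_card (S.card x) (mul_mem (inv_mem a.2) b.2)) h2))
    · obtain ⟨a, ha, e⟩ := (pj.hB x hx _).1 h.2
      exact ⟨⟨a, ha⟩, Subtype.ext e⟩
  have nA : ∀ w (g : H), g ∈ normalizer (B w : Set H) ↔ g • w = w := fun w g => by
    rw [mem_normalizer_iff'', ← pj.inj.eq_iff, SetLike.ext_iff]
    exact forall_congr' fun h => by rw [pj.act]; exact iff_comm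
  have two : ∀ x y, x ≠ y → ∀ g : Ms A P, (g : G) ∈ Rl A x y → π g ^ p = 1 → π g = 1 :=
    fun x y hxy g hg h => by
      obtain ⟨k, hk⟩ := (ls x y hxy).1.r2 ⟨g, hg⟩
      have e : g ^ 2 ^ k = 1 := Subtype.ext (by simpa using congrArg Subtype.val hk)
      exact one_of S.pp p2 h (by rw [← map_pow, e, map_one])
  have top : Ms B Set.univ = ⊤ := by
    refine eq_top_iff.2 fun h _ => ?_
    obtain ⟨g, rfl⟩ := pj.surj h
    have : Ms A P ≤ ((Ms B Set.univ).comap π).map (Ms A P).subtype := iSup₂_le fun x hx a ha =>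
      ⟨⟨a, le x hx ha⟩, le_iSup₂ (f := fun w (_ : w ∈ Set.univ) => B w) (ρ x) trivial
        ((pj.hB x hx _).2 ⟨_, ha, rfl⟩), rfl⟩
    obtain ⟨g', hg', e⟩ := this g.2
    exact (show g' = g from Subtype.ext e) ▸ hg'
  refine ⟨S.pp, p2, ?_, card, fun w a ha => (nA w a).1 (le_normalizer ha),
    fun g w a ha => (pj.act _ _ _).2 (by simpa [mul_assoc] using ha), fun v w a ha hw => ?_, nA, top,
    pj.o2⟩
  · by_contra hn
    have := not_nontrivial_iff_subsingleton.1 hn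
    have cen : (⊤ : Subgroup H) ≤ center H := by
      rw [← top]
      refine iSup₂_le fun w _ b hb => mem_center_iff.2 fun h => ?_
      have hh : h ∈ B w := (iSup₂_le fun w' _ => by rw [Subsingleton.elim w' w] :
        Ms B Set.univ ≤ B w) (top.ge (mem_top h))
      have := isCyclic_of_prime_card (card w)
      exact congrArg Subtype.val (mul_comm' (⟨h, hh⟩ : B w) ⟨b, hb⟩)
    refine n2 ((pj.ker2.map (Ms A P).subtype).to_le (commutator_le.2 fun g hg g' hg' =>
      ⟨⁅(⟨g, hg⟩ : Ms A P), ⟨g', hg'⟩⁆, ?_, rfl⟩))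
    change π _ = 1
    rw [map_commutatorElement, commutatorElement_eq_one_iff_mul_comm]
    exact mem_center_iff.1 (cen (mem_top _)) _
  · by_contra hn
    obtain ⟨a1, hwv⟩ := not_or.1 hn
    obtain ⟨x, hx, rfl⟩ := pj.rsurj v
    obtain ⟨y, hy, rfl⟩ := pj.rsurj w
    have hxy : x ≠ y := fun e => hwv (by rw [e])
    have c1 : ∀ b ∈ B (ρ y), Commute a b := fun b hb => by
      obtain ⟨g, hg, e⟩ := (pm.rl x hx y hy ⁅a, b⁆).1
        (commutator_mem_commutator (mem_sup_left ha) (mem_sup_right hb))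
      rw [← commutatorElement_eq_one_iff_commute, ← e]
      refine two x y hxy g hg (pow_card (card (ρ y)) ?_)
      rw [e]
      exact mul_mem ((mem_normalizer_iff.1 ((nA _ a).2 hw) b).1 hb) (inv_mem hb)
    have c2 : ∀ a' ∈ B (ρ x), ∀ b ∈ B (ρ y), Commute a' b := fun a' ha' b hb => by
      obtain ⟨i, hi⟩ := mem_zpowers_of_prime_card (card (ρ x)) (g := ⟨a, ha⟩) (g' := ⟨a', ha'⟩)
        fun e => a1 (congrArg Subtype.val e)
      have e : a ^ i = a' := by simpa using congrArg Subtype.val hi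
      exact e ▸ (c1 b hb).zpow_left i
    refine hwv (pj.inj (eq_of_le_of_card_ge (fun b hb => ?_) (by rw [card, card])))
    obtain ⟨g, hg, rfl⟩ := (pj.hB y hy b).1 hb
    obtain ⟨r, hr, a', ha', e⟩ := (ls x y hxy).1.dec g (mem_sup_right hg)
    have m : π ⟨a', le x hx ha'⟩ ∈ B (ρ x) := (pj.hB x hx _).2 ⟨_, ha', rfl⟩
    have e1 := two x y hxy (g * ⟨a', le x hx ha'⟩⁻¹) (by simpa [e] using hr) (by
      rw [map_mul, map_inv, (c2 _ m _ hb).symm.inv_right.mul_pow, inv_pow, pow_card (card _) hb,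
        pow_card (card _) m, inv_one, mul_one])
    rw [map_mul, map_inv, mul_inv_eq_one] at e1
    exact e1 ▸ m

end Cfsg.Agent.H28.GdQb
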