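import Mathlib
import Cfsg.Agent.Lead.KRDefs
import Cfsg.Agent.H53.MWOrd
import Cfsg.Agent.H29.LpA
import Cfsg.Agent.H28.MwS

/-!
# Orders of solvable linear groups on 64, 81, 144 vectors (project KR, piece ORD2)
-/

set_option autoImplicit false

namespace Cfsg.Agent.H28.KrO

open MulAction Cfsg.Agent.H12.RO Cfsg.Agent.H53.MW Cfsg.Agent.H28.MwS Cfsg.Agent.Lead.KR

universe u

/-- bound for the action on the symplectic section -/
def hh (e : ℕ) : ℕ := if e = 1 then 1 else if e = 2 then 6 else if e = 3 then 24 else 72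

theorem table {p : ℕ} (pp : p.Prime) (m : ℕ) (t : ℕ → ℕ) (t0 : 1 ≤ t 0)
    (hsum : ∀ i ≤ m, ∀ j ≤ m, i ≠ 0 → j ≠ 0 → i + j ≤ m → t i * t j ≤ t (i + j))
    (himp : ∀ j ≤ m, ∀ s ≤ m, j ≠ 0 → 2 ≤ s → j * s ≤ m → t j ^ s * s.factorial ≤ t (j * s))
    (hprim : ∀ f ≤ m, ∀ n ≤ m, ∀ e ≤ n, f ≠ 0 → e ≠ 0 → f * n ≤ m → e.Coprime p →
      (e = 1 ∨ ¬ e.Coprime (p ^ f - 1)) → e ≤ 4 ∧ (p ^ f - 1) * e ^ 2 * hh e * f ≤ t (f * n))
    (G W : Type u) [Group G] [Finite G] [Group.IsSolvable G] [AddCommGroup W] [Finite W]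
    [DistribMulAction G W] (hcr : CR G W) (k : ℕ) (hk : k ≤ m) (hW : Nat.card W = p ^ k) :
    Nat.card (img G W) ≤ t k := by
  have O := ordKit.{u}
  have inj := Nat.pow_right_injective pp.two_le
  refine ind (fun G V _ _ _ => ∀ k ≤ m, Nat.card V = p ^ k → Nat.card (img G V) ≤ t k)
    ?_ ?_ ?_ ?_ ?_ G W hcr k hk hW
  · intro G V _ _ _ _ k _ h
    have : Nat.card (img G V) = 1 := Nat.card_unique
    rw [this, ← inj (show p ^ 0 = p ^ k from h ▸ Nat.card_unique.symm)]
    exact t0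
  · intro G V _ _ _ _ _ _ U W hU hW _ k1 k2 k3 k4 iU iW k hk h
    have a1 := img_sum hU hW k4
    have a2 : Nat.card U * Nat.card W = p ^ k := by
      rw [← h, ← Nat.card_prod]
      refine Nat.card_eq_of_bijective (fun x : U × W => (x.1 : V) + x.2)
        ⟨fun x y e => ?_, fun v => ?_⟩
      · have e1 : (x.1 : V) - y.1 = y.2 - x.2 := by
          rw [sub_eq_sub_iff_add_eq_add, add_comm (y.2 : V)]; exact e
        have e2 : (x.1 : V) - y.1 ∈ U ⊓ W :=
          AddSubgroup.mem_inf.2 ⟨U.sub_mem x.1.2 y.1.2, e1 ▸ W.sub_mem y.2.2 x.2.2⟩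
        rw [k3, AddSubgroup.mem_bot] at e2
        exact Prod.ext (Subtype.ext (sub_eq_zero.1 e2))
          (Subtype.ext (sub_eq_zero.1 (e1 ▸ e2)).symm)
      · obtain ⟨a, ha, c, hc, rfl⟩ :=
          AddSubgroup.mem_sup.1 (k4 ▸ AddSubgroup.mem_top v : v ∈ U ⊔ W)
        exact ⟨(⟨a, ha⟩, ⟨c, hc⟩), rfl⟩
    obtain ⟨i, hi, e1⟩ := (Nat.dvd_prime_pow pp).1 (Dvd.intro _ a2)
    obtain ⟨j, hj, e2⟩ := (Nat.dvd_prime_pow pp).1 (Dvd.intro_left _ a2)
    have a3 := Nat.mul_le_mul (iU i (hi.trans hk) e1) (iW j (hj.trans hk) e2)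
    rw [e1, e2, ← pow_add] at a2
    obtain rfl : i + j = k := inj a2
    refine (a1.trans a3).trans (hsum i (hi.trans hk) j (hj.trans hk) ?_ ?_ hk)
    · rintro rfl
      exact k1 (AddSubgroup.card_eq_one.1 e1)
    · rintro rfl
      exact k2 (AddSubgroup.card_eq_one.1 e2)
  · intro G G' V _ _ _ _ _ _ _ f hf e i k hk h
    rw [(H29.CpK.quot f hf e).1]
    exact i k hk h
  · intro G V _ _ _ _ _ _ _ hf hpr _ k hk h
    obtain ⟨K, _, _, _, W, _, _, _, σ, U, To, E, M, π, b, e, P⟩ := pk G V hf hpr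
    obtain ⟨c1, -, c3, c4, c5, -⟩ := O.pk G V K W σ U To E M π b e P
    have n0 : Module.finrank K V ≠ 0 := (P.pos.trans_le P.le).ne'
    obtain ⟨q, hq⟩ := CharP.exists K
    have qq : q.Prime := CharP.char_is_prime K q
    obtain ⟨f, f1, f2, f3⟩ := c4 q qq fun v => by
      rw [← Nat.cast_smul_eq_nsmul K, CharP.cast_eq_zero, zero_smul]
    rw [f1, ← pow_mul, h] at c1
    obtain rfl : q = p := (Nat.prime_dvd_prime_iff_eq qq pp).1 (qq.dvd_of_dvd_pow
      (c1 ▸ dvd_pow_self q (Nat.mul_ne_zero f3.ne' n0)))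
    obtain rfl : k = f * Module.finrank K V := inj c1
    rw [f1] at c5
    have a0 : 1 < q ^ f := Nat.one_lt_pow f3.ne' qq.one_lt
    obtain ⟨a1, a2⟩ := hprim f ((Nat.le_mul_of_pos_right f (Nat.pos_of_ne_zero n0)).trans hk) _
      ((Nat.le_mul_of_pos_left _ f3).trans hk) e P.le f3.ne' P.pos.ne' hk
      (((Nat.Prime.coprime_iff_not_dvd qq).2 fun hd => qq.one_lt.ne' (Nat.dvd_one.1
        ((Nat.dvd_sub_iff_right a0.le (dvd_pow_self q f3.ne')).1 (c5 q qq hd)))).symm) (by
        by_cases e1 : e = 1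
        · exact .inl e1
        obtain ⟨r, r1, r2⟩ := Nat.exists_prime_and_dvd e1
        exact .inr (Nat.not_coprime_of_dvd_of_dvd r1.one_lt r2 (c5 r r1 r2)))
    have a4 : Nat.card (img σ.ker W) ≤ hh e := by
      have := P.pos
      interval_cases e
      · have : Subsingleton W := (Nat.card_eq_one_iff_unique.1 P.card).1
        exact (Nat.card_unique (α := img σ.ker W)).le
      · exact H29.Lp.h_le_sqf sqf P le_rfl Nat.prime_two.squarefree
      · exact H29.Lp.h_le_sqf sqf P (by norm_num) Nat.prime_three.squarefree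
      · exact ord16 pk O σ.ker W (clifford P.cr _) P.card
    have a5 : Nat.card U ≤ q ^ f - 1 := Nat.le_of_dvd (by omega) (f1 ▸ P.U_dvd)
    refine (Nat.card_le_card_of_surjective _ (toPermHom G V).rangeRestrict_surjective).trans
      (le_trans ?_ a2)
    rw [← Subgroup.card_mul_index σ.ker, c3]
    exact Nat.mul_le_mul (Nat.mul_le_mul (Nat.mul_le_mul_right _ a5) a4) (Nat.le_of_dvd f3 f2)
  · intro G V Ω N _ _ _ _ _ _ _ _ _ _ _ _ _ hirr S A IH k hk h
    obtain ⟨c1, c2⟩ := O.sysCard G V Ω S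
    obtain ⟨ω₀⟩ : Nonempty Ω := inferInstance
    rw [Finset.prod_congr rfl fun ω _ => c2 hirr ω ω₀, Finset.prod_const, Finset.card_univ, h] at c1
    have m2 : 2 ≤ Fintype.card Ω := Fintype.one_lt_card
    obtain ⟨j, hj, e1⟩ := (Nat.dvd_prime_pow pp).1
      (c1 ▸ dvd_pow_self (Nat.card (S.e ω₀).range) (by omega : Fintype.card Ω ≠ 0))
    rw [e1, ← pow_mul] at c1
    obtain rfl : k = j * Fintype.card Ω := inj c1
    have a2 : j ≠ 0 := by
      rintro rfl
      rw [zero_mul, pow_zero] at h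
      exact (Finite.one_lt_card (α := V)).ne' h
    have a3 : Nat.card (img G Ω) ≤ (Fintype.card Ω).factorial := by
      classical
      rw [← Fintype.card_perm, ← Nat.card_eq_fintype_card]
      exact Subgroup.card_le_card_group _
    have a4 := Finset.prod_le_pow_card Finset.univ (fun ω => (letI := subAct (S.inv_range ω);
      Nat.card (img (stabilizer G ω) (S.e ω).range))) (t j) fun ω _ => by
        letI := subAct (S.inv_range ω)
        exact IH (stabilizer G ω) (S.e ω).range (S.card_range_lt ω) (S.irr_range hirr ω).cr j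
          (hj.trans hk) ((c2 hirr ω ω₀).trans e1)
    exact (img_sys S).trans ((Nat.mul_le_mul a4 a3).trans (himp j (hj.trans hk) _
      ((Nat.le_mul_of_pos_left _ (Nat.pos_of_ne_zero a2)).trans hk) a2 m2 hk))

/-- the table in characteristic two -/
def t2 (k : ℕ) : ℕ := [1, 1, 6, 21, 72, 155, 1296].getD k 0

/-- the table in characteristic three -/
def t3 (k : ℕ) : ℕ := [1, 2, 48, 96, 4608].getD k 0

variable (G W : Type u) [Group G] [Finite G] [Group.IsSolvable G] [AddCommGroup W] [Finite W]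
  [DistribMulAction G W]

theorem two (hcr : CR G W) (k : ℕ) (hk : k ≤ 6) (hW : Nat.card W = 2 ^ k) :
    Nat.card (img G W) ≤ t2 k :=
  table Nat.prime_two 6 t2 (by decide) (by decide) (by decide) (fun f hf n hn e he => by
    interval_cases f <;> interval_cases n <;> interval_cases e <;> decide) G W hcr k hk hW

theorem three (hcr : CR G W) (k : ℕ) (hk : k ≤ 4) (hW : Nat.card W = 3 ^ k) :
    Nat.card (img G W) ≤ t3 k :=
  table Nat.prime_three 4 t3 (by decide) (by decide) (by decide) (fun f hf n hn e he => by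
    interval_cases f <;> interval_cases n <;> interval_cases e <;> decide) G W hcr k hk hW

omit [Finite G] [Group.IsSolvable G] in
theorem tors {p : ℕ} (hp : p.Prime) (a : ℕ) : ∃ U : AddSubgroup W, Inv G U ∧
    (∀ x, p ^ a • x = 0 → x ∈ U) ∧ ∃ i, Nat.card U = p ^ i := by
  have : Fact p.Prime := ⟨hp⟩
  refine ⟨(nsmulAddMonoidHom (α := W) (p ^ a)).ker, fun g v hv => ?_, fun x hx => hx, ?_⟩
  · change p ^ a • g • v = 0
    rw [← smul_comm g, show p ^ a • v = 0 from hv, smul_zero]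
  · exact IsPGroup.exists_card_eq (G := Multiplicative (nsmulAddMonoidHom (α := W) (p ^ a)).ker)
      fun x => ⟨a, Subtype.ext x.toAdd.2⟩

theorem ord2 : Ord2Stmt.{u} := by
  intro G W _ _ _ _ _ _ hcr
  refine ⟨fun h => (two G W hcr 6 le_rfl h).trans (by decide),
    fun h => (three G W hcr 4 le_rfl h).trans (by decide), fun h => ?_⟩
  obtain ⟨U, hU, u1, i, u2⟩ := tors G W Nat.prime_two 4
  obtain ⟨V, hV, v1, j, v2⟩ := tors G W Nat.prime_three 2
  have h0 : ∀ x : W, 144 • x = 0 := fun x => h ▸ card_nsmul_eq_zero'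
  have h1 : U ⊔ V = ⊤ := by
    rw [eq_top_iff]
    intro x _
    have e : x = 81 • x + 64 • x := by rw [← add_nsmul, show 81 + 64 = 144 + 1 from rfl, add_nsmul,
      h0, zero_add, one_nsmul]
    rw [e]
    refine AddSubgroup.add_mem_sup (u1 _ ?_) (v1 _ ?_)
    · rw [← mul_nsmul', show 2 ^ 4 * 81 = 9 * 144 from rfl, mul_nsmul', h0, nsmul_zero]
    · rw [← mul_nsmul', show 3 ^ 2 * 64 = 4 * 144 from rfl, mul_nsmul', h0, nsmul_zero]
  have hi : i ≤ 4 := by
    by_contra e
    have := (pow_dvd_pow 2 (by omega : 5 ≤ i)).trans (u2 ▸ h ▸ U.card_addSubgroup_dvd_card)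
    omega
  have hj : j ≤ 2 := by
    by_contra e
    have := (pow_dvd_pow 3 (by omega : 3 ≤ j)).trans (v2 ▸ h ▸ V.card_addSubgroup_dvd_card)
    omega
  letI := subAct hU
  letI := subAct hV
  refine (img_sum hU hV h1).trans ((Nat.mul_le_mul (two G U (hcr.sub hU) i (by omega) u2)
    (three G V (hcr.sub hV) j (by omega) v2)).trans ?_)
  interval_cases i <;> interval_cases j <;> decide

theorem symp : SympP.{u} fun e => e = 8 ∨ e = 9 ∨ e = 12 := by
  intro G W A _ _ _ _ _ _ _ b e he hcr hc _ _ _ _ _ Y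
  have : Finite (img G W) := Finite.of_surjective _ (toPermHom G W).rangeRestrict_surjective
  obtain ⟨h1, h2, h3⟩ := ord2 G W hcr
  refine (k_le_card Y).trans (Y.card_le_card_group.trans ?_)
  rcases he with rfl | rfl | rfl
  · exact h1 hc
  · exact h2 hc
  · exact h3 hc

end Cfsg.Agent.H28.KrO
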