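import Mathlib
import Cfsg.Agent.H89.L27Defs

/-! Vectors fixed by the Borel subgroup of `L₂(7)` in characteristic three. -/

set_option autoImplicit false

namespace Cfsg.Agent.H28.L27B

open Module Cfsg.Agent.H89.L27
open scoped Matrix MatrixGroups

/-- Representatives of the cosets of the Borel subgroup. -/
def rp (k : Fin 8) : S7 := if k = 7 then 1 else ex ^ k.1 * es

/-- `g` permutes the cosets according to `π`. -/
def Tab (g : S7) (π : Fin 8 → Fin 8) : Prop := ∀ k, ∃ a : Fin 7, ∃ j : Fin 3, ∃ s : Fin 2,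
  g * rp k = rp (π k) * (ex ^ a.1 * eu ^ j.1 * (-1) ^ s.1)

theorem eqns : True := by
  have := @rp.eq_1
  have := @Tab.eq_1
  trivial

theorem tx : Tab ex ![1, 2, 3, 4, 5, 6, 0, 7] := by unfold Tab; decide +kernel
theorem tu : Tab eu ![0, 4, 1, 5, 2, 6, 3, 7] := by unfold Tab; decide +kernel
theorem tv : Tab ev ![2, 6, 3, 0, 4, 1, 5, 7] := by unfold Tab; decide +kernel
theorem ts : Tab es ![7, 6, 3, 2, 5, 4, 1, 0] := by unfold Tab; decide +kernel
theorem ty : Tab ey ![1, 3, 6, 4, 0, 2, 7, 5] := by unfold Tab; decide +kernel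

section
variable {F W : Type} [Field F] [AddCommGroup W] [Module F W] {ρ : S7 →* Module.End F W}

theorem fix_pow {g : S7} {w : W} (h : ρ g w = w) (n : ℕ) : ρ (g ^ n) w = w := by
  induction n with
  | zero => simp
  | succ n ih => rw [pow_succ, map_mul, Module.End.mul_apply, h, ih]

theorem step (hN : NoFix ρ) {w : W} (hw : w ∈ Fx ρ [ex, eu]) {g : S7} {π : Fin 8 → Fin 8}
    (h : Tab g π) (k : Fin 8) : ρ g (ρ (rp k) w) = ρ (rp (π k)) w := by
  obtain ⟨a, j, s, e⟩ := h k
  have h1 := mem_Fx.1 hw ex (by simp)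
  have h2 := mem_Fx.1 hw eu (by simp)
  have h3 : ρ (-1) w = w := by rw [hN.1]; rfl
  rw [← Module.End.mul_apply, ← map_mul, e]
  simp only [map_mul, Module.End.mul_apply, fix_pow h1, fix_pow h2, fix_pow h3]

/-- The images of a vector fixed by the Borel subgroup. -/
structure Pts (ρ : S7 →* Module.End F W) (p : Fin 8 → W) : Prop where
  x : ∀ k, ρ ex (p k) = p (![1, 2, 3, 4, 5, 6, 0, 7] k)
  u : ∀ k, ρ eu (p k) = p (![0, 4, 1, 5, 2, 6, 3, 7] k)
  v : ∀ k, ρ ev (p k) = p (![2, 6, 3, 0, 4, 1, 5, 7] k)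
  s : ∀ k, ρ es (p k) = p (![7, 6, 3, 2, 5, 4, 1, 0] k)
  y : ∀ k, ρ ey (p k) = p (![1, 3, 6, 4, 0, 2, 7, 5] k)
  sum : p 0 + p 1 + p 2 + p 3 + p 4 + p 5 + p 6 + p 7 = 0

theorem pts (hN : NoFix ρ) {w : W} (hw : w ∈ Fx ρ [ex, eu]) : Pts ρ fun k => ρ (rp k) w := by
  refine ⟨step hN hw tx, step hN hw tu, step hN hw tv, step hN hw ts, step hN hw ty,
    hN.2 _ ?_ ?_⟩
  · simp only [map_add, step hN hw ts]
    simp
    abel
  · simp only [map_add, step hN hw tx]
    simp
    abel

theorem three [CharP F 3] (v : W) : v + v + v = 0 := by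
  have h : (3 : F) = 0 := by exact_mod_cast CharP.cast_eq_zero F 3
  have : v + v + v = (3 : F) • v := by module
  rw [this, h, zero_smul]

theorem inj1 [CharP F 3] {p : Fin 8 → W} (P : Pts ρ p) (h : p 0 + p 2 + p 3 + p 7 = 0) :
    p 7 = 0 := by
  have h1 := congrArg (ρ ex) h
  simp only [map_add, map_zero, P.x] at h1
  simp at h1
  have h2 := congrArg (ρ ex) h1
  simp only [map_add, map_zero, P.x] at h2
  simp at h2
  have h3 := congrArg (ρ ex) h2
  simp only [map_add, map_zero, P.x] at h3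
  simp at h3
  have h4 := congrArg (ρ ex) h3
  simp only [map_add, map_zero, P.x] at h4
  simp at h4
  have h5 := congrArg (ρ ex) h4
  simp only [map_add, map_zero, P.x] at h5
  simp at h5
  have h6 := congrArg (ρ ex) h5
  simp only [map_add, map_zero, P.x] at h6
  simp at h6
  linear_combination (norm := abel) h + h1 + h2 + h3 + h4 + h5 + h6 - three (F := F) (p 0) -
    three (F := F) (p 1) - three (F := F) (p 2) - three (F := F) (p 3) - three (F := F) (p 4) -
    three (F := F) (p 5) - three (F := F) (p 6) - three (F := F) (p 7) - three (F := F) (p 7)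

theorem inj2 [CharP F 3] {p : Fin 8 → W} (P : Pts ρ p) (h : p 1 + p 2 + p 4 + p 7 = 0) :
    p 7 = 0 := by
  have h1 := congrArg (ρ ex) h
  simp only [map_add, map_zero, P.x] at h1
  simp at h1
  have h2 := congrArg (ρ ex) h1
  simp only [map_add, map_zero, P.x] at h2
  simp at h2
  have h3 := congrArg (ρ ex) h2
  simp only [map_add, map_zero, P.x] at h3
  simp at h3
  have h4 := congrArg (ρ ex) h3
  simp only [map_add, map_zero, P.x] at h4
  simp at h4
  have h5 := congrArg (ρ ex) h4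
  simp only [map_add, map_zero, P.x] at h5
  simp at h5
  have h6 := congrArg (ρ ex) h5
  simp only [map_add, map_zero, P.x] at h6
  simp at h6
  linear_combination (norm := abel) h + h1 + h2 + h3 + h4 + h5 + h6 - three (F := F) (p 0) -
    three (F := F) (p 1) - three (F := F) (p 2) - three (F := F) (p 3) - three (F := F) (p 4) -
    three (F := F) (p 5) - three (F := F) (p 6) - three (F := F) (p 7) - three (F := F) (p 7)

theorem sq_of_neg {v : W} (h : ρ ey v = -v) : ρ (ey ^ 2) v = v := by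
  rw [pow_two, map_mul, Module.End.mul_apply, h, map_neg, h, neg_neg]

theorem mem1 {p : Fin 8 → W} (P : Pts ρ p) : p 0 + p 2 + p 3 + p 7 ∈
    (Fx ρ [ey ^ 2, es] ⊓ LinearMap.ker (ρ ev - 1) ⊓ LinearMap.ker (ρ ey + 1) : Submodule F W) := by
  have hy : ρ ey (p 0 + p 2 + p 3 + p 7) = -(p 0 + p 2 + p 3 + p 7) := by
    simp only [map_add, P.y]
    simp only [Matrix.cons_val]
    linear_combination (norm := abel) P.sum
  refine ⟨⟨mem_Fx.2 ?_, ?_⟩, ?_⟩
  · simp only [List.mem_cons, List.not_mem_nil, or_false, forall_eq_or_imp, forall_eq]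
    refine ⟨sq_of_neg hy, ?_⟩
    simp only [map_add, P.s]
    simp only [Matrix.cons_val]
    abel
  · change ρ ev _ - _ = 0
    simp only [map_add, P.v, Module.End.one_apply]
    simp only [Matrix.cons_val]
    abel
  · change ρ ey _ + _ = 0
    rw [hy]
    exact neg_add_cancel _

theorem mem2 {p : Fin 8 → W} (P : Pts ρ p) : p 1 + p 2 + p 4 + p 7 ∈
    (Fx ρ [ey ^ 2, es * ey] ⊓ LinearMap.ker (ρ eu - 1) ⊓ LinearMap.ker (ρ ey + 1) :
      Submodule F W) := by
  have hy : ρ ey (p 1 + p 2 + p 4 + p 7) = -(p 1 + p 2 + p 4 + p 7) := by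
    simp only [map_add, P.y]
    simp only [Matrix.cons_val]
    linear_combination (norm := abel) P.sum
  refine ⟨⟨mem_Fx.2 ?_, ?_⟩, ?_⟩
  · simp only [List.mem_cons, List.not_mem_nil, or_false, forall_eq_or_imp, forall_eq]
    refine ⟨sq_of_neg hy, ?_⟩
    simp only [map_mul, Module.End.mul_apply, map_add, P.y, P.s]
    simp only [Matrix.cons_val]
    abel
  · change ρ eu _ - _ = 0
    simp only [map_add, P.u, Module.End.one_apply]
    simp only [Matrix.cons_val]
    abel
  · change ρ ey _ + _ = 0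
    rw [hy]
    exact neg_add_cancel _

theorem le_of [FiniteDimensional F W] {U T : Submodule F W} (S : Module.End F W)
    (h1 : ∀ w ∈ U, S w ∈ T) (h2 : ∀ w ∈ U, S w = 0 → w = 0) : finrank F U ≤ finrank F T :=
  LinearMap.finrank_le_finrank_of_injective (f := S.restrict h1)
    ((injective_iff_map_eq_zero _).2 fun w hw =>
      Subtype.ext (h2 w.1 w.2 (congrArg Subtype.val hw)))

end

theorem fb : FbStmt := by
  intro F W _ _ _ _ _ ρ hN
  have r7 : ∀ w : W, ρ (rp 7) w = w := fun w => by simp [rp]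
  exact ⟨le_of (ρ (rp 0) + ρ (rp 2) + ρ (rp 3) + ρ (rp 7)) (fun w hw => mem1 (pts hN hw))
      fun w hw h => (r7 w).symm.trans (inj1 (pts hN hw) h),
    le_of (ρ (rp 1) + ρ (rp 2) + ρ (rp 4) + ρ (rp 7)) (fun w hw => mem2 (pts hN hw))
      fun w hw h => (r7 w).symm.trans (inj2 (pts hN hw) h)⟩

end Cfsg.Agent.H28.L27B
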