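import Mathlib
import Cfsg.Agent.H50.L81Defs
import Cfsg.Agent.H50.E8L2

/-! Project L81, piece N7: `E₈(3)` has no subgroup `L₂(3 ^ 7)`. -/

set_option autoImplicit false

namespace Cfsg.Agent.H28.L81N7

open Cfsg.Lie Cfsg.Agent.H37 Cfsg.Agent.H40 Cfsg.Agent.H34 Cfsg.Agent.H29 Cfsg.Agent.H50
open Cfsg.Agent.H50.L81 Cfsg.Agent.H50.E83 Cfsg.Agent.H50.E8L Finset Polynomial
open scoped MatrixGroups

universe u

theorem n7 (hA : N7aStmt) (hC : N7cStmt) : N7Stmt.{u} := by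
  intro E _ _ hq φ hφ
  classical
  have h33 : Fact (Nat.Prime 3) := ⟨Nat.prime_three⟩
  have hF3 : CharP E 3 := by
    obtain ⟨p, hp, m, hp', hm⟩ := FiniteField.card' E
    obtain rfl : p = 3 := (Nat.prime_dvd_prime_iff_eq hp' Nat.prime_three).1
      (hp'.dvd_of_dvd_pow (hq ▸ hm ▸ dvd_pow_self p m.ne_zero))
    exact hp
  letI : Algebra (ZMod 3) E := ZMod.algebra E 3
  let κ : E →+* K := (IsAlgClosed.lift : E →ₐ[ZMod 3] K).toRingHom
  have h3 : (3 : K) = 0 := CharP.cast_eq_zero K 3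
  obtain ⟨η, hη, -⟩ := exists_prim_unit K (N := 547) (fun h => one_ne_zero (α := K) (by
    push_cast at h; linear_combination h - 182 * h3))
  have hθ : IsPrimitiveRoot (η : K) 547 := IsPrimitiveRoot.coe_units_iff.2 hη
  have t1 : (η : K) * (η⁻¹ : Kˣ) = 1 := η.mul_inv
  have t0 : (η : K) ^ 3 ^ 7 = (η⁻¹ : Kˣ) := by
    refine mul_left_cancel₀ η.ne_zero ?_
    rw [t1, ← pow_succ', show 3 ^ 7 + 1 = 547 * 4 by norm_num, pow_mul, hθ.pow_eq_one, one_pow]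
  have t2 : ∀ m : ℕ, (η : K) ^ m = ((η⁻¹ : Kˣ) : K) ^ m ↔ 547 ∣ 2 * m := fun m => by
    rw [← mul_right_inj' (pow_ne_zero m η.ne_zero), ← mul_pow, ← mul_pow, t1, one_pow, ← sq,
      ← pow_mul, hθ.pow_eq_one_iff_dvd]
  have t3 : (η : K) ≠ (η⁻¹ : Kˣ) := fun e => by
    have := (t2 1).1 (by simpa using e)
    omega
  obtain ⟨τ, hτ⟩ := (mem_range_of_pow_card κ ((η : K) + (η⁻¹ : Kˣ))).1 (by
    rw [hq, add_pow_char_pow, t0, add_comm, Units.val_inv_eq_inv_val, inv_pow, t0,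
      Units.val_inv_eq_inv_val, inv_inv])
  let g : SL(2, E) := ⟨!![0, -1; 1, τ], by simp [Matrix.det_fin_two]⟩
  let ψ : SL(2, E) →* G0 := φ.comp (QuotientGroup.mk' _)
  have t4 : ∀ m : ℕ, ψ g ^ m = 1 ↔ 547 ∣ 2 * m := fun m => by
    rw [← t2, ← pow_sl2 κ t1 hτ.symm t3 (g := g) rfl, ← map_pow, ← QuotientGroup.eq_one_iff,
      ← map_eq_one_iff φ hφ]
    rfl
  have t5 : ψ (-g) = ψ g := by
    have : ψ (-1) = 1 := by
      change φ (((-1 : SL(2, E)) : PSL(2, E))) = 1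
      rw [(QuotientGroup.eq_one_iff _).2 (Subgroup.mem_center_iff.2 fun x => by simp), map_one]
    rw [← neg_one_mul, map_mul, this, one_mul]
  obtain ⟨μ, h0, h1, _, ⟨-, c, rfl, hc⟩, e2⟩ := hA (ψ g) η ((t4 _).2 (by norm_num))
    (fun h => by have := (t4 1).1 (by rw [h, one_pow]); omega) hη
  obtain ⟨R, h9, h10⟩ := charpoly_rep κ (g := -g) (θ := -(η : K)) (η := -((η⁻¹ : Kˣ) : K))
    (by rw [neg_mul_neg, t1]) (by
      rw [← neg_add, ← hτ, ← map_neg]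
      exact congrArg κ (show -τ = -0 + -τ by ring)) (fun a e => t3 (by
      rw [← t0, ← neg_eq_iff_eq_neg.2 e, ← map_neg, ← map_pow, ← hq, FiniteField.pow_card]))
    ((chevE8.group K).subtype.comp (ι.comp ψ))
  have h11 : (X - 1) ^ chevE8.rank * ∏ r : Rt, (X - Polynomial.C (torChar chevE8 c r : K)) =
      (R.map (SL2S.PP 3 (-(η : K)) (-((η⁻¹ : Kˣ) : K)))).prod := by
    rw [← charpoly_conj C8 e2, ← h10, ← t5]
    rfl
  have val : ∀ r j, j ∈ SL2S.JJ 3 r → (-(η : K)) ^ (r - j) * (-((η⁻¹ : Kˣ) : K)) ^ j =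
      (-1) ^ r * ((η ^ ((r : ℤ) - 2 * j) : Kˣ) : K) := fun r j hj => by
    obtain ⟨i, rfl⟩ := Nat.exists_eq_add_of_le' (Nat.lt_succ_iff.1 (mem_range.1 (mem_filter.1 hj).1))
    rw [Nat.add_sub_cancel, show ((i + j : ℕ) : ℤ) - 2 * j = i - j by push_cast; ring, zpow_sub,
      neg_pow (η : K), neg_pow ((η⁻¹ : Kˣ) : K), pow_add]
    simp only [zpow_natCast, Units.val_mul, Units.val_pow_eq_pow_val, ← inv_pow]
    ring
  have key : ∀ a : K, (a = 1 ∨ ∃ s : Rt, a = ((η ^ (μ * f7 s) : Kˣ) : K)) ↔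
      ∃ r ∈ R, ∃ j ∈ SL2S.JJ 3 r, a = (-1) ^ r * ((η ^ ((r : ℤ) - 2 * j) : Kˣ) : K) := fun a => by
    have e := congrArg (fun P => eval a P = 0) h11
    simp only [eval_mul, eval_pow, eval_sub, eval_X, eval_one, eval_prod, eval_C, mul_eq_zero,
      prod_eq_zero_iff, mem_univ, true_and, sub_eq_zero, hc, eval_list_prod, List.prod_eq_zero_iff,
      List.mem_map, pow_eq_zero_iff (show chevE8.rank ≠ 0 by decide), eq_iff_iff] at e
    rw [e]
    constructor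
    · rintro ⟨_, ⟨r, hr, rfl⟩, h⟩
      simp only [SL2S.PP, eval_prod, prod_eq_zero_iff, eval_sub, eval_X, eval_C, sub_eq_zero] at h
      obtain ⟨j, hj, h⟩ := h
      exact ⟨r, hr, j, hj, by rw [h, val r j hj]⟩
    · rintro ⟨r, hr, j, hj, h⟩
      refine ⟨_, ⟨r, hr, rfl⟩, ?_⟩
      simp only [SL2S.PP, eval_prod, prod_eq_zero_iff, eval_sub, eval_X, eval_C, sub_eq_zero]
      exact ⟨j, hj, by rw [h, val r j hj]⟩
  obtain ⟨r₀, hr₀⟩ := hC μ h0 h1
  obtain ⟨r, hr, j, hj, e⟩ := (key _).1 (Or.inr ⟨r₀, rfl⟩)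
  have pw : ∀ k : ℤ, ((η ^ k : Kˣ) : K) ^ 547 = 1 := fun k => by
    rw [← Units.val_pow_eq_pow_val, ← zpow_natCast, ← zpow_mul, mul_comm, zpow_mul, zpow_natCast,
      hη.pow_eq_one, one_zpow, Units.val_one]
  have ev : Even r := by
    by_contra hn
    have := congrArg (· ^ 547) e
    simp only [mul_pow, pw, (Nat.not_even_iff_odd.1 hn).neg_one_pow] at this
    exact one_ne_zero (α := K) (by linear_combination h3 - this)
  rw [ev.neg_one_pow, one_mul, Units.val_inj, zpow_eq_iff hη] at e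
  obtain ⟨j', hj', n0, ns⟩ := hr₀ r (by have := h9 r hr; rw [hq] at this; omega) ev
    ⟨j, hj, by push_cast at e; exact e.symm⟩
  rcases (key _).2 ⟨r, hr, j', hj', rfl⟩ with e' | ⟨s, e'⟩
  · rw [ev.neg_one_pow, one_mul, ← Units.val_one, Units.val_inj, ← zpow_zero η,
      zpow_eq_iff hη] at e'
    exact n0 (by push_cast at e'; exact e')
  · rw [ev.neg_one_pow, one_mul, Units.val_inj, zpow_eq_iff hη] at e'
    exact ns s (by push_cast at e'; exact e')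

end Cfsg.Agent.H28.L81N7
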