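import Mathlib
import Cfsg.Agent.H11.CyLp
import Cfsg.Agent.H11.Frobenius
import Cfsg.Agent.H11.FrobNil
import Cfsg.Agent.H28.CyOle

/-! Project CY, chapter LP, piece FS: the Frobenius kernel in the centraliser of `A x`. -/

set_option autoImplicit false

namespace Cfsg.Agent.H28.LpFs

open Subgroup MulAction Cfsg.Agent.H11 Cfsg.Agent.H11.Cy Cfsg.Agent.H11.Cy.Lp
open Cfsg.Agent.H11.EL (Nm Ct C1)

theorem fs : FSStmt := by
  intro G _ _ Ω _ _ p A S x y L hK hM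
  have := Fact.mk S.pp
  have xy := L.xy
  have ep := L.mc.ep
  have la := L.la x y xy
  have AC : A x ≤ Ct (A x) := fun a ha => mem_centralizer_iff.2 fun b hb => by
    have := isCyclic_of_prime_card (S.card x)
    exact congrArg Subtype.val (mul_comm' (⟨b, hb⟩ : A x) ⟨a, ha⟩)
  have KC : Kl A x y ≤ Ct (A x) := centralizer_le (show A x ≤ Fl A x y from le_sup_left)
  have fx : ∀ c ∈ Ct (A x), c • x = x := fun c hc => CyOle.fix_of_cen S (mem_centralizer_iff.1 hc)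
  have fu : ∀ c ∈ Ct (A x), ∀ u, u ≠ x → c • u ≠ x := fun c hc u hu e =>
    hu (smul_left_cancel c (e.trans (fx c hc).symm))
  have inK : ∀ c ∈ Ct (A x), ∀ u, u ≠ x → c • u = u → c ∈ Kl A x u := fun c hc u hu e =>
    ep.eps x u hu.symm c ⟨fx c hc, e⟩ hc
  have Ky : ∀ k ∈ Kl A x y, k • y = y := fun k hk => (ep.kfix x y xy k).1 hk y la.my
  have nrm : ((A x).subgroupOf (Ct (A x))).Normal := ⟨fun a ha c => by
    have e : (a : G) * c = c * a := mem_centralizer_iff.1 c.2 _ ha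
    change (c : G) * a * (c : G)⁻¹ ∈ A x
    rw [← e, mul_inv_cancel_right]; exact ha⟩
  let π := QuotientGroup.mk' ((A x).subgroupOf (Ct (A x)))
  have πs : Function.Surjective π := QuotientGroup.mk'_surjective _
  have π1 : ∀ c, π c = 1 ↔ (c : G) ∈ A x := fun c => QuotientGroup.eq_one_iff c
  let Kb := ((Kl A x y).subgroupOf (Ct (A x))).map π
  have memK : ∀ c, π c ∈ Kb ↔ ∃ a ∈ A x, (c : G) * a ∈ Kl A x y := fun c => by
    constructor
    · rintro ⟨k, hk, e⟩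
      refine ⟨(c⁻¹ * k : Ct (A x)), (π1 _).1 (by rw [map_mul, map_inv, e, inv_mul_cancel]), ?_⟩
      simpa using (show (k : G) ∈ Kl A x y from hk)
    · rintro ⟨a, ha, h⟩
      exact ⟨c * ⟨a, AC ha⟩, h, by rw [map_mul, (π1 ⟨a, AC ha⟩).2 ha, mul_one]⟩
  have TI : ∀ g, g ∉ Kb → ∀ h ∈ Kb, g * h * g⁻¹ ∈ Kb → h = 1 := by
    intro g hg h hh hc
    obtain ⟨c, rfl⟩ := πs g
    obtain ⟨k', hk', rfl⟩ := hh
    rw [← map_inv, ← map_mul, ← map_mul, memK] at hc
    obtain ⟨a, ha, hk⟩ := hc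
    by_contra h1
    have zx : (c : G) • y ≠ x := fu c c.2 y xy.symm
    have k1 : ((c * k' * c⁻¹ : Ct (A x)) : G) * a ≠ 1 := fun e => h1 (by
      have : π (c * k' * c⁻¹) = 1 := (π1 _).2 (by rw [eq_inv_of_mul_eq_one_left e]; exact inv_mem ha)
      simpa using this)
    have k2 : ((c * k' * c⁻¹ : Ct (A x)) : G) ∈ Kl A x ((c : G) • y) := inK _ (c * k' * c⁻¹).2 _ zx (by
      simp [mul_smul, Ky k' hk'])
    have zL : (c : G) • y ∈ Ln A x y := by_contra fun hz => hM _ ⟨hk, k1, _, hz,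
      mul_mem (centralizer_le_normalizer _ k2) (le_normalizer (mem_sup_left ha))⟩
    obtain ⟨b, hb, e⟩ := la.reg x la.mx y la.my _ zL xy.symm zx
    refine hg ((memK c).2 ⟨b⁻¹, inv_mem hb, ?_⟩)
    rw [← mem_centralizer_iff.1 c.2 _ (inv_mem hb)]
    exact inK _ (mul_mem (AC (inv_mem hb)) c.2) y xy.symm (by rw [mul_smul, ← e, inv_smul_smul])
  obtain ⟨M, Mn, hMm, hc⟩ := frobenius_normal_complement Kb TI
  have nil : Group.IsNilpotent M := by
    refine isNilpotent_of_centralizer_le (fun m hm m1 g hg => by_contra fun hn => ?_) fun e => hK ?_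
    · rw [hMm] at hn
      push Not at hn
      obtain ⟨g1, t, ht⟩ := hn
      have e : g * m = m * g := mem_centralizer_singleton_iff.1 hg
      have h2 := TI (t * m * t⁻¹) (((hMm m).1 hm).resolve_left m1 t) _ ht (by
        rwa [show t * m * t⁻¹ * (t * g * t⁻¹) * (t * m * t⁻¹)⁻¹ = t * (m * g * m⁻¹) * t⁻¹ by group,
          ← e, mul_inv_cancel_right])
      exact g1 (by simpa using h2)
    · refine eq_bot_iff.2 fun k hk => la.ctr k (mem_sup_left ((π1 ⟨k, KC hk⟩).1 ?_)) hk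
      refine ((hMm _).1 (e ▸ mem_top _)).resolve_right fun h => h 1 ?_
      simpa using (show π ⟨k, KC hk⟩ ∈ Kb from ⟨_, hk, rfl⟩)
  let Q := (M.comap π).map (Ct (A x)).subtype
  have QC : Q ≤ Ct (A x) := map_subtype_le _
  have memQ : ∀ q ∈ Ct (A x), q ∈ Q ↔ q ∈ A x ∨ ∀ a ∈ A x, ∀ u, u ≠ x → (q * a) • u ≠ u := by
    intro q hq
    have e : q ∈ Q ↔ π ⟨q, hq⟩ ∈ M :=
      ⟨by rintro ⟨q', h, rfl⟩; exact h, fun h => ⟨⟨q, hq⟩, h, rfl⟩⟩
    rw [e, hMm, π1]
    refine or_congr Iff.rfl ⟨fun h a ha u hu e => ?_, fun h g hg => ?_⟩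
    · obtain ⟨c, hc, e'⟩ := L.ctr x u y hu xy.symm
      refine h (π ⟨c, hc⟩) ?_
      rw [← map_inv, ← map_mul, ← map_mul, memK]
      refine ⟨a, ha, inK _ (mul_mem (Subtype.prop _) (AC ha)) y xy.symm ?_⟩
      change (c * q * c⁻¹ * a) • y = y
      rw [mul_assoc, ← mem_centralizer_iff.1 (inv_mem hc) _ ha, ← e', mul_assoc, ← mul_assoc q,
        mul_smul, mul_smul, inv_smul_smul, e]
    · obtain ⟨c, rfl⟩ := πs g
      rw [← map_inv, ← map_mul, ← map_mul, memK] at hg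
      obtain ⟨a, ha, hk⟩ := hg
      refine h a ha ((c : G)⁻¹ • y) (fu _ (inv_mem c.2) y xy.symm) ?_
      have e1 : ((c : G) * q * (c : G)⁻¹ * a) • y = y := Ky _ hk
      rw [mul_assoc, ← mem_centralizer_iff.1 (inv_mem c.2) _ ha, mul_assoc, ← mul_assoc q,
        mul_smul, mul_smul] at e1
      rw [eq_inv_smul_iff, e1]
  have try' : ∀ u, u ≠ x → ∃ q ∈ Q, q • y = u := fun u hu => by
    obtain ⟨c, hc', e⟩ := L.ctr x y u xy.symm hu
    obtain ⟨⟨⟨m, hm⟩, ⟨_, k, hk, rfl⟩⟩, e'⟩ := (IsComplement.existsUnique hc (π ⟨c, hc'⟩)).exists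
    refine ⟨c * (k : G)⁻¹, ⟨⟨c, hc'⟩ * k⁻¹, ?_, rfl⟩, ?_⟩
    · change π _ ∈ M
      rw [map_mul, map_inv, ← e', mul_inv_cancel_right]
      exact hm
    · rw [mul_smul, Ky (k : G)⁻¹ (inv_mem hk), e]
  refine ⟨Q, ⟨fun q hq => fx q (QC hq), fun g hg q hq => ?_, ?_, fun u v hu hv => ?_,
    fun u hu q hq e => ?_⟩, QC⟩
  · have hg' : g • x = x := hg
    have b1 : ∀ a ∈ A x, g⁻¹ * a * g ∈ A x := fun a ha => by
      simpa [inv_smul_eq_iff.2 hg'.symm] using S.eqv g⁻¹ x a ha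
    have c1 : g * q * g⁻¹ ∈ Ct (A x) := mem_centralizer_iff.2 fun a ha => by
      have e := mem_centralizer_iff.1 (QC hq) _ (b1 a ha)
      calc _ = g * (g⁻¹ * a * g * q) * g⁻¹ := by group
        _ = _ := by rw [e]; group
    refine (memQ _ c1).2 (((memQ q (QC hq)).1 hq).imp (fun h => ?_) fun h a ha u hu e => ?_)
    · simpa [hg'] using S.eqv g x q h
    · refine h _ (b1 a ha) (g⁻¹ • u) (fun e' => hu (by rw [← hg', ← e', smul_inv_smul])) ?_
      rw [eq_inv_smul_iff, smul_smul, smul_smul]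
      convert e using 2
      group
  · have : Group.IsNilpotent (M.comap π) :=
      Subgroup.isNilpotent_of_ker_le_center (π.subgroupComap M) fun q hq =>
        mem_center_iff.2 fun g => Subtype.ext (Subtype.ext
          (mem_centralizer_iff.1 g.1.2 _ ((π1 q.1).1 (congrArg Subtype.val hq))).symm)
    exact Group.nilpotent_of_mulEquiv (equivMapOfInjective _ _ (subtype_injective _))
  · obtain ⟨q, hq, rfl⟩ := try' u hu
    obtain ⟨q', hq', rfl⟩ := try' v hv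
    exact ⟨q' * q⁻¹, mul_mem hq' (inv_mem hq), by rw [mul_smul, inv_smul_smul]⟩
  · rcases (memQ q (QC hq)).1 hq with h | h
    · exact (S.semi x u q h e).resolve_right hu
    · exact absurd (by rw [mul_one, e]) (h 1 (one_mem _) u hu)

end Cfsg.Agent.H28.LpFs
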