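import Mathlib
import Cfsg.Agent.H53.MWDefs

/-!
# Solvable permutation groups of small degree and two-colourings (project S4070, PSI and COL-A)
-/

set_option autoImplicit false

namespace Cfsg.Agent.H28.MwP

open MulAction Cfsg.Agent.H12.RO Cfsg.Agent.H53.MW
open scoped Pointwise commutatorElement

universe u

theorem aff_of_chief {G Ω : Type u} [Group G] [Finite G] [Group.IsSolvable G] [MulAction G Ω]
    {M : Subgroup G} [hM : M.Normal] (hKM : (toPermHom G Ω).ker < M)
    (hMmin : ∀ L : Subgroup G, L.Normal → (toPermHom G Ω).ker ≤ L → L ≤ M →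
      L = (toPermHom G Ω).ker ∨ L = M) (ω₀ : Ω) (htr : ∀ ω : Ω, ∃ a ∈ M, a • ω₀ = ω) :
    ∃ (N : Type u) (_ : AddCommGroup N) (_ : DistribMulAction G N), Nonempty (Aff G Ω N) := by
  set K := (toPermHom G Ω).ker with hKdef
  have hK : ∀ g, g ∈ K ↔ ∀ ω : Ω, g • ω = ω := fun g => by
    rw [MonoidHom.mem_ker, Equiv.ext_iff]; rfl
  obtain ⟨hcomm, -⟩ := chief_elem hKM hMmin
  have hfree : ∀ a ∈ M, a • ω₀ = ω₀ → a ∈ K := by
    intro a ha e
    rw [hK]
    intro ω
    obtain ⟨b, hb, rfl⟩ := htr ω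
    have := (hK _).1 (hcomm (Subgroup.commutator_mem_commutator ha hb)) (b • a • ω₀)
    rw [commutatorElement_def, mul_smul, mul_smul, mul_smul, inv_smul_smul, inv_smul_smul,
      e] at this
    exact this
  obtain ⟨N, _, _, π, hπ⟩ := exists_sec K M hcomm
  choose r hr hr' using htr
  have key : ∀ a ∈ M, π (r (a • ω₀)) = π a := by
    intro a ha
    rw [hπ.eq_iff (hr _) ha]
    refine hfree _ (M.mul_mem (M.inv_mem (hr _)) ha) ?_
    rw [mul_smul, inv_smul_eq_iff, hr']
  have hbij : Function.Bijective fun ω => π (r ω) := by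
    constructor
    · intro a b e
      have h1 := (hK _).1 ((hπ.eq_iff (hr a) (hr b)).1 e) ω₀
      rw [mul_smul, inv_smul_eq_iff, hr', hr'] at h1
      exact h1.symm
    · intro n
      obtain ⟨a, ha, rfl⟩ := hπ.surj n
      exact ⟨a • ω₀, key a ha⟩
  refine ⟨N, inferInstance, inferInstance,
    ⟨⟨Equiv.ofBijective _ hbij, fun g => π (r (g • ω₀)), fun g ω => ?_, hπ.irr hKM.le hMmin,
      fun n => ?_⟩⟩⟩
  · change π (r (g • ω)) = g • π (r ω) + π (r (g • ω₀))
    rw [← hπ.conj g _ (hr ω), ← hπ.mul _ (hM.conj_mem _ (hr ω) g) _ (hr _),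
      ← key _ (M.mul_mem (hM.conj_mem _ (hr ω) g) (hr _)), mul_smul, hr', mul_smul, mul_smul,
      inv_smul_smul, hr']
  · obtain ⟨a, ha, rfl⟩ := hπ.surj n
    exact ⟨a, hπ.smul_of_mem ha, key a ha⟩

section Aff

variable {G Ω N : Type*} [Group G] [MulAction G Ω] [AddCommGroup N] [DistribMulAction G N]

theorem aff_step (A : Aff G Ω N) {X : Subgroup G} (h : Triv X N) : Triv (der X 1) Ω :=
  triv_der_one fun a ha b hb ω => A.e.injective (by
    rw [A.he, A.he, A.he, A.he, h a ha, h a ha, h b hb, h b hb, add_right_comm])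

theorem triv_cyc (G N : Type*) [Group G] [AddCommGroup N] [DistribMulAction G N] [IsAddCyclic N] :
    Triv (der (⊤ : Subgroup G) 1) N := by
  obtain ⟨z, hz⟩ := IsAddCyclic.exists_generator (α := N)
  refine triv_der_one fun a _ b _ x => ?_
  obtain ⟨k, rfl⟩ := hz x
  obtain ⟨i, hi⟩ := hz (a • z)
  obtain ⟨j, hj⟩ := hz (b • z)
  have hi' : a • z = i • z := hi.symm
  have hj' : b • z = j • z := hj.symm
  simp only [smul_comm a, smul_comm b, hi', hj']
  rw [smul_comm i]

theorem affSqf [Finite Ω] (A : Aff G Ω N) (h : Squarefree (Nat.card Ω)) :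
    Triv (der (⊤ : Subgroup G) 2) Ω := by
  have : Finite N := Finite.of_equiv _ A.e
  have : IsZGroup (Multiplicative N) := IsZGroup.of_squarefree (by
    rwa [Nat.card_congr (Multiplicative.toAdd (α := N)), ← Nat.card_congr A.e])
  have : IsAddCyclic N := isCyclic_multiplicative_iff.1 inferInstance
  exact aff_step A (triv_cyc G N)

theorem affPrime [Fintype Ω] (A : Aff G Ω N) (h : (Fintype.card Ω).Prime) :
    Triv (der (⊤ : Subgroup G) 2) Ω :=
  affSqf A (Nat.card_eq_fintype_card (α := Ω) ▸ h.squarefree)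

theorem base4 [Finite G] [Group.IsSolvable G] [Finite Ω] (A : Aff G Ω N) :
    ∃ p : Fin 4 → Ω, ∀ g : G, (∀ i, g • p i = p i) → ∀ ω : Ω, g • ω = ω := by
  have : Finite N := Finite.of_equiv _ A.e
  obtain ⟨v, hv⟩ := seress (G := G) (V := N) inferInstance A.irr.cr
  refine ⟨Fin.cons (A.e.symm 0) fun i => A.e.symm (v i), fun g hg => ?_⟩
  have h0 : A.c g = 0 := by
    have := congrArg A.e (hg 0)
    simpa [A.he] using this
  refine A.triv h0 (hv g fun i => ?_)
  have := congrArg A.e (hg i.succ)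
  simpa [A.he, h0] using this

end Aff

/-- the claim for one degree -/
def Ps (m : ℕ) : Prop :=
  ∀ (G Ω : Type u) [Group G] [Finite G] [Group.IsSolvable G] [MulAction G Ω] [Finite Ω],
    Nat.card Ω = m → Triv (der (⊤ : Subgroup G) (min (m - 1) 3)) Ω

theorem loc {G Ω : Type u} [Group G] [Finite G] [Group.IsSolvable G] [MulAction G Ω] [Finite Ω]
    (X : Subgroup G) (D : Set Ω) (h : Ps.{u} D.ncard) (hD : ∀ g ∈ X, ∀ ω ∈ D, g • ω ∈ D) :
    ∀ g ∈ der X (min (D.ncard - 1) 3), ∀ ω ∈ D, g • ω = ω := by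
  intro g hg ω hω
  let S : SubMulAction X Ω := ⟨D, fun c _ hx => hD c c.2 _ hx⟩
  obtain ⟨h1, h2⟩ := exists_of_mem_der (le_refl X) hg
  rw [Subgroup.subgroupOf_self] at h2
  exact congrArg Subtype.val (h X S rfl _ h2 ⟨ω, hω⟩)

theorem ps (n : ℕ) (hn : n ≤ 7) : Ps.{u} n := by
  induction n using Nat.strong_induction_on with
  | _ n ih =>
  intro G Ω _ _ _ _ _ hc g hg ω₀
  have IH : ∀ m < n, Ps.{u} m := fun m hm => ih m hm (by omega)
  by_cases htr : IsPretransitive G Ω
  swap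
  · have h1 : orbit G ω₀ ≠ Set.univ := fun e => htr ((isPretransitive_iff_orbit_eq_univ ω₀).2 e)
    have h2 : (orbit G ω₀).ncard < n := by
      rw [← hc, ← Set.ncard_univ]
      exact Set.ncard_lt_ncard (Set.ssubset_univ_iff.2 h1)
    exact loc ⊤ _ (IH _ h2) (fun a _ ω hω => mem_orbit_of_mem_orbit a hω) g
      (der_anti _ (by omega) hg) ω₀ (mem_orbit_self ω₀)
  by_cases hK : (toPermHom G Ω).ker = ⊤
  · exact triv_iff.2 hK.ge g (Subgroup.mem_top g) ω₀
  obtain ⟨M, hM, hKM, -, hMmin⟩ := exists_chief_above (lt_top_iff_ne_top.2 hK)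
  have hB := (IsBlock.orbit_of_normal (G := G) (N := M) ω₀).ncard_block_mul_ncard_orbit_eq
    ⟨ω₀, mem_orbit_self ω₀⟩
  rw [hc] at hB
  have ha : 2 ≤ (orbit M ω₀).ncard := by
    by_contra h
    have h1 := (Set.ncard_le_one (s := orbit M ω₀)).1 (by omega)
    refine hKM.not_ge (triv_iff.1 fun a ha ω => ?_)
    obtain ⟨t, rfl⟩ := exists_smul_eq G ω₀ ω
    have := h1 _ (mem_orbit ω₀ (⟨_, hM.conj_mem' a ha t⟩ : M)) _ (mem_orbit_self ω₀)
    change (t⁻¹ * a * t) • ω₀ = ω₀ at this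
    rwa [mul_smul, mul_smul, inv_smul_eq_iff] at this
  have hb : 0 < (orbit G (orbit M ω₀)).ncard := (Set.ncard_pos).2 ⟨_, mem_orbit_self _⟩
  by_cases hb1 : (orbit G (orbit M ω₀)).ncard = 1
  · rw [hb1, mul_one] at hB
    have h1 : orbit M ω₀ = Set.univ := (Set.eq_univ_iff_ncard _).2 (hB.trans hc.symm)
    obtain ⟨N, _, _, ⟨A⟩⟩ := aff_of_chief hKM hMmin ω₀ fun ω => by
      obtain ⟨a, e⟩ : ω ∈ orbit M ω₀ := h1 ▸ Set.mem_univ ω
      exact ⟨a, a.2, e⟩
    by_cases h4 : n ≤ 4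
    · have : Finite N := Finite.of_equiv _ A.e
      have h2 : ({0}ᶜ : Set N).ncard = n - 1 := by
        rw [Set.ncard_compl, Set.ncard_singleton, ← Nat.card_congr A.e, hc]
      have h3 := loc (⊤ : Subgroup G) ({0}ᶜ : Set N) (IH _ (by omega))
        fun a _ x hx e => hx ((smul_eq_zero_iff_eq a).1 e)
      have h5 : Triv (der (⊤ : Subgroup G) (min (({0}ᶜ : Set N).ncard - 1) 3)) N := by
        intro a ha x
        by_cases e : x = 0
        · rw [e, smul_zero]
        · exact h3 a ha x e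
      refine aff_step A h5 g ?_ ω₀
      rw [← der_add]
      exact der_anti _ (by omega) hg
    · refine affSqf A ?_ g (der_anti _ (by omega) hg) ω₀
      rw [hc]
      have : 5 ≤ n := by omega
      interval_cases n
      · exact Nat.prime_five.squarefree
      · exact (Nat.squarefree_mul (by norm_num : Nat.Coprime 2 3)).2
          ⟨Nat.prime_two.squarefree, Nat.prime_three.squarefree⟩
      · exact Nat.prime_seven.squarefree
  · have h1 := loc (⊤ : Subgroup G) (orbit G (orbit M ω₀ : Set Ω)) (IH _ (by nlinarith))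
      fun a _ ω hω => mem_orbit_of_mem_orbit a hω
    have h2 := loc (der (⊤ : Subgroup G) (min ((orbit G (orbit M ω₀)).ncard - 1) 3)) (orbit M ω₀)
      (IH _ (by
        have : 2 ≤ (orbit G (orbit M ω₀)).ncard := by omega
        nlinarith)) fun a ha ω hω => by
        rw [← h1 a ha _ (mem_orbit_self _)]
        exact Set.smul_mem_smul_set hω
    refine h2 g ?_ ω₀ (mem_orbit_self _)
    rw [← der_add]
    refine der_anti _ ?_ hg
    generalize (orbit G (orbit M ω₀)).ncard = b at *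
    generalize (orbit M ω₀).ncard = a at *
    subst hB
    have : 2 ≤ b := by omega
    have : a ≤ 3 := by nlinarith
    have : b ≤ 3 := by nlinarith
    interval_cases a <;> interval_cases b <;> omega

theorem psi : PsiStmt.{u} := fun G Ω _ _ _ _ _ h => ps _ h G Ω rfl

/-- an invariant set of at most seven points -/
theorem psi_set {G Ω : Type u} [Group G] [Finite G] [Group.IsSolvable G] [MulAction G Ω] [Finite Ω]
    (X : Subgroup G) (D : Set Ω) (h : D.ncard ≤ 7) (hD : ∀ g ∈ X, ∀ ω ∈ D, g • ω ∈ D) :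
    ∀ g ∈ der X (min (D.ncard - 1) 3), ∀ ω ∈ D, g • ω = ω := loc X D (ps _ h) hD

theorem cols_of {G Ω : Type*} [Group G] [MulAction G Ω] {k : ℕ} (d : Fin k → ℕ)
    (D : Fin k → Finset Ω) (hD : Function.Injective fun j => (D j).card) (s : Fin k → ℕ)
    (hs : ∀ j, s j + 6 ≤ d j)
    (h : ∀ j (X : Subgroup G), (∀ g ∈ X, ∀ ω, g • ω ∈ D j ↔ ω ∈ D j) → Triv (der X (s j)) Ω) :
    Cols G Ω tA d := by
  classical
  have key : ∀ a b : Prop, [Decidable a] → [Decidable b] →
      ((if a then 0 else 1 : Fin 2) = if b then 0 else 1) → (a ↔ b) := by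
    intro a b _ _ e
    by_cases ha : a <;> by_cases hb : b <;> simp_all
  refine ⟨fun j ω => if ω ∈ D j then 0 else 1, fun j j' g e => hD ?_, fun j ω => ⟨s j, ?_, ?_⟩⟩
  · exact Finset.card_equiv (toPerm g) fun ω => (key _ _ (e ω)).symm
  · have : ∀ i, tA i = 6 := by decide
    rw [this]
    exact hs j
  · exact fun g hg => h j (cst G fun ω => if ω ∈ D j then (0 : Fin 2) else 1)
      (fun a ha ω => key _ _ (mem_cst.1 ha ω)) g hg ω

theorem cols_all {G Ω : Type*} [Group G] [MulAction G Ω] [Fintype Ω] {k : ℕ} (d : Fin k → ℕ)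
    (hk : k ≤ Fintype.card Ω + 1) (s : ℕ) (hs : ∀ j, s + 6 ≤ d j)
    (h : Triv (der (⊤ : Subgroup G) s) Ω) : Cols G Ω tA d := by
  have : ∀ j : Fin k, ∃ D : Finset Ω, D.card = j := fun j => by
    obtain ⟨D, -, e⟩ := Finset.exists_subset_card_eq (s := (Finset.univ : Finset Ω)) (n := j)
      (by rw [Finset.card_univ]; omega)
    exact ⟨D, e⟩
  choose D hD using this
  exact cols_of d D (fun i j e => Fin.ext (by simpa [hD] using e)) (fun _ => s) hs
    fun j X _ => h.mono (der_mono le_top s)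

theorem colA : ColAStmt.{u} := by
  classical
  intro G Ω N _ _ _ _ _ _ _ _ A
  have h2 : 2 ≤ Fintype.card Ω := Fintype.one_lt_card
  have hn := Nat.card_eq_fintype_card (α := Ω)
  by_cases h7 : Fintype.card Ω ≤ 7
  · have h := psi G Ω (hn ▸ h7)
    rw [hn] at h
    by_cases e2 : Fintype.card Ω = 2
    · exact .inl (cols_all tB (by omega) 1 (by decide) (h.mono (der_anti _ (by omega))))
    by_cases e3 : Fintype.card Ω = 3
    · exact .inr (.inl (cols_all tC (by omega) 2 (by decide) (h.mono (der_anti _ (by omega)))))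
    · exact .inr (.inr (cols_all tD (by omega) 3 (by decide) (h.mono (der_anti _ (by omega)))))
  refine .inr (.inr ?_)
  by_cases e11 : Fintype.card Ω = 11
  · exact cols_all tD (by omega) 2 (by decide) (affPrime A (by rw [e11]; norm_num))
  obtain ⟨p, hp⟩ := base4 A
  have h4 : (Finset.univ.image p).card ≤ 4 := Finset.card_image_le
  have ex : ∀ m, 4 ≤ m → m ≤ 7 → ∃ D : Finset Ω, D.card = m ∧
      ∀ X : Subgroup G, (∀ g ∈ X, ∀ ω, g • ω ∈ D ↔ ω ∈ D) → Triv (der X 3) Ω := by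
    intro m m4 m7
    obtain ⟨D, d1, -, d2⟩ := Finset.exists_subsuperset_card_eq (n := m)
      (Finset.subset_univ (Finset.univ.image p)) (h4.trans m4) (by rw [Finset.card_univ]; omega)
    refine ⟨D, d2, fun X hX g hg => hp g fun i => ?_⟩
    exact psi_set X (D : Set Ω) (by rw [Set.ncard_coe_finset]; omega)
      (fun a ha ω hω => (hX a ha ω).2 hω) g (der_anti _ (min_le_right _ _) hg) _
      (d1 (Finset.mem_image_of_mem p (Finset.mem_univ i)))
  obtain ⟨D4, a4, b4⟩ := ex 4 (by omega) (by omega)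
  obtain ⟨D5, a5, b5⟩ := ex 5 (by omega) (by omega)
  obtain ⟨D6, a6, b6⟩ := ex 6 (by omega) (by omega)
  obtain ⟨D7, a7, b7⟩ := ex 7 (by omega) (by omega)
  obtain ⟨m, m4, m7, m0⟩ : ∃ m, 4 ≤ m ∧ m ≤ 7 ∧
      (Fintype.card Ω - m < 4 ∨ 7 < Fintype.card Ω - m) := by
    by_cases e : Fintype.card Ω ≤ 10
    · exact ⟨7, by omega, by omega, by omega⟩
    · exact ⟨4, by omega, by omega, by omega⟩
  obtain ⟨D8, a8, b8⟩ := ex m m4 m7
  have a9 : D8ᶜ.card = Fintype.card Ω - m := by rw [Finset.card_compl, a8]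
  refine cols_of tD ![D4, D5, D6, D7, D8ᶜ] (fun i j e => ?_) (fun _ => 3) (by decide)
    fun j X hX => ?_
  · fin_cases i <;> fin_cases j <;> first | rfl | (simp [a4, a5, a6, a7, a9] at e <;> omega)
  · fin_cases j
    · exact b4 X hX
    · exact b5 X hX
    · exact b6 X hX
    · exact b7 X hX
    · exact b8 X fun g hg ω => by simpa using (hX g hg ω).not

end Cfsg.Agent.H28.MwP
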