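import Mathlib
import Cfsg.Agent.H54.O84Defs

/-! The torus `5⁴` of a frame in `E₈(2)`. -/

set_option autoImplicit false
set_option maxRecDepth 100000

namespace Cfsg.Agent.H28.O84T

open Cfsg.Agent.H54.O84 Equiv Cfsg.Lie H37 H40 H34 H29 Multiplicative
open scoped Matrix

theorem exists_root : ∃ ζ : Kˣ, IsPrimitiveRoot ζ 5 := by
  haveI : NeZero ((5 : ℕ) : K) := ⟨by
    rw [Ne, CharP.cast_eq_zero_iff K 2]
    norm_num⟩
  obtain ⟨ζ, h⟩ := HasEnoughRootsOfUnity.exists_primitiveRoot K 5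
  exact ⟨(h.isUnit (by norm_num)).unit, h.isUnit_unit (by norm_num)⟩

theorem pow_val {ζ : Kˣ} (hζ : IsPrimitiveRoot ζ 5) {a : ℤ} {b : ZMod 5} (h : (a : ZMod 5) = b) :
    ζ ^ a = ζ ^ b.val := by
  rw [← zpow_natCast]
  exact (zpow_eq_iff hζ).2 (by rw [h]; simp)

theorem exists_tg {ζ : Kˣ} (hζ : IsPrimitiveRoot ζ 5) (x : V) :
    ∃ c : Ix → Kˣ, ∀ r : Rt, torChar chevE8 c r = ζ ^ (x ⬝ᵥ m r).val := by
  obtain ⟨h, -, c, -, hc⟩ := exists_lab8 (C := C8) hζ (isAdd_of (R := C8.R)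
    (f := fun r => ∑ j : Ix, C8.R.rc r j * ∑ k : Fin 4, ((x k).val : ℤ) * gt mS j k)
    (fun j => ∑ k : Fin 4, ((x k).val : ℤ) * gt mS j k) fun _ => rfl)
  refine ⟨c, fun r => (hc r).trans (pow_val hζ ?_)⟩
  simp only [dotProduct, m]
  push_cast
  simp only [ZMod.natCast_val, ZMod.cast_id', id_eq, Finset.mul_sum]
  rw [Finset.sum_comm]
  exact Finset.sum_congr rfl fun k _ => Finset.sum_congr rfl fun j _ => by ring

theorem tor1 (hR : RhoStmt) : Tor1Stmt := by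
  intro F
  obtain ⟨ζ, hζ⟩ := exists_root
  have add : ∀ a b : ZMod 5, ζ ^ (a + b).val = ζ ^ a.val * ζ ^ b.val := fun a b => by
    rw [← pow_add, ← zpow_natCast ζ (a.val + b.val)]
    exact (pow_val hζ (by simp)).symm
  choose c hc using exists_tg hζ
  have hfix : ∀ x, ∃ g, F.j g = C8.tg K (c x) := fun x => (F.fix _).1 (F.map_tg_iff.2 fun r => by
    rw [hc, hc, m_w, dotProduct_smul, smul_eq_mul, two_mul, add, pow_two])
  choose g hg using hfix
  let a : MV →* G0 := MonoidHom.mk' (fun x => g (toAdd x)) fun x y => F.inj (by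
    rw [map_mul F.j, hg, hg, hg, ← map_mul (C8.tg K), Cert.tg_eq_iff']
    intro r
    rw [Cert.torChar_mul, hc, hc, hc, toAdd_mul, add_dotProduct, add])
  refine ⟨ζ, a, hζ, (injective_iff_map_eq_one a).2 fun x hx => ?_, fun x => ⟨c x, hg x, hc x⟩⟩
  have h1 : C8.tg K (c (toAdd x)) = C8.tg K 1 := by
    rw [← hg, map_one, ← map_one F.j]
    exact congrArg F.j hx
  rw [Cert.tg_eq_iff'] at h1
  refine toAdd.injective (hR.2.2.2.2.2.2.2.1 _ fun r => ?_)
  have h2 := h1 r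
  rw [hc, show torChar chevE8 (1 : Ix → Kˣ) r = 1 by simp [torChar], hζ.pow_eq_one_iff_dvd] at h2
  exact (ZMod.val_eq_zero _).1 (Nat.eq_zero_of_dvd_of_lt h2 (ZMod.val_lt _))

end Cfsg.Agent.H28.O84T
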