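import Mathlib
import Cfsg.Agent.H71.P3Defs

/-!
# Orbits of the symplectic group on pairs of flags, the point of the second flag being
perpendicular to the line of the first one
-/

set_option autoImplicit false

namespace Cfsg.Agent.H28.P3Od

open Module Submodule Cfsg.Agent.H27 Cfsg.Agent.H71.P3

theorem col_of_nf {G A B : Type} [Group G] [MulAction G A] [MulAction G B] {R : A → B → Prop}
    {m : ℕ} (N : Fin (m + 1) → A → B → Prop) (h1 : ∀ a b, R a b → ∃ i, N i a b)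
    (h2 : ∀ i a b a' b', R a b → R a' b' → N i a b → N i a' b' →
      ∃ g : G, g • a = a' ∧ g • b = b') : Col G R (m + 1) := by
  choose! c hc using h1
  exact ⟨c, fun a b a' b' r r' e => h2 _ a b a' b' r r' (hc a b r) (e ▸ hc a' b' r')⟩

variable {F V : Type} [Field F] [AddCommGroup V] [Module F V]

theorem li2 {e f : V} (he : e ≠ 0) (hf : f ∉ F ∙ e) : LinearIndependent F ![f, e] :=
  linearIndependent_finCons.2 ⟨linearIndependent_unique_iff.2 he, by simpa using hf⟩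

theorem li3 {e f y : V} (he : e ≠ 0) (hf : f ∉ F ∙ e) (hy : y ∉ span F {e, f}) :
    LinearIndependent F ![y, f, e] :=
  linearIndependent_finCons.2 ⟨li2 he hf, by simpa [Set.pair_comm f e] using hy⟩

theorem eq_pair [FiniteDimensional F V] {L : Submodule F V} (hL : dm L = 2) {e f : V} (he : e ∈ L)
    (hf : f ∈ L) (h0 : e ≠ 0) (hn : f ∉ F ∙ e) : L = span F {e, f} := by
  have := finrank_span_eq_card (li2 h0 hn)
  rw [show Set.range ![f, e] = {e, f} by simp [Set.pair_comm f e]] at this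
  exact (eq_of_le_of_finrank_eq (span_le.2 (Set.pair_subset he hf)) (this.trans hL.symm)).symm

theorem flag [FiniteDimensional F V] {x L : Submodule F V} (hx : dm x = 1) (hL : dm L = 2)
    (h : x ≤ L) : ∃ e f, e ≠ 0 ∧ x = F ∙ e ∧ e ∈ L ∧ f ∈ L ∧ f ∉ F ∙ e := by
  obtain ⟨e, he, h0⟩ := exists_mem_ne_zero_of_ne_bot (p := x) (by
    rintro rfl
    simp [dm] at hx)
  have e1 : x = F ∙ e := (eq_of_le_of_finrank_eq ((span_singleton_le_iff_mem _ _).2 he)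
    ((finrank_span_singleton h0).trans hx.symm)).symm
  obtain ⟨f, hf, hn⟩ := SetLike.exists_of_lt (lt_of_le_of_finrank_lt_finrank h
    (by rw [show finrank F x = 1 from hx, show finrank F L = 2 from hL]; norm_num))
  exact ⟨e, f, h0, e1, h he, hf, e1 ▸ hn⟩

theorem od : OdStmt := by
  intro F V _ _ _ _ _ S
  have sk := S.alt.neg_eq
  refine col_of_nf (fun i a b => ∃ e f y m : V, a.1.1 = F ∙ e ∧ a.1.2 = span F {e, f} ∧
    b.1.1 = F ∙ y ∧ b.1.2 = span F {y, m} ∧ LinearIndependent F ![y, f, e] ∧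
    (i = 0 ∧ m = e ∨ i = 1 ∧ m = f ∨ 2 ≤ i ∧ m ∉ span F (Set.range ![y, f, e]) ∧
      S.B e m = (if i = 4 then 1 else 0) ∧ S.B f m = if i = 3 then 1 else 0)) ?_ ?_
  · rintro ⟨⟨x, L⟩, hx, ⟨hL, iL⟩, xL⟩ ⟨⟨Y, M⟩, hY, ⟨hM, iM⟩, YM⟩ ⟨r1, r2⟩
    obtain ⟨e, f, e0, rfl, eL, fL, fe⟩ := flag hx hL xL
    obtain ⟨y, m, y0, rfl, yM, mM, my⟩ := flag hY hM YM
    simp only [span_singleton_le_iff_mem] at r1 r2 ⊢
    have li : ∀ f ∈ L, f ∉ F ∙ e → LinearIndependent F ![y, f, e] := fun f h h' =>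
      li3 e0 h' (eq_pair hL eL h e0 h' ▸ r1)
    have np : ∀ u ∈ L, ∀ f ∈ L, ∀ m, S.B u m = 1 → m ∉ span F (Set.range ![y, f, e]) := by
      intro u hu f hf m h hm
      have : span F (Set.range ![y, f, e]) ≤ LinearMap.ker (S.B u) := span_le.2 (by
        rintro _ ⟨i, rfl⟩
        fin_cases i
        exacts [r2 u hu y (mem_span_singleton_self y), iL u hu f hf, iL u hu e eL])
      exact one_ne_zero (h.symm.trans (this hm))
    have sc : ∀ c : F, c ≠ 0 → c⁻¹ • m ∉ F ∙ y := fun c hc h =>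
      my ((smul_mem_iff _ (inv_ne_zero hc)).1 h)
    by_cases c1 : S.B e m ≠ 0
    · have h1 : S.B e ((S.B e m)⁻¹ • m) = 1 := by simp [c1]
      have h2 := sc _ c1
      have h3 := M.smul_mem (S.B e m)⁻¹ mM
      generalize (S.B e m)⁻¹ • m = m at h1 h2 h3
      have h4 := L.sub_mem fL (L.smul_mem (S.B f m) eL)
      have h5 : f - S.B f m • e ∉ F ∙ e := fun h => fe (by
        simpa using add_mem h (smul_mem _ (S.B f m) (mem_span_singleton_self e)))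
      exact ⟨4, e, _, y, m, rfl, eq_pair hL eL h4 e0 h5, rfl, eq_pair hM yM h3 y0 h2, li _ h4 h5,
        Or.inr (Or.inr ⟨by decide, np e eL _ h4 m h1, h1, by simp [h1]⟩)⟩
    rw [not_ne_iff] at c1
    by_cases c2 : S.B f m ≠ 0
    · have h1 : S.B f ((S.B f m)⁻¹ • m) = 1 := by simp [c2]
      exact ⟨3, e, f, y, _, rfl, eq_pair hL eL fL e0 fe, rfl,
        eq_pair hM yM (M.smul_mem _ mM) y0 (sc _ c2), li _ fL fe,
        Or.inr (Or.inr ⟨by decide, np f fL _ fL _ h1, by simp [c1], h1⟩)⟩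
    rw [not_ne_iff] at c2
    by_cases c3 : m ∉ span F (Set.range ![y, f, e])
    · exact ⟨2, e, f, y, m, rfl, eq_pair hL eL fL e0 fe, rfl, eq_pair hM yM mM y0 my, li _ fL fe,
        Or.inr (Or.inr ⟨le_rfl, c3, by simp [c1], by simp [c2]⟩)⟩
    by_cases c4 : e ∈ M
    · refine ⟨0, e, f, y, e, rfl, eq_pair hL eL fL e0 fe, rfl, eq_pair hM yM c4 y0 fun h => ?_,
        li _ fL fe, Or.inl ⟨rfl, rfl⟩⟩
      obtain ⟨c, rfl⟩ := mem_span_singleton.1 h
      exact r1 ((smul_mem_iff _ (left_ne_zero_of_smul e0)).1 eL)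
    rw [not_not, mem_span_range_iff_exists_fun] at c3
    obtain ⟨c, hc⟩ := c3
    simp only [Fin.sum_univ_three, Matrix.cons_val] at hc
    have e1 : c 1 • f + c 2 • e = m - c 0 • y := by rw [← hc]; abel
    have h1 := L.add_mem (L.smul_mem (c 1) fL) (L.smul_mem (c 2) eL)
    have h2 := M.sub_mem mM (M.smul_mem (c 0) yM)
    have h3 : m - c 0 • y ∉ F ∙ y := fun h => my (by
      simpa using add_mem h (smul_mem _ (c 0) (mem_span_singleton_self y)))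
    rw [e1] at h1
    generalize m - c 0 • y = m at h1 h2 h3
    have h4 : m ∉ F ∙ e := fun h => by
      obtain ⟨d, rfl⟩ := mem_span_singleton.1 h
      exact c4 ((smul_mem_iff _ (left_ne_zero_of_smul fun h0 => h3 (h0 ▸ zero_mem _))).1 h2)
    exact ⟨1, e, m, y, m, rfl, eq_pair hL eL h1 e0 h4, rfl, eq_pair hM yM h2 y0 h3, li _ h1 h4,
      Or.inr (Or.inl ⟨rfl, rfl⟩)⟩
  rintro i a b a' b' ⟨-, r⟩ ⟨-, r'⟩ ⟨e, f, y, m, h1, h2, h3, h4, li, h⟩
    ⟨e', f', y', m', h1', h2', h3', h4', li', h'⟩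
  have gr : ∀ {a b : S.Fl} {e f y m : V}, (∀ u ∈ a.1.2, ∀ v ∈ b.1.1, S.B u v = 0) →
      a.1.2 = span F {e, f} → b.1.1 = F ∙ y → b.1.2 = span F {y, m} →
      S.B e f = 0 ∧ S.B e y = 0 ∧ S.B f y = 0 ∧ S.B y m = 0 := fun {a b e f y m} r h2 h3 h4 => by
    have m1 : e ∈ a.1.2 := h2 ▸ subset_span (by simp)
    have m2 : f ∈ a.1.2 := h2 ▸ subset_span (by simp)
    have m3 : y ∈ b.1.1 := h3 ▸ mem_span_singleton_self y
    exact ⟨a.2.2.1.2 e m1 f m2, r e m1 y m3, r f m2 y m3,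
      b.2.2.1.2 y (b.2.2.2 m3) m (h4 ▸ subset_span (by simp))⟩
  obtain ⟨g1, g2, g3, g4⟩ := gr r h2 h3 h4
  obtain ⟨g1', g2', g3', g4'⟩ := gr r' h2' h3' h4'
  suffices ∃ g ∈ S.G, g e = e' ∧ g f = f' ∧ g y = y' ∧ g m = m' by
    obtain ⟨g, hg, k1, k2, k3, k4⟩ := this
    refine ⟨⟨g, hg⟩, Subtype.ext (Prod.ext ?_ ?_), Subtype.ext (Prod.ext ?_ ?_)⟩
    · rw [Sp.Fl_smul1, h1, h1', H71.P3.smul_span, k1]
    · rw [Sp.Fl_smul2, h2, h2', smul_span_pair, k1, k2]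
    · rw [Sp.Fl_smul1, h3, h3', H71.P3.smul_span, k3]
    · rw [Sp.Fl_smul2, h4, h4', smul_span_pair, k3, k4]
  obtain ⟨g, -, hg, k⟩ := witt_family S.nd S.alt ⊤ (fun _ _ => trivial) li li' (fun i j => by
    fin_cases i <;> fin_cases j <;>
      simp [S.alt.self_eq_zero, ← sk e f, ← sk e y, ← sk f y, ← sk e' f', ← sk e' y', ← sk f' y', *])
  rcases h with ⟨rfl, rfl⟩ | ⟨rfl, rfl⟩ | ⟨i2, n, p1, p2⟩
  · rcases h' with ⟨-, rfl⟩ | ⟨c, -⟩ | ⟨c, -⟩
    exacts [⟨g, hg, k 2, k 1, k 0, k 2⟩, absurd c (by decide), absurd c (by decide)]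
  · rcases h' with ⟨c, -⟩ | ⟨-, rfl⟩ | ⟨c, -⟩
    exacts [absurd c (by decide), ⟨g, hg, k 2, k 1, k 0, k 1⟩, absurd c (by decide)]
  rcases h' with ⟨rfl, -⟩ | ⟨rfl, -⟩ | ⟨-, n', p1', p2'⟩
  · exact absurd i2 (by decide)
  · exact absurd i2 (by decide)
  rw [← p1'] at p1
  rw [← p2'] at p2
  clear p1' p2' k
  obtain ⟨g, -, hg, k⟩ := witt_family S.nd S.alt ⊤ (fun _ _ => trivial) (x := ![m, y, f, e])
    (y := ![m', y', f', e']) (linearIndependent_finCons.2 ⟨li, n⟩)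
    (linearIndependent_finCons.2 ⟨li', n'⟩) (fun i j => by
    fin_cases i <;> fin_cases j <;>
      simp [S.alt.self_eq_zero, ← sk e f, ← sk e y, ← sk f y, ← sk e' f', ← sk e' y', ← sk f' y',
        ← sk e m, ← sk f m, ← sk y m, ← sk e' m', ← sk f' m', ← sk y' m', g1, g2, g3, g4, g1', g2',
        g3', g4', p1, p2])
  exact ⟨g, hg, k 3, k 2, k 1, k 0⟩

end Cfsg.Agent.H28.P3Od
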