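import Mathlib
import Cfsg.Agent.H28.Pron

/-!
# Wreathed Sylow 2-subgroups of linear groups and their normalisers
-/

set_option autoImplicit false

namespace Cfsg.Agent.H28.Pron

open Module

variable {K : Type*} [Field K] {V : Type*} [AddCommGroup V] [Module K V]

/-- Scalar transformations. -/
def Sc (g : V ≃ₗ[K] V) : Prop := ∃ c : K, ∀ v, g v = c • v

/-- `-1`. -/
abbrev ng (K V : Type*) [Field K] [AddCommGroup V] [Module K V] : V ≃ₗ[K] V := LinearEquiv.neg K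

theorem eq_one_of_odd {G : Type*} [Group G] {P : Subgroup G} (hP : IsPGroup 2 P) {u : G}
    (hu : u ∈ P) {m : ℕ} (hm : Odd m) (h : u ^ m = 1) : u = 1 := by
  obtain ⟨k, hk⟩ := hP ⟨u, hu⟩
  have hk' : u ^ 2 ^ k = 1 := congrArg Subtype.val hk
  have := pow_gcd_eq_one.2 ⟨h, hk'⟩
  rwa [Nat.Coprime.gcd_eq_one (Nat.Coprime.pow_right _ (Nat.coprime_two_right.2 hm)),
    pow_one] at this

theorem comm_of_odd {G : Type*} [Group G] {g z n : G} {m : ℕ} (hm : Odd m) (h : g ^ m = 1)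
    (hn : n * n = 1) (hng : n * g = g * n) (hz : g * z * g⁻¹ = z ∨ g * z * g⁻¹ = n * z) :
    g * z = z * g := by
  rcases hz with hz | hz
  · exact mul_inv_eq_iff_eq_mul.1 hz
  have h1 : g * z = n * z * g := mul_inv_eq_iff_eq_mul.1 hz
  have h2 : Commute (g * g) z := by
    change g * g * z = z * (g * g)
    rw [mul_assoc, h1, ← mul_assoc, ← mul_assoc, ← hng, mul_assoc n, h1, ← mul_assoc, ← mul_assoc,
      hn, one_mul, mul_assoc]
  obtain ⟨k, rfl⟩ := hm
  have h3 : g = ((g * g) ^ k)⁻¹ := by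
    rw [eq_inv_iff_mul_eq_one, ← h, pow_succ', pow_mul, pow_two]
  rw [h3]
  exact (h2.pow_left k).inv_left

/-- The properties of the Sylow subgroup that are carried through the induction. -/
structure Good (P : Subgroup (V ≃ₗ[K] V)) : Prop where
  two : IsPGroup 2 P
  neg : ng K V ∈ P
  A : ∀ g : V ≃ₗ[K] V, ∀ m, Odd m → g ^ m = 1 → (∀ s ∈ P, g * s * g⁻¹ ∈ P) → Sc g
  I : ∀ x : V ≃ₗ[K] V, x * x = 1 → (∀ s ∈ P, LinearEquiv.det s = 1 → x * s = s * x) →
    x = 1 ∨ x = ng K V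
  ne : ∃ s ∈ P, LinearEquiv.det s = 1 ∧ s ≠ 1 ∧ s ≠ ng K V

/-- Block diagonal transformations. -/
def pr (a b : V ≃ₗ[K] V) : (V × V) ≃ₗ[K] (V × V) := a.prodCongr b

/-- The swap. -/
def sw (K V : Type*) [Field K] [AddCommGroup V] [Module K V] : (V × V) ≃ₗ[K] (V × V) :=
  LinearEquiv.prodComm K V V

@[simp] theorem pr_apply (a b : V ≃ₗ[K] V) (v : V × V) : pr a b v = (a v.1, b v.2) := rfl

@[simp] theorem sw_apply (v : V × V) : sw K V v = (v.2, v.1) := rfl

theorem pr_mul (a b c d : V ≃ₗ[K] V) : pr a b * pr c d = pr (a * c) (b * d) := rfl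

theorem pr_one : pr (1 : V ≃ₗ[K] V) 1 = 1 := rfl

theorem pr_inv (a b : V ≃ₗ[K] V) : (pr a b)⁻¹ = pr a⁻¹ b⁻¹ := rfl

theorem pr_neg : pr (ng K V) (ng K V) = ng K (V × V) := rfl

theorem sw_pr (a b : V ≃ₗ[K] V) : sw K V * pr a b = pr b a * sw K V := rfl

theorem sw_sw : sw K V * sw K V = 1 := rfl

theorem sw_inv : (sw K V)⁻¹ = sw K V := rfl

theorem pr_pow (a b : V ≃ₗ[K] V) (m : ℕ) : pr a b ^ m = pr (a ^ m) (b ^ m) := by
  induction m with
  | zero => rfl
  | succ m ih => rw [pow_succ, ih, pr_mul, pow_succ, pow_succ]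

theorem pr_inj {a b c d : V ≃ₗ[K] V} (h : pr a b = pr c d) : a = c ∧ b = d :=
  ⟨LinearEquiv.ext fun v => congrArg Prod.fst (LinearEquiv.congr_fun h (v, 0)),
    LinearEquiv.ext fun v => congrArg Prod.snd (LinearEquiv.congr_fun h (0, v))⟩

theorem pr_ne_sw [Nontrivial V] (a b c d : V ≃ₗ[K] V) : pr a b ≠ pr c d * sw K V := fun h => by
  obtain ⟨v, hv⟩ := exists_ne (0 : V)
  have := congrArg Prod.fst (LinearEquiv.congr_fun h (v, 0))
  simp [hv] at this

/-- The wreath product with a group of order two. -/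
def wr (P : Subgroup (V ≃ₗ[K] V)) : Subgroup ((V × V) ≃ₗ[K] (V × V)) where
  carrier := {g | ∃ a ∈ P, ∃ b ∈ P, g = pr a b ∨ g = pr a b * sw K V}
  one_mem' := ⟨1, one_mem _, 1, one_mem _, Or.inl rfl⟩
  mul_mem' := by
    rintro _ _ ⟨a, ha, b, hb, rfl | rfl⟩ ⟨c, hc, d, hd, rfl | rfl⟩
    · exact ⟨_, mul_mem ha hc, _, mul_mem hb hd, Or.inl rfl⟩
    · exact ⟨_, mul_mem ha hc, _, mul_mem hb hd, Or.inr rfl⟩
    · exact ⟨_, mul_mem ha hd, _, mul_mem hb hc, Or.inr rfl⟩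
    · exact ⟨_, mul_mem ha hd, _, mul_mem hb hc, Or.inl rfl⟩
  inv_mem' := by
    rintro _ ⟨a, ha, b, hb, rfl | rfl⟩
    · exact ⟨_, inv_mem ha, _, inv_mem hb, Or.inl rfl⟩
    · exact ⟨_, inv_mem hb, _, inv_mem ha, Or.inr rfl⟩

variable {P : Subgroup (V ≃ₗ[K] V)}

theorem pr_mem {a b : V ≃ₗ[K] V} (ha : a ∈ P) (hb : b ∈ P) : pr a b ∈ wr P :=
  ⟨a, ha, b, hb, Or.inl rfl⟩

theorem sw_mem : sw K V ∈ wr P := ⟨1, one_mem _, 1, one_mem _, Or.inr rfl⟩

theorem of_pr_mem [Nontrivial V] {a b : V ≃ₗ[K] V} (h : pr a b ∈ wr P) : a ∈ P ∧ b ∈ P := by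
  obtain ⟨c, hc, d, hd, e | e⟩ := h
  · obtain ⟨rfl, rfl⟩ := pr_inj e
    exact ⟨hc, hd⟩
  · exact absurd e (pr_ne_sw _ _ _ _)

theorem card_wr [Nontrivial V] : Nat.card (wr P) = 2 * (Nat.card P * Nat.card P) := by
  rw [two_mul, ← Nat.card_prod]
  by_cases hf : Finite (P × P)
  swap
  · have : Infinite (P × P) := not_finite_iff_infinite.1 hf
    have : Infinite (wr P) := Infinite.of_injective
      (fun x : P × P => (⟨pr x.1 x.2, pr_mem x.1.2 x.2.2⟩ : wr P)) fun x y h =>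
        Prod.ext (Subtype.ext (pr_inj (congrArg Subtype.val h)).1)
          (Subtype.ext (pr_inj (congrArg Subtype.val h)).2)
    simp
  rw [← Nat.card_sum]
  symm
  refine Nat.card_eq_of_bijective (Sum.elim (fun x => ⟨pr x.1 x.2, pr_mem x.1.2 x.2.2⟩)
    fun x => ⟨pr x.1 x.2 * sw K V, mul_mem (pr_mem x.1.2 x.2.2) sw_mem⟩) ⟨?_, ?_⟩
  · rintro (x | x) (y | y) h <;> replace h := congrArg Subtype.val h
    · exact congrArg _ (Prod.ext (Subtype.ext (pr_inj h).1) (Subtype.ext (pr_inj h).2))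
    · exact absurd h (pr_ne_sw _ _ _ _)
    · exact absurd h.symm (pr_ne_sw _ _ _ _)
    · replace h := mul_right_cancel h
      exact congrArg _ (Prod.ext (Subtype.ext (pr_inj h).1) (Subtype.ext (pr_inj h).2))
  · rintro ⟨_, a, ha, b, hb, rfl | rfl⟩
    · exact ⟨Sum.inl (⟨a, ha⟩, ⟨b, hb⟩), rfl⟩
    · exact ⟨Sum.inr (⟨a, ha⟩, ⟨b, hb⟩), rfl⟩

theorem isPGroup_wr (h : IsPGroup 2 P) : IsPGroup 2 (wr P) := by
  have key : ∀ a ∈ P, ∀ b ∈ P, ∃ k, pr a b ^ 2 ^ k = 1 := fun a ha b hb => by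
    obtain ⟨k, hk⟩ := h ⟨a, ha⟩
    obtain ⟨l, hl⟩ := h ⟨b, hb⟩
    have hk' : a ^ 2 ^ k = 1 := congrArg Subtype.val hk
    have hl' : b ^ 2 ^ l = 1 := congrArg Subtype.val hl
    exact ⟨k + l, by rw [pr_pow, pow_add, pow_mul, hk', mul_comm, pow_mul, hl', one_pow, one_pow,
      pr_one]⟩
  rintro ⟨_, a, ha, b, hb, rfl | rfl⟩
  · obtain ⟨k, hk⟩ := key a ha b hb
    exact ⟨k, Subtype.ext hk⟩
  · obtain ⟨k, hk⟩ := key _ (mul_mem ha hb) _ (mul_mem hb ha)
    refine ⟨k + 1, Subtype.ext ?_⟩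
    change (pr a b * sw K V) ^ 2 ^ (k + 1) = 1
    rw [pow_succ', pow_mul, pow_two]
    exact hk

variable [FiniteDimensional K V]

theorem det_pr (a b : V ≃ₗ[K] V) :
    LinearEquiv.det (pr a b) = LinearEquiv.det a * LinearEquiv.det b := by
  ext
  rw [Units.val_mul, LinearEquiv.coe_det, LinearEquiv.coe_det, LinearEquiv.coe_det,
    ← LinearMap.det_prodMap]
  rfl

theorem det_ng (he : Even (finrank K V)) : LinearEquiv.det (ng K V) = 1 := by
  ext
  rw [LinearEquiv.coe_det, show (ng K V : V →ₗ[K] V) = (-1 : K) • LinearMap.id by ext; simp,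
    LinearMap.det_smul, he.neg_one_pow]
  simp

variable (h2 : (2 : K) ≠ 0)
include h2

theorem det_sw (he : Even (finrank K V)) : LinearEquiv.det (sw K V) = 1 := by
  let c : (V × V) ≃ₗ[K] (V × V) := LinearEquiv.ofLinearMap
    ((LinearMap.fst K V V + LinearMap.snd K V V).prod (LinearMap.fst K V V - LinearMap.snd K V V))
    ((2 : K)⁻¹ • (LinearMap.fst K V V + LinearMap.snd K V V).prod
      (LinearMap.fst K V V - LinearMap.snd K V V))
    (by
      refine LinearMap.ext fun v => Prod.ext ?_ ?_ <;> simp <;>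
        match_scalars <;> field_simp <;> ring)
    (by
      refine LinearMap.ext fun v => Prod.ext ?_ ?_ <;> simp <;>
        match_scalars <;> field_simp <;> ring)
  have : c * sw K V = pr 1 (ng K V) * c := by
    ext v <;> simp [c, add_comm]
  have h := congrArg LinearEquiv.det this
  rw [map_mul, map_mul, det_pr, det_ng he, map_one, one_mul, one_mul] at h
  simpa using h

omit [FiniteDimensional K V] in
theorem eq_zero_of_eq_neg {v : V} (h : v = -v) : v = 0 := by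
  have : (2 : K) • v = 0 := by rw [two_smul]; nth_rewrite 1 [h]; simp
  exact (smul_eq_zero.1 this).resolve_left h2

omit [FiniteDimensional K V] in
theorem one_ne_ng [Nontrivial V] : (1 : V ≃ₗ[K] V) ≠ ng K V := fun h => by
  obtain ⟨v, hv⟩ := exists_ne (0 : V)
  exact hv (eq_zero_of_eq_neg h2 (LinearEquiv.congr_fun h v))

omit [FiniteDimensional K V] in
theorem exists_pr_of_comm {g : (V × V) ≃ₗ[K] (V × V)}
    (h : g * pr 1 (ng K V) = pr 1 (ng K V) * g) : ∃ a b, g = pr a b := by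
  have key : ∀ g : (V × V) ≃ₗ[K] (V × V), g * pr 1 (ng K V) = pr 1 (ng K V) * g →
      (∀ v, (g (v, 0)).2 = 0) ∧ ∀ v, (g (0, v)).1 = 0 := fun g h => by
    refine ⟨fun v => eq_zero_of_eq_neg h2 ?_, fun v => eq_zero_of_eq_neg h2 ?_⟩
    · simpa using congrArg Prod.snd (LinearEquiv.congr_fun h (v, 0))
    · have h1 := congrArg Prod.fst (LinearEquiv.congr_fun h (0, v))
      have h3 : ((0 : V), -v) = -(0, v) := by simp
      simp only [LinearEquiv.mul_apply, pr_apply, LinearEquiv.coe_one, id_eq,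
        LinearEquiv.neg_apply, h3, map_neg, Prod.fst_neg] at h1
      exact h1.symm
  obtain ⟨k1, k2⟩ := key g h
  obtain ⟨k3, k4⟩ := key g⁻¹ (by rw [inv_mul_eq_iff_eq_mul, ← mul_assoc, h, mul_inv_cancel_right])
  have e1 : ∀ v, ((g (v, 0)).1, (0 : V)) = g (v, 0) := fun v => Prod.ext rfl (k1 v).symm
  have e2 : ∀ v, ((0 : V), (g (0, v)).2) = g (0, v) := fun v => Prod.ext (k2 v).symm rfl
  have e3 : ∀ v, ((g⁻¹ (v, 0)).1, (0 : V)) = g⁻¹ (v, 0) := fun v => Prod.ext rfl (k3 v).symm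
  have e4 : ∀ v, ((0 : V), (g⁻¹ (0, v)).2) = g⁻¹ (0, v) := fun v => Prod.ext (k4 v).symm rfl
  refine ⟨LinearEquiv.ofLinearMap (LinearMap.fst K V V ∘ₗ g ∘ₗ LinearMap.inl K V V)
    (LinearMap.fst K V V ∘ₗ (g⁻¹ :) ∘ₗ LinearMap.inl K V V) ?_ ?_,
    LinearEquiv.ofLinearMap (LinearMap.snd K V V ∘ₗ g ∘ₗ LinearMap.inr K V V)
    (LinearMap.snd K V V ∘ₗ (g⁻¹ :) ∘ₗ LinearMap.inr K V V) ?_ ?_, ?_⟩
  · ext v; simp [e3, -LinearEquiv.coe_inv]; simp
  · ext v; simp [e1]
  · ext v; simp [e4, -LinearEquiv.coe_inv]; simp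
  · ext v; simp [e2]
  · refine LinearEquiv.ext fun v => ?_
    have : v = (v.1, 0) + (0, v.2) := by simp
    conv_lhs => rw [this, map_add, ← e1, ← e2]
    simp

variable (hP : Good P) (he : Even (finrank K V)) [Nontrivial V]
include hP he

theorem Good.B (g : (V × V) ≃ₗ[K] (V × V)) (m : ℕ) (hm : Odd m) (hg : g ^ m = 1)
    (hn : ∀ s ∈ wr P, LinearEquiv.det s = 1 → g * s * g⁻¹ ∈ wr P) : Sc g := by
  have hfin : ∀ s ∈ wr P, LinearEquiv.det s = 1 → ∃ s' ∈ wr P, LinearEquiv.det s' = 1 ∧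
      s = g * s' * g⁻¹ := fun s hs hd => by
    have : ∀ k, g ^ k * s * (g ^ k)⁻¹ ∈ wr P := fun k => by
      induction k with
      | zero => simpa using hs
      | succ k ih =>
        have := hn _ ih (by simp [hd])
        rwa [pow_succ', mul_inv_rev, mul_assoc, mul_assoc, ← mul_assoc s, ← mul_assoc (g ^ k),
          ← mul_assoc g, ← mul_assoc (g ^ k)]
    obtain ⟨k, rfl⟩ := hm
    refine ⟨_, this (2 * k), by simp [hd], ?_⟩
    have h1 : g ^ (2 * k) = g⁻¹ := by rw [eq_inv_iff_mul_eq_one, ← pow_succ, hg]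
    rw [h1]
    group
  have hzd : LinearEquiv.det (pr 1 (ng K V)) = 1 := by rw [det_pr, det_ng he, map_one, one_mul]
  have hz : pr 1 (ng K V) ∈ wr P := pr_mem (one_mem _) hP.neg
  have hc : ∀ y : (V × V) ≃ₗ[K] (V × V), ng K (V × V) * y = y * ng K (V × V) := fun y => by
    ext v <;> simp
  have hsz : ∀ s ∈ wr P, s * pr 1 (ng K V) = pr 1 (ng K V) * s ∨
      s * pr 1 (ng K V) = ng K (V × V) * pr 1 (ng K V) * s := by
    rintro _ ⟨a, -, b, -, rfl | rfl⟩
    · left; ext v <;> simp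
    · right; ext v <;> simp
  have hx : ∀ s ∈ wr P, LinearEquiv.det s = 1 →
      s * (g * pr 1 (ng K V) * g⁻¹) = (g * pr 1 (ng K V) * g⁻¹) * s ∨
      s * (g * pr 1 (ng K V) * g⁻¹) = ng K (V × V) * (g * pr 1 (ng K V) * g⁻¹) * s := by
    intro s hs hd
    obtain ⟨s', hs', -, rfl⟩ := hfin s hs hd
    rcases hsz s' hs' with h | h
    · left
      calc _ = g * (s' * pr 1 (ng K V)) * g⁻¹ := by group
        _ = _ := by rw [h]; group
    · right
      calc _ = g * (s' * pr 1 (ng K V)) * g⁻¹ := by group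
        _ = g * ng K (V × V) * pr 1 (ng K V) * s' * g⁻¹ := by rw [h]; group
        _ = _ := by rw [← hc g]; group
  have hxx : (g * pr 1 (ng K V) * g⁻¹) * (g * pr 1 (ng K V) * g⁻¹) = 1 := by
    rw [conj_mul, show pr 1 (ng K V) * pr 1 (ng K V) = 1 by ext v <;> simp]; simp
  have hx1 : g * pr 1 (ng K V) * g⁻¹ ≠ 1 := fun h => by
    rw [conj_eq_one_iff, ← pr_one] at h
    exact one_ne_ng h2 (pr_inj h).2.symm
  have hx2 : g * pr 1 (ng K V) * g⁻¹ ≠ ng K (V × V) := fun h => by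
    rw [mul_inv_eq_iff_eq_mul, hc, mul_left_cancel_iff, ← pr_neg] at h
    exact one_ne_ng h2 (pr_inj h).1
  have hzz : g * pr 1 (ng K V) * g⁻¹ = pr 1 (ng K V) ∨
      g * pr 1 (ng K V) * g⁻¹ = ng K (V × V) * pr 1 (ng K V) := by
    obtain ⟨a, -, b, -, e | e⟩ := hn _ hz hzd <;> rw [e] at hx hxx hx1 hx2 ⊢
    · rw [pr_mul, ← pr_one] at hxx
      have ha : a = 1 ∨ a = ng K V := hP.I a (pr_inj hxx).1 fun s hs hd => by
        rcases hx _ (pr_mem hs (one_mem _)) (by simp [det_pr, hd]) with h | h <;>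
          simp only [← pr_neg, pr_mul] at h
        · exact (pr_inj h).1.symm
        · have := (pr_inj h).2
          rw [one_mul, mul_one, right_eq_mul] at this
          exact absurd this.symm (one_ne_ng h2)
      have hb : b = 1 ∨ b = ng K V := hP.I b (pr_inj hxx).2 fun s hs hd => by
        rcases hx _ (pr_mem (one_mem _) hs) (by simp [det_pr, hd]) with h | h <;>
          simp only [← pr_neg, pr_mul] at h
        · exact (pr_inj h).2.symm
        · have := (pr_inj h).1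
          rw [one_mul, mul_one, right_eq_mul] at this
          exact absurd this.symm (one_ne_ng h2)
      rcases ha with rfl | rfl <;> rcases hb with rfl | rfl
      · exact absurd rfl hx1
      · exact Or.inl rfl
      · right; ext v <;> simp
      · exact absurd rfl hx2
    · obtain ⟨s, hs, hd, h1, h3⟩ := hP.ne
      rcases hx _ (pr_mem hs (one_mem _)) (by simp [det_pr, hd]) with h | h
      · have : s * a = a := LinearEquiv.ext fun v =>
          congrArg Prod.fst (LinearEquiv.congr_fun h (0, v))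
        exact absurd (mul_eq_right.1 this) h1
      · have : s * a = ng K V * a := LinearEquiv.ext fun v =>
          congrArg Prod.fst (LinearEquiv.congr_fun h (0, v))
        exact absurd (mul_right_cancel this) h3
  obtain ⟨a, b, rfl⟩ := exists_pr_of_comm h2
    (comm_of_odd hm hg (by ext v <;> simp) (hc g) hzz)
  rw [pr_pow, ← pr_one] at hg
  obtain ⟨c, hc'⟩ := hP.A a m hm (pr_inj hg).1 fun s hs =>
    (of_pr_mem (b := b * s⁻¹ * b⁻¹) (hn _ (pr_mem hs (inv_mem hs)) (by simp [det_pr]))).1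
  obtain ⟨d, hd'⟩ := hP.A b m hm (pr_inj hg).2 fun s hs =>
    (of_pr_mem (a := a * s⁻¹ * a⁻¹) (hn _ (pr_mem (inv_mem hs) hs) (by simp [det_pr]))).2
  have h3 : a * b⁻¹ ∈ P :=
    (of_pr_mem (b := b * a⁻¹) (mul_mem (hn _ sw_mem (det_sw h2 he)) sw_mem)).1
  have h4 : Commute a b⁻¹ := by
    refine Commute.inv_right (LinearEquiv.ext fun v => ?_)
    simp [hc', hd', smul_smul, mul_comm]
  have h5 := eq_one_of_odd hP.two h3 hm (by
    rw [h4.mul_pow, inv_pow, (pr_inj hg).1, (pr_inj hg).2, inv_one, one_mul])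
  rw [mul_inv_eq_one] at h5
  subst h5
  exact ⟨c, fun v => Prod.ext (hc' _) (hc' _)⟩

theorem Good.wr : Good (wr P) where
  two := isPGroup_wr hP.two
  neg := pr_mem hP.neg hP.neg
  A g m hm hg hn := hP.B h2 he g m hm hg fun s hs _ => hn s hs
  I x hx h := by
    obtain ⟨a, b, rfl⟩ := exists_pr_of_comm h2 (h _ (pr_mem (one_mem _) hP.neg)
      (by rw [det_pr, det_ng he, map_one, one_mul]))
    have hab : a = b := LinearEquiv.ext fun v =>
      congrArg Prod.fst (LinearEquiv.congr_fun (h _ sw_mem (det_sw h2 he)) (0, v))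
    subst hab
    rw [pr_mul, ← pr_one] at hx
    rcases hP.I a (pr_inj hx).1 fun s hs hd =>
      (pr_inj (a := a * s) (b := a * 1) (c := s * a) (d := 1 * a)
      (h _ (pr_mem hs (one_mem _)) (by simp [det_pr, hd]))).1 with rfl | rfl
    · exact Or.inl rfl
    · exact Or.inr rfl
  ne := ⟨_, pr_mem (one_mem _) hP.neg, by rw [det_pr, det_ng he, map_one, one_mul],
    fun h => one_ne_ng h2 (pr_inj (c := 1) (d := 1) h).2.symm,
    fun h => one_ne_ng h2 (pr_inj (c := ng K V) (d := ng K V) h).1⟩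

end Cfsg.Agent.H28.Pron
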