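import Mathlib
import Cfsg.Agent.H28.PronWr

/-!
# Sylow 2-subgroups of two-dimensional linear groups
-/

set_option autoImplicit false

namespace Cfsg.Agent.H28.Pron

open Module

variable {K : Type*} [Field K] {V : Type*} [AddCommGroup V] [Module K V]

variable (K V) in
/-- The group of scalar transformations. -/
def scal : Subgroup (V ≃ₗ[K] V) where
  carrier := {g | Sc g}
  one_mem' := ⟨1, fun v => by simp⟩
  mul_mem' := fun {a b} ⟨c, hc⟩ ⟨d, hd⟩ => ⟨d * c, fun v => by simp [hc, hd, smul_smul, mul_comm]⟩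
  inv_mem' := fun {a} ⟨c, hc⟩ => ⟨c⁻¹, fun v => by
    by_cases h0 : c = 0
    · have : a⁻¹ v = 0 := a.injective (by rw [hc, hc, h0, zero_smul, zero_smul])
      rw [this, h0, inv_zero, zero_smul]
    · apply a.injective
      rw [map_smul, hc v, smul_smul, inv_mul_cancel₀ h0, one_smul]
      exact a.apply_symm_apply v⟩

theorem Sc.comm {g : V ≃ₗ[K] V} (h : Sc g) (s : V ≃ₗ[K] V) : g * s = s * g := by
  obtain ⟨c, hc⟩ := h
  ext v
  simp [hc]

instance : (scal K V).Normal := ⟨fun n hn g => by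
  rw [← Sc.comm hn, mul_inv_cancel_right]; exact hn⟩

theorem isPGroup_zpowers {G : Type*} [Group G] {x : G} {p k : ℕ} (h : x ^ p ^ k = 1) :
    IsPGroup p (Subgroup.zpowers x) := by
  rintro ⟨_, n, rfl⟩
  refine ⟨k, Subtype.ext ?_⟩
  change (x ^ n) ^ p ^ k = 1
  rw [← zpow_natCast, ← zpow_mul, mul_comm, zpow_mul, zpow_natCast, h, one_zpow]

theorem relIndex_mul_card' {G : Type*} [Group G] {P H : Subgroup G} (h : P ≤ H) :
    P.relIndex H * Nat.card P = Nat.card H := by
  rw [← Nat.card_congr (Subgroup.subgroupOfEquivOfLe h).toEquiv, Subgroup.relIndex,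
    Subgroup.index_mul_card]

variable (hV : finrank K V = 2)
include hV

theorem indep {x : V ≃ₗ[K] V} (hx : ¬ Sc x) : ∃ v, (∀ a b : K, a • v + b • x v = 0 → a = 0 ∧ b = 0) ∧
    ∀ w, ∃ a b : K, w = a • v + b • x v := by
  have : FiniteDimensional K V := Module.finite_of_finrank_eq_succ hV
  by_contra! h
  obtain ⟨a, ha⟩ := (x : V →ₗ[K] V).exists_eq_smul_id_of_forall_notLinearIndependent fun v hv => by
    obtain ⟨w, hw⟩ := h v (LinearIndependent.pair_iff.1 hv)
    have := hv.span_eq_top_of_card_eq_finrank (by simp [hV])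
    rw [Matrix.range_cons_cons_empty] at this
    obtain ⟨a, b, e⟩ := Submodule.mem_span_pair.1 (this.ge (Submodule.mem_top (x := w)))
    exact hw a b e.symm
  exact hx ⟨a, fun v => LinearMap.congr_fun ha v⟩

theorem cent {x y : V ≃ₗ[K] V} (hx : ¬ Sc x) (h : y * x = x * y) :
    ∃ a b : K, ∀ v, y v = a • v + b • x v := by
  obtain ⟨v, -, hv⟩ := indep hV hx
  obtain ⟨a, b, e⟩ := hv (y v)
  refine ⟨a, b, fun w => ?_⟩
  obtain ⟨c, d, rfl⟩ := hv w
  have : y (x v) = x (y v) := LinearEquiv.congr_fun h v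
  simp only [map_add, map_smul, this, e]
  module

variable (h2 : (2 : K) ≠ 0)
include h2

theorem sc_of_comm {x s y : V ≃ₗ[K] V} (hs : ∀ v, s (x v) = -x (s v)) (h : y * x = x * y)
    (h' : y * s = s * y) : Sc y := by
  have : Nontrivial V := Module.nontrivial_of_finrank_eq_succ hV
  obtain ⟨v, hv⟩ := exists_ne (0 : V)
  have hx : ¬ Sc x := fun h => by
    have := LinearEquiv.congr_fun (h.comm s) v
    simp only [LinearEquiv.mul_apply, hs] at this
    simpa [hv] using eq_zero_of_eq_neg h2 this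
  obtain ⟨a, b, e⟩ := cent hV hx h
  have h1 := LinearEquiv.congr_fun h' v
  simp only [LinearEquiv.mul_apply, e, map_add, map_smul, hs] at h1
  have h3 : (2 * b) • x (s v) = 0 := by linear_combination (norm := module) h1
  have : b = 0 := by simpa [h2, hv] using h3
  exact ⟨a, fun w => by rw [e, this, zero_smul, add_zero]⟩

theorem exists_good [Finite K] {G : Subgroup (V ≃ₗ[K] V)} {i j : V ≃ₗ[K] V} (hi : i ∈ G)
    (hj : j ∈ G) (hii : i * i = ng K V) (hjj : j * j = ng K V) (hij : ∀ v, j (i v) = -i (j v))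
    (di : LinearEquiv.det i = 1) (dj : LinearEquiv.det j = 1)
    (hc : 8 * Nat.card ↥(G ⊓ scal K V) ∣ Nat.card G) :
    ∃ P ≤ G, Good P ∧ Odd (P.relIndex G) := by
  have : FiniteDimensional K V := Module.finite_of_finrank_eq_succ hV
  have : Nontrivial V := Module.nontrivial_of_finrank_eq_succ hV
  have := Fintype.ofFinite K
  have : Finite (V ≃ₗ[K] V) := H31.finite_linearEquiv
  have hnn : ng K V * ng K V = 1 := by ext; simp
  have h4 : ∀ x : V ≃ₗ[K] V, x * x = ng K V → x ^ 2 ^ 2 = 1 := fun x hx => by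
    rw [show 2 ^ 2 = 2 * 2 from rfl, pow_mul, pow_two, pow_two, hx, hnn]
  have hQ : IsPGroup 2 ↥(Subgroup.zpowers i ⊔ Subgroup.zpowers j) :=
    (isPGroup_zpowers (h4 i hii)).to_sup_of_normal_left' (isPGroup_zpowers (h4 j hjj)) (by
      rw [Subgroup.zpowers_le]
      refine Subgroup.mem_normalizer_fintype ?_
      rintro _ ⟨n, rfl⟩
      have : j * i * j⁻¹ = i ^ 3 := by
        rw [pow_succ, pow_two, hii, mul_inv_eq_iff_eq_mul]
        ext v
        simp [hij]
      rw [← conj_zpow, this]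
      exact zpow_mem (pow_mem (Subgroup.mem_zpowers _) _) _)
  obtain ⟨S, hS⟩ := (hQ.comap_subtype (K := G)).exists_le_sylow
  set P := (S : Subgroup G).map G.subtype with hP
  have hPG : P ≤ G := Subgroup.map_subtype_le _
  have hP2 : IsPGroup 2 P := S.isPGroup'.map _
  have hodd : Odd (P.relIndex G) := by
    rw [Subgroup.relIndex, hP, Subgroup.subgroupOf,
      Subgroup.comap_map_eq_self_of_injective G.subtype_injective, ← Nat.not_even_iff_odd,
      even_iff_two_dvd]
    exact S.not_dvd_index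
  have hiP : i ∈ P := ⟨⟨i, hi⟩, hS (Subgroup.mem_sup_left (Subgroup.mem_zpowers i)), rfl⟩
  have hjP : j ∈ P := ⟨⟨j, hj⟩, hS (Subgroup.mem_sup_right (Subgroup.mem_zpowers j)), rfl⟩
  obtain ⟨v0, hv0⟩ := exists_ne (0 : V)
  have hi1 : ¬ Sc i := fun h => by
    have := LinearEquiv.congr_fun (h.comm j) v0
    simp only [LinearEquiv.mul_apply, hij] at this
    simpa [hv0] using eq_zero_of_eq_neg h2 this
  -- a central involution modulo scalars
  obtain ⟨x, hxP, hx, ⟨l, hl⟩, hxs⟩ : ∃ x ∈ P, ¬ Sc x ∧ Sc (x * x) ∧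
      ∀ s ∈ P, Sc (s * x * s⁻¹ * x⁻¹) := by
    have : Nontrivial (P ⧸ (scal K V).subgroupOf P) :=
      ⟨⟨(⟨i, hiP⟩ : P), 1, fun h => hi1 ((QuotientGroup.eq_one_iff _).1 h)⟩⟩
    have h5 := hP2.to_quotient ((scal K V).subgroupOf P)
    have := h5.center_nontrivial
    obtain ⟨n, hn0, hn⟩ := (h5.to_subgroup (Subgroup.center _)).nontrivial_iff_card.1 this
    obtain ⟨⟨z, hz⟩, hz2⟩ := exists_prime_orderOf_dvd_card' (G := Subgroup.center
      (P ⧸ (scal K V).subgroupOf P)) 2 (hn ▸ dvd_pow_self 2 hn0.ne')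
    obtain ⟨x, rfl⟩ := QuotientGroup.mk_surjective z
    rw [← Subgroup.orderOf_coe] at hz2
    refine ⟨x, x.2, fun h => ?_, ?_, fun s hs => ?_⟩
    · have h6 : (x : P ⧸ (scal K V).subgroupOf P) = 1 := (QuotientGroup.eq_one_iff x).2 h
      simp [h6] at hz2
    · have := pow_orderOf_eq_one (x : P ⧸ (scal K V).subgroupOf P)
      rw [hz2, pow_two] at this
      exact (QuotientGroup.eq_one_iff (x * x)).1 this
    · refine (QuotientGroup.eq_one_iff (N := (scal K V).subgroupOf P)
        (⟨s, hs⟩ * x * (⟨s, hs⟩ : P)⁻¹ * x⁻¹)).1 ?_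
      simp only [QuotientGroup.mk_mul, QuotientGroup.mk_inv]
      rw [Subgroup.mem_center_iff.1 hz]
      group
  replace hl : ∀ v, x (x v) = l • v := hl
  have hl0 : l ≠ 0 := fun h => by simpa [h, hv0] using hl v0
  have hpm : ∀ s ∈ P, s * x = x * s ∨ ∀ v, s (x v) = -x (s v) := fun s hs => by
    obtain ⟨μ, hμ⟩ := hxs s hs
    have h5 : ∀ v, s (x v) = μ • x (s v) := fun v => by simpa using hμ (x (s v))
    have h6 := h5 (x v0)
    rw [hl, h5, map_smul, map_smul, hl, smul_smul, smul_smul] at h6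
    have h7 : (μ * μ - 1) * l = 0 := by
      have := smul_left_injective K (by simpa using hv0 : s v0 ≠ 0) h6
      linear_combination -this
    rcases mul_self_eq_one_iff.1 (sub_eq_zero.1 ((mul_eq_zero.1 h7).resolve_right hl0)) with h | h
    · left; ext v; simp [h5, h]
    · right; intro v; simp [h5, h]
  obtain ⟨s0, hs0, hs0'⟩ : ∃ s ∈ P, ∀ v, s (x v) = -x (s v) := by
    by_contra! h
    exact hx (sc_of_comm hV h2 hij ((hpm i hiP).resolve_right (by simpa using h i hiP)).symm
      ((hpm j hjP).resolve_right (by simpa using h j hjP)).symm)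
  have hsq : ∀ s : V ≃ₗ[K] V, (∀ v, s (x v) = -x (s v)) → Sc (s * s) := fun s hs =>
    sc_of_comm hV h2 hs (by ext v; simp [hs]) (mul_assoc _ _ _)
  obtain ⟨v1, hv1, -⟩ := indep hV hx
  -- an element of order four modulo scalars
  obtain ⟨t, htP, ht⟩ : ∃ t ∈ P, ¬ Sc (t * t) := by
    by_contra! h
    have key : ∀ t ∈ P, t * x = x * t → Sc t ∨ Sc (x⁻¹ * t) := fun t ht hc => by
      obtain ⟨a, b, e⟩ := cent hV hx hc
      obtain ⟨c, hc⟩ := h t ht
      have h5 := hc v1
      simp only [LinearEquiv.mul_apply, e, map_add, map_smul, hl] at h5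
      have h6 := (hv1 (a * a + b * b * l - c) (2 * (a * b))
        (by linear_combination (norm := module) h5)).2
      rcases mul_eq_zero.1 ((mul_eq_zero.1 h6).resolve_left h2) with h7 | h7
      · exact Or.inr ⟨b, fun v => by simp [e, h7]⟩
      · exact Or.inl ⟨a, fun v => by simp [e, h7]⟩
    have h5 : Nat.card P ≤ Nat.card (Fin 4 × ↥(P ⊓ scal K V)) := by
      refine Nat.card_le_card_of_surjective (fun y => ⟨![1, x, s0, s0 * x] y.1 * y.2, mul_mem (by
        obtain ⟨k, y⟩ := y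
        fin_cases k
        exacts [one_mem _, hxP, hs0, mul_mem hs0 hxP]) y.2.2.1⟩) fun s => ?_
      rcases hpm s s.2 with h5 | h5
      · rcases key s s.2 h5 with h6 | h6
        · exact ⟨(0, ⟨s, s.2, h6⟩), Subtype.ext (by simp)⟩
        · exact ⟨(1, ⟨_, P.mul_mem (P.inv_mem hxP) s.2, h6⟩), Subtype.ext (by simp)⟩
      · rcases key _ (mul_mem (inv_mem hs0) s.2) (by
          rw [mul_assoc, inv_mul_eq_iff_eq_mul]
          ext v
          simp [h5, hs0']) with h6 | h6
        · exact ⟨(2, ⟨_, P.mul_mem (P.inv_mem hs0) s.2, h6⟩), Subtype.ext (by simp)⟩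
        · exact ⟨(3, ⟨_, P.mul_mem (P.inv_mem hxP) (P.mul_mem (P.inv_mem hs0) s.2), h6⟩),
            Subtype.ext (by simp [mul_assoc])⟩
    rw [Nat.card_prod, Nat.card_fin] at h5
    have h6 : 8 * Nat.card ↥(P ⊓ scal K V) ∣ P.relIndex G * Nat.card P := by
      rw [relIndex_mul_card' hPG]
      exact (mul_dvd_mul_left 8 (Subgroup.card_dvd_of_le (inf_le_inf_right _ hPG))).trans hc
    obtain ⟨k, hk⟩ := IsPGroup.iff_card.1 (hP2.to_le (inf_le_left : P ⊓ scal K V ≤ P))
    have h7 := Nat.le_of_dvd Nat.card_pos (Nat.Coprime.dvd_of_dvd_mul_left (by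
      rw [hk, show 8 * 2 ^ k = 2 ^ (k + 3) by ring]
      exact Nat.Coprime.pow_left _ (Nat.coprime_two_left.2 hodd)) h6)
    have : 0 < Nat.card ↥(P ⊓ scal K V) := Nat.card_pos
    omega
  refine ⟨P, hPG, ⟨hP2, hii ▸ mul_mem hiP hiP, fun g m hm hg hn => ?_, fun y hy h => ?_,
    i, hiP, di, fun h => hi1 ⟨1, by simp [h]⟩, fun h => hi1 ⟨-1, by simp [h]⟩⟩, hodd⟩
  · have hcm : ∀ t ∈ P, ¬ Sc (t * t) → ∃ a b : K, b ≠ 0 ∧ ∀ v, t v = a • v + b • x v :=
      fun t htP ht => by
        obtain ⟨a, b, e⟩ := cent hV hx ((hpm t htP).resolve_right fun h => ht (hsq t h))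
        refine ⟨a, b, fun h => ht ⟨a * a, fun v => ?_⟩, e⟩
        simp [e, h, smul_smul]
    obtain ⟨a, b, hb, e⟩ := hcm t htP ht
    obtain ⟨a', b', hb', e'⟩ := hcm _ (hn t htP) fun h => ht (by
      rw [conj_mul] at h
      have := (inferInstance : (scal K V).Normal).conj_mem _ h g⁻¹
      exact (show t * t ∈ scal K V by simpa [mul_assoc] using this))
    have h5 : ∀ v, g (x v) = ((a' - a) / b) • g v + (b' / b) • x (g v) := fun v => by
      have := e' (g v)
      simp only [LinearEquiv.mul_apply, LinearEquiv.coe_inv, LinearEquiv.symm_apply_apply, e,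
        map_add, map_smul] at this
      apply smul_right_injective V hb
      simp only [smul_add, smul_smul, mul_div_cancel₀ _ hb]
      linear_combination (norm := module) this
    have h6 := h5 (x (g⁻¹ v1))
    rw [hl, h5] at h6
    simp only [LinearEquiv.coe_inv, LinearEquiv.apply_symm_apply, map_add, map_smul, hl] at h6
    have hβ : b' / b ≠ 0 := div_ne_zero hb' hb
    generalize (a' - a) / b = α at h5 h6
    generalize b' / b = β at h5 h6 hβ
    obtain ⟨h7, h8⟩ := hv1 (α * α + β * β * l - l) (2 * β * α)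
      (by linear_combination (norm := module) -h6)
    have h9 : α = 0 := (mul_eq_zero.1 h8).resolve_left (mul_ne_zero h2 hβ)
    have h10 : β * β = 1 := mul_right_cancel₀ hl0 (by rw [h9] at h7; linear_combination h7)
    have hgx : g * x = x * g := comm_of_odd hm hg hnn (Sc.comm ⟨-1, by simp⟩ g) (by
      rcases mul_self_eq_one_iff.1 h10 with h | h
      · left; ext v; simp [h5, h, h9]
      · right; ext v; simp [h5, h, h9])
    obtain ⟨c, d, e1⟩ := cent hV hx hgx
    have h11 : Commute g (s0 * g⁻¹ * s0⁻¹) := by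
      rw [show s0 * g⁻¹ * s0⁻¹ = (s0 * g * s0⁻¹)⁻¹ by group]
      refine Commute.inv_right (LinearEquiv.ext fun v => ?_)
      simp only [LinearEquiv.mul_apply, e1, map_add, map_smul, hs0', LinearEquiv.coe_inv,
        LinearEquiv.apply_symm_apply, map_neg]
    have h12 := eq_one_of_odd hP2 (mul_mem (hn s0 hs0) (inv_mem hs0)) hm (by
      rw [show g * s0 * g⁻¹ * s0⁻¹ = g * (s0 * g⁻¹ * s0⁻¹) by group, h11.mul_pow, conj_pow,
        inv_pow, hg]
      simp)
    exact sc_of_comm hV h2 hs0' hgx (by rwa [mul_inv_eq_one, mul_inv_eq_iff_eq_mul] at h12)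
  · obtain ⟨c, hc⟩ := sc_of_comm hV h2 hij (h i hiP di) (h j hjP dj)
    have h5 := LinearEquiv.congr_fun hy v0
    simp only [LinearEquiv.mul_apply, hc, smul_smul, LinearEquiv.coe_one, id_eq] at h5
    have h6 : c * c = 1 := smul_left_injective K hv0 (h5.trans (one_smul K v0).symm)
    rcases mul_self_eq_one_iff.1 h6 with h | h
    · left; ext v; simp [hc, h]
    · right; ext v; simp [hc, h]

end Cfsg.Agent.H28.Pron
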