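import Mathlib
import Cfsg.Agent.H28.Pron
import Cfsg.Agent.H29.Dickson
import Cfsg.Agent.H29.Klein
import Cfsg.Agent.S2431

/-!
# Subgroups of odd index of `PSL₂(q)` are pronormal
-/

set_option autoImplicit false

namespace Cfsg.Agent.H28.Pron

open H29 H89 MulAction
open scoped MatrixGroups

theorem AllP.simple {p : ℕ} {G : Type*} [Group G] [IsSimpleGroup G] (h : AllP p G) (H : Subgroup G)
    (hH : ¬ p ∣ H.index) : IsPronormal H := by
  rcases (inferInstance : (Subgroup.center G).Normal).eq_bot_or_eq_top with e | e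
  · exact h H hH (e ▸ bot_le)
  · refine fun g => ⟨1, one_mem _, ?_⟩
    rw [conj_one]
    ext y
    rw [mem_conj_iff, mul_assoc, Subgroup.mem_center_iff.1 (e.ge (Subgroup.mem_top g)),
      inv_mul_cancel_left]

variable {F : Type*} [Field F] [Finite F] (hodd : Odd (Nat.card F))
include hodd

omit hodd in
theorem IsTorus.mem_of_odd {T D : Subgroup PGL(2, F)} (h : IsTorus T D) {g : PGL(2, F)}
    (hg : g ∈ D) {m : ℕ} (hm : Odd m) (e : g ^ m = 1) : g ∈ T := by
  by_contra h'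
  have h1 := h.invol hg h'
  obtain ⟨k, rfl⟩ := hm
  rw [pow_succ, pow_mul, pow_two, h1, one_pow, one_mul] at e
  exact h' (e ▸ one_mem _)

theorem exists_torus_of_odd {a b : PGL(2, F)} (h : KPair a b) {O : Subgroup PGL(2, F)}
    (hO : Odd (Nat.card O)) (ha : ∀ x ∈ O, a * x * a⁻¹ ∈ O) (hb : ∀ x ∈ O, b * x * b⁻¹ ∈ O) :
    ∃ T D : Subgroup PGL(2, F), IsTorus T D ∧ O ≤ T := by
  have := Fintype.ofFinite F
  obtain ⟨p, hc⟩ := CharP.exists F
  have hp : Fact p.Prime := ⟨CharP.char_is_prime F p⟩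
  have h2 : (2 : F) ≠ 0 := odd_card_iff.1 hodd
  have key : ∀ n : ℕ, Nat.card O = 2 * n → False := fun n e => by
    rw [e] at hO
    exact Nat.not_odd_iff_even.2 (even_two_mul n) hO
  have hA5 : Nonempty (O ≃* alternatingGroup (Fin 5)) → False := fun ⟨e⟩ => key 30 (by
    rw [Nat.card_congr e.toEquiv, nat_card_alternatingGroup]; simp [Nat.factorial])
  rcases dickson p O with ⟨x, hx⟩ | ⟨T, D, hT, -, hD⟩ | ⟨-, ⟨⟨e⟩⟩ | ⟨⟨e⟩⟩ | e⟩ | ⟨-, e⟩ |
    ⟨c, k, hk, e⟩
  · have hs : ∀ s : PGL(2, F), s * s = 1 → (∀ x ∈ O, s * x * s⁻¹ ∈ O) → s • x ≠ x →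
        ∃ T D : Subgroup PGL(2, F), IsTorus T D ∧ O ≤ T := fun s hs hn hsx => by
      obtain ⟨T, D, hT, hT', -⟩ := exists_isSplitTorus hsx.symm
      refine ⟨T, D, Or.inl hT, fun o ho => (hT' o).2 ⟨hx ho, ?_⟩⟩
      have h1 : (s * o * s⁻¹) • x = x := hx (hn o ho)
      rw [inv_eq_of_mul_eq_one_right hs, mul_smul, mul_smul] at h1
      have h3 := congrArg (s • ·) h1
      simpa only [← mul_smul s s, hs, one_smul] using h3
    by_cases hax : a • x = x
    swap
    · exact hs a h.aa ha hax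
    by_cases hbx : b • x = x
    swap
    · exact hs b h.bb hb hbx
    obtain ⟨-, y, hy, hay⟩ := exists_fix_of_not_mem_uni hax fun hu => by
      rcases (uni_pow_eq_one_iff hu 2).1 (by rw [pow_two, h.aa]) with h1 | h1
      · exact h.a1 h1
      · exact h2 (by exact_mod_cast h1)
    obtain ⟨T, D, hT, hT', -⟩ := exists_isSplitTorus hy.symm
    refine absurd ((hT' b).2 ⟨hbx, ?_⟩) (h.mem_D (Or.inl hT) ((hT' a).2 ⟨hax, hay⟩)).2
    refine (fix_eq_or_eq h.a1 hy.symm hax hay (z := b • y) ?_).resolve_left fun e => hy ?_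
    · rw [← mul_smul, h.comm, mul_smul, hay]
    · exact MulAction.injective b (e.trans hbx.symm)
  · exact ⟨T, D, hT, fun o ho => IsTorus.mem_of_odd hT (hD ho) hO
      (congrArg Subtype.val (pow_card_eq_one' (x := (⟨o, ho⟩ : O))))⟩
  · exact (key 6 (by
      rw [Nat.card_congr e.toEquiv, nat_card_alternatingGroup]; simp [Nat.factorial])).elim
  · exact (key 12 (by rw [Nat.card_congr e.toEquiv, Nat.card_perm]; simp [Nat.factorial])).elim
  · exact (hA5 e).elim
  · exact (hA5 e).elim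
  · have hk' : Odd (Nat.card k) := odd_card_iff.2 fun h => h2 (congrArg k.subtype h)
    have h3 := card_L_of_odd hk'
    have h4 := card_PGL2 (F := k)
    obtain ⟨r, hr⟩ := hk'
    rw [hr, Nat.add_sub_cancel] at h3 h4
    rcases e with e | e <;> replace e := congrArg (fun X : Subgroup PGL(2, F) => Nat.card X) e <;>
      simp only [H29.card_map_conj] at e
    · exact (key ((2 * r + 1 + 1) * ((2 * r + 1) * r)) (by rw [e, card_PGLsub, h4]; ring)).elim
    · refine (key ((r + 1) * ((2 * r + 1) * r)) ?_).elim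
      rw [e, card_PSLsub]
      linarith

theorem allP_L (h8 : Nat.card F % 8 = 3 ∨ Nat.card F % 8 = 5) : AllP 2 (Lsub F) := by
  have := finite_PGL2 (F := F)
  have : Fact (Nat.Prime 2) := ⟨Nat.prime_two⟩
  obtain ⟨a, b, h, ha, hb⟩ := exists_kpair_L hodd
  have hle : klein a b ≤ Lsub F := klein_le_iff.2 ⟨ha, hb⟩
  have hc : Nat.card ((klein a b).subgroupOf (Lsub F)) = 4 := by
    rw [Nat.card_congr (Subgroup.subgroupOfEquivOfLe hle).toEquiv, h.card]
  have hP : IsPGroup 2 ((klein a b).subgroupOf (Lsub F)) := IsPGroup.of_card (n := 2) hc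
  have hi : ¬ 2 ∣ ((klein a b).subgroupOf (Lsub F)).index := by
    rintro ⟨r, hr⟩
    have h1 := ((klein a b).subgroupOf (Lsub F)).index_mul_card
    have h3 := card_L_of_odd hodd
    rw [← h1, hc, hr] at h3
    generalize Nat.card F = q at h3 h8
    obtain ⟨s, rfl | rfl⟩ : ∃ s, q = 8 * s + 3 ∨ q = 8 * s + 5 := ⟨q / 8, by omega⟩
    · have : (8 * s + 3 + 1) * ((8 * s + 3) * (8 * s + 3 - 1)) =
        16 * (32 * s ^ 3 + 36 * s ^ 2 + 13 * s + 1) + 8 := by
        rw [show 8 * s + 3 - 1 = 8 * s + 2 from rfl]; ring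
      omega
    · have : (8 * s + 5 + 1) * ((8 * s + 5) * (8 * s + 5 - 1)) =
        16 * (32 * s ^ 3 + 60 * s ^ 2 + 37 * s + 7) + 8 := by
        rw [show 8 * s + 5 - 1 = 8 * s + 4 from rfl]; ring
      omega
  set S := hP.toSylow hi with hS
  have hSm : ∀ x : Lsub F, x ∈ (S : Subgroup (Lsub F)) ↔ (x : PGL(2, F)) ∈ klein a b :=
    fun x => Iff.rfl
  have hN : Nat.card (Subgroup.normalizer (S : Set (Lsub F))) ∣ 12 := by
    rw [← h.card_normalizer_inf_L hodd ha hb (by rw [h.normalizer_le_L_iff hodd ha hb]; omega),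
      ← Subgroup.card_map_of_injective (Lsub F).subtype_injective]
    refine Subgroup.card_dvd_of_le ?_
    rintro _ ⟨x, hx, rfl⟩
    exact ⟨Subgroup.mem_normalizer_fintype fun y hy => (hx ⟨y, hle hy⟩).1 hy, x.2⟩
  refine allP_of S fun H hH _ g hg => ?_
  set L := H ⊔ H.map (MulAut.conj g).toMonoidHom with hL
  by_cases hgL : g ∈ L
  · exact ⟨g, hgL, rfl⟩
  refine ⟨1, one_mem _, ?_⟩
  rw [conj_one, conj_eq_self_iff]
  have hSL : (S : Subgroup (Lsub F)) ≤ L := hH.trans le_sup_left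
  have hNL : Subgroup.normalizer (S : Set (Lsub F)) ⊓ L ≤ S := by
    have h1 : (S : Subgroup (Lsub F)) ≤ Subgroup.normalizer (S : Set (Lsub F)) ⊓ L :=
      le_inf Subgroup.le_normalizer hSL
    have h2 := Subgroup.card_dvd_of_le h1
    have h3 := Subgroup.card_dvd_of_le
      (inf_le_left : Subgroup.normalizer (S : Set (Lsub F)) ⊓ L ≤ _)
    have h4 : Nat.card ↥(Subgroup.normalizer (S : Set (Lsub F)) ⊓ L) <
        Nat.card (Subgroup.normalizer (S : Set (Lsub F))) :=
      lt_of_le_of_ne (Nat.le_of_dvd Nat.card_pos h3) fun e =>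
        hgL ((Subgroup.eq_of_le_of_card_ge inf_le_left e.ge).ge hg).2
    have h5 : Nat.card (S : Subgroup (Lsub F)) = 4 := hc
    refine (Subgroup.eq_of_le_of_card_ge h1 ?_).ge
    have h6 := Nat.le_of_dvd (by norm_num) hN
    have h7 := h3.trans hN
    rw [h5] at h2 ⊢
    generalize Nat.card ↥(Subgroup.normalizer (S : Set (Lsub F)) ⊓ L) = n at h2 h4 h7
    obtain rfl | h9 : n = 8 ∨ n ≤ 4 := by omega
    · omega
    · exact h9
  have hB : Subgroup.normalizer ((S.subtype hSL : Subgroup L) : Set L) ≤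
      Subgroup.centralizer ((S.subtype hSL : Subgroup L) : Set L) := fun x hx y hy => by
    have : (x : Lsub F) ∈ (S : Subgroup (Lsub F)) :=
      hNL ⟨Subgroup.mem_normalizer_fintype fun z hz => (hx ⟨z, hSL hz⟩).1 hz, x.2⟩
    exact Subtype.ext (Subtype.ext (h.klein_comm hy this))
  have hcomp := MonoidHom.ker_transferSylow_isComplement' _ hB
  have hodd' := MonoidHom.not_dvd_card_ker_transferSylow _ hB
  have hnor : (MonoidHom.transferSylow _ hB).ker.Normal := inferInstance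
  generalize (MonoidHom.transferSylow _ hB).ker = O at hcomp hodd' hnor
  have hinj : Function.Injective ((Lsub F).subtype.comp L.subtype) :=
    (Lsub F).subtype_injective.comp L.subtype_injective
  have hO : Odd (Nat.card O) := by rwa [← Nat.not_even_iff_odd, even_iff_two_dvd]
  have hn : ∀ l : L, ∀ x ∈ O.map ((Lsub F).subtype.comp L.subtype),
      ((l : Lsub F) : PGL(2, F)) * x * ((l : Lsub F) : PGL(2, F))⁻¹ ∈
        O.map ((Lsub F).subtype.comp L.subtype) := by
    rintro l _ ⟨x, hx, rfl⟩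
    exact ⟨_, hnor.conj_mem x hx l, rfl⟩
  obtain ⟨T, D, hT, hOT⟩ := exists_torus_of_odd hodd h
    (O := O.map ((Lsub F).subtype.comp L.subtype)) (by rwa [Subgroup.card_map_of_injective hinj])
    (hn ⟨⟨a, ha⟩, hSL (left_mem_klein a b)⟩) (hn ⟨⟨b, hb⟩, hSL (right_mem_klein a b)⟩)
  refine Subgroup.mem_normalizer_fintype fun x hx => ?_
  obtain ⟨⟨o, s⟩, e⟩ := hcomp.2 ⟨x, le_sup_left (a := H) hx⟩
  have e' : x = (o : L) * (s : L) := (congrArg Subtype.val e).symm
  have hs : ((s : L) : Lsub F) ∈ (S : Subgroup (Lsub F)) := s.2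
  have hoH : ((o : L) : Lsub F) ∈ H := by
    have := mul_mem hx (inv_mem (hH hs))
    rwa [e', mul_inv_cancel_right] at this
  rw [e', ← _root_.conj_mul]
  refine mul_mem ?_ (hH ((hg _).1 hs))
  by_cases ho : (((o : L) : Lsub F) : PGL(2, F)) = 1
  · rw [show ((o : L) : Lsub F) = 1 from Subtype.ext ho]
    simp
  have hoO : (((o : L) : Lsub F) : PGL(2, F)) ∈ O.map ((Lsub F).subtype.comp L.subtype) :=
    ⟨o, o.2, rfl⟩
  have hD := hT.normalizer_eq hOT fun e => ho (Subgroup.mem_bot.1 (e ▸ hoO))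
  have h1 : ((g * (o : L) * g⁻¹ : Lsub F) : PGL(2, F)) ∈ D :=
    hD ▸ Subgroup.mem_normalizer_fintype
      (hn ⟨_, le_sup_right (a := H) (conj_mem_conj g hoH)⟩)
  have h2 := IsTorus.mem_of_odd hT h1 hO (by
    have : (o : L) ^ Nat.card O = 1 := congrArg Subtype.val (pow_card_eq_one' (x := o))
    rw [← Subgroup.coe_pow, conj_pow, ← Subgroup.coe_pow, this]
    simp)
  rcases hT.conj_mem (hT.ti (hOT hoO) ho h2) (hOT hoO) with e | e
  · rw [show g * (o : L) * g⁻¹ = (o : L) from Subtype.ext e]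
    exact hoH
  · rw [show g * (o : L) * g⁻¹ = ((o : L) : Lsub F)⁻¹ from Subtype.ext e]
    exact inv_mem hoH

theorem pron_PSL2 [IsSimpleGroup PSL(2, F)] (H : Subgroup PSL(2, F)) (hH : ¬ 2 ∣ H.index) :
    IsPronormal H := by
  have : Fact (Nat.Prime 2) := ⟨Nat.prime_two⟩
  have := Fintype.ofFinite F
  by_cases h8 : Nat.card F % 8 = 3 ∨ Nat.card F % 8 = 5
  · exact ((allP_L hodd h8).equiv (pslEquiv F).symm).simple H hH
  obtain ⟨S⟩ : Nonempty (Sylow 2 SL(2, F)) := inferInstance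
  refine (allP_of_normalizer S fun K hK _ => ?_).quot H hH
  obtain ⟨r, hr⟩ := hodd
  rw [Nat.card_eq_fintype_card] at hr h8
  exact ((S2431.result ⟨r, hr⟩ S).2.1 (by omega)).le.trans (hK.trans Subgroup.le_normalizer)

end Cfsg.Agent.H28.Pron
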