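import Mathlib
import Cfsg.Agent.H28.PronBase
import Cfsg.Agent.H77.ElusSub
import Cfsg.Agent.S0542

/-!
# Subgroups of odd index in `SL` and `SU` in dimension a power of two
-/

set_option autoImplicit false

namespace Cfsg.Agent.H28.Pron

open Module H31 Matrix
open scoped MatrixGroups

universe u

section arith

/-- Equality up to odd factors. -/
def E2 (a b : ℤ) : Prop := ∃ u v : ℤ, Odd u ∧ Odd v ∧ u * a = v * b

theorem E2.refl (a : ℤ) : E2 a a := ⟨1, 1, odd_one, odd_one, rfl⟩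

theorem E2.symm {a b : ℤ} (h : E2 a b) : E2 b a :=
  let ⟨u, v, hu, hv, e⟩ := h
  ⟨v, u, hv, hu, e.symm⟩

theorem E2.trans {a b c : ℤ} (h : E2 a b) (h' : E2 b c) : E2 a c :=
  let ⟨u, v, hu, hv, e⟩ := h
  let ⟨u', v', hu', hv', e'⟩ := h'
  ⟨u' * u, v * v', hu'.mul hu, hv.mul hv', by linear_combination u' * e + v * e'⟩

theorem E2.mul {a b c d : ℤ} (h : E2 a b) (h' : E2 c d) : E2 (a * c) (b * d) :=
  let ⟨u, v, hu, hv, e⟩ := h
  let ⟨u', v', hu', hv', e'⟩ := h'
  ⟨u * u', v * v', hu.mul hu', hv.mul hv', by linear_combination u' * c * e + v * b * e'⟩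

theorem E2.prod {s : Finset ℕ} {f g : ℕ → ℤ} (h : ∀ i ∈ s, E2 (f i) (g i)) :
    E2 (∏ i ∈ s, f i) (∏ i ∈ s, g i) := by
  induction s using Finset.induction_on with
  | empty => exact E2.refl _
  | insert a s ha ih =>
    rw [Finset.prod_insert ha, Finset.prod_insert ha]
    exact (h a (Finset.mem_insert_self _ _)).mul (ih fun i hi => h i (Finset.mem_insert_of_mem hi))

theorem e2_odd_mul {u : ℤ} (hu : Odd u) (a : ℤ) : E2 (u * a) a := ⟨1, u, odd_one, hu, one_mul _⟩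

theorem e2_pow {x : ℤ} (hx : Odd x) {j : ℕ} (hj : Odd j) : E2 (x ^ j - 1) (x - 1) := by
  rw [← geom_sum_mul]
  refine e2_odd_mul ?_ _
  obtain ⟨k, rfl⟩ := hj
  induction k with
  | zero => simp
  | succ k ih =>
    rw [show 2 * (k + 1) + 1 = 2 * k + 1 + 1 + 1 by ring, Finset.sum_range_succ,
      Finset.sum_range_succ, add_assoc]
    exact ih.add_even (hx.pow.add_odd hx.pow)

/-- The part of the order of a linear or unitary group that matters. -/
def NN (Q : ℤ) (n : ℕ) : ℤ := ∏ i ∈ Finset.range n, (Q ^ (i + 1) - 1)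

theorem NN_two_mul {Q : ℤ} (hQ : Odd Q) (k : ℕ) :
    E2 (NN Q (2 ^ (k + 1) + 2 ^ (k + 1))) (2 * (NN Q (2 ^ (k + 1)) * NN Q (2 ^ (k + 1)))) := by
  rw [NN, Finset.prod_range_add, ← NN, mul_left_comm]
  refine (E2.refl _).mul ?_
  obtain ⟨m, hm⟩ : ∃ m, 2 ^ (k + 1) = m + 1 := ⟨_, (Nat.succ_pred_eq_of_pos (by positivity)).symm⟩
  rw [NN]
  nth_rewrite 1 [hm]
  nth_rewrite 2 [hm]
  rw [Finset.prod_range_succ, Finset.prod_range_succ, mul_left_comm]
  refine (E2.prod fun i hi => ?_).mul ?_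
  · obtain ⟨s, j, hj, e⟩ := Nat.exists_eq_two_pow_mul_odd (n := i + 1) (by omega)
    have hs : s < k + 1 := by
      by_contra! h
      have := Nat.le_of_dvd (by omega) ((pow_dvd_pow 2 h).trans (e ▸ dvd_mul_right _ _ : _ ∣ i + 1))
      have := Finset.mem_range.1 hi
      omega
    obtain ⟨t, ht⟩ := Nat.exists_eq_add_of_lt hs
    have e2 : 2 ^ (k + 1) + i + 1 = 2 ^ s * (2 * 2 ^ t + j) := by rw [add_assoc, e, ht]; ring
    rw [e2, e, pow_mul, pow_mul]
    exact (e2_pow hQ.pow ((even_two_mul _).add_odd hj)).trans (e2_pow hQ.pow hj).symm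
  · rw [add_assoc, ← hm, pow_add Q, pow_succ 2, pow_mul]
    obtain ⟨r, hr⟩ := hQ.pow (n := 2 ^ k)
    rw [hr]
    exact ⟨1, 2 * (r * r + r) + 1, odd_one, odd_two_mul_add_one _, by ring⟩

theorem odd_of_e2 {r c : ℕ} (hc : 0 < c) (h : E2 (r * c) c) : Odd r := by
  obtain ⟨u, v, -, hv, e⟩ := h
  rw [← mul_assoc] at e
  rw [← mul_right_cancel₀ (by omega) e] at hv
  exact (Int.odd_coe_nat r).1 (Int.odd_mul.1 hv).2

end arith

theorem allP_of_B {K : Type*} [Field K] {V : Type*} [AddCommGroup V] [Module K V]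
    [Finite (V ≃ₗ[K] V)] {G P : Subgroup (V ≃ₗ[K] V)} (hPG : P ≤ G) (hP : IsPGroup 2 P)
    (hi : Odd (P.relIndex G)) (hB : ∀ (g : V ≃ₗ[K] V) (m : ℕ), Odd m → g ^ m = 1 →
      (∀ s ∈ P, LinearEquiv.det s = 1 → g * s * g⁻¹ ∈ P) → Sc g) :
    AllP 2 ↥(G ⊓ (LinearEquiv.det : (V ≃ₗ[K] V) →* Kˣ).ker) := by
  have : Fact (Nat.Prime 2) := ⟨Nat.prime_two⟩
  refine AllP.equiv ?_ (Subgroup.subgroupOfEquivOfLe (inf_le_left : _ ≤ G))
  rw [Subgroup.inf_subgroupOf_left]
  obtain ⟨S, hS⟩ := S0542.result 2 ((LinearEquiv.det : (V ≃ₗ[K] V) →* Kˣ).ker.subgroupOf G)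
    (Subgroup.Normal.isSubnormal inferInstance) ((hP.comap_subtype (K := G)).toSylow (by
      rwa [← Nat.not_even_iff_odd, even_iff_two_dvd] at hi))
  have hSm : ∀ x : (LinearEquiv.det : (V ≃ₗ[K] V) →* Kˣ).ker.subgroupOf G,
      x ∈ S.toSubgroup ↔ x.1.1 ∈ P := fun x => by rw [hS]; rfl
  refine allP_of_normalizer S fun H h1 h2 g hg => Subgroup.le_normalizer ?_
  obtain ⟨k, m, hm, e⟩ := Nat.exists_eq_two_pow_mul_odd (orderOf_pos g).ne'
  have h3 : g ^ m ∈ H := by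
    have h4 : IsPGroup 2 (Subgroup.zpowers (g ^ m)) := isPGroup_zpowers (k := k) (by
      rw [← pow_mul, mul_comm, ← e, pow_orderOf_eq_one])
    exact h1 ((h4.inf_normalizer_sylow S).le ⟨Subgroup.mem_zpowers _, pow_mem hg _⟩).2
  have h4 : g ^ 2 ^ k ∈ H := by
    have := hB (g ^ 2 ^ k).1.1 m hm (by
      rw [← Subgroup.coe_pow, ← Subgroup.coe_pow, ← pow_mul, ← e, pow_orderOf_eq_one]; rfl)
      fun s hs hd => (hSm _).1 ((pow_mem hg (2 ^ k) ⟨⟨s, hPG hs⟩, hd⟩).1 ((hSm _).2 hs))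
    exact h2 (Subgroup.mem_center_iff.2 fun x => Subtype.ext (Subtype.ext (this.comm _).symm))
  have h5 := Nat.gcd_eq_gcd_ab m (2 ^ k)
  rw [Nat.Coprime.gcd_eq_one (Nat.Coprime.pow_right _ (Nat.coprime_two_right.2 hm))] at h5
  have := mul_mem (zpow_mem h3 (Nat.gcdA m (2 ^ k))) (zpow_mem h4 (Nat.gcdB m (2 ^ k)))
  rwa [← zpow_natCast, ← zpow_natCast, ← _root_.zpow_mul, ← _root_.zpow_mul, ← _root_.zpow_add, ← h5, Nat.cast_one,
    _root_.zpow_one] at this

variable {K : Type u} [Field K] {σ : K →+* K}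

/-- The orthogonal sum of two copies of a form. -/
def dbl {V : Type*} [AddCommGroup V] [Module K V] (B : V →ₛₗ[σ] V →ₗ[K] K) :
    (V × V) →ₛₗ[σ] (V × V) →ₗ[K] K :=
  (B.compl₂ (LinearMap.fst K V V)).comp (LinearMap.fst K V V) +
    (B.compl₂ (LinearMap.snd K V V)).comp (LinearMap.snd K V V)

theorem dbl_apply {V : Type*} [AddCommGroup V] [Module K V] (B : V →ₛₗ[σ] V →ₗ[K] K)
    (x y : V × V) : dbl B x y = B x.1 y.1 + B x.2 y.2 := rfl

theorem wr_le {V : Type*} [AddCommGroup V] [Module K V] {B : V →ₛₗ[σ] V →ₗ[K] K}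
    {P : Subgroup (V ≃ₗ[K] V)} (h : P ≤ isom B) : wr P ≤ isom (dbl B) := by
  rintro _ ⟨a, ha, b, hb, rfl | rfl⟩ x y
  · simp [dbl_apply, h ha _ _, h hb _ _]
  · simp [dbl_apply, h ha _ _, h hb _ _, add_comm]

theorem main [Fintype K] (h2 : (2 : K) ≠ 0) {Q : ℤ} (hQ : Odd Q)
    (Fam : ∀ (V : Type u) [AddCommGroup V] [Module K V], (V →ₛₗ[σ] V →ₗ[K] K) → Prop)
    (hd : ∀ (V : Type u) [AddCommGroup V] [Module K V] (B : V →ₛₗ[σ] V →ₗ[K] K),
      Fam V B → Fam (V × V) (dbl B))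
    (hc : ∀ (V : Type u) [AddCommGroup V] [Module K V] [FiniteDimensional K V]
      (B : V →ₛₗ[σ] V →ₗ[K] K), Fam V B → E2 (Nat.card (isom B)) (NN Q (finrank K V)))
    (B0 : (Fin 2 → K) →ₛₗ[σ] (Fin 2 → K) →ₗ[K] K) (h0 : Fam _ B0)
    (hb : ∃ P ≤ isom B0, Good P ∧ Odd (P.relIndex (isom B0))) (k : ℕ) :
    ∃ (V : Type u) (_ : AddCommGroup V) (_ : Module K V) (_ : FiniteDimensional K V)
      (B : V →ₛₗ[σ] V →ₗ[K] K), Fam V B ∧ finrank K V = 2 ^ (k + 1) ∧
      (∃ P ≤ isom B, Good P ∧ Odd (P.relIndex (isom B))) ∧ (k ≠ 0 → AllP 2 (sisom B)) := by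
  induction k with
  | zero => exact ⟨_, _, _, inferInstance, B0, h0, by simp, hb, fun h => absurd rfl h⟩
  | succ k ih =>
    obtain ⟨V, _, _, _, B, hB, hV, ⟨P, hP, hG, hi⟩, -⟩ := ih
    have : Nontrivial V := Module.nontrivial_of_finrank_pos (R := K) (by rw [hV]; positivity)
    have he : Even (finrank K V) := by rw [hV, pow_succ]; simp
    have : Finite (V ≃ₗ[K] V) := finite_linearEquiv
    have : Finite ((V × V) ≃ₗ[K] (V × V)) := finite_linearEquiv
    have hi' : Odd ((wr P).relIndex (isom (dbl B))) := by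
      refine odd_of_e2 (c := Nat.card (wr P)) Nat.card_pos ?_
      rw [← Nat.cast_mul, relIndex_mul_card' (wr_le hP), card_wr]
      have h3 : E2 (NN Q (2 ^ (k + 1))) (Nat.card P) := by
        have := (hc V B hB).symm
        rw [← relIndex_mul_card' hP, hV, Nat.cast_mul] at this
        exact this.trans (e2_odd_mul ((Int.odd_coe_nat _).2 hi) _)
      have := hc _ _ (hd V B hB)
      rw [finrank_prod, hV] at this
      push_cast
      exact (this.trans (NN_two_mul hQ k)).trans ((E2.refl 2).mul (h3.mul h3))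
    exact ⟨V × V, _, _, inferInstance, dbl B, hd V B hB, by rw [finrank_prod, hV]; ring,
      ⟨_, wr_le hP, hG.wr h2 he, hi'⟩,
      fun _ => allP_of_B (wr_le hP) (isPGroup_wr hG.two) hi' (hG.B h2 he)⟩

theorem exists_base [Fintype K] (h2 : (2 : K) ≠ 0) (B : (Fin 2 → K) →ₛₗ[σ] (Fin 2 → K) →ₗ[K] K)
    (hB : ∀ g : SL(2, K), (∀ i j, σ (g i j) = g i j) → SpecialLinearGroup.toLin' g ∈ isom B)
    (hc : 8 * Nat.card ↥(isom B ⊓ scal K (Fin 2 → K)) ∣ Nat.card (isom B)) :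
    ∃ P ≤ isom B, Good P ∧ Odd (P.relIndex (isom B)) := by
  obtain ⟨p, hp⟩ := CharP.exists K
  have : NeZero p := ⟨(CharP.char_is_prime K p).ne_zero⟩
  obtain ⟨a, b, hab⟩ := CharP.sq_add_sq K p (-1)
  have hdet : ∀ g : SL(2, K), LinearEquiv.det (SpecialLinearGroup.toLin' g) = 1 := fun g => by
    ext
    rw [LinearEquiv.coe_det, SpecialLinearGroup.toLin'_to_linearMap, LinearMap.det_toLin', g.2]
    rfl
  have hap : ∀ (g : SL(2, K)) v, SpecialLinearGroup.toLin' g v = g.1 *ᵥ v := fun _ _ => rfl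
  push_cast at hab
  obtain ⟨I, hI⟩ : ∃ g : SL(2, K), g.1 = !![0, -1; 1, 0] := ⟨⟨_, by simp [det_fin_two]⟩, rfl⟩
  obtain ⟨J, hJ⟩ : ∃ g : SL(2, K), g.1 = !![(a : K), b; b, -a] :=
    ⟨⟨_, by simp [det_fin_two]; linear_combination -hab⟩, rfl⟩
  refine exists_good (by simp) h2 (hB I fun i j => ?_) (hB J fun i j => ?_)
    ?_ ?_ (fun v => ?_) (hdet _) (hdet _) hc
  · fin_cases i <;> fin_cases j <;> simp [hI, hJ]
  · fin_cases i <;> fin_cases j <;> simp [hI, hJ]
  · refine LinearEquiv.ext fun v => funext fun i => ?_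
    fin_cases i <;> simp [hap, hI, hJ, mulVec, dotProduct, Fin.sum_univ_two]
  · refine LinearEquiv.ext fun v => funext fun i => ?_
    fin_cases i <;> simp [hap, hI, hJ, mulVec, dotProduct, Fin.sum_univ_two]
    · linear_combination v 0 * hab
    · linear_combination v 1 * hab
  · refine funext fun i => ?_
    fin_cases i <;> simp [hap, hI, hJ, mulVec, dotProduct, Fin.sum_univ_two] <;>
      ring

theorem card_inf_scal {V : Type*} [AddCommGroup V] [Module K V] [Nontrivial V]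
    (G : Subgroup (V ≃ₗ[K] V)) (p : K → Prop) (h0 : ¬ p 0)
    (h : ∀ (c : K) (g : V ≃ₗ[K] V), (∀ v, g v = c • v) → (g ∈ G ↔ p c)) :
    Nat.card ↥(G ⊓ scal K V) = Nat.card {c // p c} := by
  obtain ⟨v, hv⟩ := exists_ne (0 : V)
  symm
  refine Nat.card_eq_of_bijective (fun c => ⟨LinearEquiv.smulOfNeZero K V c.1
    (fun e => h0 (e ▸ c.2)), (h c.1 _ fun _ => rfl).2 c.2, c.1, fun _ => rfl⟩) ⟨fun c d e => ?_, ?_⟩
  · exact Subtype.ext (smul_left_injective K hv (LinearEquiv.congr_fun (congrArg Subtype.val e) v))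
  · rintro ⟨g, hg, c, hc⟩
    exact ⟨⟨c, (h c g hc).1 hg⟩, Subtype.ext (LinearEquiv.ext fun v => (hc v).symm)⟩

theorem eight_dvd {q : ℕ} (hq : Odd q) : 8 ∣ q ^ 2 - 1 := by
  obtain ⟨r, rfl⟩ := hq
  obtain ⟨s, hs⟩ := Nat.even_mul_succ_self r
  exact ⟨s, by
    rw [show (2 * r + 1) ^ 2 = 4 * (r * (r + 1)) + 1 by ring, hs]; omega⟩

theorem allP_SL_odd [Fintype K] (hodd : Odd (Fintype.card K)) (k : ℕ) :
    AllP 2 SL(2 ^ (k + 2), K) := by
  classical
  have h2 : (2 : K) ≠ 0 := fun h => by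
    have := FiniteField.even_card_of_char_two (F := K)
      (CharP.ringChar_of_prime_eq_zero Nat.prime_two (by exact_mod_cast h))
    obtain ⟨r, hr⟩ := hodd
    omega
  have hcard : ∀ (V : Type u) [AddCommGroup V] [Module K V] [FiniteDimensional K V],
      Nat.card (isom (0 : V →ₛₗ[RingHom.id K] V →ₗ[K] K)) = Nat.card (GL (Fin (finrank K V)) K) :=
    fun V _ _ _ => by
      rw [show isom (0 : V →ₛₗ[RingHom.id K] V →ₗ[K] K) = ⊤ from eq_top_iff.2 fun _ _ _ _ => rfl,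
        Subgroup.card_top, Nat.card_congr (H31.glEquiv _ K).toEquiv,
        Nat.card_congr (autCongr (finBasis K V).equivFun).toEquiv]
  obtain ⟨V, _, _, _, B, rfl, hV, -, h⟩ := main (σ := RingHom.id K) h2
    ((Int.odd_coe_nat _).2 hodd) (fun V _ _ B => B = 0)
    (fun V _ _ B h => by subst h; ext <;> simp [dbl_apply])
    (fun V _ _ _ B h => by
      subst h
      obtain ⟨e, he⟩ := H77.card_GL_int (F := K) (finrank K V)
      rw [hcard, he]
      exact e2_odd_mul ((Int.odd_coe_nat _).2 hodd).pow _) 0 rfl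
    (exists_base h2 _ (fun _ _ _ _ => rfl) (by
      rw [card_inf_scal (isom 0) (· ≠ 0) (by simp) fun c g hg => ⟨fun _ h => by
        simpa [h] using hg (Pi.single 0 1), fun _ _ _ => rfl⟩, hcard, finrank_fin_fun,
        Matrix.card_GL_field, Fin.prod_univ_two, Nat.card_eq_fintype_card, Fintype.card_subtype_compl,
        Fintype.card_subtype_eq]
      refine mul_dvd_mul (eight_dvd hodd) ⟨Fintype.card K, ?_⟩
      simp [Nat.sub_mul, pow_two])) (k + 1)
  have e := (finBasisOfFinrankEq K V hV).equivFun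
  refine ((h k.succ_ne_zero).equiv (sisomCongr (B' := 0) e fun _ _ => rfl)).equiv
    (H26.slEquivKerDet.trans (subgroupEquivOfIff (H31.glEquiv _ K) fun g => ?_)).symm
  rw [mem_sisom, det_glEquiv]
  exact ⟨fun h => h.2, fun h => ⟨fun _ _ => rfl, h⟩⟩

theorem ordGU_e2 {q : ℕ} (hq : Odd q) (n : ℕ) : E2 (ordGU q n) (NN (-q) n) := by
  rw [ordGU, Nat.cast_mul, Nat.cast_pow, Nat.cast_prod]
  refine (e2_odd_mul ((Int.odd_coe_nat _).2 hq).pow _).trans (E2.prod fun i _ => ?_)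
  split_ifs with h
  · rw [h.add_one.neg_pow]
    exact ⟨1, -1, odd_one, odd_neg_one, by push_cast; ring⟩
  · rw [(Nat.even_add_one.2 h).neg_pow, Nat.cast_sub (Nat.one_le_pow _ _ hq.pos)]
    push_cast
    exact E2.refl _

theorem allP_SU_odd [Fintype K] {q : ℕ} (hF : Fintype.card K = q ^ 2) (hodd : Odd q) (k : ℕ) :
    AllP 2 (SU (2 ^ (k + 2)) K q) := by
  classical
  have h2 : (2 : K) ≠ 0 := fun h => by
    have := FiniteField.even_card_of_char_two (F := K)
      (CharP.ringChar_of_prime_eq_zero Nat.prime_two (by exact_mod_cast h))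
    obtain ⟨r, hr⟩ := hodd.pow (n := 2)
    omega
  have hσ := isInvol_frobQ hF
  obtain ⟨δ, hδ, hδ'⟩ := hσ.exists_skew
  let B0 : (Fin 2 → K) →ₛₗ[frobQ hF] (Fin 2 → K) →ₗ[K] K :=
    δ • (stdB (frobQ hF) (Fin 2)).compl₂ (Matrix.toLin' !![0, 1; -1, 0])
  have hB0 : ∀ x y, B0 x y = δ * (frobQ hF (x 0) * y 1 - frobQ hF (x 1) * y 0) := fun x y => by
    simp [B0, stdB_apply, Fin.sum_univ_two, mulVec, dotProduct, sub_eq_add_neg]
  have hH : IsHerm B0 := by
    refine ⟨⟨hσ, fun x y => ?_⟩, fun x hx => funext fun i => ?_⟩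
    · simp only [hB0, map_mul, map_sub, hδ', hσ.invol]
      ring
    · fin_cases i
      · simpa [hB0, hδ, -frobQ_apply] using hx ![0, 1]
      · simpa [hB0, hδ, -frobQ_apply] using hx ![1, 0]
  obtain ⟨V, _, _, _, B, hB, hV, -, h⟩ := main (σ := frobQ hF) h2
    ((Int.odd_coe_nat _).2 hodd).neg (fun V _ _ B => IsHerm B)
    (fun V _ _ B h => ⟨⟨hσ, fun x y => by simp only [dbl_apply, map_add, h.symm]⟩, fun x hx =>
      Prod.ext (h.nondeg _ fun y => by simpa [dbl_apply] using hx (y, 0))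
        (h.nondeg _ fun y => by simpa [dbl_apply] using hx (0, y))⟩)
    (fun V _ _ _ B h => by
      rw [h.card_isom hF fun _ => rfl]
      exact ordGU_e2 hodd _) B0 hH
    (exists_base h2 _ (fun g hg x y => by
      have := g.det_coe
      rw [det_fin_two] at this
      simp only [hB0, SpecialLinearGroup.toLin'_apply, toLin'_apply, mulVec, dotProduct,
        Fin.sum_univ_two, map_add, map_mul, hg]
      linear_combination δ * (frobQ hF (x 0) * y 1 - frobQ hF (x 1) * y 0) * this) (by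
      rw [card_inf_scal _ (fun c => c * frobQ hF c = 1) (by simp) fun c g hg => ⟨fun h => by
        have := h ![1, 0] ![0, 1]
        rw [hg, hg, smul_left, smul_right, hB0] at this
        simp only [cons_val_zero, cons_val_one, map_one, map_zero] at this
        exact mul_left_cancel₀ hδ (by linear_combination this), mem_isom_of_smul hg⟩,
        card_norm_eq hF (fun _ => rfl) one_ne_zero (map_one _), hH.card_isom hF fun _ => rfl,
        finrank_fin_fun, ordGU]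
      simp only [Finset.prod_range_succ, Finset.prod_range_zero, Even.zero, if_true, Nat.not_even_one,
        if_false, one_mul, zero_add, pow_one]
      rw [mul_comm (q + 1)]
      exact (mul_dvd_mul_right (eight_dvd hodd) _).mul_left _)) (k + 1)
  obtain ⟨e⟩ := hB.nonempty_sisom_equiv_SU hF (fun _ => rfl) hV
  exact (h k.succ_ne_zero).equiv e

end Cfsg.Agent.H28.Pron
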