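import Mathlib

/-!
# `Sp_{2m}(F)` as the unitary group of `ℍ[F]^m`: rank one operators, `Q₈`-reflections
-/

set_option autoImplicit false

namespace Cfsg.Agent.H28.Ps

open Matrix Quaternion

variable {F : Type*} [Field F]

/-- the quaternion `i` -/
def qi : ℍ[F] := ⟨0, 1, 0, 0⟩
/-- the quaternion `j` -/
def qj : ℍ[F] := ⟨0, 0, 1, 0⟩
/-- the quaternion `k` -/
def qk : ℍ[F] := ⟨0, 0, 0, 1⟩

@[simp] theorem qi_re : (qi : ℍ[F]).re = 0 := rfl
@[simp] theorem qi_imI : (qi : ℍ[F]).imI = 1 := rfl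
@[simp] theorem qi_imJ : (qi : ℍ[F]).imJ = 0 := rfl
@[simp] theorem qi_imK : (qi : ℍ[F]).imK = 0 := rfl
@[simp] theorem qj_re : (qj : ℍ[F]).re = 0 := rfl
@[simp] theorem qj_imI : (qj : ℍ[F]).imI = 0 := rfl
@[simp] theorem qj_imJ : (qj : ℍ[F]).imJ = 1 := rfl
@[simp] theorem qj_imK : (qj : ℍ[F]).imK = 0 := rfl
@[simp] theorem qk_re : (qk : ℍ[F]).re = 0 := rfl
@[simp] theorem qk_imI : (qk : ℍ[F]).imI = 0 := rfl
@[simp] theorem qk_imJ : (qk : ℍ[F]).imJ = 0 := rfl
@[simp] theorem qk_imK : (qk : ℍ[F]).imK = 1 := rfl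

@[simp] theorem two_re : (2 : ℍ[F]).re = 2 := rfl
@[simp] theorem two_imI : (2 : ℍ[F]).imI = 0 := rfl
@[simp] theorem two_imJ : (2 : ℍ[F]).imJ = 0 := rfl
@[simp] theorem two_imK : (2 : ℍ[F]).imK = 0 := rfl

/-- membership in `Q₈` -/
def inQ (x : ℍ[F]) : Prop :=
  x = 1 ∨ x = -1 ∨ x = qi ∨ x = -qi ∨ x = qj ∨ x = -qj ∨ x = qk ∨ x = -qk

theorem inQ.mul {x y : ℍ[F]} (hx : inQ x) (hy : inQ y) : inQ (x * y) := by
  rcases hx with rfl | rfl | rfl | rfl | rfl | rfl | rfl | rfl <;>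
  rcases hy with rfl | rfl | rfl | rfl | rfl | rfl | rfl | rfl <;>
  simp [inQ, Quaternion.ext_iff]

theorem inQ.star {x : ℍ[F]} (hx : inQ x) : inQ (star x) := by
  rcases hx with rfl | rfl | rfl | rfl | rfl | rfl | rfl | rfl <;>
  simp [inQ, Quaternion.ext_iff]

theorem inQ.normSq {x : ℍ[F]} (hx : inQ x) : normSq x = 1 := by
  rcases hx with rfl | rfl | rfl | rfl | rfl | rfl | rfl | rfl <;>
  simp [normSq_def']

theorem inQ_one : inQ (1 : ℍ[F]) := Or.inl rfl
theorem inQ_neg_one : inQ (-1 : ℍ[F]) := Or.inr (Or.inl rfl)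
theorem inQ_i : inQ (qi : ℍ[F]) := by simp [inQ]
theorem inQ_j : inQ (qj : ℍ[F]) := by simp [inQ]
theorem inQ_k : inQ (qk : ℍ[F]) := by simp [inQ]
theorem inQ.neg {x : ℍ[F]} (hx : inQ x) : inQ (-x) := by simpa using inQ_neg_one.mul hx

theorem inQ.re {x : ℍ[F]} (hx : inQ x) : x = 1 ∨ x = -1 ∨ x.re = 0 := by
  rcases hx with rfl | rfl | rfl | rfl | rfl | rfl | rfl | rfl <;> simp

theorem mul_star_of {x : ℍ[F]} (h : normSq x = 1) : x * star x = 1 := by
  rw [self_mul_star, h, coe_one]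

theorem star_mul_of {x : ℍ[F]} (h : normSq x = 1) : star x * x = 1 := by
  rw [star_mul_self, h, coe_one]

/-- pure nilpotent quaternions -/
def PN (n : ℍ[F]) : Prop := n.re = 0 ∧ normSq n = 0

theorem star_pure {n : ℍ[F]} (h : n.re = 0) : star n = -n := by ext <;> simp [h]

theorem PN.mul_mul {n : ℍ[F]} (h : PN n) (a : ℍ[F]) : n * a * n = (2 * (n * a).re) • n := by
  have h1 : n * a * n = (n * a + star (n * a)) * n - star a * (star n * n) := by
    rw [star_mul]; noncomm_ring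
  rw [h1, self_add_star', star_mul_self, h.2, coe_zero, mul_zero, sub_zero, coe_mul_eq_smul]

theorem PN.sq {n : ℍ[F]} (h : PN n) : n * n = 0 := by
  simpa [h.1] using h.mul_mul 1

theorem PN.conj {n : ℍ[F]} (h : PN n) (a : ℍ[F]) : PN (a * n * star a) :=
  ⟨by simp [h.1]; ring, by simp [h.2]⟩

theorem PN.mul_eq_zero (h2 : (2 : F) ≠ 0) {n a : ℍ[F]} (h : PN n) (ha : a * n * star a = 0) :
    a * n = 0 := by
  by_contra hne
  have key : ∀ c, (n * star a * c).re = 0 := fun c => by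
    have h1 : a * (n * (star a * c) * n) = 0 := by
      rw [show a * (n * (star a * c) * n) = a * n * star a * (c * n) by noncomm_ring, ha, zero_mul]
    rw [h.mul_mul, mul_smul_comm, smul_eq_zero, ← mul_assoc] at h1
    simpa [h2] using h1.resolve_right hne
  have h3 : n * star a = 0 := by
    have k1 := key 1
    have k2 := key qi
    have k3 := key qj
    have k4 := key qk
    generalize n * star a = y at k1 k2 k3 k4
    ext <;> simp at k1 k2 k3 k4 ⊢ <;> assumption
  have h4 := congrArg star h3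
  rw [star_mul, star_star, star_pure h.1, star_zero, mul_neg, neg_eq_zero] at h4
  exact hne h4

theorem QL1 (h2 : (2 : F) ≠ 0) {n : ℍ[F]} (h : PN n) (hn : n ≠ 0)
    (hq : ∀ x, inQ x → inQ ((1 + 2 * n) * (1 - 2 * (x * n * star x)))) :
    ∃ ε : F, (ε = 1 ∨ ε = -1) ∧ 1 + 2 * ε * (2 * (n * qi).re) = 0 := by
  have h0 : n.imI ^ 2 + n.imJ ^ 2 + n.imK ^ 2 = 0 := by simpa [normSq_def', h.1] using h.2
  have hb : 8 * n.imI ^ 2 = 0 ∨ 8 * n.imI ^ 2 = -1 := by
    rcases (hq _ inQ_i).re with h1 | h1 | h1 <;>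
      simp [Quaternion.ext_iff, h.1] at h1 <;> grind
  have hc : 8 * n.imJ ^ 2 = 0 ∨ 8 * n.imJ ^ 2 = -1 := by
    rcases (hq _ inQ_j).re with h1 | h1 | h1 <;>
      simp [Quaternion.ext_iff, h.1] at h1 <;> grind
  have hd : 8 * n.imK ^ 2 = 0 ∨ 8 * n.imK ^ 2 = -1 := by
    rcases (hq _ inQ_k).re with h1 | h1 | h1 <;>
      simp [Quaternion.ext_iff, h.1] at h1 <;> grind
  have h8 : (8 : F) ≠ 0 := by rw [show (8 : F) = 2 ^ 3 by norm_num]; exact pow_ne_zero _ h2
  have hne : ¬ (8 * n.imI ^ 2 = 0 ∧ 8 * n.imJ ^ 2 = 0 ∧ 8 * n.imK ^ 2 = 0) := fun ⟨h1, h3, h4⟩ =>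
    hn (Quaternion.ext _ _ h.1 (by simpa [h8] using h1) (by simpa [h8] using h3)
      (by simpa [h8] using h4))
  have h3 : (3 : F) = 0 ∧ 8 * n.imI ^ 2 = -1 := by grind
  refine ⟨n.imI, by grind, ?_⟩
  simp
  grind

variable {I : Type*}

/-- right scalar multiple -/
def rs (v : I → ℍ[F]) (a : ℍ[F]) : I → ℍ[F] := fun l => v l * a

/-- rank one operators -/
def op (v : I → ℍ[F]) (a : ℍ[F]) (w : I → ℍ[F]) : Matrix I I ℍ[F] :=
  of fun i j => v i * a * star (w j)

theorem op_add (v w : I → ℍ[F]) (a b : ℍ[F]) : op v (a + b) w = op v a w + op v b w := by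
  ext i j : 1; simp [op, mul_add, add_mul]

theorem op_zero (v w : I → ℍ[F]) : op v 0 w = 0 := by
  ext i j : 1; simp [op]

theorem op_rs_left (v w : I → ℍ[F]) (s a : ℍ[F]) : op (rs v s) a w = op v (s * a) w := by
  ext i j : 1; simp [op, rs, mul_assoc]

theorem op_rs_right (v w : I → ℍ[F]) (s a : ℍ[F]) : op v a (rs w s) = op v (a * star s) w := by
  ext i j : 1; simp [op, rs, mul_assoc]

theorem op_add_left (v v' w : I → ℍ[F]) (a : ℍ[F]) : op (v + v') a w = op v a w + op v' a w := by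
  ext i j : 1; simp [op, add_mul]

theorem op_add_right (v w w' : I → ℍ[F]) (a : ℍ[F]) : op v a (w + w') = op v a w + op v a w' := by
  ext i j : 1; simp [op, mul_add]

theorem star_op (v w : I → ℍ[F]) (a : ℍ[F]) : star (op v a w) = op w (star a) v := by
  ext i j : 1; simp [op, mul_assoc, star_apply]

theorem rs_rs (v : I → ℍ[F]) (a b : ℍ[F]) : rs (rs v a) b = rs v (a * b) := by
  funext l; simp [rs, mul_assoc]

theorem rs_one (v : I → ℍ[F]) : rs v 1 = v := by funext l; simp [rs]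

variable [Fintype I]

/-- the Hermitian form -/
def ip (v w : I → ℍ[F]) : ℍ[F] := ∑ l, star (v l) * w l

theorem star_ip (v w : I → ℍ[F]) : star (ip v w) = ip w v := by simp [ip, star_sum]

theorem ip_self (v : I → ℍ[F]) : ip v v = ((∑ l, normSq (v l) : F) : ℍ[F]) := by
  simp only [ip, star_mul_self]
  exact (map_sum (algebraMap F ℍ[F]) _ _).symm

theorem ip_rs_left (v w : I → ℍ[F]) (s : ℍ[F]) : ip (rs v s) w = star s * ip v w := by
  simp [ip, rs, Finset.mul_sum, mul_assoc]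

theorem ip_rs_right (v w : I → ℍ[F]) (s : ℍ[F]) : ip v (rs w s) = ip v w * s := by
  simp [ip, rs, Finset.sum_mul, mul_assoc]

theorem ip_sub_left (v v' w : I → ℍ[F]) : ip (v - v') w = ip v w - ip v' w := by
  simp [ip, sub_mul, Finset.sum_sub_distrib]

theorem ip_sub_right (v w w' : I → ℍ[F]) : ip v (w - w') = ip v w - ip v w' := by
  simp [ip, mul_sub, Finset.sum_sub_distrib]

theorem ip_add_right (v w w' : I → ℍ[F]) : ip v (w + w') = ip v w + ip v w' := by
  simp [ip, mul_add, Finset.sum_add_distrib]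

theorem op_mul_op (v w v' w' : I → ℍ[F]) (a b : ℍ[F]) :
    op v a w * op v' b w' = op v (a * ip w v' * b) w' := by
  ext i j : 1
  simp [op, ip, mul_apply, Finset.mul_sum, Finset.sum_mul, mul_assoc]

theorem mul_op (X : Matrix I I ℍ[F]) (v w : I → ℍ[F]) (a : ℍ[F]) :
    X * op v a w = op (X *ᵥ v) a w := by
  ext i j : 1
  simp [op, mul_apply, mulVec, dotProduct, Finset.sum_mul, mul_assoc]

theorem op_mul_star (X : Matrix I I ℍ[F]) (v w : I → ℍ[F]) (a : ℍ[F]) :
    op v a w * star X = op v a (X *ᵥ w) := by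
  rw [← star_star (op v a w), ← star_mul, star_op, mul_op, star_op, star_star]

theorem op_mulVec (v w u : I → ℍ[F]) (a : ℍ[F]) : op v a w *ᵥ u = rs v (a * ip w u) := by
  funext l
  simp [op, rs, ip, mulVec, dotProduct, Finset.mul_sum, mul_assoc]

theorem mulVec_rs (X : Matrix I I ℍ[F]) (v : I → ℍ[F]) (a : ℍ[F]) :
    X *ᵥ rs v a = rs (X *ᵥ v) a := by
  funext l
  simp [rs, mulVec, dotProduct, Finset.sum_mul, mul_assoc]

theorem ip_mulVec (X : Matrix I I ℍ[F]) (v w : I → ℍ[F]) : ip (X *ᵥ v) w = ip v (star X *ᵥ w) := by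
  simp only [ip, mulVec, dotProduct, star_sum, star_mul, Finset.sum_mul, Finset.mul_sum,
    star_apply, mul_assoc]
  exact Finset.sum_comm

variable [DecidableEq I]

/-- operators supported on the span of two vectors -/
def T2 (v w : I → ℍ[F]) (a b c d : ℍ[F]) : Matrix I I ℍ[F] :=
  1 + (op v a v + op v b w + op w c v + op w d w)

/-- the reflection with multiplier `x` -/
def R (v : I → ℍ[F]) (x : ℍ[F]) : Matrix I I ℍ[F] := 1 + op v (x - 1) v

omit [Fintype I] in
theorem R_eq (v w : I → ℍ[F]) (x : ℍ[F]) : R v x = T2 v w (x - 1) 0 0 0 := by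
  simp [R, T2, op_zero]

omit [Fintype I] in
theorem R_eq' (v w : I → ℍ[F]) (x : ℍ[F]) : R w x = T2 v w 0 0 0 (x - 1) := by
  simp [R, T2, op_zero]

theorem star_T2 (v w : I → ℍ[F]) (a b c d : ℍ[F]) :
    star (T2 v w a b c d) = T2 v w (star a) (star c) (star b) (star d) := by
  simp only [T2, star_add, star_one, star_op]
  abel

omit [Fintype I] in
theorem T2_rs (v w : I → ℍ[F]) (s a b c d : ℍ[F]) :
    T2 v (rs w s) a b c d = T2 v w a (b * star s) (s * c) (s * d * star s) := by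
  simp only [T2, op_rs_left, op_rs_right, mul_assoc]

omit [Fintype I] in
theorem op_eq_T2 (v w : I → ℍ[F]) (a n : ℍ[F]) :
    1 + op (rs v a + w) n (rs v a + w) = T2 v w (a * n * star a) (a * n) (n * star a) n := by
  simp only [T2, op_add_left, op_add_right, op_rs_left, op_rs_right, mul_assoc]
  abel

/-- the Gram data of a pair of orthogonal vectors -/
structure Gr (v w : I → ℍ[F]) (γ : F) : Prop where
  vv : ip v v = 1
  vw : ip v w = 0
  ww : ip w w = γ

omit [DecidableEq I] in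
theorem Gr.wv {v w : I → ℍ[F]} {γ : F} (h : Gr v w γ) : ip w v = 0 := by
  rw [← star_ip, h.vw, star_zero]

theorem Gr.mul {v w : I → ℍ[F]} {γ : F} (h : Gr v w γ) (a b c d a' b' c' d' : ℍ[F]) :
    T2 v w a b c d * T2 v w a' b' c' d' =
      T2 v w (a + a' + (a * a' + γ • (b * c'))) (b + b' + (a * b' + γ • (b * d')))
        (c + c' + (c * a' + γ • (d * c'))) (d + d' + (c * b' + γ • (d * d'))) := by
  simp only [T2, mul_add, add_mul, op_mul_op, h.vv, h.vw, h.wv, h.ww, mul_one, one_mul, mul_zero,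
    zero_mul, op_zero, op_add, mul_coe_eq_smul, smul_mul_assoc]
  abel

theorem Gr.conj {v w : I → ℍ[F]} {γ : F} (h : Gr v w γ) {x : ℍ[F]} (hx : normSq x = 1)
    (a b c d : ℍ[F]) :
    R v x * T2 v w a b c d * star (R v x) = T2 v w (x * a * star x) (x * b) (c * star x) d := by
  rw [R_eq v w, star_T2, h.mul, h.mul]
  congr 1
  · simp only [star_sub, star_one, star_zero, mul_zero, smul_zero, zero_mul]
    linear_combination (norm := noncomm_ring) mul_star_of hx
  all_goals simp only [star_sub, star_one, star_zero, mul_zero, smul_zero, zero_mul, add_zero,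
    zero_add]
  all_goals noncomm_ring

omit [DecidableEq I] in
theorem gr_of {v w : I → ℍ[F]} (hv : ip v v = 1) (hw : ip w w = 1) :
    Gr v (w - rs v (ip v w)) (1 - normSq (ip v w)) where
  vv := hv
  vw := by rw [ip_sub_right, ip_rs_right, hv, one_mul, sub_self]
  ww := by
    simp only [ip_sub_left, ip_sub_right, ip_rs_left, ip_rs_right, hv, hw, mul_one, one_mul,
      ← star_ip v w, star_mul_self, coe_sub, coe_one, sub_self, sub_zero, zero_mul]

end Cfsg.Agent.H28.Ps
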