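import Mathlib
import Cfsg.Agent.H28.PsA

/-!
# Subgroups of `Sp_{2m}(F)` meeting the fundamental `SL₂` in `Q₈`: no transvections, pairs of lines
-/

set_option autoImplicit false

namespace Cfsg.Agent.H28.Ps

open Matrix Quaternion

variable {F : Type*} [Field F] {I : Type*} [Fintype I] [DecidableEq I]

/-- the symplectic group -/
abbrev GG (I : Type*) [Fintype I] [DecidableEq I] (F : Type*) [Field F] :=
  unitary (Matrix I I ℍ[F])

/-- matrices in a subgroup -/
def HM (H : Subgroup (GG I F)) (X : Matrix I I ℍ[F]) : Prop := ∃ h ∈ H, h.val = X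

variable {H : Subgroup (GG I F)} {X Y Z : Matrix I I ℍ[F]}

theorem HM.one : HM H 1 := ⟨1, one_mem _, rfl⟩

theorem HM.mul (hX : HM H X) (hY : HM H Y) : HM H (X * Y) := by
  obtain ⟨x, hx, rfl⟩ := hX
  obtain ⟨y, hy, rfl⟩ := hY
  exact ⟨x * y, mul_mem hx hy, rfl⟩

theorem HM.star (hX : HM H X) : HM H (star X) := by
  obtain ⟨x, hx, rfl⟩ := hX
  exact ⟨x⁻¹, inv_mem hx, rfl⟩

theorem HM.mul_star (hX : HM H X) : X * Star.star X = 1 := by
  obtain ⟨x, -, rfl⟩ := hX
  exact x.2.2

theorem HM.star_mul (hX : HM H X) : Star.star X * X = 1 := by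
  obtain ⟨x, -, rfl⟩ := hX
  exact x.2.1

theorem HM.of_mul (hX : HM H X) (hY : HM H Y) (h : Z * Y = X) : HM H Z := by
  have := hX.mul hY.star
  rwa [← h, mul_assoc, hY.mul_star, mul_one] at this

theorem HM.iff {h : GG I F} : HM H h.val ↔ h ∈ H :=
  ⟨fun ⟨_, hx, e⟩ => Subtype.ext e ▸ hx, fun hh => ⟨h, hh, rfl⟩⟩

theorem conj_R (hX : X * star X = 1) (v : I → ℍ[F]) (x : ℍ[F]) :
    X * R v x * star X = R (X *ᵥ v) x := by
  rw [R, mul_add, add_mul, mul_one, hX, mul_op, op_mul_star, R]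

theorem ip_unit (hX : star X * X = 1) (v w : I → ℍ[F]) : ip (X *ᵥ v) (X *ᵥ w) = ip v w := by
  rw [ip_mulVec, mulVec_mulVec, hX, one_mulVec]

omit [Fintype I] in
theorem R_rs (v : I → ℍ[F]) {a : ℍ[F]} (ha : normSq a = 1) (x : ℍ[F]) :
    R (rs v a) x = R v (a * x * star a) := by
  rw [R, R, op_rs_left, op_rs_right, mul_sub, sub_mul, mul_one, mul_star_of ha]

/-- unit vectors whose reflection group in `H` is `Q₈` -/
def Good (H : Subgroup (GG I F)) (v : I → ℍ[F]) : Prop :=
  ip v v = 1 ∧ ∀ x, HM H (R v x) ↔ inQ x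

theorem Good.smul {v : I → ℍ[F]} (hv : Good H v) (hX : HM H X) : Good H (X *ᵥ v) := by
  refine ⟨by rw [ip_unit hX.star_mul, hv.1], fun x => ?_⟩
  rw [← hv.2, ← conj_R hX.mul_star]
  refine ⟨fun h => ?_, fun h => (hX.mul h).mul hX.star⟩
  have := (hX.star.mul h).mul hX
  rwa [← mul_assoc, ← mul_assoc, hX.star_mul, one_mul, mul_assoc, hX.star_mul, mul_one] at this

/-- the frame vectors -/
def e (l : I) : I → ℍ[F] := Pi.single l 1

theorem ip_e (l : I) (v : I → ℍ[F]) : ip (e l) v = v l := by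
  rw [ip, Finset.sum_eq_single l] <;> simp +contextual [e, Pi.single_apply]

theorem ip_e_e (l : I) : ip (e l : I → ℍ[F]) (e l) = 1 := by rw [ip_e]; simp [e]

omit [DecidableEq I] in
theorem gr_of' {v : I → ℍ[F]} (hv : ip v v = 1) (w : I → ℍ[F]) :
    ∃ γ, Gr v (w - rs v (ip v w)) γ :=
  ⟨_, hv, by rw [ip_sub_right, ip_rs_right, hv, one_mul, sub_self], ip_self _⟩

omit [Fintype I] in
theorem T2_congr {v w : I → ℍ[F]} {a b c d a' b' c' d' : ℍ[F]} (h1 : a = a') (h2 : b = b')
    (h3 : c = c') (h4 : d = d') : T2 v w a b c d = T2 v w a' b' c' d' := by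
  rw [h1, h2, h3, h4]

variable (h2 : (2 : F) ≠ 0)
include h2

theorem inQ.eq_zero {y : ℍ[F]} (h : inQ (1 + y)) (hy : y.re = 0) : y = 0 := by
  rcases h.re with h | h | h
  · simpa using h
  · have := congrArg QuaternionAlgebra.re h
    simp [hy] at this
    exact absurd (by linear_combination this) h2
  · simp [hy] at h

theorem no_tv (he : ∀ l, Good H (e l)) {v : I → ℍ[F]} {n : ℍ[F]} (hn : PN n)
    (ht : HM H (1 + op v n v)) (l : I) : v l * n = 0 := by
  obtain ⟨γ, hg⟩ := gr_of' (ip_e_e l) v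
  rw [← add_sub_cancel (rs (e l) (ip (e l) v)) v, op_eq_T2] at ht
  rw [ip_e] at hg ht
  generalize v - rs (e l) (v l) = w at hg ht
  generalize v l = a at hg ht
  refine hn.mul_eq_zero h2 (by_contra fun hne => ?_)
  have hn' := hn.conj a
  have nn := hn.sq
  have nn' : ∀ y, n * (n * y) = 0 := fun y => by rw [← mul_assoc, nn, zero_mul]
  have nan' : ∀ y, n * (star a * (a * (n * y))) = 0 := fun y => by
    rw [← mul_assoc (star a), star_mul_self, coe_mul_eq_smul, mul_smul_comm, nn', smul_zero]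
  have nan : n * (star a * (a * n)) = 0 := by simpa using nan' 1
  have sn := star_pure hn.1
  have hc : ∀ {x a b c d : ℍ[F]}, inQ x → HM H (T2 (e l) w a b c d) →
      HM H (T2 (e l) w (x * a * star x) (x * b) (c * star x) d) := fun hx h => by
    rw [← hg.conj hx.normSq]
    exact ((((he l).2 _).2 hx).mul h).mul (((he l).2 _).2 hx).star
  have ht' := hc inQ_neg_one ht
  have hs : HM H (T2 (e l) w (2 * (a * n * star a)) 0 0 (2 * n)) := by
    convert ht.mul ht' using 1
    rw [hg.mul]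
    refine T2_congr ?_ ?_ ?_ ?_ <;> simp [mul_assoc, nn, nn', nan, nan', two_mul]
  obtain ⟨ε, hε, hβ⟩ := QL1 h2 hn' hne fun x hx => by
    rw [← (he l).2, R_eq _ w]
    refine hs.of_mul (hc hx hs) ?_
    rw [hg.mul]
    have h0 : x * (a * n * star a) * star x * (x * (a * n * star a) * star x) = 0 := (hn'.conj x).sq
    refine T2_congr ?_ ?_ ?_ ?_
    · simp only [zero_mul, smul_zero]
      linear_combination (norm := noncomm_ring) -4 * h0 - 8 * (a * n * star a) * h0
    all_goals simp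
  have hτ : HM H (T2 (e l) w 0 ((2 * ε) • (a * n)) ((2 * ε) • (n * star a)) 0) := by
    rcases hε with rfl | rfl
    · convert ht.mul ht'.star using 1
      rw [star_T2, hg.mul]
      refine T2_congr ?_ ?_ ?_ ?_ <;> simp [mul_assoc, nn, nn', nan, nan', sn, two_smul]
    · convert ht'.mul ht.star using 1
      rw [star_T2, hg.mul]
      refine T2_congr ?_ ?_ ?_ ?_ <;> simp [mul_assoc, nn, nn', nan, nan', sn, two_smul]
  have hb : ∀ y, n * (star a * (qi * (a * (n * y)))) = (2 * (a * n * star a * qi).re) • (n * y) :=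
    fun y => by
    have := hn.mul_mul (star a * qi * a)
    have h : (n * (star a * qi * a)).re = (a * n * star a * qi).re := by simp; ring
    rw [h] at this
    rw [← smul_mul_assoc, ← this]
    simp only [mul_assoc]
  have hb' : n * (star a * (qi * (a * n))) = (2 * (a * n * star a * qi).re) • n := by
    simpa using hb 1
  generalize 2 * (a * n * star a * qi).re = β at hβ hb hb'
  have h1 : inQ (1 + qi * (a * n * star a) * star qi) := by
    rw [← (he l).2, R_eq _ w]
    convert (hτ.mul (hc inQ_i ht)).mul hτ.star using 1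
    rw [star_T2, hg.mul, hg.mul]
    refine T2_congr ?_ ?_ ?_ ?_ <;>
      simp only [Quaternion.star_smul, star_mul, star_star, sn, star_pure qi_re, star_zero, mul_add, add_mul,
        mul_neg, neg_mul, mul_assoc, smul_mul_assoc, mul_smul_comm, nn, nn', nan, nan', hb, hb',
        mul_zero, zero_mul, smul_zero, neg_zero, smul_neg, add_zero, zero_add] <;>
      match_scalars <;> grind
  have h4 := h1.eq_zero h2 (hn'.conj qi).1
  refine hne ?_
  have h5 := star_mul_of (inQ_i (F := F)).normSq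
  linear_combination (norm := noncomm_ring) star qi * h4 * qi - h5 * (a * n * star a) -
    star qi * qi * (a * n * star a) * h5

theorem no_E [Finite F] (he : ∀ l, Good H (e l)) {v u : I → ℍ[F]} (hv : Good H v) (hg : Gr v u 0)
    {ν : ℍ[F]} (hE : HM H (T2 v u 0 1 (-1) ν)) : u = 0 := by
  have hK : ∀ x, inQ x → x.re = 0 → HM H (T2 v u 0 0 0 (-(2 * x))) := fun x hx hx' => by
    have h1 := (((hv.2 _).2 hx).mul hE).mul ((hv.2 _).2 hx).star
    rw [hg.conj hx.normSq] at h1
    refine (hE.mul h1).of_mul (h1.mul hE) ?_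
    simp only [hg.mul]
    refine T2_congr ?_ ?_ ?_ ?_ <;> simp [star_pure hx', two_mul] <;> abel
  let M : AddSubmonoid ℍ[F] :=
    { carrier := {d | HM H (T2 v u 0 0 0 d)}
      zero_mem' := by simpa [T2, op_zero] using HM.one
      add_mem' := fun {a b} ha hb => by simpa [hg.mul] using HM.mul ha hb }
  obtain ⟨p, hp⟩ := CharP.exists F
  have : NeZero p := ⟨CharP.char_ne_zero_of_finite F p⟩
  obtain ⟨α, β, hαβ⟩ := CharP.sq_add_sq F p (-1)
  have key : ∀ x y : ℍ[F], x ∈ M → y ∈ M → PN (-(2 * qi) + α • x + β • y) →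
      ∀ l, u l * (-(2 * qi) + α • x + β • y) = 0 := fun x y hx hy h => by
    refine no_tv h2 he h ?_
    have : HM H _ := M.add_mem (M.add_mem (hK _ inQ_i rfl) (M.nsmul_mem hx α)) (M.nsmul_mem hy β)
    simpa [T2, op_zero] using this
  funext l
  have h1 := key _ _ (hK _ inQ_j rfl) (hK _ inQ_k rfl)
    ⟨by simp, by simp [normSq_def']; grind⟩ l
  have h3 := key _ _ (hK _ inQ_j.neg (by simp)) (hK _ inQ_k.neg (by simp))
    ⟨by simp, by simp [normSq_def']; grind⟩ l
  have h4 : (4 : F) • u l = 0 := by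
    have h5 : (qi : ℍ[F]) * qi = -1 := by ext <;> simp
    have h6 : (4 : F) • u l = 4 * u l := by
      rw [← Nat.cast_ofNat, Nat.cast_smul_eq_nsmul, nsmul_eq_mul, Nat.cast_ofNat]
    rw [h6]
    simp only [nsmul_eq_mul] at h1 h3
    linear_combination (norm := noncomm_ring) h1 * qi + h3 * qi + 4 * u l * h5
  rwa [smul_eq_zero, or_iff_right (by rw [show (4 : F) = 2 * 2 by norm_num]; simp [h2])] at h4

omit h2 in
theorem refl_eq (v w : I → ℍ[F]) (a x : ℍ[F]) : R (rs v a + w) x =
    T2 v w (a * (x - 1) * star a) (a * (x - 1)) ((x - 1) * star a) (x - 1) := op_eq_T2 ..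

theorem pair [Finite F] (he : ∀ l, Good H (e l)) {v w : I → ℍ[F]} (hv : Good H v) (hw : Good H w) :
    (normSq (ip v w) = 1 → w = rs v (ip v w)) ∧ (normSq (ip v w) = 0 → ip v w = 0) := by
  have hg := gr_of hv.1 hw.1
  have hz := (hw.2 _).2 inQ_neg_one
  rw [← add_sub_cancel (rs v (ip v w)) w, refl_eq] at hz
  replace hz := ((hv.2 _).2 inQ_neg_one).mul hz
  rw [← sub_eq_zero (a := w)]
  generalize w - rs v (ip v w) = u at hg hz
  generalize ip v w = a at hg hz
  have hgs : ∀ s, (1 - normSq a) * normSq s = 0 → Gr v (rs u s) 0 := fun s hs =>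
    ⟨hg.vv, by rw [ip_rs_right, hg.vw, zero_mul], by
      rw [ip_rs_right, ip_rs_left, hg.ww, ← coe_commutes, mul_assoc, star_mul_self, ← coe_mul, hs]⟩
  have aa := self_mul_star a
  have aa' := star_mul_self a
  rw [R_eq v u, hg.mul] at hz
  constructor <;> intro h <;> rw [h] at aa aa' <;> simp only [coe_one, coe_zero] at aa aa'
  · have h1 := no_E h2 he hv (hgs ((2 : F) • star a) (by simp [h])) (ν := -(2⁻¹ : F) • 1) (by
      convert hz using 1
      rw [T2_rs]
      refine T2_congr ?_ ?_ ?_ ?_ <;>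
        simp only [h, Quaternion.star_smul, star_star, mul_sub, sub_mul, mul_neg, neg_mul, aa, aa',
          mul_one, one_mul, smul_mul_assoc, mul_smul_comm, mul_zero, zero_mul] <;>
        match_scalars <;> field_simp <;> norm_num)
    have h3 : rs (rs u ((2 : F) • star a)) ((2⁻¹ : F) • a) = u := by
      rw [rs_rs, smul_mul_smul_comm, aa', mul_inv_cancel₀ h2, one_smul, rs_one]
    rw [← h3, h1]
    funext l
    simp [rs]
  · have h1 := no_E h2 he hv (hgs ((-4 : F) • star a) (by simp [h, normSq_smul])) (ν := 0) (by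
      convert hz.mul hz using 1
      rw [T2_rs, hg.mul]
      refine T2_congr ?_ ?_ ?_ ?_ <;>
        simp only [h, Quaternion.star_smul, star_star, mul_sub, sub_mul, mul_neg, neg_mul, aa, aa',
          mul_add, add_mul, mul_one, one_mul, smul_mul_assoc, mul_smul_comm, mul_zero, zero_mul,
          smul_zero, add_zero, zero_add, sub_zero, neg_zero] <;>
        match_scalars <;> norm_num)
    have h3 := ip_rs_right u u ((-4 : F) • star a)
    rw [h1, hg.ww, h] at h3
    have h4 : (4 : F) ≠ 0 := by rw [show (4 : F) = 2 * 2 by norm_num]; simp [h2]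
    simpa [ip, h4] using h3

theorem QL2 (hs : ¬ IsSquare (2 : F)) {x : ℍ[F]} (hx : x.re = 0) (h1 : normSq x = 1)
    (hq : ∀ y, inQ y → inQ (x * y * star x)) : inQ x := by
  have key : ∀ t : F, 2 * t ^ 2 ≠ 1 := fun t h => hs ⟨2 * t, by linear_combination -2 * h⟩
  have h0 : x.imI ^ 2 + x.imJ ^ 2 + x.imK ^ 2 = 1 := by simpa [normSq_def', hx] using h1
  have co : ∀ y : ℍ[F], inQ y → (y.imI = 0 ∨ y.imI = 1 ∨ y.imI = -1) ∧
      (y.imJ = 0 ∨ y.imJ = 1 ∨ y.imJ = -1) ∧ (y.imK = 0 ∨ y.imK = 1 ∨ y.imK = -1) := by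
    rintro y (rfl | rfl | rfl | rfl | rfl | rfl | rfl | rfl) <;> simp
  have fin : ∀ t : F, (2 * t ^ 2 - 1 = 0 ∨ 2 * t ^ 2 - 1 = 1 ∨ 2 * t ^ 2 - 1 = -1) →
      t = 0 ∨ t = 1 ∨ t = -1 := by
    rintro t (h | h | h)
    · exact (key t (by linear_combination h)).elim
    · exact Or.inr (sq_eq_one_iff.1 (mul_left_cancel₀ h2 (by linear_combination h)))
    · exact Or.inl (eq_zero_of_pow_eq_zero (n := 2) (mul_left_cancel₀ h2 (by linear_combination h)))
  have hb := fin x.imI (by convert (co _ (hq _ inQ_i)).1 using 3 <;> simp [hx] <;> grind)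
  have hc := fin x.imJ (by convert (co _ (hq _ inQ_j)).2.1 using 3 <;> simp [hx] <;> grind)
  have hd := fin x.imK (by convert (co _ (hq _ inQ_k)).2.2 using 3 <;> simp [hx] <;> grind)
  rcases hb with hb | hb | hb <;> rcases hc with hc | hc | hc <;> rcases hd with hd | hd | hd <;>
    simp [inQ, Quaternion.ext_iff, hx, hb, hc, hd] at h0 ⊢ <;> grind

/-- an element of order `6` normalising `Q₈` -/
def om : ℍ[F] := (2⁻¹ : F) • (1 + qi + qj + qk)

omit h2 in
theorem Good.rs {v : I → ℍ[F]} (hv : Good H v) {x : ℍ[F]} (hx : inQ x) : Good H (rs v x) := by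
  convert hv.smul ((hv.2 _).2 hx) using 1
  rw [R, add_mulVec, one_mulVec, op_mulVec, hv.1]
  funext l
  simp [Ps.rs, mul_sub]

theorem half (hs : ¬ IsSquare (2 : F)) {v w : I → ℍ[F]} (hv : Good H v) (hw : Good H w)
    (h : normSq (ip v w) = 2⁻¹) :
    ∃ u, Good H u ∧ ip v u = 0 ∧ HM H (R v om * R u (qk * om * star qk)) := by
  have hg := gr_of hv.1 hw.1
  have hu := (hv.smul ((hw.2 _).2 inQ_neg_one)).rs inQ_neg_one
  rw [R, add_mulVec, one_mulVec, op_mulVec, ← star_ip v w] at hu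
  have aa := self_mul_star (ip v w)
  have aa' := star_mul_self (ip v w)
  rw [h] at aa aa'
  obtain ⟨w', hw'⟩ : ∃ w', w' = w - rs v (ip v w) := ⟨_, rfl⟩
  rw [← hw'] at hg
  replace hw' : w = rs v (ip v w) + w' := by rw [hw', add_sub_cancel]
  generalize ip v w = a at *
  have aa1 : ∀ y, a * (star a * y) = (2⁻¹ : F) • y := fun y => by
    rw [← mul_assoc, aa, coe_mul_eq_smul]
  have aa2 : a * star a = (2⁻¹ : F) • 1 := by simpa using aa1 1
  have aa3 : star a * a = (2⁻¹ : F) • 1 := by rw [aa', ← aa, aa2]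
  have e1 : rs (v + rs w ((-1 - 1) * star a)) (-1) = rs w' ((2 : F) • star a) := by
    funext l
    simp only [hw', rs, Pi.add_apply, add_mul, mul_add, sub_mul, mul_sub, mul_neg, neg_mul, mul_one,
      one_mul, mul_assoc, aa2, mul_smul_comm]
    match_scalars <;> field_simp <;> norm_num
  rw [e1] at hu
  have hg' : Gr v (rs w' ((2 : F) • star a)) 1 := ⟨hv.1, by rw [ip_rs_right, hg.vw, zero_mul], hu.1⟩
  have e2 : w = rs (rs v 1 + rs w' ((2 : F) • star a)) a := by
    funext l
    simp only [hw', rs, Pi.add_apply, add_mul, mul_one, mul_assoc, aa3, mul_smul_comm,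
      smul_mul_assoc, smul_smul, mul_inv_cancel₀ h2, one_smul]
  generalize rs w' ((2 : F) • star a) = u at *
  have hρ : ∀ x, inQ x → x.re = 0 → HM H (T2 v u ((2⁻¹ : F) • (x - 1)) ((2⁻¹ : F) • (x - 1))
      ((2⁻¹ : F) • (x - 1)) ((2⁻¹ : F) • (x - 1))) := fun x hx hx' => by
    have hX := ((hv.2 _).2 hx).mul ((hu.2 _).2 hx)
    have n1 : normSq ((2 : F) • (star a * x * a)) = 1 := by
      simp only [normSq_smul, map_mul, normSq_star, h, hx.normSq]
      field_simp
    have e3 : (R v x * R u x) *ᵥ w = rs w ((2 : F) • (star a * x * a)) := by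
      rw [e2, mulVec_rs, rs_rs, ← mulVec_mulVec, rs_one]
      simp only [R, add_mulVec, one_mulVec, op_mulVec, ip_add_right, ip_rs_right, hg'.vv, hg'.vw,
        hg'.wv, hg'.ww]
      funext l
      simp only [rs, Pi.add_apply, add_mul, mul_add, mul_one, mul_assoc, aa1, mul_smul_comm,
        smul_smul, mul_inv_cancel₀ h2, one_smul, coe_one, zero_mul, add_zero, zero_add]
      noncomm_ring
    have h1 := QL2 h2 hs (by simp [hx', h2]; ring) n1 fun y hy => by
      rw [← hw.2, ← R_rs _ n1, ← e3]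
      exact ((hw.smul hX).2 _).2 hy
    convert (hw.2 _).2 h1 using 1
    rw [e2, R, op_rs_left, op_rs_right, op_eq_T2]
    have : a * ((2 : F) • (star a * x * a) - 1) * star a = (2⁻¹ : F) • (x - 1) := by
      simp only [mul_sub, sub_mul, mul_one, mul_assoc, aa1, aa2, mul_smul_comm, smul_mul_assoc]
      match_scalars <;> field_simp
    simp [this]
  refine ⟨u, hu, hg'.vw, ?_⟩
  convert ((hρ _ inQ_i rfl).mul ((hu.2 _).2 inQ_k)).mul (hρ _ inQ_j rfl) using 1
  rw [R_eq v u, R_eq' v u, R_eq' v u, hg'.mul, hg'.mul, hg'.mul]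
  refine T2_congr ?_ ?_ ?_ ?_ <;> ext <;> simp [om] <;> field_simp <;> norm_num

end Cfsg.Agent.H28.Ps
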