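import Mathlib
import Cfsg.Agent.H28.PsB
import Cfsg.Agent.H6.ZStar
import Cfsg.Agent.S0205
import Cfsg.Agent.H3.Cores

/-!
# The `Z*` step: two non-orthogonal `Q₈`-lines produce a pair at angle `π/4`
-/

set_option autoImplicit false

namespace Cfsg.Agent.H28.Ps

open Matrix Quaternion
open scoped commutatorElement

theorem comm_of_solvable {G : Type*} [Group G] (N : Subgroup G) [hN : N.Normal]
    [Group.IsSolvable N] (u : G)
    (h : ∀ o ∈ N, (∀ g, Commute u ⁅⁅u, o⁆, g * ⁅u, o⁆ * g⁻¹⁆) → ⁅u, o⁆ = 1) :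
    ∀ o ∈ N, Commute u o := by
  obtain ⟨n, hn⟩ := Group.IsSolvable.solvable (G := N)
  have hnor : ∀ k, ((derivedSeries N k).map N.subtype).Normal := fun k => inferInstance
  have key : ∀ k, ∀ o ∈ (derivedSeries N k).map N.subtype, Commute u o := fun k => by
    induction hk : n - k generalizing k with
    | zero =>
      intro o ho
      have : derivedSeries N k ≤ derivedSeries N n := derivedSeries_antitone N (by omega)
      rw [hn, le_bot_iff] at this
      rw [this, Subgroup.map_bot, Subgroup.mem_bot] at ho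
      rw [ho]
      exact Commute.one_right u
    | succ j ih =>
      intro o ho
      have hw : ⁅u, o⁆ ∈ (derivedSeries N k).map N.subtype := by
        rw [commutatorElement_def]
        exact mul_mem ((hnor k).conj_mem _ ho u) (inv_mem ho)
      refine commutatorElement_eq_one_iff_commute.1 (h o (Subgroup.map_subtype_le _ ho) fun g =>
        ih (k + 1) (by omega) _ ?_)
      rw [derivedSeries_succ, Subgroup.map_commutator]
      exact Subgroup.commutator_mem_commutator hw ((hnor k).conj_mem _ hw g)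
  exact fun o ho => key 0 o ⟨⟨o, ho⟩, Subgroup.mem_top _, rfl⟩

theorem exists_pm {Γ : Type*} [Group Γ] [HasDistribNeg Γ] (Y : Subgroup Γ) :
    ∃ (N : Subgroup Y) (_ : N.Normal), ∀ a b : Y,
      QuotientGroup.mk' N a = QuotientGroup.mk' N b ↔ a.1 = b.1 ∨ a.1 = -b.1 := by
  have hZ : ∀ a : Γ, a ∈ Subgroup.zpowers (-1 : Γ) ↔ a = 1 ∨ a = -1 := fun a => by
    refine ⟨?_, by rintro (rfl | rfl) <;> simp⟩
    rintro ⟨k, rfl⟩
    rcases Int.even_or_odd k with h | h
    · exact Or.inl h.neg_one_zpow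
    · exact Or.inr h.neg_one_zpow
  have : (Subgroup.zpowers (-1 : Γ)).Normal := ⟨fun a ha g => by
    rcases (hZ a).1 ha with rfl | rfl <;> simp⟩
  refine ⟨(Subgroup.zpowers (-1 : Γ)).subgroupOf Y, inferInstance, fun a b => ?_⟩
  rw [QuotientGroup.mk'_apply, QuotientGroup.mk'_apply, eq_comm, QuotientGroup.eq,
    Subgroup.mem_subgroupOf, hZ, Subgroup.coe_mul, Subgroup.coe_inv, inv_mul_eq_iff_eq_mul,
    inv_mul_eq_iff_eq_mul, mul_one, mul_neg_one]

theorem not_anti {Γ : Type*} [Group Γ] [HasDistribNeg Γ] (hne : (1 : Γ) ≠ -1) {z d : Γ} {n : ℕ}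
    (hn : Odd n) (hd : d ^ n = 1 ∨ d ^ n = -1) (h : z * d = -(d * z)) : False := by
  have h5 : z * d * z⁻¹ = -d := by rw [h, neg_mul, mul_inv_cancel_right]
  have h6 := congrArg (· ^ n) h5
  simp only [conj_pow, hn.neg_pow] at h6
  refine hne ?_
  rcases hd with h7 | h7 <;> simpa [h7, eq_comm] using h6

theorem zs_abs {Γ : Type*} [Group Γ] [HasDistribNeg Γ] [Finite Γ] (hne : (1 : Γ) ≠ -1)
    (Y : Subgroup Γ) (g z : Y) (hzz : z * z = 1) (hz1 : z.1 ≠ 1 ∧ z.1 ≠ -1) (T : Y → Prop)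
    (B : ∀ y : Y, (z * (y * z * y⁻¹)).1 = (y * z * y⁻¹ * z).1 ∨
      (z * (y * z * y⁻¹)).1 = -(y * z * y⁻¹ * z).1 → T y)
    (B' : ∀ y : Y, T y → (y * z * y⁻¹).1 = z.1 ∨ (y * z * y⁻¹).1 = -z.1)
    (gen : ∀ y w d : Y, ¬ T y → w = z * (y * z * y⁻¹) → z.1 * d.1 = d.1 * z.1 →
      w * (g * w * g⁻¹) = d * (g * w * g⁻¹ * w) → False) (y : Y) : T y := by
  obtain ⟨N, hN, hπ⟩ := exists_pm Y
  have hs := QuotientGroup.mk'_surjective N
  generalize QuotientGroup.mk' N = π at hπ hs
  have B1 : ∀ y : Y, Commute (π z) (π (y * z * y⁻¹)) → T y := fun y h =>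
    B y ((hπ _ _).1 (by simpa only [map_mul] using h.eq))
  have iso : IsIsolatedInvolution (π z) := by
    refine ⟨orderOf_eq_prime (by rw [pow_two, ← map_mul, hzz, map_one]) fun h =>
      ((hπ z 1).1 (h.trans π.map_one.symm)).elim hz1.1 hz1.2, fun q h => ?_⟩
    obtain ⟨y, rfl⟩ := hs q
    simp only [← map_mul, ← map_inv] at h ⊢
    exact (hπ _ _).2 (B' y (B1 y h))
  have hO := H6.zstar _ iso
  have hnor := pPrimeCore_normal 2 (Y ⧸ N)
  have hodd := (H3.pPrimeCore_coprime 2 (Y ⧸ N)).odd_of_right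
  generalize pPrimeCore 2 (Y ⧸ N) = O at hO hnor hodd
  have := S0205.result hodd
  have hzi : z⁻¹ = z := inv_eq_of_mul_eq_one_right hzz
  have hw : ∀ y, ⁅π z, π y⁆ = π (z * (y * z * y⁻¹)) := fun y => by
    simp only [commutatorElement_def, ← map_inv, ← map_mul, hzi, mul_assoc]
  have C := comm_of_solvable O (π z) fun o ho h => by
    obtain ⟨y, rfl⟩ := hs o
    by_cases hy : T y
    · rw [hw, map_mul, (hπ _ _).2 (B' y hy), ← map_mul, hzz, map_one]
    exfalso
    have hwO : ⁅π z, π y⁆ ∈ O := hO _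
    have hdO := mul_mem (mul_mem (mul_mem hwO (hnor.conj_mem _ hwO (π g))) (inv_mem hwO))
      (inv_mem (hnor.conj_mem _ hwO (π g)))
    replace h := (h (π g)).eq
    rw [commutatorElement_def] at h
    rw [hw] at h hdO
    simp only [← map_inv, ← map_mul] at h hdO
    obtain ⟨w, hw⟩ : ∃ w, w = z * (y * z * y⁻¹) := ⟨_, rfl⟩
    rw [← hw] at h hdO
    obtain ⟨d, hd⟩ : ∃ d, d = w * (g * w * g⁻¹) * w⁻¹ * (g * w * g⁻¹)⁻¹ := ⟨_, rfl⟩
    rw [← hd] at h hdO
    refine gen y w d hy hw (((hπ _ _).1 h).resolve_right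
      (not_anti hne hodd ((hπ (d ^ Nat.card O) 1).1 ?_))) (by rw [hd]; group)
    rw [map_pow, map_one]
    exact congrArg Subtype.val (pow_card_eq_one' (x := (⟨_, hdO⟩ : O)))
  refine B1 y ?_
  have := C _ (hO (π y))
  rw [← commutatorElement_def, hw, map_mul] at this
  simpa using ((Commute.refl (π z)).inv_right.mul_right this)

variable {F : Type*} [Field F]

/-- `diag (i, 1)` -/
def gi : GG (Fin 2) F := ⟨!![qi, 0; 0, 1], by
  constructor <;> ext i j : 1 <;> fin_cases i <;> fin_cases j <;>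
    simp [Matrix.mul_apply, star_apply] <;> ext <;> simp⟩

theorem gi_sq : (gi * gi : GG (Fin 2) F).val = !![-1, 0; 0, 1] := by
  ext i j : 1
  fin_cases i <;> fin_cases j <;> simp [gi, Matrix.mul_apply]
  ext <;> simp

theorem col_norm (y : GG (Fin 2) F) : normSq (y.val 1 0) = 1 - normSq (y.val 0 0) := by
  have := congrArg QuaternionAlgebra.re (congrFun (congrFun y.2.1 0) 0)
  simp only [Matrix.mul_apply, Fin.sum_univ_two, star_apply, star_mul_self, one_apply_eq, re_add,
    re_coe, re_one] at this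
  linear_combination this

theorem conj_z (y : GG (Fin 2) F) : (y * (gi * gi) * y⁻¹).val =
    !![((1 - 2 * normSq (y.val 0 0) : F) : ℍ[F]), -((2 : F) • (y.val 0 0 * star (y.val 1 0)));
      -((2 : F) • star (y.val 0 0 * star (y.val 1 0))), ((2 * normSq (y.val 0 0) - 1 : F) : ℍ[F])] := by
  have h1 : (gi * gi : GG (Fin 2) F).val = R (e 0) (-1) := by
    rw [gi_sq]
    ext i j : 1
    fin_cases i <;> fin_cases j <;> simp [R, op, e]
  have h2 : (y * (gi * gi) * y⁻¹).val = y.val * (gi * gi : GG (Fin 2) F).val * star y.val := rfl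
  have h3 := col_norm y
  rw [h2, h1, conj_R y.2.2]
  ext i j : 1
  fin_cases i <;> fin_cases j <;> simp [R, op, e, mul_sub, sub_mul, self_mul_star, h3, two_smul] <;>
    ext <;> simp <;> ring

variable (h2 : (2 : F) ≠ 0)
include h2

theorem eq_zero_of_neg {x : ℍ[F]} (h : x = -x) : x = 0 := by
  have : (2 : F) • x = 0 := by rw [two_smul, ← eq_neg_iff_add_eq_zero, ← h]
  simpa [h2] using this

omit h2 in
theorem ent {a b : GG (Fin 2) F} (h : a = b) (i j : Fin 2) : a.val i j = b.val i j := by rw [h]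

omit h2 in
theorem conj_z_neg {y : GG (Fin 2) F} (h : y.val 0 0 = 0) : y * (gi * gi) * y⁻¹ = -(gi * gi) :=
  Subtype.ext (by rw [conj_z, Unitary.coe_neg, gi_sq, h]; simp)

omit h2 in
theorem conj_z_pos {y : GG (Fin 2) F} (h : y.val 1 0 = 0) : y * (gi * gi) * y⁻¹ = gi * gi := by
  have h1 := col_norm y
  rw [h, map_zero, eq_comm, sub_eq_zero] at h1
  refine Subtype.ext ?_
  rw [conj_z, gi_sq, h, ← h1]
  simp [one_add_one_eq_two.symm]

theorem comm_pos {y : GG (Fin 2) F}
    (h : gi * gi * (y * (gi * gi) * y⁻¹) = y * (gi * gi) * y⁻¹ * (gi * gi)) :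
    normSq (y.val 0 0) = 0 ∨ normSq (y.val 0 0) = 1 := by
  have h3 := ent h 0 1
  rw [Submonoid.coe_mul _ (gi * gi), Submonoid.coe_mul _ _ (gi * gi), conj_z, gi_sq] at h3
  have h4 : (2 : F) • (y.val 0 0 * star (y.val 1 0)) = 0 :=
    eq_zero_of_neg h2 (by simpa [Matrix.mul_apply] using h3)
  have h6 := congrArg normSq ((smul_eq_zero.1 h4).resolve_left h2)
  rw [map_mul, normSq_star, map_zero, mul_eq_zero, col_norm, sub_eq_zero] at h6
  exact h6.imp_right Eq.symm

theorem comm_neg {y : GG (Fin 2) F}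
    (h : gi * gi * (y * (gi * gi) * y⁻¹) = -(y * (gi * gi) * y⁻¹ * (gi * gi))) :
    normSq (y.val 0 0) = 2⁻¹ := by
  have h3 := congrArg QuaternionAlgebra.re (ent h 0 0)
  rw [Unitary.coe_neg, Submonoid.coe_mul _ (gi * gi), Submonoid.coe_mul _ _ (gi * gi), conj_z,
    gi_sq] at h3
  simp [Matrix.mul_apply] at h3
  exact eq_inv_of_mul_eq_one_right (mul_left_cancel₀ h2 (by linear_combination h3))

theorem one_ne_neg : (1 : GG (Fin 2) F) ≠ -1 := fun h => by
  have := congrArg QuaternionAlgebra.re (ent h 0 0)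
  simp [Unitary.coe_neg] at this
  exact h2 (by linear_combination this)

theorem z_ne : (gi * gi : GG (Fin 2) F) ≠ 1 ∧ (gi * gi : GG (Fin 2) F) ≠ -1 := by
  constructor <;> intro h
  · have := congrArg QuaternionAlgebra.re (ent h 0 0)
    rw [gi_sq] at this
    simp at this
    exact h2 (by linear_combination -this)
  · have := congrArg QuaternionAlgebra.re (ent h 1 1)
    rw [gi_sq] at this
    simp [Unitary.coe_neg] at this
    exact h2 (by linear_combination this)

theorem generic {y w d : GG (Fin 2) F} (h0 : normSq (y.val 0 0) ≠ 0) (h1 : normSq (y.val 0 0) ≠ 1)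
    (h3 : normSq (y.val 0 0) ≠ 2⁻¹) (hw : w = gi * gi * (y * (gi * gi) * y⁻¹))
    (hd : gi * gi * d = d * (gi * gi)) (hM : w * (gi * w * gi⁻¹) = d * (gi * w * gi⁻¹ * w)) :
    False := by
  have d01 : d.val 0 1 = 0 := by
    have h3 := ent hd 0 1
    rw [Submonoid.coe_mul _ (gi * gi), Submonoid.coe_mul _ _ (gi * gi), gi_sq] at h3
    exact eq_zero_of_neg h2 (by simpa [Matrix.mul_apply, eq_comm] using h3)
  have hs : 2 * normSq (y.val 0 0) - 1 ≠ 0 := fun h =>
    h3 (eq_inv_of_mul_eq_one_right (by linear_combination h))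
  have hN : normSq (y.val 0 0 * star (y.val 1 0)) ≠ 0 := by
    rw [map_mul, normSq_star, col_norm]
    exact mul_ne_zero h0 (sub_ne_zero.2 h1.symm)
  have hv : w.val = !![((2 * normSq (y.val 0 0) - 1 : F) : ℍ[F]),
      (2 : F) • (y.val 0 0 * star (y.val 1 0));
      -((2 : F) • star (y.val 0 0 * star (y.val 1 0))),
      ((2 * normSq (y.val 0 0) - 1 : F) : ℍ[F])] := by
    rw [hw, Submonoid.coe_mul _ (gi * gi), conj_z, gi_sq]
    simp
  generalize 2 * normSq (y.val 0 0) - 1 = s at hs hv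
  generalize y.val 0 0 * star (y.val 1 0) = p at hN hv
  have hv' : (gi * w * gi⁻¹).val = !![(s : ℍ[F]), (2 : F) • (qi * p); (2 : F) • (star p * qi), s] := by
    change gi.val * w.val * star gi.val = _
    rw [hv]
    ext i j : 1
    fin_cases i <;> fin_cases j <;> simp [gi, Matrix.mul_apply, star_apply, star_pure qi_re]
    ext <;> simp
  generalize gi * w * gi⁻¹ = w' at hM hv'
  have m0 := ent hM 0 0
  have m1 := ent hM 0 1
  simp only [Submonoid.coe_mul, hv, hv', Matrix.mul_apply, Fin.sum_univ_two, d01] at m0 m1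
  simp only [of_apply, cons_val', cons_val_zero, cons_val_one, cons_val_fin_one, zero_mul,
    add_zero, coe_mul_eq_smul, mul_coe_eq_smul, smul_mul_assoc, mul_smul_comm, mul_neg, mul_assoc,
    self_mul_star, ← mul_assoc p] at m0 m1
  have ii : (qi : ℍ[F]) * qi = -1 := by ext <;> simp
  have d00 : d.val 0 0 = 1 := by
    have h5 := congrArg (· * (star p * (1 - qi))) m1
    simp only [add_mul, mul_add, smul_mul_assoc, mul_smul_comm, mul_assoc, ← mul_assoc p,
      self_mul_star, coe_mul_eq_smul, mul_coe_eq_smul, mul_sub, mul_one, ii, smul_sub,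
      mul_neg] at h5
    rw [show ((normSq p : F) : ℍ[F]) = normSq p • 1 by rw [← coe_mul_eq_smul, mul_one]] at h5
    have h6 : (4 * s * normSq p) • (d.val 0 0 - 1) = 0 := by
      linear_combination (norm := module) -h5
    rw [smul_eq_zero, sub_eq_zero] at h6
    exact h6.resolve_left (mul_ne_zero (mul_ne_zero
      (by rw [show (4 : F) = 2 * 2 by norm_num]; simp [h2]) hs) hN)
  rw [d00, one_mul] at m0
  have h7 := congrArg QuaternionAlgebra.imI m0
  simp at h7
  exact mul_ne_zero (pow_ne_zero 3 h2) hN (by linear_combination h7)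

theorem zstar_step [Finite F] (Y : Subgroup (GG (Fin 2) F)) (hi : gi ∈ Y)
    (hp : ∀ y ∈ Y, (normSq (y.val 0 0) = 1 → y.val 1 0 = 0) ∧
      (normSq (y.val 0 0) = 0 → y.val 0 0 = 0) ∧ normSq (y.val 0 0) ≠ 2⁻¹) :
    ∀ y ∈ Y, y.val 0 0 = 0 ∨ y.val 1 0 = 0 := by
  have : Finite ℍ[F] := Finite.of_equiv _ (Quaternion.equivTuple F).symm
  intro y hy
  refine zs_abs (one_ne_neg h2) Y ⟨gi, hi⟩ ⟨gi * gi, mul_mem hi hi⟩ (Subtype.ext (Subtype.ext ?_))
    (z_ne h2) (fun y => y.1.val 0 0 = 0 ∨ y.1.val 1 0 = 0) (fun y h => ?_)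
    (fun y h => (h.imp conj_z_neg conj_z_pos).symm) (fun y w d hy hw hd hM => ?_) ⟨y, hy⟩
  · change (gi * gi : GG (Fin 2) F).val * (gi * gi : GG (Fin 2) F).val = 1
    rw [gi_sq, one_fin_two]
    simp
  · obtain ⟨p1, p2, p3⟩ := hp y.1 y.2
    exact h.elim (fun h => (comm_pos h2 h).imp p2 p1) fun h => (p3 (comm_neg h2 h)).elim
  · obtain ⟨p1, p2, p3⟩ := hp y.1 y.2
    exact generic h2 (fun h => hy (Or.inl (p2 h))) (fun h => hy (Or.inr (p1 h))) p3
      (congrArg Subtype.val hw) hd (congrArg Subtype.val hM)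

end Cfsg.Agent.H28.Ps
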