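import Mathlib
import Cfsg.Agent.H28.PsC
import Cfsg.Agent.H28.PSL2Small
import Cfsg.Agent.S2431
import Cfsg.Agent.H29.PSL2Sub
import Cfsg.Agent.H24.ElemAb
import Cfsg.Agent.H2.SchurZassenhaus

/-!
# `ℍ[F] ≅ M₂(F)`, the unit group `SL₂(F)` and its subgroup `Q₈`
-/

set_option autoImplicit false

namespace Cfsg.Agent.H28.Ps

open Matrix Quaternion

variable {F : Type*} [Field F] (h2 : (2 : F) ≠ 0)

/-- the splitting of the quaternion algebra -/
def spl {α β : F} (h : α ^ 2 + β ^ 2 = -1) : ℍ[F] ≃+* Matrix (Fin 2) (Fin 2) F where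
  toFun x := !![x.re + α * x.imJ - β * x.imK, -x.imI + β * x.imJ + α * x.imK;
    x.imI + β * x.imJ + α * x.imK, x.re - α * x.imJ + β * x.imK]
  invFun M := ((2⁻¹ * (M 0 0 + M 1 1) : F) : ℍ[F]) + (2⁻¹ * (M 1 0 - M 0 1)) • qi +
    (-2⁻¹ * (α * (M 0 0 - M 1 1) + β * (M 0 1 + M 1 0))) • qj +
    (2⁻¹ * (β * (M 0 0 - M 1 1) - α * (M 0 1 + M 1 0))) • qk
  left_inv x := by ext <;> simp <;> field_simp <;> grind
  right_inv M := by
    ext i j
    fin_cases i <;> fin_cases j <;> simp <;> field_simp <;> grind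
  map_mul' x y := by
    ext i j
    fin_cases i <;> fin_cases j <;> simp [Matrix.mul_apply] <;> grind
  map_add' x y := by
    ext i j
    fin_cases i <;> fin_cases j <;> simp <;> ring

include h2 in
theorem exists_spl [Finite F] : ∃ φ : ℍ[F] ≃+* Matrix (Fin 2) (Fin 2) F,
    (∀ x, (φ x).det = normSq x) ∧ ∀ x, φ (star x) = !![φ x 1 1, -φ x 0 1; -φ x 1 0, φ x 0 0] := by
  obtain ⟨p, hp⟩ := CharP.exists F
  have : NeZero p := ⟨CharP.char_ne_zero_of_finite F p⟩
  obtain ⟨α, β, h⟩ := CharP.sq_add_sq F p (-1)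
  replace h : (α : F) ^ 2 + (β : F) ^ 2 = -1 := by simpa using h
  refine ⟨spl h2 h, fun x => ?_, fun x => ?_⟩
  · simp [spl, det_fin_two, normSq_def']
    grind
  · ext i j
    fin_cases i <;> fin_cases j <;> simp [spl] <;> ring

theorem normSq_unit (x : unitary ℍ[F]) : normSq x.val = 1 := by
  have := congrArg QuaternionAlgebra.re x.2.2
  rwa [self_mul_star] at this

theorem mem_unit {x : ℍ[F]} (h : normSq x = 1) : x ∈ unitary ℍ[F] := ⟨star_mul_of h, mul_star_of h⟩

include h2 in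
theorem exists_sl2 [Finite F] : Nonempty (unitary ℍ[F] ≃* SpecialLinearGroup (Fin 2) F) := by
  obtain ⟨φ, h, -⟩ := exists_spl h2
  exact ⟨{ toFun := fun x => ⟨φ x, by rw [h, normSq_unit]⟩
           invFun := fun M => ⟨φ.symm M, mem_unit (by rw [← h, φ.apply_symm_apply, M.2])⟩
           left_inv := fun x => Subtype.ext (φ.symm_apply_apply _)
           right_inv := fun M => Subtype.ext (φ.apply_symm_apply _)
           map_mul' := fun x y => Subtype.ext (φ.map_mul _ _) }⟩

include h2 in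
theorem exists_sp [Finite F] (I : Type*) [Fintype I] [DecidableEq I] :
    Nonempty (GG I F ≃* symplecticGroup I F) := by
  obtain ⟨φ, -, h⟩ := exists_spl h2
  let ε : I × Fin 2 ≃ I ⊕ I :=
    { toFun := fun p => ![Sum.inl p.1, Sum.inr p.1] p.2
      invFun := Sum.elim (fun i => (i, 0)) fun i => (i, 1)
      left_inv := fun ⟨i, k⟩ => by fin_cases k <;> rfl
      right_inv := by rintro (i | i) <;> rfl }
  let Φ : Matrix I I ℍ[F] ≃+* Matrix (I ⊕ I) (I ⊕ I) F :=
    (φ.mapMatrix.trans (compRingEquiv I (Fin 2) F)).trans (reindexRingEquiv F ε)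
  have hΦ : ∀ X, Φ (star X) = -(J I F * (Φ X)ᵀ * J I F) := fun X => by
    rw [← fromBlocks_toBlocks (Φ X), J, fromBlocks_transpose, fromBlocks_multiply,
      fromBlocks_multiply]
    ext (i | i) (j | j) <;> simp [Φ, ε, star_apply, h, toBlocks₁₁, toBlocks₁₂, toBlocks₂₁, toBlocks₂₂]
  have key : ∀ X, X ∈ unitary (Matrix I I ℍ[F]) ↔ Φ X ∈ symplecticGroup I F := fun X => by
    have h1 : X * star X = 1 ↔ Φ X ∈ symplecticGroup I F := by
      rw [← Φ.injective.eq_iff, map_mul, map_one, hΦ, SymplecticGroup.mem_iff]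
      constructor <;> intro h
      · linear_combination (norm := noncomm_ring) h * J I F + Φ X * J I F * (Φ X)ᵀ * J_squared I F
      · linear_combination (norm := noncomm_ring) -h * J I F - J_squared I F
    refine ⟨fun h => h1.1 h.2, fun h => ⟨?_, h1.2 h⟩⟩
    have := h1.2 h
    rwa [← Φ.injective.eq_iff, map_mul, map_one, mul_eq_one_comm, ← map_mul, ← map_one Φ,
      Φ.injective.eq_iff] at this
  exact ⟨{ toFun := fun x => ⟨Φ x, (key _).1 x.2⟩
           invFun := fun M => ⟨Φ.symm M, (key _).2 (by rw [Φ.apply_symm_apply]; exact M.2)⟩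
           left_inv := fun x => Subtype.ext (Φ.symm_apply_apply _)
           right_inv := fun M => Subtype.ext (Φ.apply_symm_apply _)
           map_mul' := fun x y => Subtype.ext (Φ.map_mul _ _) }⟩

/-- the quaternion group of order `8` -/
def Q8 (F : Type*) [Field F] : Subgroup (unitary ℍ[F]) where
  carrier := {x | inQ x.val}
  one_mem' := inQ_one
  mul_mem' := inQ.mul
  inv_mem' := inQ.star

theorem isPGroup_Q8 : IsPGroup 2 (Q8 F) := fun x => ⟨2, Subtype.ext (Subtype.ext (by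
  change x.1.1 ^ 4 = 1
  rcases x.2 with h | h | h | h | h | h | h | h <;> rw [h] <;> ext <;> simp [pow_succ]))⟩

theorem mem_norm_Q8 [Finite F] {a : unitary ℍ[F]} :
    a ∈ Subgroup.normalizer (Q8 F : Set (unitary ℍ[F])) ↔
      ∀ x, inQ x → inQ (a.val * x * star a.val) := by
  have : Finite ℍ[F] := Finite.of_equiv _ (Quaternion.equivTuple F).symm
  exact ⟨fun h x hx => (h ⟨x, mem_unit hx.normSq⟩).1 hx,
    fun h => Subgroup.mem_normalizer_fintype fun x hx => h _ hx⟩

theorem normSq_om (h2 : (2 : F) ≠ 0) : normSq (om : ℍ[F]) = 1 := by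
  simp [om, normSq_def']
  field_simp
  norm_num

theorem om_conj (h2 : (2 : F) ≠ 0) : (om : ℍ[F]) * qi * star om = qj ∧
    (om : ℍ[F]) * qj * star om = qk ∧ (om : ℍ[F]) * qk * star om = qi := by
  refine ⟨?_, ?_, ?_⟩ <;> ext <;> simp [om] <;> field_simp <;> norm_num

theorem om_norm (h2 : (2 : F) ≠ 0) {x : ℍ[F]} (hx : inQ x) : inQ (om * x * star om) := by
  obtain ⟨h1, h3, h4⟩ := om_conj h2
  rcases hx with rfl | rfl | rfl | rfl | rfl | rfl | rfl | rfl <;>
    simp [h1, h3, h4, mul_star_of (normSq_om h2), inQ]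

include h2 in
theorem card_Q8 : Nat.card (Q8 F) = 8 := by
  classical
  have h1 : (1 : F) ≠ -1 := fun h => h2 (by linear_combination h)
  have hm : ∀ x : ℍ[F], x ∈ ({1, -1, qi, -qi, qj, -qj, qk, -qk} : Finset ℍ[F]) ↔ inQ x :=
    fun x => by simp only [Finset.mem_insert, Finset.mem_singleton, inQ]
  have e : Q8 F ≃ ({1, -1, qi, -qi, qj, -qj, qk, -qk} : Finset ℍ[F]) :=
    { toFun := fun x => ⟨x.1.1, (hm _).2 x.2⟩
      invFun := fun x => ⟨⟨x.1, mem_unit ((hm _).1 x.2).normSq⟩, (hm _).1 x.2⟩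
      left_inv := fun _ => rfl
      right_inv := fun _ => rfl }
  rw [Nat.card_congr e, Nat.card_eq_fintype_card, Fintype.card_coe]
  simp [Finset.card_insert_of_notMem, Quaternion.ext_iff, h1, h1.symm]

theorem sylow_unit [Fintype F] (hodd : Odd (Fintype.card F)) :
    ∃ (D : Sylow 2 (unitary ℍ[F]))
      (c : Subgroup.normalizer (D.1 : Set (unitary ℍ[F])) →* Multiplicative (ZMod 3)),
      Q8 F ≤ D ∧ padicValNat 2 (Nat.card D) = padicValNat 2 (Fintype.card F ^ 2 - 1) ∧
      (∀ x, c x = 1 ↔ x.1 ∈ D.1) ∧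
      (Subgroup.normalizer (D.1 : Set (unitary ℍ[F])) ≤ D ∨ D = Q8 F ∧ ¬ IsSquare (2 : F)) := by
  have : Finite ℍ[F] := Finite.of_equiv _ (Quaternion.equivTuple F).symm
  have h2 : (2 : F) ≠ 0 := H29.odd_card_iff.1 (by rwa [Nat.card_eq_fintype_card])
  obtain ⟨e⟩ := exists_sl2 h2
  obtain ⟨D, hD⟩ := (isPGroup_Q8 (F := F)).exists_le_sylow
  have h1 : 1 < Fintype.card F := Fintype.one_lt_card
  have hv : padicValNat 2 (Nat.card D) = padicValNat 2 (Fintype.card F ^ 2 - 1) := by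
    rw [H24.val_card_sylow, Nat.card_congr e.toEquiv, H28.card_SL2 rfl, padicValNat.mul (by omega)
        (Nat.sub_ne_zero_of_lt (Nat.one_lt_pow two_ne_zero h1)),
      padicValNat.eq_zero_of_not_dvd hodd.not_two_dvd_nat, zero_add]
  have hS := (S2431.result hodd (D.mapSurjective (f := e.toMonoidHom) e.surjective)).2
  have hc : Nat.card (D.mapSurjective (f := e.toMonoidHom) e.surjective) = Nat.card D :=
    Subgroup.card_map_of_injective e.injective
  have hd : (D.mapSurjective (f := e.toMonoidHom) e.surjective).1 = D.1.map e.toMonoidHom := rfl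
  rw [hc, hd, ← Subgroup.map_equiv_normalizer_eq,
    Subgroup.card_map_of_injective e.injective, Subgroup.map_injective e.injective |>.eq_iff] at hS
  by_cases h8 : Fintype.card F % 8 = 3 ∨ Fintype.card F % 8 = 5
  · have h3 : Nat.card (Subgroup.normalizer (D.1 : Set (unitary ℍ[F])) ⧸
        D.1.subgroupOf (Subgroup.normalizer (D.1 : Set (unitary ℍ[F])))) = 3 := by
      have := Subgroup.card_eq_card_quotient_mul_card_subgroup
        (D.1.subgroupOf (Subgroup.normalizer (D.1 : Set (unitary ℍ[F]))))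
      rw [hS.2 h8, Nat.card_congr (Subgroup.subgroupOfEquivOfLe Subgroup.le_normalizer).toEquiv]
        at this
      exact (Nat.eq_of_mul_eq_mul_right Nat.card_pos this).symm
    have : Fact (Nat.Prime 3) := ⟨Nat.prime_three⟩
    let f := mulEquivOfPrimeCardEq h3 (show Nat.card (Multiplicative (ZMod 3)) = 3 by simp)
    refine ⟨D, f.toMonoidHom.comp (QuotientGroup.mk' _), hD, hv, fun x => ?_, Or.inr ⟨?_, ?_⟩⟩
    · exact f.map_eq_one_iff.trans (QuotientGroup.eq_one_iff x)
    · refine (Subgroup.eq_of_le_of_card_ge hD ?_).symm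
      obtain ⟨n, hn⟩ := D.isPGroup'.exists_card_eq
      rw [card_Q8 h2]
      rw [show Nat.card D = 2 ^ n from hn, padicValNat.prime_pow] at hv
      rw [hn]
      have h4 : 2 ^ n ∣ Fintype.card F ^ 2 - 1 := hv ▸ pow_padicValNat_dvd
      by_contra h5
      have h6 : 2 ^ 4 ∣ Fintype.card F ^ 2 - 1 := (pow_dvd_pow 2 (by
        by_contra h7
        have := Nat.pow_le_pow_right (n := 2) two_pos (show n ≤ 3 by omega)
        omega)).trans h4
      generalize Fintype.card F = q at h6 h8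
      obtain ⟨s, rfl | rfl⟩ : ∃ s, q = 8 * s + 3 ∨ q = 8 * s + 5 := ⟨q / 8, by omega⟩
      · rw [show (8 * s + 3) ^ 2 = 16 * (4 * s ^ 2 + 3 * s) + 9 by ring] at h6
        omega
      · rw [show (8 * s + 5) ^ 2 = 16 * (4 * s ^ 2 + 5 * s + 1) + 9 by ring] at h6
        omega
    · rw [FiniteField.isSquare_two_iff]
      omega
  · have h3 := (hS.1 (by obtain ⟨r, hr⟩ := hodd; omega)).le
    exact ⟨D, 1, hD, hv, fun x => ⟨fun _ => h3 x.2, fun _ => rfl⟩, Or.inl h3⟩

theorem inQ.comm {x y : ℍ[F]} (hx : inQ x) (hy : inQ y) : x * y = y * x ∨ x * y = -(y * x) := by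
  rcases hx with rfl | rfl | rfl | rfl | rfl | rfl | rfl | rfl <;>
  rcases hy with rfl | rfl | rfl | rfl | rfl | rfl | rfl | rfl <;>
  simp [Quaternion.ext_iff]

theorem inQ.conj {x y : ℍ[F]} (hx : inQ x) (hy : inQ y) :
    x * y * Star.star x = y ∨ x * y * Star.star x = -y :=
  (hx.comm hy).imp (fun h => by rw [h, mul_assoc, mul_star_of hx.normSq, mul_one])
    fun h => by rw [h, neg_mul, mul_assoc, mul_star_of hx.normSq, mul_one]

theorem inQ_gen {ε δ y : ℍ[F]} (hε : ε = qi ∨ ε = qj ∨ ε = qk) (hδ : inQ δ) (h0 : δ.re = 0)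
    (h1 : δ ≠ ε) (h3 : δ ≠ -ε) (hy : inQ y) : y = 1 ∨ y = -1 ∨ y = ε ∨ y = -ε ∨ y = δ ∨ y = -δ ∨
      y = ε * δ ∨ y = -(ε * δ) := by
  rcases hε with rfl | rfl | rfl <;>
  rcases hδ with rfl | rfl | rfl | rfl | rfl | rfl | rfl | rfl <;>
  first
    | exact (h1 rfl).elim
    | exact (h3 rfl).elim
    | (simp at h0; done)
    | (rcases hy with rfl | rfl | rfl | rfl | rfl | rfl | rfl | rfl <;> simp [Quaternion.ext_iff])

include h2 in
theorem axis {a : ℍ[F]} (h0 : ¬ (a.imI = 0 ∧ a.imJ = 0 ∧ a.imK = 0)) (X : Set (unitary ℍ[F]))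
    (hi : ∀ x : unitary ℍ[F], inQ x.val → x ∈ X)
    (h : ∀ x ∈ X, a * (x.val * a * star x.val) = x.val * a * star x.val * a) :
    ∃ ε : ℍ[F], (ε = qi ∨ ε = qj ∨ ε = qk) ∧
      ∀ x ∈ X, x.val * ε * star x.val = ε ∨ x.val * ε * star x.val = -ε := by
  have key : ∀ (ε : ℍ[F]) (t : F), t ≠ 0 → (ε = qi ∨ ε = qj ∨ ε = qk) → a = a.re • 1 + t • ε →
      ∀ x ∈ X, x.val * ε * star x.val = ε ∨ x.val * ε * star x.val = -ε := by
    intro ε t ht hε ha x hx
    have h1 := h x hx
    have h3 : normSq (x.val * ε * star x.val) = 1 := by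
      simp only [map_mul, normSq_star, normSq_unit, one_mul, mul_one]
      rcases hε with rfl | rfl | rfl <;> simp [normSq_def']
    have h4 : (x.val * ε * star x.val).re = 0 := by
      rcases hε with rfl | rfl | rfl <;> simp <;> ring
    have h5 : x.val * a * star x.val = a.re • 1 + t • (x.val * ε * star x.val) := by
      conv_lhs => rw [ha]
      rw [mul_add, add_mul, mul_smul_comm, mul_smul_comm, smul_mul_assoc, smul_mul_assoc, mul_one,
        x.2.2]
    rw [h5] at h1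
    generalize x.val * ε * star x.val = y at h1 h3 h4
    have h6 : (t * t) • (ε * y - y * ε) = 0 := by
      rw [ha] at h1
      simp only [re_add, mul_add, add_mul, mul_smul_comm, smul_mul_assoc, mul_one, one_mul] at h1
      linear_combination (norm := module) h1
    rw [smul_eq_zero, or_iff_right (mul_ne_zero ht ht), sub_eq_zero] at h6
    rw [normSq_def', h4] at h3
    rcases hε with rfl | rfl | rfl <;> simp [Quaternion.ext_iff, h4] at h6 ⊢ <;> grind
  have h1 := h ⟨_, mem_unit inQ_i.normSq⟩ (hi _ inQ_i)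
  have h3 := h ⟨_, mem_unit inQ_j.normSq⟩ (hi _ inQ_j)
  simp [Quaternion.ext_iff] at h1 h3
  have h4 : (4 : F) ≠ 0 := by rw [show (4 : F) = 2 * 2 by norm_num]; simp [h2]
  have e1 : a.imI * a.imK = 0 := mul_left_cancel₀ h4 (by linear_combination h1.1)
  have e2 : a.imI * a.imJ = 0 := mul_left_cancel₀ h4 (by linear_combination h3.2)
  have e3 : a.imJ * a.imK = 0 := mul_left_cancel₀ h4 (by linear_combination -h3.1)
  by_cases hb : a.imI = 0
  · by_cases hc : a.imJ = 0
    · exact ⟨qk, by simp, key _ a.imK (by tauto) (by simp) (by ext <;> simp [hb, hc])⟩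
    · exact ⟨qj, by simp, key _ a.imJ hc (by simp)
        (by ext <;> simp [hb, (mul_eq_zero.1 e3).resolve_left hc])⟩
  · exact ⟨qi, by simp, key _ a.imI hb (by simp) (by
      ext <;> simp [(mul_eq_zero.1 e1).resolve_left hb, (mul_eq_zero.1 e2).resolve_left hb])⟩

include h2 in
theorem unit_one_ne : (1 : unitary ℍ[F]) ≠ -1 := fun h => by
  have := congrArg (fun x : unitary ℍ[F] => x.val.re) h
  simp [Unitary.coe_neg] at this
  exact h2 (by linear_combination this)

include h2 in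
theorem sl2_axis [Finite F] (D : Sylow 2 (unitary ℍ[F])) (hD : D.1 = Q8 F)
    (X : Subgroup (unitary ℍ[F])) (hX : Q8 F ≤ X)
    (hN : ∀ x ∈ X, x ∈ Subgroup.normalizer (Q8 F : Set (unitary ℍ[F])) → x ∈ Q8 F) :
    ∃ ε : ℍ[F], (ε = qi ∨ ε = qj ∨ ε = qk) ∧
      ∀ x ∈ X, x.val * ε * star x.val = ε ∨ x.val * ε * star x.val = -ε := by
  have : Finite ℍ[F] := Finite.of_equiv _ (Quaternion.equivTuple F).symm
  obtain ⟨N, hn, hπ⟩ := exists_pm X
  have hs := QuotientGroup.mk'_surjective N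
  generalize QuotientGroup.mk' N = π at hπ hs
  let P := (D.subtype (hD.le.trans hX)).mapSurjective hs
  have hP : ∀ x : X, π x ∈ P.1 ↔ inQ x.1.val := fun x => by
    refine ⟨fun ⟨y, hy, e⟩ => ?_, fun h => ⟨x, hD.ge h, rfl⟩⟩
    have hy' : inQ y.1.val := hD.le hy
    rcases (hπ _ _).1 e.symm with h | h <;> rw [h]
    · exact hy'
    · exact hy'.neg
  have hB : Subgroup.normalizer (P.1 : Set (X ⧸ N)) ≤ Subgroup.centralizer (P.1 : Set (X ⧸ N)) := by
    intro x hx y hy
    obtain ⟨x, rfl⟩ := hs x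
    obtain ⟨y, rfl⟩ := hs y
    have hx' : inQ x.1.val := hN _ x.2 (Subgroup.mem_normalizer_fintype fun z hz => by
      have := (hx (π ⟨z, hX hz⟩)).1 ((hP _).2 hz)
      rw [← map_inv, ← map_mul, ← map_mul] at this
      exact (hP _).1 this)
    rw [← map_mul, ← map_mul, hπ]
    exact (((hP y).1 hy).comm hx').imp Subtype.ext Subtype.ext
  have hcomp := MonoidHom.ker_transferSylow_isComplement' _ hB
  have hodd' := MonoidHom.not_dvd_card_ker_transferSylow _ hB
  have hnor : (MonoidHom.transferSylow _ hB).ker.Normal := inferInstance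
  generalize (MonoidHom.transferSylow _ hB).ker = O at hcomp hodd' hnor
  have hO : Odd (Nat.card O) := by rwa [← Nat.not_even_iff_odd, even_iff_two_dvd]
  by_cases h0 : O = ⊥
  · refine ⟨qi, Or.inl rfl, fun x hx => inQ.conj ((hP ⟨x, hx⟩).1 ?_) inQ_i⟩
    have := hcomp.sup_eq_top
    rw [h0, bot_sup_eq] at this
    exact this.ge (Subgroup.mem_top _)
  obtain ⟨M, hM, hM0, hMO, hMc, -⟩ := H2.exists_abelian_pgroup_normal_le O h0 (S0205.result hO)
  obtain ⟨⟨a, ha⟩, ha1⟩ := (Subgroup.ne_bot_iff_exists_ne_one).1 hM0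
  obtain ⟨a, rfl⟩ := hs a
  refine axis h2 (a := a.1.val) (fun ⟨h1, h3, h4⟩ => ha1 (Subtype.ext ?_)) X (fun x hx => hX hx)
    fun x hx => ?_
  · have h5 := normSq_unit a.1
    rw [normSq_def', h1, h3, h4] at h5
    refine ((hπ a 1).2 ?_).trans π.map_one
    refine (sq_eq_one_iff.1 (show a.1.val.re ^ 2 = 1 by simpa using h5)).imp
      (fun h => Subtype.ext ?_) fun h => Subtype.ext ?_ <;> ext <;>
      simp [Unitary.coe_neg, h, h1, h3, h4]
  · have hb := hM.conj_mem _ ha (π ⟨x, hx⟩)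
    rw [← map_inv, ← map_mul, ← map_mul] at hb
    have h1 := congrArg Subtype.val (hMc.is_comm.comm ⟨_, ha⟩ ⟨_, hb⟩)
    rw [Subgroup.coe_mul, Subgroup.coe_mul, ← map_mul, ← map_mul, hπ] at h1
    refine congrArg Subtype.val (h1.resolve_right (not_anti (unit_one_ne h2) hO
      ((hπ (_ ^ Nat.card O) 1).1 ?_)))
    rw [map_pow, map_one]
    exact congrArg Subtype.val (pow_card_eq_one' (x := (⟨_, hMO hb⟩ : O)))

theorem exists_pow {N : Type*} [Group N] (c : N →* Multiplicative (ZMod 3)) {a : N} (ha : c a ≠ 1)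
    (b : N) : ∃ k : ℕ, c (b * (a ^ k)⁻¹) = 1 := by
  simp only [map_mul, map_inv, map_pow]
  generalize c a = x at ha
  generalize c b = y
  have : ∀ x y : Multiplicative (ZMod 3), x ≠ 1 → ∃ k : Fin 3, y * (x ^ k.1)⁻¹ = 1 := by decide
  obtain ⟨k, hk⟩ := this x y ha
  exact ⟨k, hk⟩

/-- the stabiliser of an axis -/
def St (ε : ℍ[F]) : Subgroup (unitary ℍ[F]) where
  carrier := {x | star x.val * ε * x.val = ε ∨ star x.val * ε * x.val = -ε}
  one_mem' := by simp
  mul_mem' := fun {x y} hx hy => by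
    have : star (x * y).val * ε * (x * y).val = star y.val * (star x.val * ε * x.val) * y.val := by
      simp [mul_assoc]
    rw [Set.mem_ofPred_eq, this]
    rcases hx with hx | hx <;> rcases hy with hy | hy <;> simp [hx, hy]
  inv_mem' := fun {x} hx => by
    have : x.val * (star x.val * ε * x.val) * star x.val = ε := by
      simp only [← mul_assoc, x.2.2, one_mul]
      simp only [mul_assoc, x.2.2, mul_one]
    change star (star x.val) * ε * star x.val = ε ∨ star (star x.val) * ε * star x.val = -ε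
    rcases hx with hx | hx <;> rw [hx] at this
    · simp [this]
    · rw [mul_neg, neg_mul, neg_eq_iff_eq_neg] at this
      simp [this]

include h2 in
theorem not_mem_St [Finite F]
    (c : Subgroup.normalizer (Q8 F : Set (unitary ℍ[F])) →* Multiplicative (ZMod 3))
    (hc : ∀ x, c x = 1 ↔ x.1 ∈ Q8 F) {ε : ℍ[F]} (hε : ε = qi ∨ ε = qj ∨ ε = qk)
    {a : unitary ℍ[F]} (ha : a ∈ Subgroup.normalizer (Q8 F : Set (unitary ℍ[F])))
    (ha' : a ∉ Q8 F) : a ∉ St ε := fun h => by
  have hε' : inQ ε := by rcases hε with rfl | rfl | rfl <;> simp [inQ]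
  obtain ⟨o, ho⟩ : ∃ o : unitary ℍ[F], o.val = om := ⟨⟨om, mem_unit (normSq_om h2)⟩, rfl⟩
  obtain ⟨k, hk⟩ := exists_pow c (a := ⟨a, ha⟩) (fun h => ha' ((hc _).1 h))
    ⟨o, mem_norm_Q8.2 fun x hx => ho ▸ om_norm h2 hx⟩
  have h1 : inQ (o * (a ^ k)⁻¹).val := (hc _).1 hk
  have h3 : o * (a ^ k)⁻¹ ∈ St ε := by
    have := h1.star.conj hε'
    rwa [star_star] at this
  have h4 : star (star o.val) * ε * star o.val = ε ∨ star (star o.val) * ε * star o.val = -ε :=
    (St ε).inv_mem (((St ε).mul_mem_cancel_right (inv_mem (pow_mem h k))).1 h3)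
  rw [star_star, ho] at h4
  obtain ⟨e1, e2, e3⟩ := om_conj h2
  rcases hε with rfl | rfl | rfl <;> simp [e1, e2, e3, Quaternion.ext_iff] at h4

theorem inQ_of_two {ε δ x y : ℍ[F]} (hε : ε = qi ∨ ε = qj ∨ ε = qk) (hδ : inQ δ) (h0 : δ.re = 0)
    (h1 : δ ≠ ε) (h3 : δ ≠ -ε) (hx : normSq x = 1) (h4 : x * ε * star x = ε ∨ x * ε * star x = -ε)
    (h5 : x * δ * star x = δ ∨ x * δ * star x = -δ) (hy : inQ y) : inQ (x * y * star x) := by
  have hε' : inQ ε := by rcases hε with rfl | rfl | rfl <;> simp [inQ]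
  replace h4 : inQ (x * ε * star x) := by rcases h4 with h | h <;> simp [h, hε', hε'.neg]
  replace h5 : inQ (x * δ * star x) := by rcases h5 with h | h <;> simp [h, hδ, hδ.neg]
  have h6 : inQ (x * (ε * δ) * star x) := by
    convert h4.mul h5 using 1
    simp only [mul_assoc, ← mul_assoc (star x) x, star_mul_of hx, one_mul]
  rcases inQ_gen hε hδ h0 h1 h3 hy with rfl | rfl | rfl | rfl | rfl | rfl | rfl | rfl <;>
    simp only [mul_neg, neg_mul, mul_one, mul_star_of hx, inQ.neg, inQ_one, h4, h5, h6]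

theorem val_conj {R : Type*} [Monoid R] [StarMul R] (a x : unitary R) :
    (a * x * a⁻¹).val = a.val * x.val * star a.val := rfl

include h2 in
theorem sl2_main [Finite F] (D : Sylow 2 (unitary ℍ[F])) (hD : D.1 = Q8 F)
    (c : Subgroup.normalizer (Q8 F : Set (unitary ℍ[F])) →* Multiplicative (ZMod 3))
    (hc : ∀ x, c x = 1 ↔ x.1 ∈ Q8 F) (X : Subgroup (unitary ℍ[F])) (hX : Q8 F ≤ X)
    (hN : ∀ x ∈ X, x ∈ Subgroup.normalizer (Q8 F : Set (unitary ℍ[F])) → x ∈ Q8 F)
    {a x : unitary ℍ[F]} (ha : a ∈ Subgroup.normalizer (Q8 F : Set (unitary ℍ[F])))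
    (ha' : a ∉ Q8 F) (hx : x ∈ X) (hx' : a * x * a⁻¹ ∈ X) : x ∈ Q8 F := by
  obtain ⟨ε, hε, h⟩ := sl2_axis h2 D hD X hX hN
  have hε' : inQ ε := by rcases hε with rfl | rfl | rfl <;> simp [inQ]
  have hSt := not_mem_St h2 c hc hε ha ha'
  have hδ : inQ (star a.val * ε * star (star a.val)) := mem_norm_Q8.1 (inv_mem ha) ε hε'
  rw [star_star] at hδ
  have h0 : (star a.val * ε * a.val).re = 0 := by rcases hε with rfl | rfl | rfl <;> simp <;> ring
  refine hN x hx (mem_norm_Q8.2 fun y hy => inQ_of_two hε hδ h0 (fun h => hSt (Or.inl h))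
    (fun h => hSt (Or.inr h)) (normSq_unit x) (h x hx) ?_ hy)
  have e : x.val * (star a.val * ε * a.val) * star x.val = star a.val *
      (a.val * x.val * star a.val * ε * star (a.val * x.val * star a.val)) * a.val := by
    simp only [star_mul, star_star, ← mul_assoc, a.2.1, one_mul]
    simp only [mul_assoc, a.2.1, mul_one]
  have h1 := h _ hx'
  rw [val_conj] at h1
  rw [e]
  exact h1.imp (fun h => by rw [h]) fun h => by rw [h, mul_neg, neg_mul]

end Cfsg.Agent.H28.Ps
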