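import Mathlib
import Cfsg.Agent.H28.PsD

/-!
# Generic pairs, monomial matrices, the Sylow `2`-subgroup of `Sp_{2m}(F)` and its normaliser
-/

set_option autoImplicit false

namespace Cfsg.Agent.H28.Ps

open Matrix Quaternion

variable {F : Type*} [Field F] {I : Type*} [Fintype I] [DecidableEq I]

/-- `Sp₄` on the span of two orthonormal vectors (matrices) -/
def psi {v u : I → ℍ[F]} (hg : Gr v u 1) : Matrix (Fin 2) (Fin 2) ℍ[F] →* Matrix I I ℍ[F] where
  toFun C := T2 v u (C 0 0 - 1) (C 0 1) (C 1 0) (C 1 1 - 1)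
  map_one' := by simp [T2, op_zero]
  map_mul' C D := by
    rw [hg.mul]
    refine T2_congr ?_ ?_ ?_ ?_ <;> simp only [Matrix.mul_apply, Fin.sum_univ_two, one_smul] <;>
      noncomm_ring

theorem psi_apply {v u : I → ℍ[F]} (hg : Gr v u 1) (C : Matrix (Fin 2) (Fin 2) ℍ[F]) :
    psi hg C = T2 v u (C 0 0 - 1) (C 0 1) (C 1 0) (C 1 1 - 1) := rfl

theorem psi_star {v u : I → ℍ[F]} (hg : Gr v u 1) (C : Matrix (Fin 2) (Fin 2) ℍ[F]) :
    star (psi hg C) = psi hg (star C) := by
  simp [psi_apply, star_T2, star_apply]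

/-- `Sp₄` on the span of two orthonormal vectors -/
def Psi {v u : I → ℍ[F]} (hg : Gr v u 1) : GG (Fin 2) F →* GG I F where
  toFun C := ⟨psi hg C.val, by rw [psi_star, ← map_mul, C.2.1, map_one],
    by rw [psi_star, ← map_mul, C.2.2, map_one]⟩
  map_one' := Subtype.ext (map_one (psi hg))
  map_mul' C D := Subtype.ext (map_mul (psi hg) C.val D.val)

theorem Psi_val {v u : I → ℍ[F]} (hg : Gr v u 1) (C : GG (Fin 2) F) : (Psi hg C).val =
    T2 v u (C.val 0 0 - 1) (C.val 0 1) (C.val 1 0) (C.val 1 1 - 1) := rfl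

theorem R_mul {v : I → ℍ[F]} (hv : ip v v = 1) (x y : ℍ[F]) : R v x * R v y = R v (x * y) := by
  simp only [R, mul_add, add_mul, one_mul, mul_one, op_mul_op, hv, add_assoc, ← op_add]
  congr 2
  noncomm_ring

theorem star_R (v : I → ℍ[F]) (x : ℍ[F]) : star (R v x) = R v (star x) := by simp [R, star_op]

omit [Fintype I] in
theorem R_one (v : I → ℍ[F]) : R v 1 = 1 := by simp [R, op_zero]

theorem R_mem {v : I → ℍ[F]} (hv : ip v v = 1) {x : ℍ[F]} (hx : normSq x = 1) :
    R v x ∈ unitary (Matrix I I ℍ[F]) :=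
  ⟨by rw [star_R, R_mul hv, star_mul_of hx, R_one], by rw [star_R, R_mul hv, mul_star_of hx, R_one]⟩

theorem exists_normSq [Finite F] (h2 : (2 : F) ≠ 0) (γ : F) : ∃ b : ℍ[F], normSq b = γ := by
  have := Fintype.ofFinite F
  obtain ⟨a, b, h⟩ := FiniteField.exists_root_sum_quadratic (R := F) (f := Polynomial.X ^ 2)
    (g := Polynomial.X ^ 2 - Polynomial.C γ) (Polynomial.degree_X_pow 2)
    (Polynomial.degree_X_pow_sub_C two_pos γ)
    (Nat.odd_iff.1 (by rw [← Nat.card_eq_fintype_card]; exact H29.odd_card_iff.2 h2))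
  refine ⟨(a : ℍ[F]) + b • qi, ?_⟩
  simp [normSq_def'] at h ⊢
  linear_combination h

theorem generic_pair [Finite F] (h2 : (2 : F) ≠ 0) {H : Subgroup (GG I F)} (he : ∀ l, Good H (e l))
    {v w : I → ℍ[F]} (hv : Good H v) (hw : Good H w) (h0 : normSq (ip v w) ≠ 0)
    (h1 : normSq (ip v w) ≠ 1) : ∃ w', Good H w' ∧ normSq (ip v w') = 2⁻¹ := by
  by_contra hno
  push Not at hno
  have hg := gr_of hv.1 hw.1
  have h3 := hno w hw
  obtain ⟨w', hw'⟩ : ∃ w', w' = w - rs v (ip v w) := ⟨_, rfl⟩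
  rw [← hw'] at hg
  replace hw' : w = rs v (ip v w) + w' := by rw [hw', add_sub_cancel]
  generalize ip v w = a at *
  obtain ⟨b, hb⟩ := exists_normSq h2 (1 - normSq a)
  have hγ : 1 - normSq a ≠ 0 := sub_ne_zero.2 h1.symm
  have hg' : Gr v (rs w' ((1 - normSq a)⁻¹ • star b)) 1 :=
    ⟨hv.1, by rw [ip_rs_right, hg.vw, zero_mul], by
      rw [ip_rs_right, ip_rs_left, hg.ww, ← coe_commutes, mul_assoc, star_mul_self, ← coe_mul,
        normSq_smul, normSq_star, hb]
      congr 1
      field_simp⟩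
  have e2 : w = rs v a + rs (rs w' ((1 - normSq a)⁻¹ • star b)) b := by
    rw [rs_rs, smul_mul_assoc, star_mul_self, hb, smul_coe, inv_mul_cancel₀ hγ, coe_one, rs_one, hw']
  generalize rs w' ((1 - normSq a)⁻¹ • star b) = u at hg' e2
  have hab : ip ![a, b] ![a, b] = 1 := by
    rw [ip_self]
    simp [hb]
  have h4 := zstar_step h2 (H.comap (Psi hg')) ?_ ?_
    ⟨R ![a, b] (-1), R_mem hab inQ_neg_one.normSq⟩ ?_
  · simp only [R, op, Matrix.add_apply, of_apply, one_apply_eq, cons_val_zero, cons_val_one,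
      one_apply_ne (one_ne_zero : (1 : Fin 2) ≠ 0), zero_add] at h4
    rcases h4 with h | h
    · have := congrArg QuaternionAlgebra.re h
      rw [mul_sub, sub_mul, mul_neg, neg_mul, mul_one, self_mul_star] at this
      simp at this
      exact h3 (eq_inv_of_mul_eq_one_right (by linear_combination -this))
    · have := congrArg normSq h
      rw [map_mul, map_mul, normSq_star, hb, map_zero] at this
      simp [normSq_def' (-1 - 1 : ℍ[F]), h0, hγ] at this
      exact h2 (by linear_combination -this)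
  · refine Subgroup.mem_comap.2 (HM.iff.1 ?_)
    convert (hv.2 _).2 inQ_i using 1
    rw [R_eq v u]
    simp [Psi_val, gi]
  · intro y hy
    have h5 : (Psi hg' y).val *ᵥ v = rs v (y.val 0 0) + rs u (y.val 1 0) := by
      simp only [Psi_val, T2, add_mulVec, one_mulVec, op_mulVec, hg'.vv, hg'.wv]
      funext l
      simp only [rs, mul_sub, Pi.add_apply, mul_one, mul_zero, add_zero]
      abel
    have h6 := hv.smul (HM.iff.2 (Subgroup.mem_comap.1 hy))
    rw [h5] at h6
    have h7 : ip v (rs v (y.val 0 0) + rs u (y.val 1 0)) = y.val 0 0 := by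
      rw [ip_add_right, ip_rs_right, ip_rs_right, hg'.vv, hg'.vw, one_mul, zero_mul, add_zero]
    have h8 := pair h2 he hv h6
    have h9 := hno _ h6
    rw [h7] at h8 h9
    refine ⟨fun h => ?_, h8.2, h9⟩
    have := congrArg (ip u) (h8.1 h)
    rwa [ip_add_right, ip_rs_right, ip_rs_right, hg'.wv, hg'.ww, zero_mul, zero_add, coe_one,
      one_mul] at this
  · refine Subgroup.mem_comap.2 (HM.iff.1 ?_)
    convert (hw.2 _).2 inQ_neg_one using 1
    rw [e2, refl_eq, T2_rs]
    simp [Psi_val, R, op, mul_assoc]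

/-- monomial matrices -/
def monM (σ : Equiv.Perm I) (a : I → ℍ[F]) : Matrix I I ℍ[F] :=
  of fun i j => if i = σ j then a j else 0

theorem monM_mul (σ τ : Equiv.Perm I) (a b : I → ℍ[F]) :
    monM σ a * monM τ b = monM (σ * τ) fun j => a (τ j) * b j := by
  ext i j : 1
  simp [monM, Matrix.mul_apply]
  rfl

omit [Fintype I] in
theorem star_monM (σ : Equiv.Perm I) (a : I → ℍ[F]) :
    star (monM σ a) = monM σ⁻¹ fun j => star (a (σ⁻¹ j)) := by
  ext i j : 1
  simp only [monM, star_apply, of_apply, Equiv.Perm.eq_inv_iff_eq, eq_comm (a := j)]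
  split_ifs with h
  · simp [← h]
  · exact star_zero _

omit [Fintype I] in
theorem monM_one : monM (1 : Equiv.Perm I) (fun _ => (1 : ℍ[F])) = 1 := by
  ext i j : 1
  simp [monM, one_apply]
  rfl

/-- monomial elements of the symplectic group -/
def mon (σ : Equiv.Perm I) (a : I → unitary ℍ[F]) : GG I F :=
  ⟨monM σ fun j => (a j).val, by
    constructor <;> rw [star_monM, monM_mul, ← monM_one] <;> simp⟩

theorem mon_mul (σ τ : Equiv.Perm I) (a b : I → unitary ℍ[F]) :
    mon σ a * mon τ b = mon (σ * τ) ((fun j => a (τ j)) * b) := Subtype.ext (monM_mul ..)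

theorem mon_one : mon (1 : Equiv.Perm I) (1 : I → unitary ℍ[F]) = 1 := Subtype.ext monM_one

theorem mon_inv (σ : Equiv.Perm I) (a : I → unitary ℍ[F]) :
    (mon σ a)⁻¹ = mon σ⁻¹ fun j => (a (σ⁻¹ j))⁻¹ := Subtype.ext (star_monM ..)

theorem unit_ne_zero (x : unitary ℍ[F]) : x.val ≠ 0 := fun h => by simpa [h] using normSq_unit x

theorem mon_inj {σ τ : Equiv.Perm I} {a b : I → unitary ℍ[F]} (h : mon σ a = mon τ b) :
    σ = τ ∧ a = b := by
  have h1 : ∀ j, (a j).val = if σ j = τ j then (b j).val else 0 := fun j => by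
    simpa [mon, monM] using congrFun (congrFun (congrArg Subtype.val h) (σ j)) j
  have h3 : ∀ j, σ j = τ j := fun j => by_contra fun h => unit_ne_zero _ (by rw [h1, if_neg h])
  exact ⟨Equiv.ext h3, funext fun j => Subtype.ext (by rw [h1, if_pos (h3 j)])⟩

/-- diagonal elements -/
def dg : (I → unitary ℍ[F]) →* GG I F where
  toFun := mon 1
  map_one' := mon_one
  map_mul' a b := (mon_mul 1 1 a b).symm

theorem dg_apply (a : I → unitary ℍ[F]) : dg a = mon 1 a := rfl

theorem dg_single (l : I) (x : unitary ℍ[F]) : (dg (Pi.mulSingle l x)).val = R (e l) x.val := by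
  ext i j : 1
  by_cases hj : j = l
  · by_cases hi : i = l <;> simp [dg_apply, mon, monM, R, op, e, hi, hj]
  · simp [dg_apply, mon, monM, R, op, e, hj, one_apply]

theorem mon_e (σ : Equiv.Perm I) (a : I → unitary ℍ[F]) (l : I) :
    (mon σ a).val *ᵥ e l = rs (e (σ l)) (a l).val := by
  funext i
  simp [mon, monM, e, rs, Pi.single_apply]

/-- monomial groups -/
def Mon (P : Subgroup (Equiv.Perm I)) (D : Subgroup (unitary ℍ[F])) : Subgroup (GG I F) where
  carrier := {X | ∃ σ ∈ P, ∃ a, (∀ l, a l ∈ D) ∧ X = mon σ a}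
  one_mem' := ⟨1, one_mem _, 1, fun _ => one_mem _, mon_one.symm⟩
  mul_mem' := by
    rintro _ _ ⟨σ, hσ, a, ha, rfl⟩ ⟨τ, hτ, b, hb, rfl⟩
    exact ⟨_, mul_mem hσ hτ, _, fun l => mul_mem (ha _) (hb _), mon_mul ..⟩
  inv_mem' := by
    rintro _ ⟨σ, hσ, a, ha, rfl⟩
    exact ⟨_, inv_mem hσ, _, fun l => inv_mem (ha _), mon_inv ..⟩

variable {P : Subgroup (Equiv.Perm I)} {D : Subgroup (unitary ℍ[F])}

theorem mon_mem {σ : Equiv.Perm I} {a : I → unitary ℍ[F]} :
    mon σ a ∈ Mon P D ↔ σ ∈ P ∧ ∀ l, a l ∈ D := by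
  refine ⟨fun ⟨τ, hτ, b, hb, h⟩ => ?_, fun h => ⟨σ, h.1, a, h.2, rfl⟩⟩
  obtain ⟨rfl, rfl⟩ := mon_inj h
  exact ⟨hτ, hb⟩

theorem dg_mem {a : I → unitary ℍ[F]} : dg a ∈ Mon P D ↔ ∀ l, a l ∈ D :=
  mon_mem.trans (and_iff_right (one_mem _))

theorem card_Mon : Nat.card (Mon P D) = Nat.card P * Nat.card D ^ Nat.card I := by
  rw [← Nat.card_fun, ← Nat.card_prod]
  refine (Nat.card_congr (Equiv.ofBijective (fun p : P × (I → D) =>
    (⟨mon p.1 fun l => p.2 l, mon_mem.2 ⟨p.1.2, fun l => (p.2 l).2⟩⟩ : Mon P D)) ⟨?_, ?_⟩)).symm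
  · intro p p' h
    obtain ⟨h1, h3⟩ := mon_inj (congrArg Subtype.val h)
    exact Prod.ext (Subtype.ext h1) (funext fun l => Subtype.ext (congrFun h3 l))
  · rintro ⟨_, σ, hσ, a, ha, rfl⟩
    exact ⟨(⟨σ, hσ⟩, fun l => ⟨a l, ha l⟩), rfl⟩

theorem wc (h2 : (2 : F) ≠ 0) {u : I → ℍ[F]} (hu : ip u u = 1) {σ : Equiv.Perm I}
    {a : I → unitary ℍ[F]} (h : R u qi = (mon σ a).val) :
    ∃ (l : I) (b : unitary ℍ[F]), u = rs (e l) b.val := by
  have hre : ∀ l, (u l * qi * star (u l)).re = 0 := fun l => by simp; ring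
  have hn : ∀ l, normSq (u l * qi * star (u l)) = normSq (u l) ^ 2 := fun l => by
    simp [inQ_i.normSq, sq]
  have hd : ∀ l, ((1 - normSq (u l) : F) : ℍ[F]) + u l * qi * star (u l) =
      if l = σ l then (a l).val else 0 := fun l => by
    have := congrFun (congrFun h l) l
    simp only [R, op, mon, monM, Matrix.add_apply, of_apply, one_apply_eq, mul_sub, sub_mul,
      mul_one, self_mul_star] at this
    rw [← this, coe_sub, coe_one]
    abel
  have hσ : ∀ l, l = σ l := fun l => by_contra fun hl => by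
    have h1 := hd l
    rw [if_neg hl] at h1
    have h3 := congrArg QuaternionAlgebra.re h1
    rw [re_add, hre, re_coe, add_zero, re_zero] at h3
    rw [h3, coe_zero, zero_add] at h1
    have h4 := hn l
    rw [h1, map_zero, show normSq (u l) = 1 by linear_combination -h3] at h4
    simp at h4
  have hc : ∀ l, normSq (u l) = 0 ∨ normSq (u l) = 1 := fun l => by
    have h1 := congrArg normSq (hd l)
    rw [if_pos (hσ l), normSq_unit, normSq_add, hn, normSq_coe, coe_mul_eq_smul, re_smul, re_star,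
      hre] at h1
    rw [← sub_eq_zero (b := 1), ← mul_eq_zero]
    exact mul_left_cancel₀ h2 (by rw [smul_zero] at h1; linear_combination h1)
  obtain ⟨l, hl⟩ : ∃ l, normSq (u l) = 1 := by
    by_contra h0
    rw [ip_self, Finset.sum_eq_zero fun l _ => (hc l).resolve_right fun h => h0 ⟨l, h⟩] at hu
    simp at hu
  refine ⟨l, ⟨u l, mem_unit hl⟩, funext fun j => ?_⟩
  by_cases hj : j = l
  · simp [rs, e, hj]
  have h1 := congrFun (congrFun h j) l
  simp only [R, op, mon, monM, Matrix.add_apply, of_apply, ← hσ, one_apply_ne hj, if_neg hj,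
    zero_add] at h1
  have h3 : (qi - 1 : ℍ[F]) * (qi + 1) = (-2 : F) • 1 := by ext <;> simp; norm_num
  have h4 : (-2 : F) • u j = 0 := by
    have := congrArg (· * (u l * (qi + 1))) h1
    simp only [mul_assoc, ← mul_assoc (star (u l)), star_mul_of hl, one_mul, zero_mul, h3] at this
    simpa using this
  simpa [rs, e, hj, h2] using h4

end Cfsg.Agent.H28.Ps
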