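import Mathlib
import Cfsg.Agent.H28.PsE
import Cfsg.Agent.H28.Pron
import Cfsg.Agent.H59.PermMod
import Cfsg.Agent.H78.Matching
import Cfsg.Agent.H79.WreathSyl

/-!
# Overgroups of a Sylow `2`-subgroup of `Sp_{2m}(q)`, `m` a power of `2`, are pronormal
-/

set_option autoImplicit false

namespace Cfsg.Agent.H28.Ps

open Matrix Quaternion

theorem exists_conj_le {G : Type*} [Group G] [Finite G] {p : ℕ} [Fact p.Prime] (S : Sylow p G)
    {H T : Subgroup G} (hS : S.1 ≤ H) (hT : T ≤ H) (hp : IsPGroup p T) :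
    ∃ h ∈ H, ∀ t ∈ T, h * t * h⁻¹ ∈ S.1 := by
  obtain ⟨P, hP⟩ := (hp.comap_subtype (K := H)).exists_le_sylow
  obtain ⟨h, hh⟩ := MulAction.exists_smul_eq H P (S.subtype hS)
  refine ⟨h, h.2, fun t ht => ?_⟩
  have : h * ⟨t, hT ht⟩ * h⁻¹ ∈ (h • P).1 := ⟨_, hP (show (⟨t, hT ht⟩ : H) ∈ _ from ht), rfl⟩
  rwa [hh] at this

variable {F : Type*} [Field F] [Finite F] {I : Type*} [Fintype I] [DecidableEq I]
  (h2 : (2 : F) ≠ 0) {P : Subgroup (Equiv.Perm I)} (htr : ∀ l l', ∃ σ ∈ P, σ l = l')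

instance : Finite ℍ[F] := Finite.of_equiv _ (Quaternion.equivTuple F).symm

omit [Finite F] in
theorem exists_i : ∃ i : unitary ℍ[F], i.val = qi := ⟨⟨qi, mem_unit inQ_i.normSq⟩, rfl⟩

include h2 htr in
theorem norm_Mon {D : Subgroup (unitary ℍ[F])} (hQ : Q8 F ≤ D)
    (hP : Subgroup.normalizer (P : Set (Equiv.Perm I)) ≤ P) (l₀ : I) {n : GG I F}
    (hn : n ∈ Subgroup.normalizer (Mon P D : Set (GG I F))) :
    ∃ a ∈ Subgroup.normalizer (D : Set (unitary ℍ[F])), ∃ s ∈ Mon P D, n = dg (fun _ => a) * s := by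
  have hs : ∀ l x, x ∈ D → dg (Pi.mulSingle l x) ∈ Mon P D := fun l x hx => dg_mem.2 fun j => by
    by_cases h : j = l <;> simp [h, hx]
  obtain ⟨i, hi⟩ := exists_i (F := F)
  have h1 : ∀ l, ∃ (l' : I) (b : unitary ℍ[F]), n.val *ᵥ e l = rs (e l') b.val := fun l => by
    obtain ⟨σ, -, a, -, h⟩ := (hn _).1 (hs l i (hQ (hi ▸ inQ_i : inQ i.val)))
    refine wc h2 (by rw [ip_unit n.2.1, ip_e_e]) (σ := σ) (a := a) ?_
    rw [← h, val_conj, dg_single, conj_R n.2.2, hi]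
  choose τ b hb using h1
  have hτ : Function.Injective τ := fun l l' h => by_contra fun hl => by
    have := ip_unit n.2.1 (e l) (e l')
    rw [hb, hb, h, ip_rs_left, ip_rs_right, ip_e_e, one_mul, ip_e] at this
    have h3 := congrArg normSq this
    simp [e, hl, normSq_unit] at h3
  obtain ⟨σ, hσ⟩ : ∃ σ : Equiv.Perm I, ∀ l, σ l = τ l :=
    ⟨Equiv.ofBijective τ hτ.bijective_of_finite, fun _ => rfl⟩
  obtain rfl : n = mon σ b := Subtype.ext (by
    ext i j : 1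
    have := congrFun ((hb j).trans (by rw [mon_e, hσ] : _ = (mon σ b).val *ᵥ e j)) i
    simpa [e] using this)
  have h3 : ∀ ρ a, mon ρ a ∈ Mon P D → σ * ρ * σ⁻¹ ∈ P ∧ ∀ l, b (ρ l) * a l * (b l)⁻¹ ∈ D :=
    fun ρ a h => by
    have := (hn _).1 h
    rw [mon_inv, mon_mul, mon_mul, SetLike.mem_coe, mon_mem] at this
    exact ⟨this.1, fun l => by simpa using this.2 (σ l)⟩
  have h4 : b l₀ ∈ Subgroup.normalizer (D : Set (unitary ℍ[F])) :=
    Subgroup.mem_normalizer_fintype fun x hx => by simpa using (h3 _ _ (hs l₀ x hx)).2 l₀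
  have h5 : ∀ ρ ∈ P, mon ρ (1 : I → unitary ℍ[F]) ∈ Mon P D := fun ρ h =>
    mon_mem.2 ⟨h, fun _ => one_mem _⟩
  refine ⟨b l₀, h4, mon σ fun j => (b l₀)⁻¹ * b j, mon_mem.2 ⟨hP
    (Subgroup.mem_normalizer_fintype fun ρ h => (h3 _ _ (h5 ρ h)).1), fun l => ?_⟩, ?_⟩
  · obtain ⟨ρ, hρ, rfl⟩ := htr l₀ l
    simpa [mul_assoc] using (inv_mem h4 _).1 ((h3 _ _ (h5 ρ hρ)).2 l₀)
  · rw [dg_apply, mon_mul, one_mul]
    congr 1
    funext j
    simp

variable (c : Subgroup.normalizer (Q8 F : Set (unitary ℍ[F])) →* Multiplicative (ZMod 3))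
  (hc : ∀ x, c x = 1 ↔ x.1 ∈ Q8 F) (hP : IsPGroup 2 P)

omit [Finite F] in
include htr hc hP in
theorem avg {H : Subgroup (GG I F)} (hH : Mon P (Q8 F) ≤ H) (l₀ : I)
    (f : I → Subgroup.normalizer (Q8 F : Set (unitary ℍ[F]))) (hf : dg (fun l => (f l).1) ∈ H)
    (h1 : ∏ l, c (f l) ≠ 1) (a : Subgroup.normalizer (Q8 F : Set (unitary ℍ[F]))) :
    dg (fun _ => a.1) ∈ H := by
  classical
  let W := (H.comap dg).comap
    ((Subgroup.normalizer (Q8 F : Set (unitary ℍ[F]))).subtype.compLeft I)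
  obtain ⟨g, hg, hg'⟩ : (∏ σ : P, fun l => c (f (σ.1 l))) ∈ W.map (c.compLeft I) := by
    refine prod_mem fun σ _ => ⟨fun l => f (σ.1 l), ?_, rfl⟩
    have h3 : mon σ.1 (1 : I → unitary ℍ[F]) ∈ H := hH (mon_mem.2 ⟨σ.2, fun _ => one_mem _⟩)
    have h4 := mul_mem (mul_mem (inv_mem h3) hf) h3
    rw [dg_apply, mon_inv, mon_mul, mon_mul] at h4
    change mon 1 _ ∈ H
    convert h4 using 2
    · simp
    · funext l
      simp
  have h3 : ∀ l, c (g l) = ∏ σ : P, c (f (σ.1 l)) := fun l => by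
    simpa using congrFun hg' l
  have h4 : ∀ l, c (g l) = c (g l₀) := fun l => by
    obtain ⟨ρ, hρ, rfl⟩ := htr l₀ l
    rw [h3, h3]
    exact Fintype.prod_equiv (Equiv.mulRight ⟨ρ, hρ⟩) _ _ fun _ => rfl
  have h5 : c (g l₀) ≠ 1 := fun h => by
    have h6 : ∏ l, c (g l) = (∏ l, c (f l)) ^ Fintype.card P := by
      simp only [h3]
      rw [Finset.prod_comm, ← Finset.card_univ, ← Finset.prod_const]
      exact Finset.prod_congr rfl fun σ _ => Equiv.prod_comp σ.1 fun l => c (f l)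
    obtain ⟨k, hk⟩ := hP.exists_card_eq
    rw [Finset.prod_eq_one fun l _ => (h4 l).trans h, ← Nat.card_eq_fintype_card, hk] at h6
    have h7 : (∏ l, c (f l)) ^ 3 = 1 := by
      simpa using pow_card_eq_one (x := ∏ l, c (f l))
    refine h1 ?_
    rw [← pow_one (∏ l, c (f l)), ← show Nat.gcd 3 (2 ^ k) = 1 from Nat.Coprime.pow_right k (by decide),
      pow_gcd_eq_one]
    exact ⟨h7, h6.symm⟩
  obtain ⟨k, hk⟩ := exists_pow c h5 a
  have h6 : dg (fun l => (a * (g l ^ k)⁻¹).1) ∈ H := hH (dg_mem.2 fun l => (hc _).1 (by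
    simpa only [map_mul, map_inv, map_pow, h4 l] using hk))
  have h7 : dg (fun l => (g l).1) ∈ H := hg
  convert mul_mem h6 (pow_mem h7 k) using 1
  rw [← map_pow, ← map_mul]
  congr 1
  funext l
  simp

omit [Finite F] in
theorem Good.norm {H : Subgroup (GG I F)} [Finite F] {v : I → ℍ[F]} (hv : Good H v)
    {b : unitary ℍ[F]} (hb : Good H (Ps.rs v b.val)) :
    b ∈ Subgroup.normalizer (Q8 F : Set (unitary ℍ[F])) :=
  mem_norm_Q8.2 fun x hx => by rw [← hv.2, ← R_rs _ (normSq_unit b), hb.2]; exact hx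

include h2 htr hc hP in
theorem diag_mem (hs : ¬ IsSquare (2 : F)) (S : Sylow 2 (GG I F)) (hS : S.1 = Mon P (Q8 F))
    {H : Subgroup (GG I F)} (hH : Mon P (Q8 F) ≤ H) (he : ∀ l, Good H (e l)) {v w : I → ℍ[F]}
    (hv : Good H v) (hw : Good H w) (h0 : normSq (ip v w) ≠ 0) (h1 : normSq (ip v w) ≠ 1)
    (a : Subgroup.normalizer (Q8 F : Set (unitary ℍ[F]))) : dg (fun _ => a.1) ∈ H := by
  obtain ⟨w', hw', h3⟩ := generic_pair h2 he hv hw h0 h1
  obtain ⟨u, hu, hvu, hy⟩ := half h2 hs hv hw' h3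
  have hg : Gr v u 1 := ⟨hv.1, hvu, hu.1⟩
  have hΨ : ∀ x y : unitary ℍ[F], (Psi hg (dg ![x, y])).val = R v x.val * R u y.val := fun x y => by
    rw [R_eq v u, R_eq' v u, hg.mul, Psi_val]
    simp [dg_apply, mon, monM]
  obtain ⟨h, hh, h4⟩ := exists_conj_le S (hS.le.trans hH) (T := (Mon ⊥ (Q8 F)).map (Psi hg)) (by
    rintro _ ⟨_, ⟨σ, rfl, x, hx, rfl⟩, rfl⟩
    refine HM.iff.1 ?_
    have : x = ![x 0, x 1] := by funext l; fin_cases l <;> rfl
    rw [this, ← dg_apply, hΨ]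
    exact ((hv.2 _).2 (hx 0)).mul ((hu.2 _).2 (hx 1)))
    ((IsPGroup.of_card (n := 6) (by rw [card_Mon, card_Q8 h2]; simp)).map _)
  obtain ⟨i, hi⟩ := exists_i (F := F)
  have hi' : i ∈ Q8 F := (hi ▸ inQ_i : inQ i.val)
  have h5 : ∀ {z : I → ℍ[F]} (x y : unitary ℍ[F]), Good H z → x ∈ Q8 F → y ∈ Q8 F →
      R v x.val * R u y.val = R z qi →
      ∃ (l : I) (b : Subgroup.normalizer (Q8 F : Set (unitary ℍ[F]))),
        h.val *ᵥ z = rs (e l) b.1.val := fun {z} x y hz hx hy e1 => by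
    obtain ⟨σ, -, d, -, h6⟩ := hS.le (h4 _ ⟨dg ![x, y], dg_mem.2 fun l => by
      fin_cases l <;> assumption, rfl⟩)
    obtain ⟨l, b, hb⟩ := wc h2 (hz.smul (HM.iff.2 hh)).1 (σ := σ) (a := d) (by
      rw [← h6, val_conj, hΨ, e1, conj_R h.2.2])
    exact ⟨l, ⟨b, (he l).norm (hb ▸ hz.smul (HM.iff.2 hh))⟩, hb⟩
  obtain ⟨l₁, b₁, e₁⟩ := h5 i 1 hv hi' (one_mem _) (by simp [hi, R_one])
  obtain ⟨l₂, b₂, e₂⟩ := h5 1 i hu (one_mem _) hi' (by simp [hi, R_one])
  obtain ⟨o, ho⟩ : ∃ o : Subgroup.normalizer (Q8 F : Set (unitary ℍ[F])), o.1.val = om :=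
    ⟨⟨⟨om, mem_unit (normSq_om h2)⟩, mem_norm_Q8.2 fun x hx => om_norm h2 hx⟩, rfl⟩
  obtain ⟨k, hk⟩ : ∃ k : Subgroup.normalizer (Q8 F : Set (unitary ℍ[F])), k.1.val = qk :=
    ⟨⟨⟨qk, mem_unit inQ_k.normSq⟩, Subgroup.le_normalizer (inQ_k : inQ _)⟩, rfl⟩
  refine avg htr c hc hP hH l₁
    (Pi.mulSingle l₁ (b₁ * o * b₁⁻¹) * Pi.mulSingle l₂ (b₂ * (k * o * k⁻¹) * b₂⁻¹)) ?_ ?_ a
  · have h6 := ((HM.iff.2 hh).mul hy).mul (HM.iff.2 hh).star
    have h7 : ∀ X Y : Matrix I I ℍ[F], h.val * (X * Y) * star h.val =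
        h.val * X * star h.val * (h.val * Y * star h.val) := fun X Y => by
      simp only [mul_assoc, ← mul_assoc (star h.val) h.val, h.2.1, one_mul]
    rw [h7, conj_R h.2.2, conj_R h.2.2, e₁, e₂, R_rs _ (normSq_unit _), R_rs _ (normSq_unit _),
      ← ho, ← hk, ← val_conj, ← val_conj, ← val_conj, ← dg_single, ← dg_single,
      ← Submonoid.coe_mul, ← map_mul, HM.iff] at h6
    convert h6 using 2
    funext l
    simp only [Pi.mul_apply, Subgroup.coe_mul, Pi.mulSingle_apply, apply_ite Subtype.val,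
      Subgroup.coe_inv, Subgroup.coe_one]
  · have h6 : ∀ (l : I) x, ∏ j, c (Pi.mulSingle (M := fun _ => _) l x j) = c x := fun l x => by
      rw [Finset.prod_eq_single l] <;> simp +contextual
    simp only [Pi.mul_apply, map_mul, Finset.prod_mul_distrib, h6, map_inv, mul_inv_cancel_comm]
    have h7 : c o ≠ 1 := fun h => by
      have : inQ _ := (hc o).1 h
      rw [ho] at this
      simp [inQ, om, Quaternion.ext_iff, h2] at this
    revert h7
    generalize c o = x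
    revert x
    decide

omit [Finite F] in
theorem dg_mul (a : unitary ℍ[F]) {h : GG I F} {τ : I → I} {b : I → unitary ℍ[F]}
    (hb : ∀ l, h.val *ᵥ e l = rs (e (τ l)) (b l).val) :
    dg (fun _ => a) * h = h * dg fun l => (b l)⁻¹ * a * b l := by
  refine Subtype.ext ?_
  ext i j : 1
  have h4 : h.val i j = if i = τ j then (b j).val else 0 := by
    simpa [e, rs, Pi.single_apply] using congrFun (hb j) i
  have h5 : (b j).val * ((b j)⁻¹ * a * b j).val = a.val * (b j).val := by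
    rw [← Submonoid.coe_mul, mul_assoc, mul_inv_cancel_left, Submonoid.coe_mul]
  have h6 : ∀ x : I → unitary ℍ[F], (dg x).val = diagonal fun l => (x l).val := fun x => by
    ext i j : 1
    by_cases h : i = j <;> simp [dg_apply, mon, monM, h]
  rw [Submonoid.coe_mul, Submonoid.coe_mul, h6, h6, diagonal_mul, mul_diagonal, h4]
  split_ifs
  · exact h5.symm
  · simp

include h2 htr hc hP in
theorem main (hs : ¬ IsSquare (2 : F)) (D : Sylow 2 (unitary ℍ[F])) (hD : D.1 = Q8 F)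
    (S : Sylow 2 (GG I F)) (hS : S.1 = Mon P (Q8 F)) (l₀ : I)
    {H : Subgroup (GG I F)} (hH : Mon P (Q8 F) ≤ H) {a : unitary ℍ[F]}
    (ha : a ∈ Subgroup.normalizer (Q8 F : Set (unitary ℍ[F]))) {s : GG I F} (hsH : s ∈ Mon P (Q8 F))
    {n : GG I F} (hn : n = dg (fun _ => a) * s) :
    n ∈ H ⊔ H.map (MulAut.conj n).toMonoidHom ∨ n ∈ Subgroup.normalizer (H : Set (GG I F)) := by
  by_cases ha' : a ∈ Q8 F
  · exact Or.inr (Subgroup.le_normalizer (hH (hn ▸ mul_mem (dg_mem.2 fun _ => ha') hsH)))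
  obtain ⟨K, hK⟩ : ∃ K, K = H ⊔ H.map (MulAut.conj n).toMonoidHom := ⟨_, rfl⟩
  have hHK : H ≤ K := hK ▸ le_sup_left
  have hK' : ∀ h ∈ H, dg (fun _ => a) * h * (dg fun _ => a)⁻¹ ∈ K := fun h hh =>
    hK ▸ Subgroup.mem_sup_right ⟨_, mul_mem (mul_mem (inv_mem (hH hsH)) hh) (hH hsH), by
      simp [hn, mul_assoc]⟩
  rw [← hK]
  have hQ : ∀ l x, x ∈ Q8 F → dg (Pi.mulSingle l x) ∈ H := fun l x hx => hH (dg_mem.2 fun j => by
    by_cases h : j = l <;> simp [h, hx])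
  by_cases hN : ∀ x ∈ (K.comap dg).comap (MonoidHom.mulSingle (fun _ => unitary ℍ[F]) l₀),
    x ∈ Subgroup.normalizer (Q8 F : Set (unitary ℍ[F])) → x ∈ Q8 F
  swap
  · push Not at hN
    obtain ⟨x, hx, hx1, hx2⟩ := hN
    refine Or.inl (hn ▸ mul_mem (avg htr c hc hP (hH.trans hHK) l₀ (Pi.mulSingle l₀ ⟨x, hx1⟩) ?_ ?_
      ⟨a, ha⟩) (hHK (hH hsH)))
    · convert (show dg (Pi.mulSingle l₀ x) ∈ K from hx) using 2
      funext l
      simp only [Pi.mulSingle_apply, apply_ite Subtype.val, Subgroup.coe_one]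
    · rw [Finset.prod_eq_single l₀ (by simp +contextual) (by simp), Pi.mulSingle_eq_same]
      exact fun h => hx2 ((hc _).1 h)
  have he₀ : Good H (e l₀) := by
    refine ⟨ip_e_e _, fun x => ⟨fun h => ?_, fun h => ?_⟩⟩
    · have h1 : normSq x = 1 := by
        have := h.mul_star
        rw [star_R, R_mul (ip_e_e _), self_mul_star] at this
        simpa [R, op, e, sub_eq_zero] using
          congrArg QuaternionAlgebra.re (congrFun (congrFun this l₀) l₀)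
      obtain ⟨x, rfl⟩ : ∃ y : unitary ℍ[F], y.val = x := ⟨⟨x, mem_unit h1⟩, rfl⟩
      rw [← dg_single, HM.iff] at h
      refine sl2_main h2 D hD c hc _ (fun y hy => hHK (hQ l₀ y hy)) hN ha ha' (hHK h) ?_
      have := hK' _ h
      rw [← map_inv, ← map_mul, ← map_mul] at this
      change dg (Pi.mulSingle l₀ _) ∈ K
      convert this using 2
      funext l
      by_cases hl : l = l₀ <;> simp [hl]
    · rw [show x = (⟨x, mem_unit h.normSq⟩ : unitary ℍ[F]).val from rfl, ← dg_single, HM.iff]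
      exact hQ _ _ h
  have he : ∀ l, Good H (e l) := fun l => by
    obtain ⟨σ, hσ, rfl⟩ := htr l₀ l
    have := he₀.smul (HM.iff.2 (hH (mon_mem.2 ⟨hσ, fun _ => one_mem _⟩ : mon σ 1 ∈ _)))
    rwa [mon_e, Pi.one_apply, OneMemClass.coe_one, rs_one] at this
  by_cases hmon : ∀ h ∈ H, ∀ l, ∃ l' b, h.val *ᵥ e l = rs (e l') b
  · refine Or.inr (hn ▸ mul_mem (Subgroup.mem_normalizer_fintype fun h hh => ?_)
      (Subgroup.le_normalizer (hH hsH)))
    have h1 : ∀ l, ∃ (l' : I) (b : Subgroup.normalizer (Q8 F : Set (unitary ℍ[F]))),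
        h.val *ᵥ e l = rs (e l') b.1.val := fun l => by
      obtain ⟨l', b, hb⟩ := hmon h hh l
      have h3 := (he l).smul (HM.iff.2 hh)
      rw [hb] at h3
      have h4 := congrArg QuaternionAlgebra.re h3.1
      rw [ip_rs_left, ip_rs_right, ip_e_e, one_mul, star_mul_self] at h4
      exact ⟨l', ⟨⟨b, mem_unit h4⟩, (he l').norm h3⟩, hb⟩
    choose τ b hb using h1
    have h3 : dg (fun l => ((b l)⁻¹ * ⟨a, ha⟩ * b l * (⟨a, ha⟩ : Subgroup.normalizer _)⁻¹).1) ∈ H :=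
      hH (dg_mem.2 fun l => (hc _).1 (by simp only [map_mul, map_inv, inv_mul_cancel_comm,
        mul_inv_cancel]))
    rw [SetLike.mem_coe]
    convert mul_mem hh h3 using 1
    rw [dg_mul a hb, mul_assoc, ← map_inv, ← map_mul]
    rfl
  · push Not at hmon
    obtain ⟨h, hh, l, hl⟩ := hmon
    have hw := (he l).smul (HM.iff.2 hh)
    obtain ⟨l', hl'⟩ : ∃ l', (h.val *ᵥ e l) l' ≠ 0 := by
      by_contra h0
      push Not at h0
      simpa [ip, h0] using hw.1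
    have hp := pair h2 he (he l') hw
    exact Or.inl (hn ▸ hHK (mul_mem (diag_mem h2 htr c hc hP hs S hS hH he (he l') hw
      (fun h => hl' ((ip_e _ _).symm.trans (hp.2 h))) (fun h => hl _ _ (hp.1 h)) ⟨a, ha⟩) (hH hsH)))

/-- the two properties of a Sylow subgroup that make all its overgroups pronormal, also in direct
products -/
def Nice {G : Type*} [Group G] (S : Subgroup G) : Prop :=
  (∀ a ∈ Subgroup.normalizer (S : Set G), ∀ b ∈ Subgroup.normalizer (S : Set G),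
    a * b * a⁻¹ * b⁻¹ ∈ S) ∧
  ∀ H, S ≤ H → ∀ n ∈ Subgroup.normalizer (S : Set G),
    n ∈ H ⊔ H.map (MulAut.conj n).toMonoidHom ∨ n ∈ Subgroup.normalizer (H : Set G)

theorem comm_mem {G : Type*} [Group G] {S : Subgroup G} {x y s t : G}
    (hx : x ∈ Subgroup.normalizer (S : Set G)) (hy : y ∈ Subgroup.normalizer (S : Set G))
    (hs : s ∈ S) (ht : t ∈ S) (h : x * y * x⁻¹ * y⁻¹ ∈ S) :
    x * s * (y * t) * (x * s)⁻¹ * (y * t)⁻¹ ∈ S := by
  have h1 : x * s * x⁻¹ ∈ S := (hx _).1 hs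
  have h2 : x * y * (t * s⁻¹) * (x * y)⁻¹ ∈ S := (mul_mem hx hy _).1 (mul_mem ht (inv_mem hs))
  have h3 : y * t⁻¹ * y⁻¹ ∈ S := (hy _).1 (inv_mem ht)
  convert mul_mem (mul_mem h1 h2) (mul_mem h h3) using 1
  group

theorem comm_of_hom {G C : Type*} [Group G] [CommGroup C] {D N : Subgroup G} (c : N →* C)
    (hc : ∀ x, c x = 1 ↔ x.1 ∈ D) {a b : G} (ha : a ∈ N) (hb : b ∈ N) : a * b * a⁻¹ * b⁻¹ ∈ D :=
  (hc (⟨a, ha⟩ * ⟨b, hb⟩ * (⟨a, ha⟩ : N)⁻¹ * (⟨b, hb⟩ : N)⁻¹)).1 (by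
    simp only [map_mul, map_inv, mul_inv_cancel_comm, mul_inv_cancel])

include h2 htr hP in
theorem nice_Mon (hP' : Subgroup.normalizer (P : Set (Equiv.Perm I)) ≤ P) (l₀ : I)
    (D : Sylow 2 (unitary ℍ[F])) {D' : Subgroup (unitary ℍ[F])} (hD' : D.1 = D') (hQ : Q8 F ≤ D')
    (c : Subgroup.normalizer (D' : Set (unitary ℍ[F])) →* Multiplicative (ZMod 3))
    (hc : ∀ x, c x = 1 ↔ x.1 ∈ D')
    (hD : Subgroup.normalizer (D' : Set (unitary ℍ[F])) ≤ D' ∨ D' = Q8 F ∧ ¬ IsSquare (2 : F))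
    (S : Sylow 2 (GG I F)) (hS : S.1 = Mon P D') : Nice (Mon P D') := by
  have hN := fun n => norm_Mon h2 htr hQ hP' l₀ (n := n)
  have hd : ∀ a, ∀ s ∈ Mon P D',
      dg (fun _ => a) * s ∈ Subgroup.normalizer (Mon P D' : Set (GG I F)) →
      dg (fun _ => a) ∈ Subgroup.normalizer (Mon P D' : Set (GG I F)) :=
    fun a s hs h => (Subgroup.mul_mem_cancel_right _ (Subgroup.le_normalizer hs)).1 h
  refine ⟨fun n hn n' hn' => ?_, fun H hH n hn => ?_⟩
  · obtain ⟨a, ha, s, hs, rfl⟩ := hN n hn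
    obtain ⟨b, hb, t, ht, rfl⟩ := hN n' hn'
    refine comm_mem (hd a s hs hn) (hd b t ht hn') hs ht ?_
    have h1 := comm_of_hom c hc ha hb
    rw [← map_inv, ← map_inv, ← map_mul, ← map_mul, ← map_mul, dg_mem]
    exact fun _ => h1
  · obtain ⟨a, ha, s, hs, hn'⟩ := hN n hn
    rcases hD with hD | ⟨rfl, h3⟩
    · exact Or.inr (Subgroup.le_normalizer (hH (hn' ▸ mul_mem (dg_mem.2 fun _ => hD ha) hs)))
    · exact main h2 htr c hc hP h3 D hD' S hS l₀ hH ha hs hn'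

theorem exists_nice {F : Type*} [Field F] [Fintype F] (hodd : Odd (Fintype.card F)) {m k : ℕ}
    (hm : m = 2 ^ k) : ∃ S : Sylow 2 (GG (Fin m) F), Nice S.1 := by
  have h2 : (2 : F) ≠ 0 := H29.odd_card_iff.1 (by rwa [Nat.card_eq_fintype_card])
  obtain ⟨D, c, hQ, hv, hc, hD⟩ := sylow_unit hodd
  obtain ⟨P⟩ : Nonempty (Sylow 2 (Equiv.Perm (Fin m))) := inferInstance
  have htr : ∀ l l', ∃ σ ∈ P.1, σ l = l' := fun l l' => by
    obtain ⟨σ, h⟩ := (H59.sylow_isPretransitive (f := k) (Ω := Fin m) (by simp [hm]) P).1 l l'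
    exact ⟨σ, σ.2, h⟩
  obtain ⟨e⟩ := exists_sp h2 (Fin m)
  obtain ⟨i, hi⟩ := P.isPGroup'.exists_card_eq
  obtain ⟨j, hj⟩ := D.isPGroup'.exists_card_eq
  have hcard : Nat.card (Mon P.1 D.1) = 2 ^ (Nat.card (GG (Fin m) F)).factorization 2 := by
    have h1 := H24.val_card_sylow P
    rw [Nat.card_perm, Nat.card_fin] at h1
    rw [Nat.factorization_def _ Nat.prime_two, Nat.card_congr e.toEquiv, H79.val_card_sp hodd, ← hv,
      ← h1, card_Mon, show Nat.card P = _ from hi, show Nat.card D = _ from hj,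
      padicValNat.prime_pow, padicValNat.prime_pow, Nat.card_fin]
    ring
  exact ⟨Sylow.ofCard _ hcard, nice_Mon h2 htr P.isPGroup' (H78.normalizer_sylow_two_perm P).le
    ⟨0, hm ▸ Nat.two_pow_pos k⟩ D rfl hQ c hc hD (Sylow.ofCard _ hcard) rfl⟩

theorem Nice.equiv {G G' : Type*} [Group G] [Group G'] {S : Subgroup G} (h : Nice S) (e : G ≃* G') :
    Nice (S.map e.toMonoidHom) := by
  refine ⟨fun a ha b hb => ?_, fun H hH n hn => ?_⟩
  · rw [← Subgroup.map_equiv_normalizer_eq] at ha hb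
    obtain ⟨a, ha, rfl⟩ := ha
    obtain ⟨b, hb, rfl⟩ := hb
    exact ⟨_, h.1 a ha b hb, by simp⟩
  · rw [← Subgroup.map_equiv_normalizer_eq] at hn
    obtain ⟨n, hn, rfl⟩ := hn
    obtain ⟨H, rfl⟩ : ∃ H' : Subgroup G, H'.map e.toMonoidHom = H :=
      ⟨_, Subgroup.map_comap_eq_self_of_surjective e.surjective H⟩
    rw [← Pron.map_conj_map, ← Subgroup.map_sup, ← Subgroup.map_equiv_normalizer_eq]
    exact (h.2 H ((Subgroup.map_le_map_iff_of_injective e.injective).1 hH) n hn).imp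
      (Subgroup.mem_map_of_mem _) (Subgroup.mem_map_of_mem _)

theorem allP_pi {ι : Type*} [Finite ι] {G : ι → Type*} [∀ i, Group (G i)] [∀ i, Finite (G i)]
    {p : ℕ} [Fact p.Prime] (S : ∀ i, Sylow p (G i)) (h : ∀ i, Nice (S i).1) :
    Pron.AllP p (∀ i, G i) := by
  classical
  have := Fintype.ofFinite ι
  have hP : IsPGroup p (Subgroup.pi Set.univ fun i => (S i).1) := fun x => by
    choose k hk using fun i => (S i).isPGroup' ⟨x.1 i, x.2 i trivial⟩
    refine ⟨∑ i, k i, Subtype.ext (funext fun i => ?_)⟩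
    obtain ⟨r, hr⟩ := pow_dvd_pow p (Finset.single_le_sum (f := k) (fun _ _ => Nat.zero_le _)
      (Finset.mem_univ i))
    have : x.1 i ^ p ^ k i = 1 := congrArg Subtype.val (hk i)
    simp [hr, pow_mul, this]
  have hs : ∀ i, ∀ x ∈ (S i).1, Pi.mulSingle i x ∈ Subgroup.pi Set.univ fun i => (S i).1 :=
    fun i x hx j _ => by
    by_cases hj : j = i
    · subst hj
      simpa using hx
    · simp [hj]
  let T : Sylow p (∀ i, G i) := ⟨_, hP, fun {Q} hQ hle => le_antisymm (fun x hx i _ =>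
    ((S i).3 (hQ.map (Pi.evalMonoidHom G i)) fun y hy => ⟨_, hle (hs i y hy), by simp⟩).le
      ⟨x, hx, rfl⟩) hle⟩
  refine Pron.allP_of T fun H hH _ g hg => ?_
  have hN : ∀ n ∈ Subgroup.normalizer (T.1 : Set (∀ i, G i)), ∀ i,
      n i ∈ Subgroup.normalizer ((S i).1 : Set (G i)) := fun n hn i =>
    Subgroup.mem_normalizer_fintype fun x hx => by
      have : (n * Pi.mulSingle i x * n⁻¹) i ∈ (S i).1 := (hn _).1 (hs i x hx) i trivial
      rwa [Pi.mul_apply, Pi.mul_apply, Pi.mulSingle_eq_same] at this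
  let L : ∀ i, Subgroup (G i) := fun i => H.comap (MonoidHom.mulSingle G i)
  have hL : ∀ i, (S i).1 ≤ L i := fun i x hx => hH (hs i x hx)
  have hw : ∀ i, ∃ w ∈ L i ⊔ (L i).map (MulAut.conj (g i)).toMonoidHom,
      w⁻¹ * g i ∈ Subgroup.normalizer ((S i).1 : Set (G i)) ∧
        w⁻¹ * g i ∈ Subgroup.normalizer (L i : Set (G i)) := fun i => by
    rcases (h i).2 (L i) (hL i) (g i) (hN g hg i) with h1 | h1
    · exact ⟨g i, h1, by simp, by simp⟩
    · exact ⟨1, one_mem _, by simpa using hN g hg i, by simpa using h1⟩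
  choose w hw1 hw2 hw3 using hw
  refine ⟨w, Subgroup.pi_mem_of_mulSingle_mem w fun i => ?_, ?_⟩
  · refine (sup_le ?_ ?_ : _ ≤ (H ⊔ H.map (MulAut.conj g).toMonoidHom).comap
      (MonoidHom.mulSingle G i)) (hw1 i)
    · exact fun x hx => Subgroup.mem_sup_left hx
    · rintro _ ⟨x, hx, rfl⟩
      refine Subgroup.mem_sup_right ⟨_, hx, funext fun j => ?_⟩
      by_cases hj : j = i
      · subst hj
        simp
      · simp [hj]
  suffices h : w⁻¹ * g ∈ Subgroup.normalizer (H : Set (∀ i, G i)) by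
    rw [← mul_inv_cancel_left w g, H89.conj_mul, H89.conj_eq_self_iff.2 h]
  have hLH : Subgroup.pi Set.univ L ≤ H := fun x hx =>
    Subgroup.pi_mem_of_mulSingle_mem x fun i => hx i trivial
  have : ((Subgroup.pi Set.univ L).subgroupOf H).Normal := ⟨fun x hx y i _ => by
    have := mul_mem (mul_mem y.2 (hx i trivial : Pi.mulSingle i (x.1 i) ∈ H)) (inv_mem y.2)
    change Pi.mulSingle i _ ∈ H
    convert this using 1
    funext j
    by_cases hj : j = i
    · subst hj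
      simp
    · simp [hj]⟩
  have hF := Sylow.normalizer_sup_eq_top' (N := (Subgroup.pi Set.univ L).subgroupOf H)
    (T.subtype hH) fun x hx i _ => hL i (hx i trivial)
  refine Subgroup.mem_normalizer_fintype fun x hx => ?_
  obtain ⟨n, hn, l, hl, e⟩ := Subgroup.mem_sup_of_normal_right.1 (hF.ge (Subgroup.mem_top ⟨x, hx⟩))
  obtain rfl : n.1 * l.1 = x := congrArg Subtype.val e
  have hn' := hN n (Subgroup.mem_normalizer_fintype fun z hz => (hn ⟨z, hH hz⟩).1 hz)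
  have h1 : w⁻¹ * g * n * (w⁻¹ * g)⁻¹ * n.1⁻¹ ∈ H := hH fun i _ => (h i).1 _ (hw2 i) _ (hn' i)
  have h2 : w⁻¹ * g * l * (w⁻¹ * g)⁻¹ ∈ H := hLH fun i _ => (hw3 i _).1 (hl i trivial)
  rw [SetLike.mem_coe]
  convert mul_mem (mul_mem h1 n.2) h2 using 1
  group

theorem exists_nice_sp {F : Type*} [Field F] [Fintype F] (hodd : Odd (Fintype.card F)) {m k : ℕ}
    (hm : m = 2 ^ k) : ∃ S : Sylow 2 (symplecticGroup (Fin m) F), Nice S.1 := by
  obtain ⟨S, h⟩ := exists_nice hodd hm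
  obtain ⟨e⟩ := exists_sp (H29.odd_card_iff.1 (by rwa [Nat.card_eq_fintype_card])) (Fin m) (F := F)
  exact ⟨S.mapSurjective (f := e.toMonoidHom) e.surjective, h.equiv e⟩

end Cfsg.Agent.H28.Ps
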