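import Mathlib
import Cfsg.Agent.H87.PWDefs

/-!
# Centralisers of coordinate 3-cycles (project PW, pieces C7 and C56)
-/

set_option autoImplicit false

namespace Cfsg.Agent.H28.PwC

open Equiv Cfsg.Agent.H87.PW

variable {ι α : Type} [DecidableEq ι] [DecidableEq α]

theorem c3_fix {p q r x : α} (hpq : p ≠ q) (hpr : p ≠ r) (hqr : q ≠ r) :
    c3 p q r x = x ↔ x ≠ p ∧ x ≠ q ∧ x ≠ r := by
  refine ⟨fun h => ⟨?_, ?_, ?_⟩, fun h => c3_of_ne h.1 h.2.1 h.2.2⟩ <;> rintro rfl
  · exact hpq (h.symm.trans (c3_1 hpq hqr))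
  · exact hqr (h.symm.trans (c3_2 _ _ _))
  · exact hpr ((c3_3 hpr hqr).symm.trans h)

theorem ap_inv {β : Type*} (c : Perm β) (x : β) : c (c⁻¹ x) = x := c.apply_symm_apply x

theorem inv_ap {β : Type*} (c : Perm β) (x : β) : c⁻¹ (c x) = x := c.symm_apply_apply x

theorem fix_iff {β : Type*} {c u : Perm β} (h : c * u = u * c) (x : β) :
    u (c x) = c x ↔ u x = x := by
  rw [← Perm.mul_apply, ← h, Perm.mul_apply, c.injective.eq_iff]

theorem new_of_list [Fintype α] (l : List α) (h : l.length < Fintype.card α) : ∃ e, e ∉ l := by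
  obtain ⟨e, -, he⟩ := Finset.exists_mem_notMem_of_card_lt_card (s := l.toFinset)
    (t := Finset.univ) (l.toFinset_card_le.trans_lt h)
  exact ⟨e, by simpa using he⟩

theorem c7 : C7Stmt := by
  intro ι α _ _ _ _ H C h7 hS hM c hc i p q r hpq hpr hqr hu
  have out : ∀ x : ι → α, (c x i ≠ p ∧ c x i ≠ q ∧ c x i ≠ r) ↔ (x i ≠ p ∧ x i ≠ q ∧ x i ≠ r) :=
    fun x => by
      rw [← c3_fix hpq hpr hqr, ← c3_fix hpq hpr hqr, ← co_fix_iff i, ← co_fix_iff i, fix_iff hu]
  obtain ⟨a, a1, a2, a3, -⟩ := exists_new C.hm p q r r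
  refine (W ι α).inv_mem_iff.1 (hM c⁻¹ (H.inv_mem hc) i i (c (fun _ => a) i) a fun z hz => ?_)
  by_contra hd
  have h1 := (out (c⁻¹ z)).1 (by
    rw [ap_inv, hz]
    exact (out _).2 ⟨a1, a2, a3⟩)
  obtain ⟨e, he⟩ := new_of_list [p, q, r, a, c⁻¹ z i] (by simp; omega)
  obtain ⟨f, hf⟩ := new_of_list [p, q, r, a, c⁻¹ z i, e] (by simp; omega)
  simp only [List.mem_cons, List.not_mem_nil, or_false, not_or] at he hf
  have de : c⁻¹ z i ≠ e := Ne.symm he.2.2.2.2
  have df : c⁻¹ z i ≠ f := Ne.symm hf.2.2.2.2.1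
  have ef : e ≠ f := Ne.symm hf.2.2.2.2.2
  obtain ⟨τ, hτ⟩ := hS i p (c * co i (c3 (c⁻¹ z i) e f) * c⁻¹)
    (H.mul_mem (H.mul_mem hc (C.hyp.co_mem _ _ (c3_sign de df))) (H.inv_mem hc)) fun w hw => by
      have h2 : ¬ (c⁻¹ w i ≠ p ∧ c⁻¹ w i ≠ q ∧ c⁻¹ w i ≠ r) := fun h =>
        ((out _).2 h).1 (by rw [ap_inv, hw])
      have h3 : co i (c3 (c⁻¹ z i) e f) (c⁻¹ w) = c⁻¹ w := by
        rw [co_fix_iff, c3_fix de df ef]
        refine ⟨fun h => h2 (h ▸ h1), fun h => h2 ?_, fun h => h2 ?_⟩ <;> rw [h]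
        · exact ⟨he.1, he.2.1, he.2.2.1⟩
        · exact ⟨hf.1, hf.2.1, hf.2.2.1⟩
      rw [Perm.mul_apply, Perm.mul_apply, h3, ap_inv]
  have h4 : co i τ (c fun _ => a) = c fun _ => a := by
    rw [← hτ, Perm.mul_apply, Perm.mul_apply, inv_ap, (co_fix_iff _ _ _).2
      (c3_of_ne (Ne.symm hd) (Ne.symm he.2.2.2.1) (Ne.symm hf.2.2.2.1))]
  have h5 : co i τ z = z := by
    rw [co_fix_iff] at h4 ⊢
    rwa [hz]
  rw [← hτ, Perm.mul_apply, Perm.mul_apply, ← Perm.eq_inv_iff_eq, co_fix_iff, c3_fix de df ef] at h5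
  exact h5.1 rfl

omit [DecidableEq α] in
theorem res_co' {i j : ι} (h : j ≠ i) (β : Perm α) (x : ι → α) :
    res i (co j β x) = co ⟨j, h⟩ β (res i x) := by
  funext l
  by_cases e : l = ⟨j, h⟩
  · subst e
    simp [res]
  · rw [co_ne e]
    exact co_ne (fun e' => e (Subtype.ext e')) β x

theorem key [Fintype ι] [Fintype α] {c : Perm (ι → α)} {i j j' : ι} (hj : j' ≠ i)
    {β β' σ : Perm α} (h1 : β.support.card = β'.support.card)
    (h2 : β'.support.card < Fintype.card α)
    (h : c * co j β * c⁻¹ * (co j' β')⁻¹ = co i σ) : c * co j β = co j' β' * c := by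
  rw [mul_inv_eq_iff_eq_mul] at h
  have a1 : (co j' β').support ⊆ (co i σ * co j' β').support := fun x hx => by
    rw [Perm.mem_support] at hx ⊢
    intro e
    have := congrFun e j'
    rw [Perm.mul_apply, co_ne hj] at this
    exact hx ((co_fix_iff _ _ _).2 (by simpa using this))
  have a2 := Finset.eq_of_subset_of_card_le a1 (by
    rw [← h, Perm.card_support_conj, card_support_co, card_support_co, h1])
  obtain ⟨b, -, hb⟩ := Finset.exists_mem_notMem_of_card_lt_card (t := Finset.univ) h2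
  have a3 : σ = 1 := by
    ext a
    have e1 : co j' β' (Function.update (fun _ => b) i a) = Function.update (fun _ => b) i a := by
      rw [co_fix_iff, Function.update_of_ne hj]
      exact Perm.notMem_support.1 hb
    have e2 := Perm.notMem_support.2 e1
    rw [a2, Perm.notMem_support, Perm.mul_apply, e1, co_fix_iff, Function.update_self] at e2
    exact e2
  rw [a3, co_one, one_mul] at h
  rw [← h, inv_mul_cancel_right]

theorem c56 : C56Stmt := by
  intro ι α _ _ _ _ H C hI hM hE c hc i p q r hpq hpr hqr hu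
  let X : Subgroup (Perm (ι → α)) := H ⊓ Subgroup.centralizer {co i (c3 p q r)}
  have mX : ∀ {g}, g ∈ X ↔ g ∈ H ∧ g * co i (c3 p q r) = co i (c3 p q r) * g :=
    and_congr_right fun _ => Subgroup.mem_centralizer_singleton_iff
  let S : Set (ι → α) := {x | co i (c3 p q r) x ≠ x}
  have mS : ∀ {x}, x ∈ S ↔ x i = p ∨ x i = q ∨ x i = r := fun {x} => by
    change ¬ _ ↔ _
    rw [co_fix_iff, c3_fix hpq hpr hqr]
    tauto
  have iS : ∀ g ∈ X, ∀ x ∈ S, g x ∈ S := fun g hg x hx e => hx ((fix_iff (mX.1 hg).2 x).1 e)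
  have cX : ∀ j, j ≠ i → ∀ τ : Perm α, Perm.sign τ = 1 → co j τ ∈ X := fun j hj τ hτ =>
    mX.2 ⟨C.hyp.co_mem j τ hτ, co_comm hj _ _⟩
  have K : ∀ g ∈ X, ∀ j j', j ≠ i → j' ≠ i → ∀ β β' : Perm α, β.IsThreeCycle → β'.IsThreeCycle →
      (∀ x ∈ S, ∀ y, res i (g x) = res i y → res i (g (co j β x)) = res i (co j' β' y)) →
      g * co j β = co j' β' * g := fun g hg j j' hj hj' β β' b1 b2 h => by
    have m1 := X.inv_mem (cX j' hj' β' b2.sign)
    have m2 := mX.1 (X.mul_mem (X.mul_mem (X.mul_mem hg (cX j hj β b1.sign)) (X.inv_mem hg)) m1)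
    obtain ⟨σ, hσ⟩ := hE _ m2.1 i p q r hpq hpr hqr m2.2 fun x hx => by
      have := h _ (iS _ (X.inv_mem hg) _ (iS _ m1 x (mS.2 (.inl hx)))) _
        (by rw [ap_inv])
      rwa [ap_inv] at this
    exact key hj' (by rw [b1.card_support, b2.card_support])
      (by rw [b2.card_support]; have := C.hm; omega) hσ
  have step : ∀ g ∈ X, ∀ x y : ι → α, res i x = res i y → c3 p q r (x i) = y i →
      res i (g x) = res i (g y) := fun g hg x y h1 h2 => by
    have : y = co i (c3 p q r) x := ext_res (by rw [co_self, h2]) (by rw [res_co, h1])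
    rw [this, ← Perm.mul_apply, (mX.1 hg).2, Perm.mul_apply, res_co]
  obtain ⟨d, d1, d2, d3, -⟩ := exists_new C.hm p q r r
  obtain ⟨e, e1, e2, e3, e4⟩ := exists_new C.hm p q r d
  rcases hI X i p S (fun x hx => mS.2 (.inl hx)) iS (fun g hg x hx y hy h => by
      have s1 := c3_1 hpq hqr
      have s2 := c3_2 p q r
      have s3 := c3_3 hpr hqr
      have s0 : x i = y i → res i (g x) = res i (g y) := fun e => by rw [ext_res e h]
      rcases mS.1 hx with a | a | a <;> rcases mS.1 hy with b | b | b <;>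
        first
        | exact s0 (a.trans b.symm)
        | exact step g hg x y h (by rw [a, b]; assumption)
        | exact (step g hg y x h.symm (by rw [a, b]; assumption)).symm) cX (fun π hπ => by
      obtain ⟨τ, t1, t2⟩ := C.hyp.top' π (fun _ => d) (fun _ => e) fun _ => e4.symm
      refine ⟨τ, mX.2 ⟨t1, ?_⟩⟩
      rw [← mul_inv_eq_iff_eq_mul, wr_conj_co, hπ]
      congr 1
      rw [mul_inv_eq_iff_eq_mul]
      rcases t2 i with t | t <;> rw [t]
      · simp
      · refine Perm.Disjoint.commute fun x => ?_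
        by_cases h1 : x = d
        · exact .inr (h1 ▸ c3_of_ne d1 d2 d3)
        by_cases h2 : x = e
        · exact .inr (h2 ▸ c3_of_ne e1 e2 e3)
        · exact .inl (swap_apply_of_ne_of_ne h1 h2)) with hA | ⟨h3, hB⟩
  · obtain ⟨π, τ, p1, -, p2⟩ := hA c (mX.2 ⟨hc, hu⟩)
    have a1 : ∀ j, j ≠ i → ∀ β : Perm α, β.IsThreeCycle → ∀ x, c (co j β x) i = c x i := by
      intro j hj β hβ x
      have hj' : π j ≠ i := fun h => hj (π.injective (h.trans p1.symm))
      have := K c (mX.2 ⟨hc, hu⟩) j (π j) hj hj' β (τ (π j) * β * (τ (π j))⁻¹) hβ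
        (Perm.cycleType_conj.trans hβ) fun x hx y h => by
          rw [p2 _ (iS _ (cX j hj β hβ.sign) x hx), ← Perm.mul_apply,
            ← inv_mul_cancel_right (wr π τ * co j β) (wr π τ), wr_conj_co, Perm.mul_apply,
            res_co' hj', res_co' hj', ← p2 x hx, h]
      rw [← Perm.mul_apply, this, Perm.mul_apply, co_ne hj'.symm]
    refine hM c hc i i p (c (fun _ => p) i) fun x hx => ?_
    refine conn (fun y => c y i = c (fun _ => p) i) {i}ᶜ (fun y hy j hj v => ?_) rfl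
      fun l hl => by rw [Set.notMem_compl_iff.1 hl, hx]
    by_cases h : y j = v
    · rw [← h, Function.update_eq_self, hy]
    · obtain ⟨t, t1, t2, -⟩ := exists_new C.hm (y j) v v v
      rw [← hy, ← a1 j hj _ (c3_isThreeCycle h t1.symm t2.symm) y, co_apply, c3_1 h t2.symm]
  · obtain ⟨j, hj⟩ := new_of_list [i] (by simp; omega)
    obtain ⟨k, hk⟩ := new_of_list [i, j] (by simp; omega)
    simp only [List.mem_cons, List.not_mem_nil, or_false, not_or] at hj hk
    let l : α → {j // j ≠ i} → α := Function.update (fun _ => p) ⟨k, hk.1⟩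
    have li : ∀ {a b}, a ≠ b → l a ≠ l b := fun h e => h (Function.update_injective _ _ e)
    have lj : ∀ a, l a ⟨j, hj⟩ = p := fun a =>
      Function.update_of_ne (fun e => hk.2 (congrArg Subtype.val e).symm) _ _
    have lk : ∀ a, l a ⟨k, hk.1⟩ = a := fun a => Function.update_self _ _ _
    have lf : ∀ m : {j // j ≠ i} → α, m ⟨j, hj⟩ ≠ p → c3 (l p) (l q) (l r) m = m := fun m h =>
      c3_of_ne (fun e => h (e ▸ lj _)) (fun e => h (e ▸ lj _)) fun e => h (e ▸ lj _)
    obtain ⟨g, hg, g1⟩ := hB (c3 (l p) (l q) (l r)) (c3_sign (li hpq) (li hpr))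
    obtain ⟨π, τ, hw⟩ := hM g (mX.1 hg).1 j j p p fun x hx => by
      by_contra h
      obtain ⟨s, s1, s2, -⟩ := exists_new C.hm p (g x j) p p
      obtain ⟨t, t1, t2, t3, -⟩ := exists_new C.hm p (g x j) s s
      have hβ := c3_isThreeCycle s2.symm t2.symm t3.symm
      have fp : c3 (g x j) s t p = p := c3_of_ne (Ne.symm h) s1.symm t1.symm
      have := K g hg j j hj hj _ _ hβ hβ fun x' hx' y e => by
        have dj : Perm.Disjoint (c3 (l p) (l q) (l r)) (co ⟨j, hj⟩ (c3 (g x j) s t)) := fun m => by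
          by_cases e : m ⟨j, hj⟩ = p
          · exact .inr ((co_fix_iff _ _ _).2 (by rw [e, fp]))
          · exact .inl (lf m e)
        rw [g1 _ (iS _ (cX j hj _ hβ.sign) x' hx'), res_co' hj, res_co' hj, ← e, g1 x' hx',
          ← Perm.mul_apply, dj.commute, Perm.mul_apply]
      have a1 := (fix_iff this x).2 ((co_fix_iff _ _ _).2 (by rw [hx, fp]))
      rw [co_fix_iff, c3_fix s2.symm t2.symm t3.symm] at a1
      exact a1.1 rfl
    exfalso
    have a1 : Adj (ins i p (l p)) (Function.update (ins i p (l p)) j q) :=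
      ⟨j, by rw [Function.update_self, ins_ne hj, lj]; exact hpq,
        fun m hm => (Function.update_of_ne hm _ _).symm⟩
    have a2 := adj_wr π τ a1
    rw [← hw] at a2
    have b1 := g1 (ins i p (l p)) (mS.2 (.inl (ins_self _ _ _)))
    rw [res_ins, c3_1 (li hpq) (li hqr)] at b1
    have b2 := g1 (Function.update (ins i p (l p)) j q) (mS.2 (.inl (by
      rw [Function.update_of_ne (Ne.symm hj), ins_self])))
    rw [lf _ (by simpa [res] using hpq.symm)] at b2
    refine not_adj (Ne.symm hk.2) ?_ ?_ a2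
    · have c1 := congrFun b1 ⟨j, hj⟩
      have c2 := congrFun b2 ⟨j, hj⟩
      simp only [res, Function.update_self] at c1 c2
      rw [c1, c2, lj]
      exact hpq
    · have c1 := congrFun b1 ⟨k, hk.1⟩
      have c2 := congrFun b2 ⟨k, hk.1⟩
      simp only [res] at c1 c2
      rw [c1, c2, lk, Function.update_of_ne hk.2, ins_ne hk.1, lk]
      exact hpq.symm

end Cfsg.Agent.H28.PwC
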