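import Mathlib
import Cfsg.Agent.H56.R3Defs

/-!
# Eigenvalues of strongly regular graphs, and the arithmetic of the semiregular case
-/

set_option autoImplicit false

namespace Cfsg.Agent.H28.R3

open H56.R3 Matrix

universe v

theorem trace_nat {V : Type*} [Fintype V] [DecidableEq V] {E : Matrix V V ℝ} (h : E * E = E) :
    ∃ f : ℕ, E.trace = f := by
  have h1 : IsIdempotentElem (toLin' E) := by rw [IsIdempotentElem, Module.End.mul_eq_comp, ← toLin'_mul, h]
  exact ⟨_, (trace_toLin'_eq E).symm.trans (LinearMap.IsIdempotentElem.isProj_range _ h1).trace⟩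

theorem srg : SrgStmt.{v} := by
  classical
  intro V _ Γ _ n k l m h h1 h2
  let A := Γ.adjMatrix ℝ
  let J : Matrix V V ℝ := of 1
  have hn := h.card
  have n0 : (n : ℝ) ≠ 0 := by norm_cast; omega
  have hc : (0 : ℝ) < (k : ℝ) - m := sub_pos.2 (by exact_mod_cast h1)
  have AJ : A * J = (k : ℝ) • J := by ext v w; simp [A, J, h.regular v]
  have JA : J * A = (k : ℝ) • J := by ext v w; simp [A, J, h.regular w]
  have JJ : J * J = (n : ℝ) • J := by ext v w; simp [J, mul_apply, hn]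
  have AA : A * A = ((l : ℝ) - m) • A + ((k : ℝ) - m) • 1 + (m : ℝ) • J := by
    have e : Γᶜ.adjMatrix ℝ = J - 1 - A := by
      ext v w
      by_cases h1 : v = w
      · simp [A, J, h1]
      · by_cases h2 : Γ.Adj v w <;> simp [A, J, h1, h2]
    rw [← sq, h.matrix_eq, e]
    simp only [← Nat.cast_smul_eq_nsmul ℝ]
    module
  have par : (k : ℝ) * k = (l - m) * k + (k - m) + m * n := by
    obtain ⟨v⟩ : Nonempty V := Fintype.card_pos_iff.1 (by omega)
    have := congrArg (· * J) AA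
    simp only [mul_assoc, AJ, JJ, add_mul, smul_mul_assoc, mul_smul_comm, one_mul] at this
    simpa [J] using congrFun (congrFun this v) v
  set D : ℤ := ((l : ℤ) - m) ^ 2 + 4 * (k - m) with hD
  have D0 : (0 : ℝ) < D := by push_cast [hD]; positivity
  set δ := √(D : ℝ)
  have δ0 : δ ≠ 0 := (Real.sqrt_pos.2 D0).ne'
  have δ2 : δ * δ = ((l : ℝ) - m) ^ 2 + 4 * (k - m) := by
    rw [Real.mul_self_sqrt D0.le]; push_cast [hD]; ring
  have k1 : ∀ d : ℝ, d ≠ 0 → d * d = ((l : ℝ) - m) ^ 2 + 4 * (k - m) → ∃ f : ℕ,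
      d * f = -k - (l - m - d) / 2 * (n - 1) := fun d d0 d2 => by
    obtain ⟨f, hf⟩ := trace_nat (E := d⁻¹ • (A - ((l - m - d) / 2) • 1 +
      (((l - m - d) / 2 - k) / n) • J)) (by
        simp only [smul_mul_assoc, mul_smul_comm, add_mul, mul_add, sub_mul, mul_sub, AA, AJ, JA,
          JJ, mul_one, one_mul]
        match_scalars <;> field_simp
        · ring
        · linear_combination -d2
        · linear_combination d2 - 4 * par)
    refine ⟨f, ?_⟩
    rw [← hf]
    simp [A, J, trace, hn]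
    field_simp
    ring
  obtain ⟨f, hf⟩ := k1 δ δ0 δ2
  obtain ⟨g, hg⟩ := k1 (-δ) (neg_ne_zero.2 δ0) (by rw [neg_mul_neg, δ2])
  have e1 : f + g + 1 = n := by
    have : (f : ℝ) + g + 1 = n := by
      apply mul_left_cancel₀ δ0; linear_combination hf - hg
    exact_mod_cast this
  have e2 : 2 * (k : ℝ) + (n - 1) * (l - m) = (g - f) * δ := by linear_combination hf + hg
  by_cases e3 : (g : ℤ) - f = 0
  · have : (g : ℝ) - f = 0 := by exact_mod_cast e3
    rw [this, zero_mul] at e2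
    exact .inl (by exact_mod_cast e2)
  obtain ⟨d, hd⟩ : IsSquare D := by_contra fun e =>
    (((irrational_sqrt_intCast_iff_of_nonneg (by exact_mod_cast D0.le)).2 e).intCast_mul e3).ne_int
      (2 * k + (n - 1) * (l - m)) (by push_cast; exact e2.symm)
  have e4 : δ = (|d| : ℤ) := by
    rw [Int.cast_abs, ← Real.sqrt_mul_self_eq_abs, ← Int.cast_mul, ← hd]
  have d0 : 0 < |d| := abs_pos.2 fun e => δ0 (by simp [e4, e])
  have e5 : |d| * |d| = ((l : ℤ) - m) ^ 2 + 4 * (k - m) := by rw [abs_mul_abs_self, ← hd]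
  obtain ⟨s, hs⟩ : Even ((l : ℤ) - m - |d|) := by
    have : Even (|d| * |d| - ((l : ℤ) - m) ^ 2) := ⟨2 * (k - m), by rw [e5]; ring⟩
    rw [Int.even_sub, Int.even_mul, or_self, Int.even_pow' two_ne_zero] at this
    exact Int.even_sub.2 this.symm
  refine .inr ⟨s + |d|, s, f, g, by omega, by omega, by nlinarith, e1, ?_⟩
  rw [e4] at e2
  have e6 : 2 * (k : ℤ) + (n - 1) * (l - m) = (g - f) * |d| := by exact_mod_cast e2
  rw [← e1] at e6
  push_cast at e6
  have : (l : ℤ) - m = 2 * s + |d| := by omega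
  rw [this] at e6
  nlinarith

set_option synthInstance.maxSize 100000 in
set_option synthInstance.maxHeartbeats 200000 in
theorem fin1 : ∀ v < 19, ∀ r < v, ∀ b < 256, (b * (v - 1 - r) + 1 = r * r ∧ r + 1 < v ∧ v % 2 = 0 ∧
    b % 2 = 0 ∧ 0 < b ∧ 2 * b % (v + 2) = 0 ∧ (1 + v * b) * (1 + r * (1 + v)) % (2 * r + b) = 0) →
    v = 6 ∧ b = 4 ∨ v = 18 ∧ b = 20 := by decide +kernel

theorem eig {v μ f g : ℕ} {r s : ℤ} (h1 : s < r) (h2 : r + s = -μ) (hv : 2 ≤ v)
    (h3 : r * s = μ - (1 + v * μ : ℕ)) (h4 : f + g = (1 + v * μ) * (1 + v))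
    (h5 : ((1 + v * μ : ℕ) : ℤ) + f * r + g * s = 0) (h0 : 0 < μ) : ∃ r : ℕ, r < v ∧
      μ * (v - 1 - r) + 1 = r * r ∧ 2 * r + μ ∣ (1 + v * μ) * (1 + r * (1 + v)) := by
  obtain rfl : s = -μ - r := by omega
  have hv' : (2 : ℤ) ≤ v := by exact_mod_cast hv
  have h0' : (0 : ℤ) < μ := by exact_mod_cast h0
  push_cast at h3 h5
  have r0 : 0 < r := by nlinarith
  lift r to ℕ using r0.le
  have r1 : r < v := by
    have : (r : ℤ) < v := by nlinarith
    exact_mod_cast this
  refine ⟨r, r1, ?_, g, ?_⟩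
  · zify [show r ≤ v - 1 by omega, show 1 ≤ v by omega]
    linear_combination h3
  · zify at h4 ⊢
    linear_combination h5 - r * h4

theorem two {μ r : ℕ} (h0 : r < 2) (h : μ * (2 - 1 - r) + 1 = r * r)
    (h1 : 2 * r + μ ∣ (1 + 2 * μ) * (1 + r * (1 + 2))) : μ + 2 ∣ 12 := by
  obtain rfl : r = 1 := by interval_cases r <;> omega
  exact (Nat.dvd_add_right h1).1 ⟨8, by ring⟩ |> fun e => add_comm μ 2 ▸ e

theorem mid {r s v b : ℤ} (h : s < r) (hv : 2 ≤ v) (hb : b = 2 ∨ 4 ≤ b) (s2 : r + s = v * b - b)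
    (s3 : r * s = b - 1 - 2 * v * b) : False := by
  have a1 : (r + 2) * (s + 2) = 3 - b := by linear_combination s3 + 2 * s2
  have a2 : (r + 3) * (s + 3) = (v - 2) * b + 8 := by linear_combination s3 + 3 * s2
  have a3 : (0 : ℤ) ≤ (v - 2) * b := mul_nonneg (by omega) (by omega)
  rcases hb with rfl | a4
  · rcases Int.eq_one_or_neg_one_of_mul_eq_one' (show (r + 2) * (s + 2) = 1 by simpa using a1)
      with a | a <;> omega
  have a5 : s + 2 < 0 := by
    by_contra
    have := mul_nonneg (show 0 ≤ r + 2 by omega) (show 0 ≤ s + 2 by omega)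
    omega
  have a6 : 0 < r + 2 := by
    by_contra
    have := mul_nonneg_of_nonpos_of_nonpos (show r + 2 ≤ 0 by omega) a5.le
    omega
  have := mul_nonpos_of_nonneg_of_nonpos (show 0 ≤ r + 3 by omega) (show s + 3 ≤ 0 by omega)
  omega

theorem le2 {e h v j : ℕ} (h0 : 0 < h) (hv : 2 ≤ v) (e4 : e * h * (v + 1) = (v + 2) * j)
    (hj : j ≤ 2 * h) : e ≤ 2 := by
  by_contra
  have : 3 * h * (v + 1) ≤ e * h * (v + 1) := by gcongr; omega
  have : (v + 2) * j ≤ (v + 2) * (2 * h) := by gcongr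
  nlinarith

theorem le6 {h v j : ℕ} (h0 : 0 < h) (e4 : (2 + 0) * h * (v + 1) = (v + 2) * j)
    (hj : 4 * j ≤ 7 * h ∨ j = 2 * h) : v ≤ 6 := by
  by_contra a1
  rcases hj with a2 | rfl
  · have := Nat.mul_le_mul_left (v + 2) a2
    nlinarith
  · nlinarith

theorem lt19 {b v th j : ℕ} (b0 : 0 < b) (a1 : th + (v + 2) * j = b * (v + 1)) (a2 : 4 * j ≤ 3 * b)
    (var : th * th + th * b ≤ th + v * b * b) (hv : v ≠ 19) : v < 19 := by
  by_contra a4
  obtain ⟨x, rfl⟩ : ∃ x, v = x + 20 := ⟨v - 20, by omega⟩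
  have a3 := Nat.mul_le_mul_left (x + 20 + 2) a2
  have b1 : th ≤ th * b := Nat.le_mul_of_pos_right _ b0
  have b2 : b * (x + 18) ≤ 4 * th := by nlinarith
  have b3 := Nat.mul_le_mul b2 b2
  have b4 : 0 < b * b := Nat.mul_pos b0 b0
  nlinarith [Nat.zero_le (b * b * x), Nat.zero_le (b * b * x * x)]

theorem arith : ArithStmt := by
  intro n k h b v u w j1 j2 th H
  obtain ⟨rfl, b0, hk, u0, hn, ⟨v', hv'⟩, v0, j1le, j2le, hodd, hev, tq1, tq2, four, var, nine, k21,
    hs⟩ := H
  have hv : 2 ≤ v := by omega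
  have e1 : (n : ℤ) - 1 = k * (1 + v) := by rw [hn]; push_cast; ring
  have k0 : 0 < k := by omega
  obtain ⟨r, s, f, g, s1, s2, s3, s4, s5⟩ := hs.resolve_left fun e => by
    rw [e1] at e
    have : (1 + v : ℤ) ∣ 2 := ⟨_, mul_left_cancel₀ (show (k : ℤ) ≠ 0 by omega)
      (by linear_combination e : (k : ℤ) * 2 = k * ((1 + v) * -(((w * (v * b) : ℕ) : ℤ) - (u * b : ℕ))))⟩
    have := Int.le_of_dvd (by norm_num) this
    omega
  clear hs
  have j3 : v * j2 ≤ v * b := Nat.mul_le_mul_left v j2le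
  have key : ∀ μ, μ = u * b → w = 0 → k = 1 + v * μ ∧ ∃ r : ℕ, r < v ∧
      μ * (v - 1 - r) + 1 = r * r ∧ 2 * r + μ ∣ (1 + v * μ) * (1 + r * (1 + v)) := by
    rintro _ rfl rfl
    have e : k = 1 + v * (u * b) := by rw [hk]; ring
    exact ⟨e, eig s1 (by simpa using s2) hv (e ▸ s3) (by rw [← e]; omega) (e ▸ s5)
      (Nat.mul_pos u0 b0)⟩
  have h0 : 0 < v * b := Nat.mul_pos v0 b0
  rcases Nat.even_or_odd b with hb | hb
  swap
  · have e2 := hodd hb
    have e3 : v * b ≤ (u + w) * (v * b) := Nat.le_mul_of_pos_left _ (by omega)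
    obtain rfl : v = 2 := by
      by_contra e
      have : k * 5 ≤ k * (1 + v) := Nat.mul_le_mul_left k (by omega)
      omega
    obtain ⟨rfl, rfl⟩ : u = 1 ∧ w = 0 := by
      by_contra e
      have : 2 * (2 * b) ≤ (u + w) * (2 * b) := Nat.mul_le_mul_right _ (by omega)
      omega
    obtain ⟨e4, r, r1, r2, r3⟩ := key b (by simp) rfl
    have e5 := two r1 r2 r3
    have := Nat.le_of_dvd (by norm_num) e5
    obtain ⟨c, hc⟩ := hb
    have : b ≤ 10 := by omega
    interval_cases b <;> omega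
  obtain ⟨e2, e3⟩ := hev hb
  have tq2 := tq2 hb
  obtain ⟨c, hc⟩ := hb
  have e4 : (u + w) * (v * b) * (v + 1) = (v + 2) * (j1 + v * j2) := by
    rw [hn, hk] at e2; linear_combination e2
  have e5 : u + w ≤ 2 := le2 h0 hv e4 (by omega)
  by_cases w0 : w = 0
  swap
  · obtain ⟨rfl, rfl⟩ : u = 1 ∧ w = 1 := by omega
    exfalso
    subst hk
    push_cast at s2 s3
    exact mid (v := v) (b := b) s1 (by omega) (by omega) (by linear_combination s2) (by linear_combination s3)
  subst w0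
  have var := var rfl
  have nine := nine rfl
  obtain ⟨e6, r, r1, r2, r3⟩ := key _ rfl rfl
  rcases (show u = 2 ∨ u = 1 by omega) with rfl | rfl
  · exfalso
    have a1 : v ≤ 6 := le6 h0 e4 (by
      rcases tq2 with rfl | tq2
      · omega
      · have := Nat.mul_le_mul_left v tq2
        rw [mul_left_comm, mul_left_comm v 3] at this
        omega)
    rcases (show v = 2 ∨ v = 4 ∨ v = 6 by omega) with rfl | rfl | rfl
    · have e5 := two r1 r2 r3
      have := Nat.le_of_dvd (by norm_num) e5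
      have : b ≤ 5 := by omega
      interval_cases b <;> omega
    · interval_cases r <;> omega
    · obtain rfl : b = 2 := by interval_cases r <;> omega
      clear r3 r2 s5 s3
      obtain rfl : th = 12 := by omega
      omega
  have a1 : th + (v + 2) * j2 = b * (v + 1) :=
    Nat.eq_of_mul_eq_mul_left v0 (by linear_combination -e4 - e3)
  have a2 : 4 * j2 ≤ 3 * b := tq2.resolve_left fun e => by
    rw [e, mul_comm, mul_add, mul_add] at a1; omega
  rw [e6, Nat.add_sub_cancel_left, one_mul] at var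
  rw [one_mul] at e6 r2 r3
  have a4 : v < 19 := lt19 b0 a1 a2 var (by omega)
  by_cases a5 : r + 1 < v
  · have a6 : b < 256 := by
      have : b * 1 ≤ b * (v - 1 - r) := Nat.mul_le_mul_left b (by omega)
      have : r * r ≤ 16 * 16 := Nat.mul_le_mul (by omega) (by omega)
      omega
    have a7 : v + 2 ∣ 2 * b := by
      obtain ⟨x, rfl⟩ : ∃ x, v = x + 1 := ⟨v - 1, by omega⟩
      exact (Nat.dvd_add_right (dvd_mul_right (x + 1 + 2) (x * b))).1
        ⟨j1 + (x + 1) * j2, by linear_combination e4⟩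
    rcases fin1 v a4 r r1 b a6 ⟨r2, a5, by omega, by omega, b0, Nat.mod_eq_zero_of_dvd a7,
      Nat.mod_eq_zero_of_dvd r3⟩ with ⟨rfl, rfl⟩ | ⟨rfl, rfl⟩
    · have := Nat.mul_le_mul_right th (show 12 ≤ th by omega)
      omega
    · have := Nat.mul_le_mul_right th (show 80 ≤ th by omega)
      omega
  obtain rfl : v = 2 := by
    rw [show v - 1 - r = 0 by omega] at r2
    have := Nat.le_mul_self r
    omega
  have e5 := two r1 r2 r3
  have := Nat.le_of_dvd (by norm_num) e5
  have : b ≤ 10 := by omega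
  clear r3 r2 s5 s3
  interval_cases b <;> omega

end Cfsg.Agent.H28.R3
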