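import Mathlib
import Cfsg.Agent.H29.Solvable

/-! Two transvections acting on a plane: the realised matrices form a subgroup of `SL₂`. -/

set_option autoImplicit false
open scoped MatrixGroups
open Matrix

namespace Cfsg.Agent.H28.Reg

variable {K F V : Type*} [Field K] [Field F] [AddCommGroup V] [Module F V]

/-- matrices realised by `M` on the pair `e, f` -/
def planeSub (ι : K →+* F) (M : Subgroup (V ≃ₗ[F] V)) (e f : V) : Subgroup SL(2, K) where
  carrier := {A | ∃ h ∈ M, h e = ι ((A : Matrix (Fin 2) (Fin 2) K) 0 0) • e + ι ((A : Matrix (Fin 2) (Fin 2) K) 1 0) • f ∧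
    h f = ι ((A : Matrix (Fin 2) (Fin 2) K) 0 1) • e + ι ((A : Matrix (Fin 2) (Fin 2) K) 1 1) • f}
  one_mem' := ⟨1, M.one_mem, by simp, by simp⟩
  mul_mem' := by
    rintro ⟨A, hA⟩ ⟨A', hA'⟩ ⟨h, hh, h1, h2⟩ ⟨h', hh', h1', h2'⟩
    refine ⟨h * h', M.mul_mem hh hh', ?_, ?_⟩
    · change _ = ι ((A * A') 0 0) • e + ι ((A * A') 1 0) • f
      rw [LinearEquiv.mul_apply, h1', map_add, map_smul, map_smul, h1, h2]
      simp only [mul_apply, Fin.sum_univ_two, map_add, map_mul]
      module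
    · change _ = ι ((A * A') 0 1) • e + ι ((A * A') 1 1) • f
      rw [LinearEquiv.mul_apply, h2', map_add, map_smul, map_smul, h1, h2]
      simp only [mul_apply, Fin.sum_univ_two, map_add, map_mul]
      module
  inv_mem' := by
    rintro ⟨A, hA⟩ ⟨h, hh, h1, h2⟩
    have hd : ι (A 0 0) * ι (A 1 1) - ι (A 0 1) * ι (A 1 0) = 1 := by
      rw [← map_mul, ← map_mul, ← map_sub, ← det_fin_two, hA, map_one]
    refine ⟨h⁻¹, M.inv_mem hh, ?_, ?_⟩
    · change _ = ι (adjugate A 0 0) • e + ι (adjugate A 1 0) • f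
      apply h.injective
      rw [show h (h⁻¹ e) = e from h.apply_symm_apply e, map_add, map_smul, map_smul, h1, h2,
        adjugate_fin_two]
      simp only [of_apply, cons_val', cons_val_zero, cons_val_one, cons_val_fin_one, map_neg]
      match_scalars
      · linear_combination -hd
      · ring
    · change _ = ι (adjugate A 0 1) • e + ι (adjugate A 1 1) • f
      apply h.injective
      rw [show h (h⁻¹ f) = f from h.apply_symm_apply f, map_add, map_smul, map_smul, h1, h2,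
        adjugate_fin_two]
      simp only [of_apply, cons_val', cons_val_zero, cons_val_one, cons_val_fin_one, map_neg]
      match_scalars
      · linear_combination -hd
      · ring

theorem lower_mem {ι : K →+* F} {M : Subgroup (V ≃ₗ[F] V)} {e f : V}
    (h1 : ∃ h ∈ M, h e = e + f ∧ h f = f) : H29.smat 1 0 1 1 (by simp) ∈ planeSub ι M e f := by
  obtain ⟨h, hh, a, b⟩ := h1
  exact ⟨h, hh, by simp [H29.smat_coe, a], by simp [H29.smat_coe, b]⟩

theorem upper_mem {ι : K →+* F} {M : Subgroup (V ≃ₗ[F] V)} {e f : V} {lam : K}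
    (h2 : ∃ h ∈ M, h e = e ∧ h f = f + ι lam • e) :
    H29.smat 1 lam 0 1 (by simp) ∈ planeSub ι M e f := by
  obtain ⟨h, hh, a, b⟩ := h2
  exact ⟨h, hh, by simp [H29.smat_coe, a], by simp [H29.smat_coe, b, add_comm]⟩

/-- odd characteristic (Dickson) -/
theorem exists_map_odd [Finite K] (h2 : (2 : K) ≠ 0) {ι : K →+* F} {M : Subgroup (V ≃ₗ[F] V)}
    {e f : V} {lam : K} (hlam : lam ≠ 0) (hgen : Subfield.closure ({lam} : Set K) = ⊤)
    (h9 : ¬ (Nat.card K = 9 ∧ lam ^ 2 = -1))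
    (h1 : ∃ h ∈ M, h e = e + f ∧ h f = f) (h3 : ∃ h ∈ M, h e = e ∧ h f = f + ι lam • e)
    {a c : K} (hac : a ≠ 0 ∨ c ≠ 0) : ∃ h ∈ M, h e = ι a • e + ι c • f := by
  have := Fintype.ofFinite K
  have ht : planeSub ι M e f = ⊤ := by
    rcases H29.dickson_generation h2 hlam hgen with h | h
    · rw [eq_top_iff, ← h.1, H29.klein, Subgroup.closure_le]
      rintro x (rfl | rfl)
      · exact lower_mem h1
      · exact upper_mem h3
    · exact absurd ⟨h.1, h.2.1⟩ h9
  rcases hac with ha | hc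
  · obtain ⟨h, hh, h4, -⟩ : H29.smat a 0 c a⁻¹ (by simp [ha]) ∈ planeSub ι M e f :=
      ht ▸ Subgroup.mem_top _
    exact ⟨h, hh, by simpa [H29.smat_coe] using h4⟩
  · obtain ⟨h, hh, h4, -⟩ : H29.smat a (-c⁻¹) c 0 (by simp [hc]) ∈ planeSub ι M e f :=
      ht ▸ Subgroup.mem_top _
    exact ⟨h, hh, by simpa [H29.smat_coe] using h4⟩

theorem conj_of_invol {G : Type*} [Group G] [Finite G] {t t' : G} (ht : t * t = 1) (ht' : t' * t' = 1)
    (hz : ∀ z : G, z * t = t * z → z * t' = t' * z → z = 1) :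
    ∃ x ∈ Subgroup.closure ({t, t'} : Set G), x * t = t' * x := by
  set r := t * t' with hr
  have hti : t⁻¹ = t := inv_eq_of_mul_eq_one_right ht
  have hti' : t'⁻¹ = t' := inv_eq_of_mul_eq_one_right ht'
  have h1 : ∀ k : ℕ, t * r ^ k = (r ^ k)⁻¹ * t := by
    intro k
    have : t * r * t⁻¹ = r⁻¹ := by rw [hr, _root_.mul_inv_rev, hti, hti', ← mul_assoc, ht, one_mul]
    rw [← inv_pow, ← this, conj_pow]
    group
  have h2 : t' = t * r := by rw [hr, ← mul_assoc, ht, one_mul]
  have hrm : r ∈ Subgroup.closure ({t, t'} : Set G) :=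
    Subgroup.mul_mem _ (Subgroup.subset_closure (by simp)) (Subgroup.subset_closure (by simp))
  have hpos := orderOf_pos r
  rcases Nat.even_or_odd' (orderOf r) with ⟨k, hk | hk⟩
  · exfalso
    have h3 : r ^ k * r ^ k = 1 := by rw [← pow_add, ← two_mul, ← hk, pow_orderOf_eq_one]
    have h4 : (r ^ k)⁻¹ = r ^ k := inv_eq_of_mul_eq_one_right h3
    have h5 : r ^ k * t = t * r ^ k := by rw [h1, h4]
    have h6 : r ^ k = 1 := hz _ h5 (by
      rw [h2, ← mul_assoc, h5, mul_assoc, mul_assoc, ← pow_succ, ← pow_succ'])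
    have := orderOf_le_of_pow_eq_one (by omega) h6
    omega
  · refine ⟨r ^ k, Subgroup.pow_mem _ hrm _, ?_⟩
    have h3 : r ^ k * r ^ (k + 1) = 1 := by
      rw [← pow_add, show k + (k + 1) = 2 * k + 1 by ring, ← hk, pow_orderOf_eq_one]
    rw [h2, mul_assoc, ← pow_succ', h1, eq_comm, inv_eq_of_mul_eq_one_left h3]

/-- characteristic two (dihedral group) -/
theorem exists_map_two [Finite K] (h2 : (2 : K) = 0) {ι : K →+* F} {M : Subgroup (V ≃ₗ[F] V)}
    {e f : V} {lam : K} (hlam : lam ≠ 0)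
    (h1 : ∃ h ∈ M, h e = e + f ∧ h f = f) (h3 : ∃ h ∈ M, h e = e ∧ h f = f + ι lam • e) :
    ∃ h ∈ M, ∃ κ : K, κ ^ 2 * lam = 1 ∧ h e = ι κ • f := by
  obtain ⟨x, hx, hx'⟩ := conj_of_invol (t := H29.smat 1 lam 0 1 (by simp))
    (t' := H29.smat (1 : K) 0 1 1 (by simp))
    (by
      ext i j
      fin_cases i <;> fin_cases j <;> simp [H29.smat_coe, mul_apply, Fin.sum_univ_two]
      linear_combination lam * h2)
    (by
      ext i j
      fin_cases i <;> fin_cases j <;> simp [H29.smat_coe, mul_apply, Fin.sum_univ_two]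
      linear_combination h2)
    (by
      intro z hz hz'
      have a1 := congrFun (congrFun (congrArg (fun A : SL(2, K) => (A : Matrix (Fin 2) (Fin 2) K)) hz) 0) 0
      have a2 := congrFun (congrFun (congrArg (fun A : SL(2, K) => (A : Matrix (Fin 2) (Fin 2) K)) hz) 0) 1
      have a3 := congrFun (congrFun (congrArg (fun A : SL(2, K) => (A : Matrix (Fin 2) (Fin 2) K)) hz') 0) 0
      have a4 := z.det_coe
      rw [det_fin_two] at a4
      simp [H29.smat_coe, mul_apply, Fin.sum_univ_two, hlam] at a1 a2 a3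
      have a5 : (z : Matrix (Fin 2) (Fin 2) K) 0 0 = (z : Matrix (Fin 2) (Fin 2) K) 1 1 := by
        apply mul_left_cancel₀ hlam
        linear_combination a2
      have a6 : (z : Matrix (Fin 2) (Fin 2) K) 1 1 = 1 := by
        have : ((z : Matrix (Fin 2) (Fin 2) K) 1 1 - 1) ^ 2 = 0 := by
          rw [a1, a5] at a4
          linear_combination a4 + (1 - (z : Matrix (Fin 2) (Fin 2) K) 1 1) * h2
        exact sub_eq_zero.mp (pow_eq_zero_iff two_ne_zero |>.mp this)
      ext i j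
      fin_cases i <;> fin_cases j <;> simp [a1, a3, a5, a6])
  have hxm : x ∈ planeSub ι M e f := by
    refine (Subgroup.closure_le _).mpr ?_ hx
    rintro x (rfl | rfl)
    · exact upper_mem h3
    · exact lower_mem h1
  obtain ⟨h, hh, h4, -⟩ := hxm
  have a1 := congrFun (congrFun (congrArg (fun A : SL(2, K) => (A : Matrix (Fin 2) (Fin 2) K)) hx') 1) 0
  have a2 := congrFun (congrFun (congrArg (fun A : SL(2, K) => (A : Matrix (Fin 2) (Fin 2) K)) hx') 1) 1
  have a4 := x.det_coe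
  rw [det_fin_two] at a4
  simp [H29.smat_coe, mul_apply, Fin.sum_univ_two] at a1 a2
  refine ⟨h, hh, (x : Matrix (Fin 2) (Fin 2) K) 1 0, ?_, by rw [h4, a1]; simp⟩
  rw [a1] at a4
  linear_combination ((x : Matrix (Fin 2) (Fin 2) K) 1 0) * a2 - a4 - h2

theorem closure_eq_top_of_powers [Finite K] {γ : K} (hγ : ∀ x : K, x ≠ 0 → ∃ k : ℕ, γ ^ k = x) :
    Subfield.closure ({γ} : Set K) = ⊤ := by
  rw [eq_top_iff]
  intro x _
  by_cases hx : x = 0
  · rw [hx]; exact Subfield.zero_mem _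
  obtain ⟨k, rfl⟩ := hγ x hx
  exact pow_mem (Subfield.subset_closure (by simp)) k

theorem exists_gen (K : Type*) [Field K] [Finite K] :
    ∃ γ : K, γ ≠ 0 ∧ (∀ x : K, x ≠ 0 → ∃ k : ℕ, γ ^ k = x) ∧ ¬ (Nat.card K = 9 ∧ γ ^ 2 = -1) := by
  obtain ⟨g, hg⟩ := IsCyclic.exists_monoid_generator (α := Kˣ)
  refine ⟨g, g.ne_zero, fun x hx => ?_, fun h => ?_⟩
  · obtain ⟨k, hk⟩ := hg (Units.mk0 x hx)
    exact ⟨k, by simpa using congrArg Units.val hk⟩
  · have h1 : orderOf g = Nat.card Kˣ := orderOf_eq_card_of_forall_mem_powers hg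
    rw [Nat.card_units, h.1] at h1
    have h2 : g ^ 4 = 1 := by
      ext
      rw [Units.val_pow_eq_pow_val, show 4 = 2 * 2 from rfl, pow_mul, h.2]
      simp
    have := orderOf_le_of_pow_eq_one (by omega) h2
    omega

end Cfsg.Agent.H28.Reg
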