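import Mathlib
import Cfsg.Agent.H32.RegUnip
import Cfsg.Agent.H32.LinTransv

/-! Generation of `SL_n(q)` by two regular unipotent elements: root groups. -/

set_option autoImplicit false
open Matrix Module

namespace Cfsg.Agent.H28.RegL

open Cfsg.Agent.H32

variable {n : ℕ} {F : Type*} [Field F] {H : Subgroup (SpecialLinearGroup (Fin n) F)}

theorem closed_add {Z : (Fin n → F) → Prop} (hs : ∀ (c : F) φ, Z φ → Z (c • φ))
    (ht : ∀ φ χ x, Z φ → Z χ → φ ⬝ᵥ x = 0 → Z (χ + (χ ⬝ᵥ x) • φ)) {φ χ : Fin n → F} (h1 : Z χ)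
    (h2 : Z φ) : Z (χ + φ) := by
  by_cases h : χ ∈ Submodule.span F {φ}
  · obtain ⟨c, rfl⟩ := Submodule.mem_span_singleton.mp h
    simpa [add_smul] using hs (c + 1) φ h2
  · obtain ⟨x, hx, hx'⟩ := exists_dot_eq_of_notMem h 1
    have := ht φ χ x h2 h1 (by rw [dotProduct_comm, hx' φ (Submodule.mem_span_singleton_self φ)])
    rwa [dotProduct_comm, hx, one_smul] at this

/-- axes of full elation groups -/
def axes (H : Subgroup (SpecialLinearGroup (Fin n) F)) : Submodule F (Fin n → F) where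
  carrier := {φ | ∀ x, φ ⬝ᵥ x = 0 → ts x φ ∈ H}
  zero_mem' := fun x _ => by rw [ts_zero_right]; exact H.one_mem
  smul_mem' := by
    intro c φ h x hx
    by_cases hc : c = 0
    · rw [hc, zero_smul, ts_zero_right]; exact H.one_mem
    have h1 : φ ⬝ᵥ x = 0 := by simpa [hc] using hx
    rw [← ts_smul h1]
    exact h _ (by simp [h1])
  add_mem' := by
    intro χ φ h1 h2
    refine closed_add (Z := fun φ => ∀ x, φ ⬝ᵥ x = 0 → ts x φ ∈ H) ?_ ?_ h1 h2
    · intro c φ h x hx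
      by_cases hc : c = 0
      · rw [hc, zero_smul, ts_zero_right]; exact H.one_mem
      have h1 : φ ⬝ᵥ x = 0 := by simpa [hc] using hx
      rw [← ts_smul h1]
      exact h _ (by simp [h1])
    · intro φ χ x h1 h2 h3 y hy
      have := ts_conj_mem' (h1 x h3) (h2 ((ts x φ).1 *ᵥ y) (by
        rwa [dotProduct_mulVec, coe_ts h3, H26.vecMul_tv])) rfl
      rwa [coe_ts h3, H26.vecMul_tv] at this

theorem vecMul_mem_axes {g : SpecialLinearGroup (Fin n) F} (hg : g ∈ H) {φ : Fin n → F}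
    (h : φ ∈ axes H) : φ ᵥ* g.1 ∈ axes H := fun y hy =>
  ts_conj_mem' hg (h (g.1 *ᵥ y) (by rwa [dotProduct_mulVec])) rfl

/-- centres of full elation groups -/
def centres (H : Subgroup (SpecialLinearGroup (Fin n) F)) : Submodule F (Fin n → F) where
  carrier := {x | ∀ φ, x ⬝ᵥ φ = 0 → ts x φ ∈ H}
  zero_mem' := fun x _ => by rw [ts_zero_left]; exact H.one_mem
  smul_mem' := by
    intro c x h φ hx
    by_cases hc : c = 0
    · rw [hc, zero_smul, ts_zero_left]; exact H.one_mem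
    have h1 : x ⬝ᵥ φ = 0 := by simpa [hc] using hx
    rw [ts_smul (by rwa [dotProduct_comm])]
    exact h _ (by simp [h1])
  add_mem' := by
    intro χ φ h1 h2
    refine closed_add (Z := fun x => ∀ φ, x ⬝ᵥ φ = 0 → ts x φ ∈ H) ?_ ?_ h1 h2
    · intro c x h φ hx
      by_cases hc : c = 0
      · rw [hc, zero_smul, ts_zero_left]; exact H.one_mem
      have h1 : x ⬝ᵥ φ = 0 := by simpa [hc] using hx
      rw [ts_smul (by rwa [dotProduct_comm])]
      exact h _ (by simp [h1])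
    · intro x y φ h1 h2 h3 ψ hy
      have h4 : φ ⬝ᵥ x = 0 := by rwa [dotProduct_comm]
      have h5 : (ts x φ).1 *ᵥ y = y + (y ⬝ᵥ φ) • x := by rw [ts_mulVec h4, dotProduct_comm]
      have := ts_conj_mem (h1 φ h3) (h2 (ψ ᵥ* (ts x φ).1) (by
        rwa [dotProduct_comm, ← dotProduct_mulVec, h5, dotProduct_comm])) rfl
      rwa [h5] at this

theorem mulVec_mem_centres {g : SpecialLinearGroup (Fin n) F} (hg : g ∈ H) {x : Fin n → F}
    (h : x ∈ centres H) : g.1 *ᵥ x ∈ centres H := fun ψ hy =>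
  ts_conj_mem hg (h (ψ ᵥ* g.1) (by rwa [dotProduct_comm, ← dotProduct_mulVec, dotProduct_comm])) rfl

theorem eq_top_of_ts (h : ∀ x φ, φ ⬝ᵥ x = 0 → ts x φ ∈ H) : H = ⊤ :=
  H26.sl_eq_top_of_transvection_mem _ fun i j hij c => by
    rw [← ts_single hij]
    exact h _ _ (by simp [hij.symm])

theorem bv_of_le {k : ℕ} (hk : n ≤ k) : bv n F k = 0 := by
  ext i
  simp only [bv, Pi.zero_apply]
  rw [if_neg (by have := i.2; omega)]

theorem eq_top_of_bv {W : Submodule F (Fin n → F)} (h : ∀ k, k < n → bv n F k ∈ W) : W = ⊤ := by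
  rw [eq_top_iff, ← (Pi.basisFun F _).span_eq, Submodule.span_le]
  rintro _ ⟨i, rfl⟩
  rw [Pi.basisFun_apply, ← bv_eq_single]
  exact h i i.2

theorem bv_vecMul_shift (k : ℕ) : bv n F k ᵥ* shiftN n F = bv n F (k + 1) := by
  ext i
  simp only [vecMul, dotProduct, shiftN, of_apply, bv]
  by_cases hk : k < n
  · rw [Finset.sum_eq_single ⟨k, hk⟩ (fun j _ hj => by
      rw [if_neg (show ¬ (j : ℕ) = k from fun h => hj (Fin.ext h)), zero_mul]) (by simp)]
    simp [eq_comm]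
  · rw [if_neg (by have := i.2; omega)]
    exact Finset.sum_eq_zero fun j _ => by rw [if_neg (show ¬ (j : ℕ) = k by omega), zero_mul]

theorem bv_vecMul_jordan (k : ℕ) :
    bv n F k ᵥ* (jordanSL n F).1 = bv n F k + bv n F (k + 1) := by
  change _ ᵥ* (1 + shiftN n F) = _
  rw [vecMul_add, vecMul_one, bv_vecMul_shift]

theorem bv_dot_jordan (k : ℕ) (x : Fin n → F) :
    bv n F k ⬝ᵥ ((jordanSL n F).1 *ᵥ x) = bv n F k ⬝ᵥ x + bv n F (k + 1) ⬝ᵥ x := by
  rw [dotProduct_mulVec, bv_vecMul_jordan, add_dotProduct]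

theorem bv_dot_shift_pow (i k : ℕ) (x : Fin n → F) :
    bv n F k ⬝ᵥ ((shiftN n F ^ i) *ᵥ x) = bv n F (k + i) ⬝ᵥ x := by
  induction i generalizing k with
  | zero => simp
  | succ i ih =>
    rw [pow_succ', ← mulVec_mulVec, dotProduct_mulVec, bv_vecMul_shift, ih, add_assoc, add_comm 1]

theorem ext_co {x y : Fin n → F} (h : ∀ k, k < n → bv n F k ⬝ᵥ x = bv n F k ⬝ᵥ y) : x = y :=
  vec_ext_bv fun k hk => by rw [dotProduct_comm, h k hk, dotProduct_comm]

theorem eq_top_of_tri {W : Submodule F (Fin n → F)}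
    (h : ∀ k, k < n → ∃ w ∈ W, bv n F k ⬝ᵥ w ≠ 0 ∧ ∀ a, k < a → bv n F a ⬝ᵥ w = 0) : W = ⊤ := by
  have key : ∀ k, k ≤ n → ∀ x : Fin n → F, (∀ a, k ≤ a → bv n F a ⬝ᵥ x = 0) → x ∈ W := by
    intro k
    induction k with
    | zero =>
      intro _ x hx
      rw [show x = 0 from ext_co fun a _ => by rw [hx a (by omega), dotProduct_zero]]
      exact W.zero_mem
    | succ k ih =>
      intro hk x hx
      obtain ⟨w, hw, h1, h2⟩ := h k hk
      have := W.add_mem (ih (by omega) (x - (bv n F k ⬝ᵥ x / bv n F k ⬝ᵥ w) • w) fun a ha => by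
        rw [dotProduct_sub, dotProduct_smul, smul_eq_mul]
        rcases ha.eq_or_lt with rfl | ha
        · rw [div_mul_cancel₀ _ h1, sub_self]
        · rw [hx a ha, h2 a ha, mul_zero, sub_zero]) (W.smul_mem (bv n F k ⬝ᵥ x / bv n F k ⬝ᵥ w) hw)
      simpa using this
  exact eq_top_iff.mpr fun x _ => key n le_rfl x fun a ha => by rw [bv_of_le ha, zero_dotProduct]

/-- centres of full root groups with a given axis -/
def Ax (H : Subgroup (SpecialLinearGroup (Fin n) F)) (φ : Fin n → F) : Submodule F (Fin n → F) where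
  carrier := {x | φ ⬝ᵥ x = 0 ∧ ∀ c : F, ts (c • x) φ ∈ H}
  zero_mem' := ⟨dotProduct_zero _, fun c => by rw [smul_zero, ts_zero_left]; exact H.one_mem⟩
  smul_mem' := fun c x h => ⟨by simp [h.1], fun d => by rw [smul_smul]; exact h.2 _⟩
  add_mem' := fun {x y} h h' => ⟨by simp [h.1, h'.1], fun c => by
    rw [smul_add, ts_add_left (by simp [h.1]) (by simp [h'.1])]
    exact H.mul_mem (h.2 c) (h'.2 c)⟩

theorem Ax_conj {g : SpecialLinearGroup (Fin n) F} (hg : g ∈ H) {φ φ' x : Fin n → F}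
    (h : x ∈ Ax H φ) (h' : φ' ᵥ* g.1 = φ) : g.1 *ᵥ x ∈ Ax H φ' :=
  ⟨by rw [dotProduct_mulVec, h', h.1], fun c => by
    rw [← mulVec_smul]; exact ts_conj_mem hg (h.2 c) h'⟩

theorem Ax_comm {φ χ x w : Fin n → F} (hw : w ∈ Ax H χ) (h1 : φ ⬝ᵥ w = 0) (hx : x ∈ Ax H φ)
    (h2 : χ ⬝ᵥ x ≠ 0) : w ∈ Ax H φ := by
  refine ⟨h1, fun c => ?_⟩
  have := ts_comm_mem (x := (c / χ ⬝ᵥ x) • w) (by simp [hw.1]) hx.1 (by simp [h1]) (hw.2 _)
    (by simpa using hx.2 1)
  rwa [smul_smul, mul_div_cancel₀ _ h2] at this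

theorem jordan_mul_pow (i k : ℕ) : shiftN n F ^ i * (jordanSL n F).1 ^ (k + 1) =
    shiftN n F ^ i * (jordanSL n F).1 ^ k + shiftN n F ^ (i + 1) * (jordanSL n F).1 ^ k := by
  rw [pow_succ' (jordanSL n F).1, ← mul_assoc, show (jordanSL n F).1 = 1 + shiftN n F from rfl,
    mul_add, mul_one, add_mul, pow_succ]

theorem dot_inv_jordan {φ x : Fin n → F} {k : ℕ}
    (h : ∀ i, i < k → φ ⬝ᵥ ((shiftN n F ^ i) *ᵥ x) = 0) :
    φ ⬝ᵥ ((shiftN n F ^ k) *ᵥ (((jordanSL n F)⁻¹).1 *ᵥ x)) =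
      (-1) ^ k * φ ⬝ᵥ (((jordanSL n F)⁻¹).1 *ᵥ x) := by
  induction k with
  | zero => simp
  | succ k ih =>
    have h1 := h k (by omega)
    have h2 : x = (jordanSL n F).1 *ᵥ (((jordanSL n F)⁻¹).1 *ᵥ x) := by
      rw [mulVec_mulVec, sl_mul_inv, one_mulVec]
    rw [h2, mulVec_mulVec, show (jordanSL n F).1 = 1 + shiftN n F from rfl, mul_add, mul_one,
      add_mulVec, dotProduct_add, ← pow_succ, ih fun i hi => h i (by omega)] at h1
    linear_combination h1

/-- the core lemma -/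
theorem mem_axes_of_root {m : ℕ} {H : Subgroup (SpecialLinearGroup (Fin (m + 4)) F)}
    (hu : jordanSL (m + 4) F ∈ H) {φ x : Fin (m + 4) → F} (hx : ∀ c : F, ts (c • x) φ ∈ H)
    (h0 : ∀ i, i < m + 2 → φ ⬝ᵥ ((shiftN (m + 4) F ^ i) *ᵥ x) = 0)
    (h1 : φ ⬝ᵥ (((jordanSL (m + 4) F)⁻¹).1 *ᵥ x) ≠ 0) (h2 : bv _ F (m + 3) ⬝ᵥ x ≠ 0) :
    φ ∈ axes H := by
  set U := (jordanSL (m + 4) F).1 with hU
  set Ui := ((jordanSL (m + 4) F)⁻¹).1 with hUi
  have hUU : Ui * U = 1 := sl_inv_mul _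
  have a0 : x ∈ Ax H φ := ⟨by simpa using h0 0 (by omega), hx⟩
  have a1 : ∀ (k : ℕ) (χ y : Fin (m + 4) → F), y ∈ Ax H χ → (U ^ k) *ᵥ y ∈ Ax H (χ ᵥ* Ui ^ k) := by
    intro k χ y hy
    induction k with
    | zero => simpa using hy
    | succ k ih =>
      have := Ax_conj hu ih (φ' := χ ᵥ* Ui ^ (k + 1))
        (by rw [vecMul_vecMul, pow_succ, mul_assoc, hUU, mul_one])
      rwa [mulVec_mulVec, ← pow_succ'] at this
  have a2 : ∀ k : ℕ, (φ ᵥ* Ui ^ (k + 1)) ⬝ᵥ ((U ^ k) *ᵥ x) ≠ 0 := by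
    intro k
    have : Ui ^ k * U ^ k = 1 := by
      rw [← (show Commute Ui U from hUU.trans (sl_mul_inv _).symm).mul_pow, hUU, one_pow]
    rwa [← dotProduct_mulVec, mulVec_mulVec, pow_succ', mul_assoc, this, mul_one]
  have a3 : ∀ k i, i + k < m + 2 → φ ⬝ᵥ ((shiftN (m + 4) F ^ i * U ^ k) *ᵥ x) = 0 := by
    intro k
    induction k with
    | zero => intro i hi; simpa using h0 i hi
    | succ k ih =>
      intro i hi
      rw [hU, jordan_mul_pow, add_mulVec, dotProduct_add, ih i (by omega), ih (i + 1) (by omega),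
        add_zero]
  have a4 : ∀ k, k < m + 2 → (U ^ k) *ᵥ x ∈ Ax H φ := by
    intro k
    induction k with
    | zero => intro _; simpa using a0
    | succ k ih =>
      intro hk
      exact Ax_comm (a1 (k + 1) φ x a0) (by simpa using a3 (k + 1) 0 (by omega)) (ih (by omega))
        (a2 k)
  have a5 : ∀ i k, i + k < m + 4 →
      (shiftN (m + 4) F ^ i * U ^ k) *ᵥ x ∈ Ax H φ ⊔ Ax H (φ ᵥ* Ui ^ 2) := by
    intro i
    induction i with
    | zero =>
      intro k hk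
      rw [pow_zero, one_mul]
      by_cases h : k < m + 2
      · exact Submodule.mem_sup_left (a4 k h)
      · obtain ⟨l, rfl⟩ : ∃ l, k = 2 + l := ⟨k - 2, by omega⟩
        rw [pow_add, ← mulVec_mulVec]
        exact Submodule.mem_sup_right (a1 2 φ _ (a4 l (by omega)))
    | succ i ih =>
      intro k hk
      have := Submodule.sub_mem _ (ih (k + 1) (by omega)) (ih k (by omega))
      rwa [hU, jordan_mul_pow, add_mulVec, add_sub_cancel_left] at this
  have a6 : Ax H φ ⊔ Ax H (φ ᵥ* Ui ^ 2) = ⊤ := eq_top_of_tri fun k hk =>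
    ⟨_, a5 (m + 3 - k) 0 (by omega), by
      rwa [pow_zero, mul_one, bv_dot_shift_pow, show k + (m + 3 - k) = m + 3 by omega],
      fun a ha => by
        rw [pow_zero, mul_one, bv_dot_shift_pow, bv_of_le (by omega), zero_dotProduct]⟩
  intro y hy
  obtain ⟨a, ha, b, hb, rfl⟩ := Submodule.mem_sup.mp (a6 ▸ Submodule.mem_top : y ∈ _)
  have := (Ax H φ).add_mem ha (Ax_comm hb (by simpa [ha.1] using hy) (a4 1 (by omega)) (a2 1))
  simpa using this.2 1

theorem eq_top_of_mem_axes (hu : jordanSL n F ∈ H) (h2 : (2 : F) ≠ 0) {j : ℕ} (hj : 1 ≤ j) {σ : F}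
    (h : (2 : F) • bv n F 0 + σ • bv n F j ∈ axes H) : H = ⊤ := by
  have a1 : ∀ k, (2 : F) • bv n F k + σ • bv n F (j + k) ∈ axes H := by
    intro k
    induction k with
    | zero => exact h
    | succ k ih =>
      have := Submodule.sub_mem _ (vecMul_mem_axes hu ih) ih
      rw [add_vecMul, smul_vecMul, smul_vecMul, bv_vecMul_jordan, bv_vecMul_jordan] at this
      convert this using 1
      rw [add_assoc j]
      module
  have a2 : ∀ l k, n ≤ k + l → bv n F k ∈ axes H := by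
    intro l
    induction l with
    | zero => intro k hk; rw [bv_of_le (by omega)]; exact zero_mem _
    | succ l ih =>
      intro k hk
      have := Submodule.smul_mem _ (2 : F)⁻¹ (Submodule.sub_mem _ (a1 k)
        (Submodule.smul_mem _ σ (ih (j + k) (by omega))))
      simpa [smul_smul, h2] using this
  have a3 := eq_top_of_bv (W := axes H) fun k _ => a2 n k (by omega)
  exact eq_top_of_ts fun x φ hφ => (a3 ▸ Submodule.mem_top : φ ∈ axes H) x hφ

end Cfsg.Agent.H28.RegL
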