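import Mathlib
import Cfsg.Agent.H28.RegSL

/-! Generation of `SL_n(q)` by two regular unipotent elements: the second generator. -/

set_option autoImplicit false
open Matrix Module

namespace Cfsg.Agent.H28.RegL

open Cfsg.Agent.H32

variable {n : ℕ} {F : Type*} [Field F]

/-- regular unipotent -/
def IsReg (v : SpecialLinearGroup (Fin n) F) : Prop :=
  IsNilpotent ((v : Matrix (Fin n) (Fin n) F) - 1) ∧ ((v : Matrix (Fin n) (Fin n) F) - 1) ^ (n - 1) ≠ 0

theorem mat_ext_bv {A B : Matrix (Fin n) (Fin n) F}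
    (h : ∀ k, k < n → A *ᵥ bv n F k = B *ᵥ bv n F k) : A = B := by
  ext i k
  have := congrFun (h k k.2) i
  rwa [bv_eq_single, mulVec_single_one, mulVec_single_one] at this

theorem rot_pow (j : ℕ) (a : Fin n) : (((finRotate n) ^ j) a : ℕ) = (a + j) % n := by
  obtain ⟨n, rfl⟩ : ∃ k, n = k + 1 := ⟨n - 1, by have := a.2; omega⟩
  induction j with
  | zero => simp [Nat.mod_eq_of_lt a.2]
  | succ j ih =>
    rw [pow_succ', Equiv.Perm.mul_apply, finRotate_apply, Fin.val_add, ih]
    simp [add_assoc]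

/-- entries of the conjugating matrix -/
def cc (m j : ℕ) (Y : ℕ → F) (d : F) (a k : ℕ) : F :=
  if k < m then (if j ≤ a then d * Y (a + (m - 1 - k)) else 0) else if a + m = k then d else 0

theorem det_cc {m j : ℕ} (hn : m + j = n) (Y : ℕ → F) (hY : ∀ k, n ≤ k → Y k = 0) (d : F) :
    (of fun a k : Fin n => cc m j Y d a k).det =
      (-1) ^ ((n - 1) * j) * ((d * Y (n - 1)) ^ m * d ^ j) := by
  have h1 := det_permute ((finRotate n) ^ j) (of fun a k : Fin n => cc m j Y d a k)
  have h2 : ∀ a : Fin n, (((finRotate n) ^ j) a : ℕ) = if (a : ℕ) < m then a + j else a - m := by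
    intro a
    have := a.2
    rw [rot_pow]
    split_ifs with h
    · exact Nat.mod_eq_of_lt (by omega)
    · rw [show (a : ℕ) + j = (a - m) + n by omega, Nat.add_mod_right]
      exact Nat.mod_eq_of_lt (by omega)
  rw [det_of_isUpperTriangular, map_pow, sign_finRotate] at h1
  · have h3 : ∏ i : Fin n, ((of fun a k : Fin n => cc m j Y d a k).submatrix
        ((finRotate n) ^ j) id) i i = (d * Y (n - 1)) ^ m * d ^ j := by
      have : ∀ i : Fin n, ((of fun a k : Fin n => cc m j Y d a k).submatrix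
          ((finRotate n) ^ j) id) i i = (fun i : ℕ => if i < m then d * Y (n - 1) else d) i := by
        intro i
        have := i.2
        simp only [submatrix_apply, of_apply, id, h2, cc]
        by_cases h : (i : ℕ) < m
        · simp only [if_pos h, if_pos (Nat.le_add_left j i)]
          congr 2
          omega
        · simp only [if_neg h]
          rw [if_pos (by omega)]
      rw [Finset.prod_congr rfl fun i _ => this i, Fin.prod_univ_eq_prod_range
        (fun i : ℕ => if i < m then d * Y (n - 1) else d), ← hn, Finset.prod_range_add,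
        Finset.prod_congr rfl (g := fun _ => d * Y (m + j - 1)) fun i hi =>
          if_pos (Finset.mem_range.mp hi),
        Finset.prod_congr rfl (g := fun _ => d) fun i _ => if_neg (by omega)]
      simp
    rw [h3] at h1
    rw [h1, ← mul_assoc]
    push_cast
    rw [← pow_mul, ← mul_pow]
    simp
  · intro a k hk
    have := a.2
    have hk' : (k : ℕ) < a := hk
    simp only [submatrix_apply, of_apply, id, h2, cc]
    split_ifs <;> first | rfl | omega | (rw [hY _ (by omega), mul_zero])

theorem cc_rec {m j : ℕ} (hn : m + j = n) (hj : 1 ≤ j) (hm : 1 ≤ m) (Y : ℕ → F)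
    (hY0 : ∀ k, k < j → Y k = 0) (hY : ∀ k, n ≤ k → Y k = 0) (d : F) {a k : ℕ} (ha : a < n)
    (hk : k < n) :
    cc m j Y d (a + 1) k + cc m j Y d 0 k * Y a -
      cc m j Y d j k * (if a = j - 1 ∧ a < n then 1 else 0) =
      if k = 0 then 0 else cc m j Y d a (k - 1) := by
  simp only [cc]
  by_cases h1 : k < m
  · simp only [if_pos h1, if_neg (show ¬ j ≤ 0 by omega), if_pos (le_refl j),
      if_pos (show k - 1 < m by omega), zero_mul, add_zero]
    by_cases h2 : a = j - 1
    · rw [if_pos (by omega), if_pos ⟨h2, ha⟩, if_neg (show ¬ j ≤ a by omega),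
        show a + 1 = j by omega]
      simp
    · rw [if_neg (show ¬ (a = j - 1 ∧ a < n) from fun h => h2 h.1), mul_zero, sub_zero]
      split_ifs <;> first | rfl | omega | (rw [hY _ (by omega), mul_zero]) | (congr 2; omega)
  · simp only [if_neg h1, if_neg (show ¬ j + m = k by omega), if_neg (show ¬ k = 0 by omega),
      zero_mul, sub_zero]
    by_cases h2 : k = m
    · rw [if_neg (by omega), if_pos (by omega), if_pos (by omega), zero_add,
        show a + (m - 1 - (k - 1)) = a by omega]
      split_ifs with h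
      · rfl
      · rw [hY0 a (by omega), mul_zero]
    · rw [if_neg (show ¬ 0 + m = k by omega), if_neg (show ¬ k - 1 < m by omega), zero_mul, add_zero]
      split_ifs <;> first | rfl | omega

theorem exists_v {m j : ℕ} (hn : m + j = n) (hj : j = 1 ∨ j = 2) (hm : 1 ≤ m) {y : Fin n → F}
    (hy : ∀ k, k < j → bv n F k ⬝ᵥ y = 0) (hb : bv n F (n - 1) ⬝ᵥ y ≠ 0) :
    ∃ v : SpecialLinearGroup (Fin n) F, IsReg v ∧
      (∀ w, v.1 *ᵥ w = (jordanSL n F).1 *ᵥ w + (bv n F 0 ⬝ᵥ w) • y -
        (bv n F j ⬝ᵥ w) • bv n F (j - 1)) ∧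
      ∀ d : F, (-1) ^ ((n - 1) * j) * ((d * bv n F (n - 1) ⬝ᵥ y) ^ m * d ^ j) = 1 →
        ∃ g, v = g * jordanSL n F * g⁻¹ := by
  obtain ⟨V, hVw⟩ : ∃ V : Matrix (Fin n) (Fin n) F, ∀ w, V *ᵥ w = (jordanSL n F).1 *ᵥ w +
      (bv n F 0 ⬝ᵥ w) • y - (bv n F j ⬝ᵥ w) • bv n F (j - 1) :=
    ⟨(jordanSL n F).1 + vecMulVec y (bv n F 0) - vecMulVec (bv n F (j - 1)) (bv n F j), fun w => by
      rw [sub_mulVec, add_mulVec, vecMulVec_mulVec, vecMulVec_mulVec]
      simp⟩
  have hY : ∀ k, n ≤ k → bv n F k ⬝ᵥ y = 0 := fun k hk => by rw [bv_of_le hk, zero_dotProduct]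
  have key : ∀ d : F, (of fun a k : Fin n => cc m j (fun i => bv n F i ⬝ᵥ y) d a k) *
      (jordanSL n F).1 = V * (of fun a k : Fin n => cc m j (fun i => bv n F i ⬝ᵥ y) d a k) := by
    intro d
    set C := (of fun a k : Fin n => cc m j (fun i => bv n F i ⬝ᵥ y) d a k) with hC
    have h1 : ∀ a k, k < n → bv n F a ⬝ᵥ (C *ᵥ bv n F k) = cc m j (fun i => bv n F i ⬝ᵥ y) d a k := by
      intro a k hk
      by_cases ha : a < n
      · rw [bv_dot ha, show bv n F k = bv n F (⟨k, hk⟩ : Fin n) from rfl, bv_eq_single,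
          mulVec_single_one]
        rfl
      · rw [bv_of_le (by omega), zero_dotProduct, cc]
        split_ifs <;> first | rfl | omega | (rw [hY _ (by omega), mul_zero])
    refine mat_ext_bv fun k hk => ext_co fun a ha => ?_
    rw [← mulVec_mulVec, ← mulVec_mulVec, hVw, dotProduct_sub, dotProduct_add, bv_dot_jordan,
      dotProduct_smul, dotProduct_smul, bv_dot_bv, h1 _ _ hk, h1 _ _ hk, h1 _ _ hk, h1 _ _ hk]
    have h2 := cc_rec hn (by omega) hm (fun i => bv n F i ⬝ᵥ y) hy hY d ha hk
    simp only [smul_eq_mul]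
    rcases k with _ | k
    · rw [jordanSL_bv_zero, h1 _ _ hk]
      rw [if_pos rfl] at h2
      linear_combination -h2
    · rw [jordanSL_bv_succ _ hk, mulVec_add, dotProduct_add, h1 _ _ hk, h1 _ _ (by omega)]
      rw [if_neg (Nat.succ_ne_zero k), Nat.add_sub_cancel] at h2
      linear_combination -h2
  have hd : ∀ d : F, (of fun a k : Fin n => cc m j (fun i => bv n F i ⬝ᵥ y) d a k).det = _ :=
    fun d => det_cc hn _ hY d
  have h1 : (of fun a k : Fin n => cc m j (fun i => bv n F i ⬝ᵥ y) 1 a k).det ≠ 0 := by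
    rw [hd]
    simp [hb]
  have h2 : V.det = 1 := by
    have := congrArg det (key 1)
    rw [det_mul, det_mul, (jordanSL n F).2, mul_comm] at this
    exact (mul_right_cancel₀ h1 this).symm
  refine ⟨⟨V, h2⟩, ?_, hVw, fun d hd' => ⟨⟨_, (hd d).trans hd'⟩, ?_⟩⟩
  · have h3 := key 1
    set C := (of fun a k : Fin n => cc m j (fun i => bv n F i ⬝ᵥ y) 1 a k) with hC
    have h4 : ∀ k, C * ((jordanSL n F).1 - 1) ^ k = (V - 1) ^ k * C := by
      intro k
      induction k with
      | zero => simp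
      | succ k ih =>
        rw [pow_succ, ← mul_assoc, ih, mul_assoc, mul_sub, h3, pow_succ, mul_assoc, sub_mul, mul_one,
          one_mul]
    have hC' : IsUnit C := (isUnit_iff_isUnit_det C).mpr (Ne.isUnit h1)
    obtain ⟨⟨k, hk⟩, h5⟩ := jordanSL_regular (n := n) (F := F) (by omega)
    refine ⟨⟨k, ?_⟩, fun h => h5 ?_⟩
    · have := h4 k
      rw [hk, mul_zero] at this
      exact (hC'.mul_left_eq_zero).mp this.symm
    · have := h4 (n - 1)
      rw [show (V - 1) ^ (n - 1) = 0 from h, zero_mul] at this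
      exact (hC'.mul_right_eq_zero).mp this
  · exact eq_mul_inv_of_mul_eq (Subtype.ext (key d).symm)

end Cfsg.Agent.H28.RegL
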