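import Mathlib
import Cfsg.Agent.H28.RegSL2

/-! Generation of `SL_n(q)` by two regular unipotent elements: odd and even characteristic. -/

set_option autoImplicit false
open Matrix Module

namespace Cfsg.Agent.H28.RegL

open Cfsg.Agent.H32

variable {n : ℕ} {F : Type*} [Field F]

theorem sl_ext {A B : SpecialLinearGroup (Fin n) F} (h : ∀ w, A.1 *ᵥ w = B.1 *ᵥ w) : A = B :=
  Subtype.ext (mat_ext_bv fun _ _ => h _)

theorem sl_mul_mulVec (A B : SpecialLinearGroup (Fin n) F) (w : Fin n → F) :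
    (A * B).1 *ᵥ w = A.1 *ᵥ (B.1 *ᵥ w) := by
  rw [mulVec_mulVec]; rfl

theorem inv_mulVec_of {A : SpecialLinearGroup (Fin n) F} {x y : Fin n → F} (h : A.1 *ᵥ x = y) :
    (A⁻¹).1 *ᵥ y = x := by
  rw [← h, mulVec_mulVec, sl_inv_mul, one_mulVec]

theorem vec_ext_dot {φ χ : Fin n → F} (h : ∀ w, φ ⬝ᵥ w = χ ⬝ᵥ w) : φ = χ :=
  vec_ext_bv fun _ _ => h _

theorem odd_gen {m : ℕ} (h2 : (2 : F) ≠ 0) {j : ℕ} {σ : F}
    (hj : j = 1 ∧ σ = 1 ∨ j = 2 ∧ σ = -1) (X : ℕ → F) (hX0 : X 0 = 2) (hXj : X j = -4 * σ)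
    (hX1 : j = 2 → X 1 = -2) (hrec : ∀ i, i < m + 2 → 2 * X i + σ * X (i + j) = 0)
    (hb : X (m + 3) ≠ 0) (ha : 2 * X (m + 2) - j * X (m + 3) ≠ 0) :
    ∃ v : SpecialLinearGroup (Fin (m + 4)) F, IsReg v ∧
      (∀ d : F, (-1) ^ ((m + 3) * j) * ((d * -X (m + 3)) ^ (m + 4 - j) * d ^ j) = 1 →
        ∃ g, v = g * jordanSL _ F * g⁻¹) ∧
      ∀ H : Subgroup (SpecialLinearGroup (Fin (m + 4)) F), jordanSL _ F ∈ H → v ∈ H →
        ∃ P : AddSubgroup F, 1 ∈ P ∧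
          (∀ c ∈ P, c * ((-1) ^ m * (2 * X (m + 2) - j * X (m + 3)) * (X 0 + X 1)) ∈ P) ∧
          (P = ⊤ → H = ⊤) := by
  have hj1 : 1 ≤ j := by omega
  have hj2 : j ≤ 2 := by omega
  have hσ : σ * σ = 1 := by rcases hj with ⟨_, rfl⟩ | ⟨_, rfl⟩ <;> simp
  obtain ⟨x, hx⟩ : ∃ x : Fin (m + 4) → F, ∀ k, k < m + 4 → bv _ F k ⬝ᵥ x = X k :=
    ⟨fun i => X i, fun k hk => bv_dot hk _⟩
  obtain ⟨x', hx', a0, aj⟩ : ∃ x' : Fin (m + 4) → F, (jordanSL _ F).1 *ᵥ x' = bv _ F (j - 1) ∧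
      bv _ F 0 ⬝ᵥ x' = σ ∧ bv _ F j ⬝ᵥ x' = 0 := by
    rcases hj with ⟨rfl, rfl⟩ | ⟨rfl, rfl⟩
    · exact ⟨bv _ F 0, jordanSL_bv_zero, bv_dot_self (by omega), bv_dot_ne (by omega)⟩
    · refine ⟨bv _ F 1 - bv _ F 0, ?_, by simp [bv_dot_bv], by simp [bv_dot_bv]⟩
      rw [mulVec_sub, jordanSL_bv_zero, jordanSL_bv_succ 0 (by omega)]
      simp
  obtain ⟨y', hy'⟩ : ∃ y', y' = -x - (2 * σ) • x' := ⟨_, rfl⟩
  have b0 : bv _ F 0 ⬝ᵥ y' = -4 := by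
    rw [hy', dotProduct_sub, dotProduct_neg, dotProduct_smul, hx 0 (by omega), a0, hX0, smul_eq_mul]
    linear_combination -2 * hσ
  have bj : bv _ F j ⬝ᵥ y' = 4 * σ := by
    rw [hy', dotProduct_sub, dotProduct_neg, dotProduct_smul, hx j (by omega), aj, hXj, smul_eq_mul]
    ring
  have hy : ∀ k, bv _ F k ⬝ᵥ ((jordanSL _ F).1 *ᵥ y') =
      -(bv _ F k ⬝ᵥ x + bv _ F (k + 1) ⬝ᵥ x) - 2 * σ * (if k = j - 1 then 1 else 0) := by
    intro k
    rw [hy', mulVec_sub, mulVec_neg, mulVec_smul, hx', dotProduct_sub, dotProduct_neg,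
      bv_dot_jordan, dotProduct_smul, bv_dot_bv, smul_eq_mul]
    congr 2
    split_ifs <;> first | rfl | omega
  have hyb : bv _ F (m + 4 - 1) ⬝ᵥ ((jordanSL _ F).1 *ᵥ y') = -X (m + 3) := by
    rw [hy, if_neg (by omega), bv_of_le (k := m + 4 - 1 + 1) (by omega), hx _ (by omega)]
    simp
  obtain ⟨v, hv, hvw, hvc⟩ := exists_v (n := m + 4) (m := m + 4 - j) (j := j) (by omega)
    (by omega) (by omega) (y := (jordanSL _ F).1 *ᵥ y') (fun k hk => by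
      rw [hy, hx _ (by omega), hx _ (by omega)]
      rcases hj with ⟨rfl, rfl⟩ | ⟨rfl, rfl⟩
      · obtain rfl : k = 0 := by omega
        rw [hX0, hXj]
        norm_num
      · have := hX1 rfl
        obtain rfl | rfl : k = 0 ∨ k = 1 := by omega
        · simp [hX0, this]
        · rw [hXj, this]
          norm_num) (by rw [hyb]; exact neg_ne_zero.mpr hb)
  refine ⟨v, hv, fun d hd => hvc d (by rw [hyb]; exact hd), fun H hu hvH => ?_⟩
  obtain ⟨g, hg, hgw⟩ : ∃ g ∈ H, ∀ w, g.1 *ᵥ w =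
      w + (bv _ F 0 ⬝ᵥ w) • y' - (bv _ F j ⬝ᵥ w) • x' :=
    ⟨(jordanSL _ F)⁻¹ * v, H.mul_mem (H.inv_mem hu) hvH, fun w => by
      rw [sl_mul_mulVec]
      refine inv_mulVec_of ?_
      rw [hvw, mulVec_sub, mulVec_add, mulVec_smul, mulVec_smul, hx']⟩
  obtain ⟨φ, hφ⟩ : ∃ φ : Fin (m + 4) → F, φ = (2 : F) • bv _ F 0 + σ • bv _ F j := ⟨_, rfl⟩
  have hφw : ∀ w, φ ⬝ᵥ w = 2 * bv _ F 0 ⬝ᵥ w + σ * bv _ F j ⬝ᵥ w := fun w => by
    rw [hφ]; simp
  have h0 : ∀ i, i < m + 2 → φ ⬝ᵥ ((shiftN (m + 4) F ^ i) *ᵥ x) = 0 := fun i hi => by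
    rw [hφw, bv_dot_shift_pow, bv_dot_shift_pow, hx _ (by omega), hx _ (by omega), zero_add,
      add_comm j, hrec i hi]
  have hφx : φ ⬝ᵥ x = 0 := by simpa using h0 0 (by omega)
  have hφux : φ ⬝ᵥ ((jordanSL _ F).1 *ᵥ x) = 0 := by
    have := h0 1 (by omega)
    rw [pow_one] at this
    rw [show (jordanSL (m + 4) F).1 = 1 + shiftN _ F from rfl, add_mulVec, one_mulVec,
      dotProduct_add, hφx, this, add_zero]
  have hxx : x = -y' - (2 * σ) • x' := by rw [hy']; module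
  have hg2 : g * g = ts x φ := sl_ext fun w => by
    rw [sl_mul_mulVec, hgw, hgw, ts_mulVec hφx, hφw]
    simp only [dotProduct_add, dotProduct_sub, dotProduct_smul, a0, aj, b0, bj, smul_eq_mul]
    rw [hxx]
    match_scalars
    · ring
    · ring
    · linear_combination (2 * bv _ F j ⬝ᵥ w) * hσ
  have hgφ : (-φ) ᵥ* g.1 = φ := vec_ext_dot fun w => by
    rw [← dotProduct_mulVec, hgw, neg_dotProduct, hφw, hφw]
    simp only [dotProduct_add, dotProduct_sub, dotProduct_smul, a0, aj, b0, bj, smul_eq_mul]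
    linear_combination (-4 * bv _ F 0 ⬝ᵥ w) * hσ
  have ha' : φ ⬝ᵥ (((jordanSL (m + 4) F)⁻¹).1 *ᵥ x) = (-1) ^ m * (2 * X (m + 2) - j * X (m + 3)) := by
    have h1 := dot_inv_jordan h0
    set z := ((jordanSL (m + 4) F)⁻¹).1 *ᵥ x
    have hz : (jordanSL (m + 4) F).1 *ᵥ z = x := by rw [mulVec_mulVec, sl_mul_inv, one_mulVec]
    have z1 := bv_dot_jordan (m + 3) z
    have z2 := bv_dot_jordan (m + 2) z
    rw [hz, hx _ (by omega)] at z1 z2
    rw [bv_of_le (k := m + 3 + 1) le_rfl, zero_dotProduct, add_zero] at z1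
    rw [hφw, bv_dot_shift_pow, bv_dot_shift_pow, zero_add] at h1
    have hm : ((-1 : F) ^ m) * (-1) ^ m = 1 := by rw [← mul_pow]; simp
    rcases hj with ⟨rfl, rfl⟩ | ⟨rfl, rfl⟩
    · rw [show 1 + (m + 2) = m + 3 by omega] at h1
      push_cast
      linear_combination -(-1) ^ m * h1 - (φ ⬝ᵥ z) * hm - 2 * (-1) ^ m * z2 + (-1) ^ m * z1
    · rw [bv_of_le (k := 2 + (m + 2)) (by omega), zero_dotProduct] at h1
      push_cast
      linear_combination -(-1) ^ m * h1 - (φ ⬝ᵥ z) * hm - 2 * (-1) ^ m * z2 + 2 * (-1) ^ m * z1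
  refine ⟨⟨⟨⟨{c | ts (c • x) φ ∈ H}, fun {a b} ha hb => ?_⟩, ?_⟩, fun {a} ha => ?_⟩, ?_,
    fun c hc => ?_, fun hP => ?_⟩
  · change ts _ _ ∈ H
    rw [add_smul, ts_add_left (by simp [hφx]) (by simp [hφx])]
    exact H.mul_mem ha hb
  · change ts _ _ ∈ H
    rw [zero_smul, ts_zero_left]
    exact H.one_mem
  · change ts _ _ ∈ H
    exact ts_cancel_left (x := a • x) (by simp [hφx]) (by simp [hφx]) ha (by
      rw [← add_smul, add_neg_cancel, zero_smul, ts_zero_left]; exact H.one_mem)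
  · change ts _ _ ∈ H
    rw [one_smul, ← hg2]
    exact H.mul_mem hg hg
  · change ts _ _ ∈ H
    have h1 := ts_comm_mem (x' := c • x) (by rw [vecMul_inv_dot, hφx]) (by simp [hφx]) hφux
      (ts_conj_mem hu (hg2 ▸ H.mul_mem hg hg) (φ' := φ ᵥ* ((jordanSL (m + 4) F)⁻¹).1)
        (by rw [vecMul_vecMul, sl_inv_mul, vecMul_one])) hc
    rw [dotProduct_smul, ← dotProduct_mulVec, ha', smul_eq_mul] at h1
    set e := c * ((-1) ^ m * (2 * X (m + 2) - j * X (m + 3)))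
    set w := (jordanSL (m + 4) F).1 *ᵥ x
    have w0 : bv _ F 0 ⬝ᵥ w = X 0 + X 1 := by rw [bv_dot_jordan, hx _ (by omega), hx _ (by omega)]
    have wj : bv _ F j ⬝ᵥ w = -2 * σ * (X 0 + X 1) := by
      rw [hφw, w0] at hφux
      linear_combination σ * hφux - (bv _ F j ⬝ᵥ w) * hσ
    have h3 : g.1 *ᵥ (e • w) = e • w - (e * (X 0 + X 1)) • x := by
      rw [mulVec_smul, hgw, w0, wj, hxx]
      module
    have h4 := ts_conj_mem hg h1 hgφ
    rw [h3, ← neg_one_smul F φ, ← ts_smul (by simp [hφx, hφux])] at h4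
    have h5 := H.mul_mem h1 h4
    rw [← ts_add_left (by simp [hφux]) (by simp [hφx, hφux])] at h5
    convert h5 using 2
    rw [← mul_assoc c]
    module
  · refine eq_top_of_mem_axes hu h2 hj1 (σ := σ) (hφ ▸ mem_axes_of_root hu (x := x)
      (fun c => (hP ▸ AddSubgroup.mem_top c :)) h0 ?_ (by rwa [hx _ (by omega)]))
    rw [ha']
    exact mul_ne_zero (by simp) ha

end Cfsg.Agent.H28.RegL
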