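import Mathlib
import Cfsg.Agent.H28.RegSL3

/-! Generation of `SL_n(q)` by two regular unipotent elements: conclusion. -/

set_option autoImplicit false
open Matrix Module

namespace Cfsg.Agent.H28.RegL

open Cfsg.Agent.H32

variable {n : ℕ} {F : Type*} [Field F]

theorem two_gen {m : ℕ} (h2 : (2 : F) = 0) {b : F} (hb : b ≠ 0)
    (hgen : ∀ c : F, c ≠ 0 → ∃ k : ℕ, b ^ k = c) :
    ∃ v : SpecialLinearGroup (Fin (m + 4)) F, IsReg v ∧
      (b = 1 → ∃ g, v = g * jordanSL _ F * g⁻¹) ∧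
      ∀ H : Subgroup (SpecialLinearGroup (Fin (m + 4)) F), jordanSL _ F ∈ H → v ∈ H → H = ⊤ := by
  have hneg : (-1 : F) = 1 := by linear_combination -h2
  obtain ⟨y', hy'⟩ : ∃ y' : Fin (m + 4) → F, y' = b • bv _ F (m + 3) := ⟨_, rfl⟩
  have hy : ∀ k, bv _ F k ⬝ᵥ y' = if k = m + 3 then b else 0 := fun k => by
    rw [hy', dotProduct_smul, bv_dot_bv]
    by_cases h : k = m + 3 <;> simp [h]
  have hyb : bv _ F (m + 4 - 1) ⬝ᵥ ((jordanSL _ F).1 *ᵥ y') = b := by
    rw [bv_dot_jordan, hy, hy, if_pos (by omega), if_neg (by omega), add_zero]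
  obtain ⟨v, hv, hvw, hvc⟩ := exists_v (n := m + 4) (m := m + 3) (j := 1) rfl
    (by omega) (by omega) (y := (jordanSL _ F).1 *ᵥ y') (fun k hk => by
      rw [bv_dot_jordan, hy, hy, if_neg (by omega), if_neg (by omega), add_zero])
    (by rwa [hyb])
  refine ⟨v, hv, fun h => hvc 1 (by rw [hyb, h, hneg]; simp), fun H hu hvH => ?_⟩
  obtain ⟨g, hg, hgw⟩ : ∃ g ∈ H, ∀ w, g.1 *ᵥ w =
      w + (bv _ F 0 ⬝ᵥ w) • y' - (bv _ F 1 ⬝ᵥ w) • bv _ F 0 :=
    ⟨(jordanSL _ F)⁻¹ * v, H.mul_mem (H.inv_mem hu) hvH, fun w => by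
      rw [sl_mul_mulVec]
      refine inv_mulVec_of ?_
      rw [hvw, mulVec_sub, mulVec_add, mulVec_smul, mulVec_smul, jordanSL_bv_zero]⟩
  have y0 : bv _ F 0 ⬝ᵥ y' = 0 := by rw [hy, if_neg (by omega)]
  have y1 : bv _ F 1 ⬝ᵥ y' = 0 := by rw [hy, if_neg (by omega)]
  have y2 : bv _ F 2 ⬝ᵥ y' = 0 := by rw [hy, if_neg (by omega)]
  have e0 : bv (m + 4) F 0 ⬝ᵥ bv _ F 0 = 1 := bv_dot_self (by omega)
  have e1 : ∀ k, bv (m + 4) F (k + 1) ⬝ᵥ bv _ F 0 = 0 := fun k => bv_dot_ne (by omega)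
  have hg2 : g * g = ts y' (bv _ F 1) := sl_ext fun w => by
    rw [sl_mul_mulVec, hgw, hgw, ts_mulVec y1]
    simp only [dotProduct_add, dotProduct_sub, dotProduct_smul, y0, y1, e0, e1 0, smul_eq_mul]
    match_scalars
    · ring
    · linear_combination (bv _ F 0 ⬝ᵥ w - bv _ F 1 ⬝ᵥ w) * h2
    · linear_combination -(bv _ F 1 ⬝ᵥ w) * h2
  have ht : ts y' (bv _ F 1) ∈ H := hg2 ▸ H.mul_mem hg hg
  obtain ⟨z, hz⟩ : ∃ z, (jordanSL (m + 4) F).1 *ᵥ z = y' :=
    ⟨((jordanSL (m + 4) F)⁻¹).1 *ᵥ y', by rw [mulVec_mulVec, sl_mul_inv, one_mulVec]⟩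
  have hz1 : ∀ l k, k + l = m + 3 → bv _ F k ⬝ᵥ z = b := by
    intro l
    induction l with
    | zero =>
      intro k hk
      have := bv_dot_jordan k z
      rw [hz, hy, if_pos (by omega), bv_of_le (k := k + 1) (by omega), zero_dotProduct,
        add_zero] at this
      exact this.symm
    | succ l ih =>
      intro k hk
      have := bv_dot_jordan k z
      rw [hz, hy, if_neg (by omega), ih (k + 1) (by omega)] at this
      linear_combination -this - b * h2
  have h1 := ts_conj_mem' hu ht hz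
  rw [bv_vecMul_jordan] at h1
  set ψ := bv (m + 4) F 1 + bv (m + 4) F (1 + 1) with hψ
  have ψ0 : ψ ⬝ᵥ bv _ F 0 = 0 := by rw [add_dotProduct, e1, e1, add_zero]
  have ψ1 : ψ ⬝ᵥ y' = 0 := by rw [add_dotProduct, y1, y2, add_zero]
  have ψ2 : ψ ⬝ᵥ z = 0 := by
    rw [add_dotProduct, hz1 (m + 2) 1 (by omega), hz1 (m + 1) _ (by omega)]
    linear_combination b * h2
  have hgψ : ψ ᵥ* g.1 = ψ := vec_ext_dot fun w => by
    rw [← dotProduct_mulVec, hgw, dotProduct_sub, dotProduct_add, dotProduct_smul, dotProduct_smul,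
      ψ0, ψ1]
    simp
  have h3 := ts_conj_mem hg h1 hgψ
  rw [hgw, hz1 (m + 3) 0 (by omega), hz1 (m + 2) 1 (by omega), add_sub_assoc] at h3
  have h4 := ts_conj_mem hg (ts_cancel_left ψ2 (by simp [ψ0, ψ1]) h1 h3) hgψ
  have h5 : g.1 *ᵥ (b • y' - b • bv (m + 4) F 0) = b • bv _ F 0 := by
    rw [hgw]
    simp only [dotProduct_sub, dotProduct_smul, y0, y1, e0, e1 0, smul_eq_mul]
    match_scalars
    · ring
    · linear_combination -b * h2
  rw [h5, ts_smul ψ0] at h4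
  have c1 : ∀ (c : F) k, ts (bv (m + 4) F 0) (c • bv _ F (k + 1)) ∈ H →
      ts (bv (m + 4) F 0) (c • bv _ F (k + 2)) ∈ H := fun c k h => by
    have := ts_conj_mem' hu h jordanSL_bv_zero
    rw [smul_vecMul, bv_vecMul_jordan, smul_add] at this
    exact ts_cancel_right (by simp [e1]) (by simp [e1]) h this
  have c2 : ∀ (c : F) k, ts (bv (m + 4) F 0) (c • bv _ F 1) ∈ H →
      ts (bv (m + 4) F 0) (c • bv _ F (k + 1)) ∈ H := fun c k h => by
    induction k with
    | zero => exact h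
    | succ k ih => exact c1 c k ih
  have c3 : ∀ c : F, ts (bv (m + 4) F 0) (c • bv _ F 1) ∈ H →
      ts (bv (m + 4) F 0) ((c * b) • bv _ F 1) ∈ H := fun c h => by
    have h' := c2 c (m + 2) h
    have := ts_conj_mem' ht h' (x' := bv _ F 0) (by rw [ts_mulVec y1, e1 0]; simp)
    rw [coe_ts y1, H26.vecMul_tv, smul_dotProduct, hy, if_pos rfl] at this
    exact ts_cancel_right (by simp [e1]) (by simp [e1 0]) h' this
  have c4 : ∀ k : ℕ, ts (bv (m + 4) F 0) ((b ^ (k + 1)) • bv _ F 1) ∈ H := by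
    intro k
    induction k with
    | zero =>
      have := ts_conj_mem hu h4 (φ' := b • bv _ F 1) (by rw [smul_vecMul, bv_vecMul_jordan])
      rwa [jordanSL_bv_zero, ← pow_one b] at this
    | succ k ih => rw [pow_succ]; exact c3 _ ih
  have c5 : ∀ (c : F) k, ts (bv (m + 4) F 0) (c • bv _ F (k + 1)) ∈ H := fun c k => by
    by_cases hc : c = 0
    · rw [hc, zero_smul, ts_zero_right]; exact H.one_mem
    obtain ⟨l, hl⟩ := hgen (c / b) (div_ne_zero hc hb)
    refine c2 c k ?_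
    rw [← div_mul_cancel₀ c hb, ← hl, ← pow_succ]
    exact c4 l
  have c6 : bv (m + 4) F 0 ∈ centres H := by
    have key : ∀ k, ∀ φ : Fin (m + 4) → F, bv _ F 0 ⬝ᵥ φ = 0 →
        (∀ a, k < a → bv _ F a ⬝ᵥ φ = 0) → ts (bv (m + 4) F 0) φ ∈ H := by
      intro k
      induction k with
      | zero =>
        intro φ h0 h
        rw [show φ = 0 from ext_co fun a _ => by
          rcases a with _ | a
          · rw [h0, dotProduct_zero]
          · rw [h _ (by omega), dotProduct_zero], ts_zero_right]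
        exact H.one_mem
      | succ k ih =>
        intro φ h0 h
        have h0' : φ ⬝ᵥ bv _ F 0 = 0 := by rwa [dotProduct_comm]
        have := H.mul_mem (ih (φ - (bv _ F (k + 1) ⬝ᵥ φ) • bv _ F (k + 1))
          (by simp [h0, bv_dot_bv]) fun a ha => by
            rw [dotProduct_sub, dotProduct_smul, bv_dot_bv]
            by_cases h1 : a = k + 1 ∧ a < m + 4
            · rw [if_pos h1, h1.1]; simp
            · rw [if_neg h1, smul_zero, sub_zero]
              by_cases h3 : a < m + 4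
              · exact h a (by omega)
              · rw [bv_of_le (by omega), zero_dotProduct]) (c5 (bv _ F (k + 1) ⬝ᵥ φ) k)
        rwa [← ts_add_right (by simp [h0', e1]) (by simp [e1]), sub_add_cancel] at this
    exact fun φ hφ => key (m + 4) φ hφ fun a ha => by rw [bv_of_le ha.le, zero_dotProduct]
  have c7 : ∀ l k, k + l = m + 3 → bv (m + 4) F k ∈ centres H := by
    intro l
    induction l with
    | zero =>
      intro k hk
      have := Submodule.smul_mem _ b⁻¹ (Submodule.sub_mem _ (mulVec_mem_centres hg c6) c6)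
      rw [hgw, e0, e1 0, hy'] at this
      simpa [smul_smul, hb, ← hk] using this
    | succ l ih =>
      intro k hk
      have := Submodule.sub_mem _ (mulVec_mem_centres hu (ih (k + 1) (by omega)))
        (ih (k + 1) (by omega))
      rwa [jordanSL_bv_succ _ (by omega), add_sub_cancel_left] at this
  have c8 := eq_top_of_bv (W := centres H) fun k hk => c7 (m + 3 - k) k (by omega)
  exact eq_top_of_ts fun x φ hφ =>
    (c8 ▸ Submodule.mem_top : x ∈ centres H) φ (by rwa [dotProduct_comm])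

theorem exists_generator [Finite F] : ∃ γ : F, γ ≠ 0 ∧ ∀ c : F, c ≠ 0 → ∃ k : ℕ, γ ^ k = c := by
  obtain ⟨γ, hγ⟩ := IsCyclic.exists_monoid_generator (α := Fˣ)
  refine ⟨γ, γ.ne_zero, fun c hc => ?_⟩
  obtain ⟨k, hk⟩ := hγ (Units.mk0 c hc)
  exact ⟨k, by simpa using congrArg Units.val hk⟩

theorem odd_one {m : ℕ} (h2 : (2 : F) ≠ 0) {b : F} (hb : b ≠ 0)
    (ha : 2 * (2 * (-2) ^ (m + 2)) + b ≠ 0) :
    ∃ v : SpecialLinearGroup (Fin (m + 4)) F, IsReg v ∧
      (∀ d : F, (-1) ^ (m + 3) * ((d * b) ^ (m + 3) * d) = 1 → ∃ g, v = g * jordanSL _ F * g⁻¹) ∧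
      ∀ H : Subgroup (SpecialLinearGroup (Fin (m + 4)) F), jordanSL _ F ∈ H → v ∈ H →
        ∃ P : AddSubgroup F, 1 ∈ P ∧
          (∀ c ∈ P, c * ((-1) ^ m * (2 * (2 * (-2) ^ (m + 2)) + b) * (-2)) ∈ P) ∧
          (P = ⊤ → H = ⊤) := by
  obtain ⟨v, h1, h3, h4⟩ := odd_gen (m := m) h2 (j := 1) (σ := 1) (Or.inl ⟨rfl, rfl⟩)
    (fun k => if k = m + 3 then -b else 2 * (-2) ^ k) (by simp) (by simp; norm_num) (by omega)
    (fun i hi => by
      simp only [if_neg (show ¬ i = m + 3 by omega), if_neg (show ¬ i + 1 = m + 3 by omega)]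
      ring) (by simpa using hb) (by simpa using ha)
  refine ⟨v, h1, fun d hd => h3 d (by simpa using hd), fun H hu hv => ?_⟩
  obtain ⟨P, h5, h6, h7⟩ := h4 H hu hv
  refine ⟨P, h5, fun c hc => ?_, h7⟩
  convert h6 c hc using 2
  simp
  norm_num

theorem partA [Finite F] (m : ℕ) : ∃ v : SpecialLinearGroup (Fin (m + 4)) F, IsReg v ∧
    ∀ H : Subgroup (SpecialLinearGroup (Fin (m + 4)) F), jordanSL _ F ∈ H → v ∈ H → H = ⊤ := by
  obtain ⟨γ, hγ, hgen⟩ := exists_generator (F := F)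
  by_cases h2 : (2 : F) = 0
  · obtain ⟨v, h1, -, h3⟩ := two_gen (m := m) h2 hγ hgen
    exact ⟨v, h1, h3⟩
  have hm : ((-1 : F) ^ m) * (-1) ^ m = 1 := by rw [← mul_pow]; simp
  obtain ⟨e, he, h0, h1⟩ : ∃ e : ℤ, True ∧ γ + e ≠ 0 ∧
      γ + e ≠ (-1) ^ m * (2 * (2 * (-2) ^ (m + 2))) * (-2) := by
    by_contra h
    push Not at h
    have a := h 0 trivial
    have b := h 1 trivial
    have c := h (-1) trivial
    push_cast at a b c
    have a := a (by simpa using hγ)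
    by_cases b0 : γ + 1 = 0
    · have := c (fun h => h2 (by linear_combination b0 - h))
      exact one_ne_zero (α := F) (by linear_combination a - this)
    · exact one_ne_zero (α := F) (by linear_combination b b0 - a)
  obtain ⟨b, hb⟩ : ∃ b : F, (-1) ^ m * (2 * (2 * (-2) ^ (m + 2)) + b) * (-2) = γ + e :=
    ⟨(-1) ^ m * (γ + e) / (-2) - 2 * (2 * (-2) ^ (m + 2)), by
      field_simp
      linear_combination (γ + e) * hm⟩
  obtain ⟨v, h3, -, h4⟩ := odd_one (m := m) h2 (b := b) (by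
    rintro rfl
    exact h1 (by rw [← hb, add_zero])) (fun h => h0 (by rw [← hb, h]; simp))
  refine ⟨v, h3, fun H hu hv => ?_⟩
  obtain ⟨P, h5, h6, h7⟩ := h4 H hu hv
  refine h7 (eq_top_iff.mpr fun c _ => ?_)
  by_cases hc : c = 0
  · rw [hc]; exact P.zero_mem
  obtain ⟨k, rfl⟩ := hgen c hc
  clear hc
  induction k with
  | zero => simpa using h5
  | succ k ih =>
    have := P.sub_mem (h6 _ (ih trivial)) (P.zsmul_mem (ih trivial) e)
    convert this using 1
    rw [hb, zsmul_eq_mul]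
    ring

theorem partB [Fintype F] (hp : (Fintype.card F).Prime) (m : ℕ) :
    ∃ g : SpecialLinearGroup (Fin (m + 4)) F,
      ∀ H : Subgroup (SpecialLinearGroup (Fin (m + 4)) F), jordanSL _ F ∈ H →
        g * jordanSL _ F * g⁻¹ ∈ H → H = ⊤ := by
  have hP : ∀ P : AddSubgroup F, 1 ∈ P → P = ⊤ := fun P h => by
    haveI := Fact.mk (show (Nat.card F).Prime by rwa [Nat.card_eq_fintype_card])
    refine (P.eq_bot_or_eq_top_of_prime_card).resolve_left fun h0 => ?_
    rw [h0] at h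
    exact one_ne_zero (AddSubgroup.mem_bot.mp h)
  by_cases h2 : (2 : F) = 0
  · obtain ⟨v, -, h3, h4⟩ := two_gen (m := m) h2 (one_ne_zero (α := F)) fun c hc => ⟨0, by
      have : c ∈ AddSubgroup.zmultiples (1 : F) :=
        hP _ (AddSubgroup.mem_zmultiples 1) ▸ AddSubgroup.mem_top c
      obtain ⟨k, rfl⟩ := this
      obtain ⟨l, rfl | rfl⟩ := k.even_or_odd' <;> simp [h2] at hc ⊢⟩
    obtain ⟨g, rfl⟩ := h3 rfl
    exact ⟨g, h4⟩
  obtain ⟨l, rfl | rfl⟩ := m.even_or_odd'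
  · have e1 : ∀ k, (-1 : F) ^ (2 * k) = 1 := fun k => by rw [pow_mul]; simp
    have h2' : (2 : F) ^ (l + 2) ≠ 0 := pow_ne_zero _ h2
    have x1 : (-1 : F) ^ (2 * l + 2) * 2 ^ ((2 * l + 2) / 2 + 1) = 2 ^ (l + 2) := by
      rw [show (2 * l + 2) / 2 + 1 = l + 2 by omega, pow_add, e1]; ring
    have x2 : (-1 : F) ^ (2 * l + 3) * 2 ^ ((2 * l + 3) / 2 + 1) = -2 ^ (l + 2) := by
      rw [show (2 * l + 3) / 2 + 1 = l + 2 by omega, pow_add, e1]; ring
    obtain ⟨v, -, h3, h4⟩ := odd_gen (m := 2 * l) h2 (j := 2) (σ := -1) (Or.inr ⟨rfl, rfl⟩)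
      (fun k => (-1) ^ k * 2 ^ (k / 2 + 1)) (by simp) (by norm_num) (by norm_num)
      (fun i _ => by rw [Nat.add_div_right _ (by omega)]; ring)
      (by rw [x2]; exact neg_ne_zero.mpr h2') (by
        rw [x1, x2]
        intro h
        exact mul_ne_zero h2 (mul_ne_zero h2 h2') (by linear_combination h))
    obtain ⟨g, rfl⟩ := h3 (2 / 2 ^ (l + 2)) (by
      rw [x2, neg_neg, div_mul_cancel₀ _ h2', mul_comm (2 * l + 3), e1,
        show 2 * l + 4 - 2 = 2 * l + 2 by omega]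
      field_simp
      ring)
    refine ⟨g, fun H hu hv => ?_⟩
    obtain ⟨P, h5, -, h7⟩ := h4 H hu hv
    exact h7 (hP P h5)
  · obtain ⟨b, hb, ha⟩ : ∃ b : F, b * b = 1 ∧ 2 * (2 * (-2) ^ (2 * l + 1 + 2)) + b ≠ 0 := by
      by_contra h
      push Not at h
      exact h2 (by linear_combination h 1 (by simp) - h (-1) (by simp))
    obtain ⟨v, -, h3, h4⟩ := odd_one (m := 2 * l + 1) h2 (b := b)
      (by rintro rfl; simp at hb) ha
    obtain ⟨g, rfl⟩ := h3 1 (by
      rw [show 2 * l + 1 + 3 = 2 * (l + 2) by omega, pow_mul, pow_mul, one_mul, sq b, hb]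
      simp)
    refine ⟨g, fun H hu hv => ?_⟩
    obtain ⟨P, h5, -, h7⟩ := h4 H hu hv
    exact h7 (hP P h5)

end Cfsg.Agent.H28.RegL
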