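import Mathlib
import Cfsg.Agent.H28.RegPlane
import Cfsg.Agent.H27.AltWitt

/-! Growth of root subgroups in a symplectic group. -/

set_option autoImplicit false
open Module

namespace Cfsg.Agent.H28.Reg

open Cfsg.Agent.H27

variable {F V : Type*} [Field F] [AddCommGroup V] [Module F V] {B : LinearMap.BilinForm F V}
  {M : Subgroup (V ≃ₗ[F] V)}

/-- `M` contains the map `x ↦ x + B x u • a + B x a • u + κ B x u • u` -/
def HasRho (B : LinearMap.BilinForm F V) (M : Subgroup (V ≃ₗ[F] V)) (u a : V) (κ : F) : Prop :=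
  ∃ h ∈ M, ∀ x, h x = x + B x u • a + B x a • u + (κ * B x u) • u

/-- all transvections with centre `v` -/
def Rt (B : LinearMap.BilinForm F V) (M : Subgroup (V ≃ₗ[F] V)) (v : V) : Prop :=
  ∀ c, HasRho B M v 0 c

theorem hasRho_zero_iff (hA : B.IsAlt) {v : V} {c : F} : HasRho B M v 0 c ↔ altTv hA v c ∈ M := by
  constructor
  · rintro ⟨h, hh, h1⟩
    convert hh using 1
    ext x
    rw [altTv_apply, h1]; simp
  · exact fun h => ⟨_, h, fun x => by rw [altTv_apply]; simp⟩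

theorem HasRho.congr {u a u' a' : V} {κ κ' : F} (h : HasRho B M u a κ) (h1 : u = u') (h2 : a = a')
    (h3 : κ = κ') : HasRho B M u' a' κ' := by subst h1 h2 h3; exact h

theorem HasRho.map (hM : M ≤ isomGroup B) {u a : V} {κ : F} (h : HasRho B M u a κ)
    {g : V ≃ₗ[F] V} (hg : g ∈ M) : HasRho B M (g u) (g a) κ := by
  obtain ⟨h, hh, h1⟩ := h
  refine ⟨g * h * g⁻¹, M.mul_mem (M.mul_mem hg hh) (M.inv_mem hg), fun x => ?_⟩
  obtain ⟨x, rfl⟩ := g.surjective x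
  rw [LinearEquiv.mul_apply, LinearEquiv.mul_apply, show g⁻¹ (g x) = x from g.symm_apply_apply x, h1,
    hM hg, hM hg]
  simp

theorem HasRho.mul (hA : B.IsAlt) {u a a' : V} {κ κ' : F} (h : HasRho B M u a κ)
    (h' : HasRho B M u a' κ') (ha : B u a = 0) (ha' : B a' u = 0) :
    HasRho B M u (a + a') (κ + κ' + B a' a) := by
  obtain ⟨h, hh, h1⟩ := h
  obtain ⟨h', hh', h1'⟩ := h'
  refine ⟨h * h', M.mul_mem hh hh', fun x => ?_⟩
  rw [LinearEquiv.mul_apply, h1, h1']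
  simp only [map_add, map_smul, LinearMap.add_apply, LinearMap.smul_apply, smul_eq_mul, ha, ha',
    hA u]
  module

theorem HasRho.smul {u a : V} {κ t : F} (h : HasRho B M (t • u) a κ) :
    HasRho B M u (t • a) (t ^ 2 * κ) := by
  obtain ⟨h, hh, h1⟩ := h
  refine ⟨h, hh, fun x => ?_⟩
  rw [h1]
  simp only [map_smul, smul_eq_mul]
  module

theorem HasRho.smul' {u a : V} {κ t : F} (h : HasRho B M u (t • a) (t ^ 2 * κ)) :
    HasRho B M (t • u) a κ := by
  obtain ⟨h, hh, h1⟩ := h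
  refine ⟨h, hh, fun x => ?_⟩
  rw [h1]
  simp only [map_smul, smul_eq_mul]
  module

theorem HasRho.symm {u a : V} (h : HasRho B M u a 0) : HasRho B M a u 0 := by
  obtain ⟨h, hh, h1⟩ := h
  refine ⟨h, hh, fun x => ?_⟩
  rw [h1]
  module

theorem HasRho.apply {u a : V} {κ : F} (h : HasRho B M u a κ) (x : V) :
    ∃ g ∈ M, g x = x + B x u • a + B x a • u + (κ * B x u) • u := by
  obtain ⟨h, hh, h1⟩ := h
  exact ⟨h, hh, h1 x⟩

theorem Rt.map (hM : M ≤ isomGroup B) {v : V} (h : Rt B M v) {g : V ≃ₗ[F] V} (hg : g ∈ M) :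
    Rt B M (g v) := fun c => ((h c).map hM hg).congr rfl (map_zero _) rfl

theorem Rt.smul {v : V} (h : Rt B M v) (a : F) : Rt B M (a • v) := fun c =>
  HasRho.smul' ((h _).congr rfl (smul_zero _).symm rfl)

theorem rt_zero : Rt B M 0 := fun c => ⟨1, M.one_mem, fun x => by simp⟩

theorem Rt.add_smul (hM : M ≤ isomGroup B) {u w : V} (hu : Rt B M u) (hw : Rt B M w)
    (h : B u w ≠ 0) (a : F) : Rt B M (u + a • w) := by
  obtain ⟨g, hg, h1⟩ := (hw (a / B u w)).apply u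
  have := hu.map hM hg
  rwa [h1, div_mul_cancel₀ _ h, smul_zero, map_zero, zero_smul, add_zero, add_zero] at this

theorem Rt.of_smul {v : V} {a : F} (h : Rt B M (a • v)) (ha : a ≠ 0) : Rt B M v := by
  have := h.smul a⁻¹
  rwa [smul_smul, inv_mul_cancel₀ ha, one_smul] at this

/-- weak growth -/
theorem grow_weak (hA : B.IsAlt) (hM : M ≤ isomGroup B) {W : Submodule F V}
    (hW : ∀ w ∈ W, Rt B M w) {v : V} (hv : Rt B M v) (h0 : ∃ w ∈ W, B w v ≠ 0) {x : V}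
    (hx : x ∈ W ⊔ F ∙ v) (hx' : ∃ w ∈ W, B x w ≠ 0) : Rt B M x := by
  obtain ⟨w, hw, y, hy, rfl⟩ := Submodule.mem_sup.mp hx
  obtain ⟨a, rfl⟩ := Submodule.mem_span_singleton.mp hy
  by_cases h1 : B w v ≠ 0
  · exact (hW w hw).add_smul hM hv h1 a
  push Not at h1
  obtain ⟨w', hw', h2, h3⟩ := exists_mem_both_ne_zero W (B.flip v) (B (w + a • v)) h0 hx'
  rw [LinearMap.BilinForm.flip_apply] at h2
  have h4 := (hW (w - w') (W.sub_mem hw hw')).add_smul hM hv (by simpa [h1] using h2) a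
  have h5 := h4.add_smul hM (hW w' hw') (by
    simp only [map_add, map_sub, LinearMap.add_apply, LinearMap.sub_apply, hA w', sub_zero] at h3 ⊢
    exact h3) 1
  convert h5 using 1
  module

theorem rad_odd (hA : B.IsAlt) (h2 : (2 : F) ≠ 0) {x r : V} (hxr : B x r = 0) (h0 : Rt B M x)
    (h1 : Rt B M (x + r)) (h3 : Rt B M (x - r)) : Rt B M r := by
  intro c
  have hrx : B r x = 0 := hA.isRefl _ _ hxr
  obtain ⟨g0, hg0, e0⟩ := h0 (-c)
  obtain ⟨g1, hg1, e1⟩ := h1 (c / 2)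
  obtain ⟨g3, hg3, e3⟩ := h3 (c / 2)
  refine ⟨g0 * g1 * g3, M.mul_mem (M.mul_mem hg0 hg1) hg3, fun z => ?_⟩
  rw [LinearEquiv.mul_apply, LinearEquiv.mul_apply, e0, e1, e3]
  simp only [map_add, map_sub, map_smul, map_zero, LinearMap.add_apply, LinearMap.sub_apply,
    LinearMap.smul_apply, LinearMap.zero_apply, smul_eq_mul, hxr, hrx, hA x, hA r]
  match_scalars <;> field_simp <;> ring

theorem pair_two (hA : B.IsAlt) (h2 : (2 : F) = 0) {x r : V} {c : F} (hxr : B x r = 0)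
    (h0 : HasRho B M x 0 c) (h1 : HasRho B M (x + r) 0 c) : HasRho B M r (c • x) c := by
  have hrx : B r x = 0 := hA.isRefl _ _ hxr
  obtain ⟨g0, hg0, e0⟩ := h0
  obtain ⟨g1, hg1, e1⟩ := h1
  refine ⟨g0 * g1, M.mul_mem hg0 hg1, fun z => ?_⟩
  rw [LinearEquiv.mul_apply, e0, e1]
  simp only [map_add, map_smul, map_zero, LinearMap.add_apply, LinearMap.smul_apply, smul_eq_mul,
    hrx, hA x, smul_zero, zero_smul, add_zero, mul_zero]
  match_scalars
  · ring
  · linear_combination (c * B z x) * h2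
  · ring

theorem add_self_two (h2 : (2 : F) = 0) (v : V) : v + v = 0 := by
  rw [← two_smul F, h2, zero_smul]

theorem rad_two (hA : B.IsAlt) (h2 : (2 : F) = 0) {x x' r : V} (hxr : B x r = 0) (hxr' : B x' r = 0)
    (hxx : B x x' = 0) (h0 : Rt B M x) (h1 : Rt B M (x + r)) (h3 : Rt B M x') (h4 : Rt B M (x' + r))
    (h5 : Rt B M (x + x')) (h6 : Rt B M (x + x' + r)) : Rt B M r := by
  intro c
  have hrx : B r x = 0 := hA.isRefl _ _ hxr
  have hrx' : B r x' = 0 := hA.isRefl _ _ hxr'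
  have hxx' : B x' x = 0 := hA.isRefl _ _ hxx
  have a1 := pair_two hA h2 hxr (h0 c) (h1 c)
  have a2 := pair_two hA h2 hxr' (h3 c) (h4 c)
  have a3 := pair_two hA h2 (by simp [hxr, hxr']) (h5 c) (h6 c)
  refine ((a1.mul hA a2 (by simp [hrx]) (by simp [hxr'])).mul hA a3 (by simp [hrx, hrx'])
    (by simp [hxr, hxr'])).congr rfl ?_ ?_
  · rw [← smul_add, add_self_two h2]
  · simp only [map_add, map_smul, LinearMap.add_apply, LinearMap.smul_apply, smul_eq_mul, hxx, hxx',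
      hA x, hA x']
    linear_combination c * h2

/-- the condition under which the radical is filled in -/
def Big (B : LinearMap.BilinForm F V) (W : Submodule F V) : Prop :=
  (2 : F) ≠ 0 ∨ ∃ x ∈ W, ∃ x' ∈ W, ∃ z ∈ W, ∃ z' ∈ W,
    B x x' = 0 ∧ B x z ≠ 0 ∧ B x' z = 0 ∧ B x' z' ≠ 0

theorem grow (hA : B.IsAlt) (hM : M ≤ isomGroup B) {W : Submodule F V} (hb : Big B W)
    (hW : ∀ w ∈ W, Rt B M w) {v : V} (hv : Rt B M v) (h0 : ∃ w ∈ W, B w v ≠ 0) {r : V}
    (hr : r ∈ W ⊔ F ∙ v) : Rt B M r := by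
  by_cases hx' : ∃ w ∈ W, B r w ≠ 0
  · exact grow_weak hA hM hW hv h0 hr hx'
  push Not at hx'
  have key : ∀ x ∈ W, (∃ z ∈ W, B x z ≠ 0) → ∀ a : F, Rt B M (x + a • r) := by
    rintro x hx ⟨z, hz, hz'⟩ a
    refine grow_weak hA hM hW hv h0
      (Submodule.add_mem _ (Submodule.mem_sup_left hx) (Submodule.smul_mem _ _ hr)) ⟨z, hz, ?_⟩
    simpa [hx' z hz] using hz'
  by_cases h2 : (2 : F) = 0
  · obtain ⟨x, hx, x', hx1, z, hz, z', hz', e1, e2, e3, e4⟩ := hb.resolve_left (not_not.mpr h2)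
    refine rad_two hA h2 (hA.isRefl _ _ (hx' x hx)) (hA.isRefl _ _ (hx' x' hx1)) e1 (hW x hx) ?_
      (hW x' hx1) ?_ (hW _ (W.add_mem hx hx1)) ?_
    · simpa using key x hx ⟨z, hz, e2⟩ 1
    · simpa using key x' hx1 ⟨z', hz', e4⟩ 1
    · simpa using key _ (W.add_mem hx hx1) ⟨z, hz, by simpa [e3] using e2⟩ 1
  · obtain ⟨w, hw, y, hy, hwy⟩ := Submodule.mem_sup.mp hr
    obtain ⟨a, rfl⟩ := Submodule.mem_span_singleton.mp hy
    by_cases ha : a = 0
    · rw [← hwy, ha, zero_smul, add_zero]; exact hW w hw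
    obtain ⟨w', hw', h3⟩ := h0
    have h4 : B w' w ≠ 0 := by
      have := hA.isRefl _ _ (hx' w' hw')
      rw [← hwy, map_add, map_smul, smul_eq_mul] at this
      intro h5
      rw [h5, zero_add] at this
      exact mul_ne_zero ha h3 this
    refine rad_odd hA h2 (hA.isRefl _ _ (hx' w' hw')) (hW w' hw') ?_ ?_
    · simpa using key w' hw' ⟨w, hw, h4⟩ 1
    · simpa [sub_eq_add_neg] using key w' hw' ⟨w, hw, h4⟩ (-1)

theorem exists_invariant [FiniteDimensional F V] (hA : B.IsAlt) (hM : M ≤ isomGroup B)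
    {W₀ : Submodule F V} (hb : Big B W₀) (hW : ∀ w ∈ W₀, Rt B M w) {e f : V} (he : e ∈ W₀)
    (hf : f ∈ W₀) (hef : B e f ≠ 0) :
    ∃ W : Submodule F V, W₀ ≤ W ∧ (∀ w ∈ W, Rt B M w) ∧ ∀ g ∈ M, g e = e → ∀ w ∈ W, g w ∈ W := by
  obtain ⟨W, ⟨h1, h2⟩, h3⟩ := (wellFounded_gt (α := Submodule F V)).has_min
    {W | W₀ ≤ W ∧ ∀ w ∈ W, Rt B M w} ⟨W₀, le_rfl, hW⟩
  have hb' : Big B W := hb.imp id fun ⟨x, hx, x', hx', z, hz, z', hz', h⟩ =>
    ⟨x, h1 hx, x', h1 hx', z, h1 hz, z', h1 hz', h⟩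
  have key : ∀ v, Rt B M v → B e v ≠ 0 → v ∈ W := by
    intro v hv hv'
    by_contra hvW
    refine h3 (W ⊔ F ∙ v) ⟨h1.trans le_sup_left, fun r hr => grow hA hM hb' h2 hv ⟨e, h1 he, hv'⟩ hr⟩
      (lt_of_le_of_ne le_sup_left fun h => hvW ?_)
    rw [h]
    exact Submodule.mem_sup_right (Submodule.mem_span_singleton_self v)
  refine ⟨W, h1, h2, fun g hg hge w hw => ?_⟩
  have key' : ∀ w ∈ W, B e w ≠ 0 → g w ∈ W := fun w hw h =>
    key _ ((h2 w hw).map hM hg) (by rwa [← hge, hM hg])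
  by_cases h : B e w = 0
  · have := W.sub_mem (key' _ (W.add_mem hw (h1 hf)) (by simpa [h] using hef)) (key' f (h1 hf) hef)
    simpa using this
  · exact key' w hw h

end Cfsg.Agent.H28.Reg
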