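import Mathlib
import Cfsg.Agent.H28.RegSp

/-! Generation of the symplectic group by three regular unipotent elements (abstract part). -/

set_option autoImplicit false
open Module

namespace Cfsg.Agent.H28.Reg

open Cfsg.Agent.H27

variable {F V : Type*} [Field F] [AddCommGroup V] [Module F V] {B : LinearMap.BilinForm F V}
  {M : Subgroup (V ≃ₗ[F] V)}

/-- a symplectic basis with a regular unipotent element of the Levi subgroup -/
structure Chain (B : LinearMap.BilinForm F V) (L : ℕ) (e f : ℕ → V) (y : V ≃ₗ[F] V) : Prop where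
  alt : B.IsAlt
  pos : 1 ≤ L
  ee : ∀ i j, B (e i) (e j) = 0
  ff : ∀ i j, B (f i) (f j) = 0
  fe : ∀ i, i ≤ L → B (f i) (e i) = 1
  fe' : ∀ i j, i ≠ j → B (f i) (e j) = 0
  y0 : y (e 0) = e 0
  ye : ∀ k, k < L → y (e (k + 1)) = e (k + 1) + e k
  yf : ∀ k, k < L → y (f k + f (k + 1)) = f k
  yL : y (f L) = f L
  span : ∀ W : Submodule F V, (∀ k, k ≤ L → e k ∈ W) → (∀ k, k ≤ L → f k ∈ W) → W = ⊤

theorem hasRho_neg (hA : B.IsAlt) {v : V} {c : F} (h : HasRho B M v 0 c) : HasRho B M v 0 (-c) := by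
  rw [hasRho_zero_iff hA] at h ⊢
  rw [← altTv_inv]
  exact M.inv_mem h

theorem hasRho_add (hA : B.IsAlt) {v : V} {c d : F} (h : HasRho B M v 0 c) (h' : HasRho B M v 0 d) :
    HasRho B M v 0 (c + d) := (h.mul hA h' (by simp) (by simp)).congr rfl (add_zero _) (by simp)

theorem hasRho_refl (u : V) : HasRho B M u 0 0 := ⟨1, M.one_mem, fun x => by simp⟩

theorem rt_span_pair (hM : M ≤ isomGroup B) {e f : V} (he : Rt B M e) (hf : Rt B M f)
    (hef : B e f ≠ 0) : ∀ w ∈ Submodule.span F {e, f}, Rt B M w := by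
  intro w hw
  obtain ⟨a, b, rfl⟩ := Submodule.mem_span_pair.mp hw
  by_cases ha : a = 0
  · rw [ha, zero_smul, zero_add]; exact hf.smul b
  · exact (he.smul a).add_smul hM hf (by simp [ha, hef]) b

theorem rho_tv (hA : B.IsAlt) (h2 : (2 : F) = 0) (hM : M ≤ isomGroup B) {u a w : V} {c κ : F}
    (hw : HasRho B M w 0 c) (huw : B u w = 0) (hua : B u a = 0) (h : HasRho B M u a κ) :
    HasRho B M u ((c * B a w) • w) (c * B a w ^ 2) := by
  obtain ⟨g, hg, h1⟩ := hw
  have h3 := h.map hM hg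
  rw [h1, h1, huw] at h3
  simp only [smul_zero, map_zero, zero_smul, add_zero, mul_zero] at h3
  refine (h.mul hA h3 hua (by simp [hA.isRefl _ _ hua, hA.isRefl _ _ huw])).congr rfl ?_ ?_
  · rw [← add_assoc, add_self_two h2, zero_add]
  · simp only [map_add, map_smul, LinearMap.add_apply, LinearMap.smul_apply, smul_eq_mul, hA a]
    rw [← hA.neg_eq a w]
    linear_combination (κ - c * B a w ^ 2) * h2

theorem HasRho.add_left (hA : B.IsAlt) {u u' a : V} {κ : F} (h : HasRho B M u a κ)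
    (h' : HasRho B M u' a κ) (h'' : HasRho B M u' (κ • u) 0) (h1 : B u a = 0) (h2 : B u' a = 0)
    (h3 : B u u' = 0) : HasRho B M (u + u') a κ := by
  obtain ⟨g, hg, e1⟩ := h
  obtain ⟨g', hg', e2⟩ := h'
  obtain ⟨g'', hg'', e3⟩ := h''
  refine ⟨g * (g' * g''), M.mul_mem hg (M.mul_mem hg' hg''), fun x => ?_⟩
  have e4 : (g' * g'') x = x + B x u' • a + B x a • u' + (κ * B x u') • u' +
      (κ * B x u') • u + (κ * B x u) • u' := by
    rw [LinearEquiv.mul_apply, e2, e3]
    simp only [map_add, map_smul, LinearMap.add_apply, LinearMap.smul_apply, smul_eq_mul, h1, h2, h3,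
      hA u', mul_zero, add_zero, zero_mul, zero_smul]
    module
  rw [LinearEquiv.mul_apply, e1, e4]
  simp only [map_add, map_smul, LinearMap.add_apply, LinearMap.smul_apply, smul_eq_mul, h1, h2,
    hA u, hA a, hA.isRefl _ _ h1, hA.isRefl _ _ h3, mul_zero, add_zero]
  module

/-- the affine lines -/
def Gd (B : LinearMap.BilinForm F V) (M : Subgroup (V ≃ₗ[F] V)) (e : V) (s : F) (u : V) : Prop :=
  ∀ ξ : F, HasRho B M u (ξ • e) (ξ ^ 2 / s)

theorem Gd.map (hM : M ≤ isomGroup B) {e u : V} {s : F} (h : Gd B M e s u) {g : V ≃ₗ[F] V}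
    (hg : g ∈ M) (hge : g e = e) : Gd B M e s (g u) := fun ξ =>
  ((h ξ).map hM hg).congr rfl (by rw [map_smul, hge]) rfl

theorem Gd.of_smul {e u : V} {s t : F} (h : Gd B M e s (t • u)) (ht : t ≠ 0) : Gd B M e s u :=
  fun ξ => (h (ξ / t)).smul.congr rfl (by rw [smul_smul, mul_div_cancel₀ _ ht]) (by field_simp)

theorem Gd.swap (hA : B.IsAlt) (h2 : (2 : F) = 0) (hM : M ≤ isomGroup B) {e f u : V} {s b : F}
    (hb : b ≠ 0) (hf : HasRho B M f 0 b) (hef : B e f = 1) (hue : B u e = 0) (huf : B u f = 0)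
    (h : Gd B M e s u) : Gd B M f b u := fun η =>
  (rho_tv hA h2 hM hf huf (by simp [hue]) (h (η / b))).congr rfl
    (by simp only [map_smul, LinearMap.smul_apply, smul_eq_mul, hef]; congr 1; field_simp)
    (by simp only [map_smul, LinearMap.smul_apply, smul_eq_mul, hef]; field_simp)

theorem Gd.add (hA : B.IsAlt) (h2 : (2 : F) = 0) (hM : M ≤ isomGroup B) {e f u u' : V} {s b : F}
    (hb : b ≠ 0) (hf : HasRho B M f 0 b) (hef : B e f = 1) (hfe : B f e = 1) (hue : B u e = 0)
    (huf : B u f = 0) (hue' : B u' e = 0) (huf' : B u' f = 0) (huu : B u u' = 0)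
    (h : Gd B M e s u) (h' : Gd B M e s u') : Gd B M e s (u + u') := by
  intro ξ
  refine (h ξ).add_left hA (h' ξ) ?_ (by simp [hue]) (by simp [hue']) huu
  have h3 := h'.swap hA h2 hM hb hf hef hue' huf' 1
  obtain ⟨g, hg, e1⟩ := h (ξ ^ 2 / s)
  have h4 := h3.map hM hg
  rw [e1, e1] at h4
  simp only [map_smul, smul_eq_mul, one_smul, hA.isRefl _ _ huu, hue', hfe, hA.isRefl _ _ huf,
    zero_smul, mul_zero, add_zero, mul_one] at h4 h3
  refine (h3.mul hA h4 huf' (by simp [huu, hA.isRefl _ _ huf'])).congr rfl ?_ ?_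
  · rw [← add_assoc, add_self_two h2, zero_add]
  · simp only [map_add, map_smul, LinearMap.add_apply, LinearMap.smul_apply, smul_eq_mul, hA f, huf]
    linear_combination (1 ^ 2 / b) * h2

theorem exists_sq_two [Finite F] (h2 : (2 : F) = 0) (a : F) : ∃ x : F, x ^ 2 = a := by
  have : Function.Injective fun x : F => x ^ 2 := fun x y h => by
    have : (x - y) ^ 2 = 0 := by
      simp only at h
      linear_combination h + (y ^ 2 - x * y) * h2
    exact sub_eq_zero.mp ((pow_eq_zero_iff two_ne_zero).mp this)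
  exact Finite.injective_iff_surjective.mp this a

theorem Gd.rt [Finite F] (hA : B.IsAlt) (h2 : (2 : F) = 0) (hM : M ≤ isomGroup B) {e u u' : V}
    {s c : F} (hs : s ≠ 0) (hc : c ≠ 0) (hue : B u e = 0) (hue' : B u' e = 0) (huu : B u u' = 1)
    (huu' : B u' u = 1) (h : Gd B M e s u) (h' : Gd B M e s u') (hu : HasRho B M u 0 c) :
    Rt B M u' := by
  intro d
  by_cases hd : d = 0
  · rw [hd]; exact hasRho_refl _
  obtain ⟨x, hx⟩ := exists_sq_two h2 (d * s ^ 2 / c)
  obtain ⟨ξ, rfl⟩ := exists_sq_two h2 x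
  have hξ : ξ ≠ 0 := by
    rintro rfl
    have : d * s ^ 2 / c ≠ 0 := by positivity
    exact this (by rw [← hx]; simp)
  obtain ⟨g1, hg1, e1⟩ := h' ξ
  obtain ⟨g2, hg2, e2⟩ := h (s / ξ)
  have h3 := (hu.map hM hg1).map hM hg2
  have h4 : g2 (g1 u) = (ξ ^ 2 / s) • u' := by
    rw [e2, e1]
    simp only [map_add, map_smul, LinearMap.add_apply, LinearMap.smul_apply, smul_eq_mul, hue, hue',
      huu, huu', hA u, hA e, hA.isRefl _ _ hue, mul_zero, add_zero, zero_smul, mul_one, zero_add]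
    match_scalars
    · field_simp; linear_combination h2
    · field_simp; linear_combination ξ * h2
    · ring
  rw [h4, map_zero, map_zero] at h3
  refine h3.smul.congr rfl (smul_zero _) ?_
  field_simp at hx ⊢
  linear_combination hx

namespace Chain

variable {L : ℕ} {e f : ℕ → V} {y : V ≃ₗ[F] V}

theorem ef (C : Chain B L e f y) (i : ℕ) (hi : i ≤ L) : B (e i) (f i) = -1 := by
  rw [← C.alt.neg_eq, C.fe i hi]

theorem ef' (C : Chain B L e f y) (i j : ℕ) (h : i ≠ j) : B (e i) (f j) = 0 :=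
  C.alt.isRefl _ _ (C.fe' j i h.symm)

theorem inv_e0 (C : Chain B L e f y) : y⁻¹ (e 0) = e 0 := by
  conv_lhs => rw [← C.y0]
  exact y.symm_apply_apply _

theorem inv_f (C : Chain B L e f y) (k : ℕ) (hk : k < L) : y⁻¹ (f k) = f k + f (k + 1) := by
  conv_lhs => rw [← C.yf k hk]
  exact y.symm_apply_apply _

theorem all_rt [FiniteDimensional F V] (C : Chain B L e f y) (hM : M ≤ isomGroup B) (hy : y ∈ M)
    {c : F} (hc : c ≠ 0) (hL : HasRho B M (e L) 0 c) {W₀ : Submodule F V} (hb : Big B W₀)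
    (hW : ∀ w ∈ W₀, Rt B M w) (he : e 0 ∈ W₀) (hf : f 0 ∈ W₀) (v : V) : Rt B M v := by
  obtain ⟨W, h1, h2, h3⟩ := exists_invariant C.alt hM hb hW he hf
    (by rw [C.ef 0 (by omega)]; simp)
  have hfk : ∀ k, k ≤ L → f k ∈ W := by
    intro k
    induction k with
    | zero => exact fun _ => h1 hf
    | succ k ih =>
      intro hk
      have := h3 _ (M.inv_mem hy) C.inv_e0 _ (ih (by omega))
      rw [C.inv_f k hk] at this
      simpa using W.sub_mem this (ih (by omega))
  have heL : e L ∈ W := by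
    obtain ⟨g, hg, e1⟩ := hL
    have := h3 g hg (by rw [e1, C.ee]; simp) _ (hfk L le_rfl)
    rw [e1, C.fe L le_rfl] at this
    have := W.smul_mem c⁻¹ (W.sub_mem this (hfk L le_rfl))
    simpa [smul_smul, hc] using this
  have hek : ∀ j k, j + k = L → e k ∈ W := by
    intro j
    induction j with
    | zero => intro k hk; rw [show k = L by omega]; exact heL
    | succ j ih =>
      intro k hk
      have := h3 _ hy C.y0 _ (ih (k + 1) (by omega))
      rw [C.ye k (by omega)] at this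
      simpa using W.sub_mem this (ih (k + 1) (by omega))
  exact h2 v (C.span W (fun k hk => hek (L - k) k (by omega)) hfk ▸ Submodule.mem_top)

theorem all_rt_two [Finite F] [FiniteDimensional F V] (C : Chain B L e f y) (h2 : (2 : F) = 0)
    (hM : M ≤ isomGroup B) (hy : y ∈ M) {b c s : F} (hb : b ≠ 0) (hc : c ≠ 0) (hs : s ≠ 0)
    (hγ : ∀ x : F, x ≠ 0 → ∃ k : ℕ, (b * s) ^ k = x) (h0 : HasRho B M (e 0) 0 s)
    (hf0 : HasRho B M (f 0) 0 b) (hL : HasRho B M (e L) 0 c) (v : V) : Rt B M v := by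
  have hA := C.alt
  have hpos := C.pos
  have hef : ∀ i, i ≤ L → B (e i) (f i) = 1 := fun i hi => by
    rw [C.ef i hi]; linear_combination -h2
  have G1 : Gd B M (e 0) s (f 1) := by
    have a1 := hf0.map hM (M.inv_mem hy)
    rw [C.inv_f 0 hpos, map_zero] at a1
    have a2 := pair_two hA h2 (C.ff _ _) hf0 a1
    have a3 : ∀ k : ℕ, HasRho B M (f 1) (((b * s) ^ k * b) • f 0) (((b * s) ^ k * b) ^ 2 / b) := by
      intro k
      induction k with
      | zero => exact a2.congr rfl (by simp) (by field_simp)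
      | succ k ih =>
        have a4 := rho_tv hA h2 hM h0 (C.fe' 1 0 one_ne_zero) (by simp [C.ff]) ih
        have a5 := rho_tv hA h2 hM hf0 (C.ff _ _) (by simp [C.fe' 1 0 one_ne_zero]) a4
        simp only [map_smul, LinearMap.smul_apply, smul_eq_mul, C.fe 0 (by omega),
          hef 0 (by omega)] at a5
        exact a5.congr rfl (by congr 1; ring) (by field_simp; ring)
    refine Gd.swap hA h2 hM hs h0 (C.fe 0 (by omega)) (C.ff _ _) (C.fe' 1 0 one_ne_zero)
      (s := b) fun η => ?_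
    by_cases hη : η = 0
    · exact (hasRho_refl _).congr rfl (by simp [hη]) (by simp [hη])
    obtain ⟨k, hk⟩ := hγ (η / b) (div_ne_zero hη hb)
    have := a3 k
    rwa [hk, div_mul_cancel₀ _ hb] at this
  have Gadd : ∀ u u', B u (e 0) = 0 → B u (f 0) = 0 → B u' (e 0) = 0 → B u' (f 0) = 0 → B u u' = 0 →
      Gd B M (e 0) s u → Gd B M (e 0) s (u + u') → Gd B M (e 0) s u' := by
    intro u u' a1 a2 a3 a4 a5 a6 a7
    have := a6.add hA h2 hM hb hf0 (hef 0 (by omega)) (C.fe 0 (by omega)) a1 a2 (by simp [a1, a3])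
      (by simp [a2, a4]) (by simp [a5, hA u]) a7
    rwa [← add_assoc, add_self_two h2, zero_add] at this
  have key : Gd B M (e 0) s (e 1) ∧ ∃ c', c' ≠ 0 ∧ HasRho B M (e 1) 0 c' := by
    by_cases hL1 : L = 1
    · subst hL1
      refine ⟨?_, c, hc, hL⟩
      have a1 : HasRho B M (f 1) (e 0) 0 := by
        refine ⟨y, hy, fun x => ?_⟩
        have := C.span (LinearMap.eqLocus y.toLinearMap (LinearMap.id +
          (B.flip (f 1)).smulRight (e 0) + (B.flip (e 0)).smulRight (f 1))) ?_ ?_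
        · have hx : x ∈ (⊤ : Submodule F V) := Submodule.mem_top
          rw [← this, LinearMap.mem_eqLocus] at hx
          simpa using hx
        · intro k hk
          rw [LinearMap.mem_eqLocus]
          interval_cases k
          · simp [C.y0, C.ee, C.ef' 0 1 zero_ne_one]
          · simp [C.ye 0 (by omega), C.ee, hef 1 le_rfl]
        · intro k hk
          rw [LinearMap.mem_eqLocus]
          interval_cases k
          · have := C.yf 0 (by omega)
            rw [map_add, zero_add, C.yL] at this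
            simp only [LinearEquiv.coe_coe, LinearMap.add_apply, LinearMap.id_coe, id_eq,
              LinearMap.smulRight_apply, LinearMap.BilinForm.flip_apply, C.ff, C.fe 0 (by omega),
              zero_smul, add_zero, one_smul]
            rw [eq_sub_of_add_eq this, sub_eq_add_neg, neg_eq_of_add_eq_zero_left (add_self_two h2 _)]
          · simp [C.yL, C.ff, C.fe' 1 0 one_ne_zero]
      have a2 : HasRho B M (f 1) 0 (1 / s) :=
        (a1.mul hA (G1 1) (C.fe' 1 0 one_ne_zero) (by simp [C.ef' 0 1 zero_ne_one])).congr rfl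
          (by rw [one_smul, add_self_two h2]) (by simp [C.ee])
      obtain ⟨g1, hg1, e1⟩ := hL
      obtain ⟨g2, hg2, e2⟩ := a2
      obtain ⟨h, hh, κ, hκ, e3⟩ := exists_map_two (K := F) h2 (ι := RingHom.id F)
        (M := M ⊓ MulAction.stabilizer _ (e 0)) (e := f 1) (f := c • e 1) (lam := c / s)
        (div_ne_zero hc hs)
        ⟨g1, ⟨hg1, by
          change g1 (e 0) = e 0
          rw [e1, C.ee]; simp⟩, by rw [e1, C.fe 1 le_rfl]; simp, by rw [e1]; simp [C.ee]⟩
        ⟨g2, ⟨hg2, by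
          change g2 (e 0) = e 0
          rw [e2, C.ef' 0 1 zero_ne_one]; simp⟩, by rw [e2, C.ff]; simp, by
          rw [e2]; simp [hef 1 le_rfl, div_eq_inv_mul]⟩
      have a3 := G1.map hM hh.1 hh.2
      rw [e3, smul_smul] at a3
      refine a3.of_smul (mul_ne_zero ?_ hc)
      rintro rfl
      simp at hκ
    have Gf : ∀ k, k + 1 ≤ L → Gd B M (e 0) s (f (k + 1)) := by
      intro k
      induction k with
      | zero => exact fun _ => G1
      | succ k ih =>
        intro hk
        have := (ih (by omega)).map hM (M.inv_mem hy) C.inv_e0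
        rw [C.inv_f _ hk] at this
        exact Gadd _ _ (C.fe' _ _ (by omega)) (C.ff _ _) (C.fe' _ _ (by omega)) (C.ff _ _) (C.ff _ _)
          (ih (by omega)) this
    obtain ⟨m, rfl⟩ : ∃ m, L = m + 2 := ⟨L - 2, by omega⟩
    have Ge : Gd B M (e 0) s (e (m + 1)) := by
      obtain ⟨g1, hg1, e1⟩ := hL
      have a1 := (Gf (m + 1) le_rfl).map hM hg1 (by rw [e1, C.ee]; simp)
      rw [e1, C.fe _ le_rfl] at a1
      simp only [smul_zero, map_zero, zero_smul, add_zero, mul_one] at a1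
      have a2 := a1.map hM hy C.y0
      rw [map_add, map_smul, C.yL, C.ye _ (by omega), smul_add, ← add_assoc] at a2
      exact (Gadd _ _ (by simp [C.ee, C.fe' (m + 2) 0 (by omega)])
        (by simp [C.ff, C.ef' (m + 2) 0 (by omega)]) (by simp [C.ee])
        (by simp [C.ef' (m + 1) 0 (by omega)]) (by simp [C.ee, C.fe' (m + 2) (m + 1) (by omega)])
        a1 a2).of_smul hc
    have Ge' : ∀ j k, j + k = m → Gd B M (e 0) s (e (k + 1)) := by
      intro j
      induction j with
      | zero => intro k hk; rw [show k = m by omega]; exact Ge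
      | succ j ih =>
        intro k hk
        have := (ih (k + 1) (by omega)).map hM hy C.y0
        rw [C.ye _ (by omega)] at this
        exact Gadd _ _ (C.ee _ _) (C.ef' _ _ (by omega)) (C.ee _ _) (C.ef' _ _ (by omega)) (C.ee _ _)
          (ih (k + 1) (by omega)) this
    have G2 := Ge' m 0 rfl
    refine ⟨G2, s, hs, ?_⟩
    obtain ⟨g, hg, e1⟩ := G2.swap hA h2 hM hb hf0 (hef 0 (by omega)) (C.ee _ _)
      (C.ef' _ _ (by omega)) 1
    have a1 := (h0.map hM hg).map hM hy
    rw [e1, C.ee, one_smul, hef 0 (by omega)] at a1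
    simp only [map_zero, zero_smul, add_zero, one_smul, mul_zero, map_add, zero_add] at a1
    rwa [C.y0, C.ye 0 (by omega), add_comm (e 1), ← add_assoc, add_self_two h2, zero_add] at a1
  obtain ⟨G2, c', hc', T1⟩ := key
  have R1 : Rt B M (f 1) := G2.rt hA h2 hM hs hc' (C.ee _ _) (C.fe' 1 0 one_ne_zero) (hef 1 hpos)
    (C.fe 1 hpos) G1 T1
  have R2 : Rt B M (e 1) := G1.rt hA h2 hM hs one_ne_zero (C.fe' 1 0 one_ne_zero) (C.ee _ _)
    (C.fe 1 hpos) (hef 1 hpos) G2 (R1 1)
  have R3 : ∀ a κ, B (e 1) a = 0 → B a (f 1) = 0 → HasRho B M (f 1) a κ → Rt B M (e 1 + a) := by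
    rintro a κ a1 a2 ⟨g, hg, e1⟩
    have a3 := R2.map hM hg
    rw [e1, a1, hef 1 hpos] at a3
    have := a3.add_smul hM R1 (by simp [hef 1 hpos, a2, C.ff]) (-κ)
    simpa using this
  have R4 : ∀ ξ : F, Rt B M (e 1 + ξ • e 0) := fun ξ =>
    R3 _ _ (by simp [C.ee]) (by simp [C.ef' 0 1 zero_ne_one]) (G1 ξ)
  have R5 := R3 _ _ (by simp [C.ef' 1 0 one_ne_zero]) (by simp [C.ff])
    (G1.swap hA h2 hM hb hf0 (hef 0 (by omega)) (C.fe' 1 0 one_ne_zero) (C.ff _ _) 1)
  have R6 : Rt B M (s • e 0 + f 0) := by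
    have := (R4 s).add_smul hM R5
      (by simp [C.ee, C.ef' 1 0 one_ne_zero, hef 0 (by omega), hs]) 1
    rwa [one_smul, one_smul, add_add_add_comm, add_self_two h2, zero_add] at this
  have R7 : Rt B M (f 0) := by
    obtain ⟨g, hg, e1⟩ := h0
    have := R6.map hM hg
    rw [e1] at this
    simp only [smul_zero, map_zero, zero_smul, add_zero, map_add, map_smul, LinearMap.add_apply,
      LinearMap.smul_apply, C.ee, C.fe 0 (by omega), zero_add, mul_one] at this
    rwa [add_right_comm, add_self_two h2, zero_add] at this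
  have R8 : Rt B M (e 0) := by
    have := R6.add_smul hM R7 (by simp [C.ff, hef 0 (by omega), hs]) (-1)
    exact Rt.of_smul (a := s) (by simpa using this) hs
  have W2 := rt_span_pair hM R8 R7 (by simp [hef 0 (by omega)])
  have m1 : e 0 ∈ Submodule.span F {e 0, f 0} := Submodule.subset_span (by simp)
  have m2 : f 0 ∈ Submodule.span F {e 0, f 0} := Submodule.subset_span (by simp)
  have W3 : ∀ w ∈ Submodule.span F {e 0, f 0} ⊔ F ∙ (e 1 + (1 : F) • e 0), Rt B M w := by
    intro x hx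
    by_cases hx' : ∃ w ∈ Submodule.span F {e 0, f 0}, B x w ≠ 0
    · exact grow_weak hA hM W2 (R4 1) ⟨f 0, m2, by simp [C.fe 0 (by omega), C.fe' 0 1 zero_ne_one]⟩
        hx hx'
    push Not at hx'
    obtain ⟨w, hw, z, hz, rfl⟩ := Submodule.mem_sup.mp hx
    obtain ⟨a1, a2, rfl⟩ := Submodule.mem_span_pair.mp hw
    obtain ⟨a3, rfl⟩ := Submodule.mem_span_singleton.mp hz
    have b1 := hx' _ m1
    have b2 := hx' _ m2
    simp [C.ee, C.ff, C.fe 0 (by omega), hef 0 (by omega), C.ef' 1 0 one_ne_zero] at b1 b2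
    convert R2.smul a3 using 1
    rw [b1, eq_neg_of_add_eq_zero_left b2]
    module
  have m3 : e 1 ∈ Submodule.span F {e 0, f 0} ⊔ F ∙ (e 1 + (1 : F) • e 0) := by
    have := Submodule.sub_mem _ (Submodule.mem_sup_right (S := Submodule.span F {e 0, f 0})
      (Submodule.mem_span_singleton_self (e 1 + (1 : F) • e 0))) (Submodule.mem_sup_left m1)
    simpa using this
  have W4 : ∀ w ∈ (Submodule.span F {e 0, f 0} ⊔ F ∙ (e 1 + (1 : F) • e 0)) ⊔ F ∙ f 1,
      Rt B M w := by
    intro x hx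
    by_cases hx' : ∃ w ∈ Submodule.span F {e 0, f 0} ⊔ F ∙ (e 1 + (1 : F) • e 0), B x w ≠ 0
    · exact grow_weak hA hM W3 R1 ⟨e 1, m3, by simp [hef 1 hpos]⟩ hx hx'
    push Not at hx'
    obtain ⟨w, hw, z, hz, rfl⟩ := Submodule.mem_sup.mp hx
    obtain ⟨a3, rfl⟩ := Submodule.mem_span_singleton.mp hz
    have b1 := hx' _ m3
    have b2 : B w (e 1) = 0 := by
      obtain ⟨w', hw', z, hz, rfl⟩ := Submodule.mem_sup.mp hw
      obtain ⟨a1, a2, rfl⟩ := Submodule.mem_span_pair.mp hw'
      obtain ⟨a3, rfl⟩ := Submodule.mem_span_singleton.mp hz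
      simp [C.ee, C.fe' 0 1 zero_ne_one]
    simp [b2, C.fe 1 hpos] at b1
    rw [b1, zero_smul, add_zero]
    exact W3 w hw
  refine C.all_rt hM hy hc hL (Or.inr ⟨e 0, ?_, e 1, ?_, f 0, ?_, f 1, ?_, C.ee _ _,
    by simp [hef 0 (by omega)], C.ef' 1 0 one_ne_zero, by simp [hef 1 hpos]⟩) W4 ?_ ?_ v
  · exact Submodule.mem_sup_left (Submodule.mem_sup_left m1)
  · exact Submodule.mem_sup_left m3
  · exact Submodule.mem_sup_left (Submodule.mem_sup_left m2)
  · exact Submodule.mem_sup_right (Submodule.mem_span_singleton_self _)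
  · exact Submodule.mem_sup_left (Submodule.mem_sup_left m1)
  · exact Submodule.mem_sup_left (Submodule.mem_sup_left m2)

/-- the main generation lemma -/
theorem le_of_three [Finite F] [FiniteDimensional F V] (C : Chain B L e f y) (hB : B.Nondegenerate)
    (hM : M ≤ isomGroup B) {b s γ : F} (hb : b ≠ 0) (hγ0 : γ ≠ 0) (hs : -(b * s) = γ)
    (hγ : ∀ x : F, x ≠ 0 → ∃ k : ℕ, γ ^ k = x) (h9 : ¬ (Nat.card F = 9 ∧ γ ^ 2 = -1))
    (hu : y * altTv C.alt (e L) b ∈ M) (hw : altTv C.alt (f 0) b * y⁻¹ ∈ M)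
    (ht : altTv C.alt (e 0) s ∈ M) : isomGroup B ≤ M := by
  have hA := C.alt
  have hpos := C.pos
  have hs0 : s ≠ 0 := by rintro rfl; simp at hs; exact hγ0 hs.symm
  have hg : altTv hA (f 0) b * altTv hA (e L) b ∈ M := by
    simpa [mul_assoc] using M.mul_mem hw hu
  have p1 : ∃ h ∈ M, h (e 0) = e 0 + -b • f 0 ∧ h (-b • f 0) = -b • f 0 :=
    ⟨_, hg, by simp [altTv_apply, C.ee, C.ef 0 (by omega)],
      by simp [altTv_apply, C.ff, C.fe' 0 L (by omega)]⟩
  have p2 : ∃ h ∈ M, h (e 0) = e 0 ∧ h (-b • f 0) = -b • f 0 + RingHom.id F γ • e 0 :=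
    ⟨_, ht, by simp [altTv_apply, C.ee], by
      simp only [altTv_apply, map_smul, C.fe 0 (by omega), RingHom.id_apply, ← hs]
      module⟩
  have h0 := (hasRho_zero_iff hA).mpr ht
  have sep : HasRho B M (f 0) 0 b → HasRho B M (e L) 0 b ∧ y ∈ M := by
    intro h
    rw [hasRho_zero_iff hA] at h ⊢
    have a1 := (M.mul_mem_cancel_left h).mp hg
    exact ⟨a1, (M.mul_mem_cancel_right a1).mp hu⟩
  refine isomGroup_le_of_altTv_mem hB hA M fun v c => (hasRho_zero_iff hA).mp ?_
  by_cases h2 : (2 : F) = 0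
  · obtain ⟨h, hh, κ, hκ, e1⟩ := exists_map_two h2 hγ0 p1 p2
    have a1 := h0.map hM hh
    rw [e1, smul_smul, map_zero] at a1
    have a2 : HasRho B M (f 0) 0 b := a1.smul.congr rfl (smul_zero _) (by
      rw [RingHom.id_apply]
      linear_combination (-b) * hκ - κ ^ 2 * b * hs - b * h2)
    obtain ⟨a3, a4⟩ := sep a2
    exact C.all_rt_two h2 hM a4 hb hb hs0 (by
      rwa [show b * s = γ by linear_combination hs + b * s * h2]) h0 a2 a3 v c
  · have key : ∀ a a' : F, a ≠ 0 ∨ a' ≠ 0 → Rt B M (a • e 0 + a' • -b • f 0) := by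
      intro a a' ha c
      have k1 : ∀ t : F, HasRho B M (a • e 0 + a' • -b • f 0) 0 (t ^ 2 * s) := by
        intro t
        by_cases ht0 : t = 0
        · exact (hasRho_refl _).congr rfl rfl (by simp [ht0])
        obtain ⟨h, hh, e1⟩ := exists_map_odd h2 hγ0 (closure_eq_top_of_powers hγ) h9 p1 p2
          (a := t * a) (c := t * a') (ha.imp (mul_ne_zero ht0) (mul_ne_zero ht0))
        have a1 := h0.map hM hh
        rw [e1, map_zero, RingHom.id_apply, RingHom.id_apply, mul_smul, mul_smul, ← smul_add] at a1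
        exact a1.smul.congr rfl (smul_zero _) rfl
      refine (hasRho_add hA (k1 ((c / s + 1) / 2)) (hasRho_neg hA (k1 ((c / s - 1) / 2)))).congr
        rfl rfl ?_
      field_simp
      ring
    have R1 : Rt B M (e 0) := by simpa using key 1 0 (Or.inl one_ne_zero)
    have R2 : Rt B M (f 0) := Rt.of_smul (a := -b) (by simpa using key 0 1 (Or.inr one_ne_zero))
      (neg_ne_zero.mpr hb)
    obtain ⟨a3, a4⟩ := sep (R2 b)
    exact C.all_rt hM a4 hb a3 (Or.inl h2) (rt_span_pair hM R1 R2 (by simp [C.ef 0 (by omega)]))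
      (Submodule.subset_span (by simp)) (Submodule.subset_span (by simp)) v c

end Chain

end Cfsg.Agent.H28.Reg
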