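import Mathlib
import Cfsg.Agent.H28.RegSp2
import Cfsg.Agent.H31.HermGrow

/-! Eichler maps in subgroups of a unitary group. -/

set_option autoImplicit false
open Module

namespace Cfsg.Agent.H28.RegU

open Cfsg.Agent.H31

variable {F : Type*} [Field F] {σ : F →+* F} {V : Type*} [AddCommGroup V] [Module F V]
  {B : V →ₛₗ[σ] V →ₗ[F] F} {M : Subgroup (V ≃ₗ[F] V)}

/-- `g` is an Eichler map -/
def IsRho (B : V →ₛₗ[σ] V →ₗ[F] F) (g : V ≃ₗ[F] V) (v a : V) (μ : F) : Prop :=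
  ∀ x, g x = x + B v x • a - B a x • v + (μ * B v x) • v

theorem exists_isRho [FiniteDimensional F V] (h : IsHermSymm B) {v a : V} {μ : F} (hv : B v v = 0)
    (hva : B v a = 0) (hμ : μ + σ μ + B a a = 0) : ∃ g ∈ sisom B, IsRho B g v a μ := by
  obtain ⟨g, hg, h1⟩ := h.exists_eichler_sisom (y := -a) (μ := -μ) hv (by simp [hva])
    (by simp only [map_neg, LinearMap.neg_apply, neg_neg]; linear_combination -hμ)
  refine ⟨g, hg, fun x => ?_⟩
  rw [h1, neg_left]
  module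

theorem IsRho.congr {g : V ≃ₗ[F] V} {v a v' a' : V} {μ μ' : F} (h : IsRho B g v a μ) (h1 : v = v')
    (h2 : a = a') (h3 : μ = μ') : IsRho B g v' a' μ' := by subst h1 h2 h3; exact h

theorem IsRho.eq {g g' : V ≃ₗ[F] V} {v a : V} {μ : F} (h : IsRho B g v a μ) (h' : IsRho B g' v a μ) :
    g = g' := LinearEquiv.ext fun x => by rw [h, h']

theorem IsRho.conj {g k : V ≃ₗ[F] V} {v a : V} {μ : F} (h : IsRho B g v a μ) (hk : k ∈ isom B) :
    IsRho B (k * g * k⁻¹) (k v) (k a) μ := by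
  intro x
  obtain ⟨x, rfl⟩ := k.surjective x
  rw [LinearEquiv.mul_apply, LinearEquiv.mul_apply, inv_apply_apply, h, hk, hk]
  simp

theorem IsRho.mul (hB : IsHermSymm B) {g g' : V ≃ₗ[F] V} {v a a' : V} {μ μ' : F}
    (h : IsRho B g v a μ) (h' : IsRho B g' v a' μ') (hv : B v v = 0) (ha : B v a = 0)
    (ha' : B v a' = 0) : IsRho B (g * g') v (a + a') (μ + μ' - B a a') := by
  intro x
  rw [LinearEquiv.mul_apply, h, h']
  simp only [map_add, map_sub, map_smul, LinearMap.add_apply, smul_eq_mul, hv, ha', hB.flip_zero ha]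
  module

theorem isRho_one (v : V) : IsRho B 1 v 0 0 := fun x => by simp

theorem IsRho.inv (hB : IsHermSymm B) {g : V ≃ₗ[F] V} {v a : V} {μ : F} (h : IsRho B g v a μ)
    (hv : B v v = 0) (ha : B v a = 0) : IsRho B g⁻¹ v (-a) (-μ - B a a) := by
  intro x
  apply g.injective
  rw [apply_inv_apply, h]
  simp only [map_add, map_sub, map_neg, map_smul, LinearMap.neg_apply, smul_eq_mul, hv, ha,
    hB.flip_zero ha]
  module

theorem IsRho.symm (hB : IsHermSymm B) {g : V ≃ₗ[F] V} {v w : V} {κ : F}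
    (h : IsRho B g v (κ • w) 0) : IsRho B g w (-σ κ • v) 0 := by
  intro x
  rw [h, smul_left, smul_left, map_neg, hB.inv.invol]
  module

theorem IsRho.smul {g : V ≃ₗ[F] V} {v : V} {κ μ : F} (h : IsRho B g (κ • v) 0 μ) :
    IsRho B g v 0 (κ * σ κ * μ) := by
  intro x
  rw [h, smul_left]
  simp only [zero_left]
  module

theorem isRho_tv {v : V} {c : F} (hv : B v v = 0) (hc : c + σ c = 0) :
    IsRho B (tv B v c hv hc) v 0 c := fun x => by rw [tv_apply]; simp

theorem IsRho.apply_of_perp {g : V ≃ₗ[F] V} {v a : V} {μ : F} (h : IsRho B g v a μ) {x : V}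
    (h1 : B v x = 0) (h2 : B a x = 0) : g x = x := by rw [h, h1, h2]; simp

/-- `M` contains the Eichler map -/
def HasR (B : V →ₛₗ[σ] V →ₗ[F] F) (M : Subgroup (V ≃ₗ[F] V)) (v a : V) (μ : F) : Prop :=
  ∃ g ∈ M, IsRho B g v a μ

theorem HasR.congr {v a v' a' : V} {μ μ' : F} (h : HasR B M v a μ) (h1 : v = v')
    (h2 : a = a') (h3 : μ = μ') : HasR B M v' a' μ' := by subst h1 h2 h3; exact h

theorem HasR.map (hM : M ≤ isom B) {v a : V} {μ : F} (h : HasR B M v a μ) {k : V ≃ₗ[F] V}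
    (hk : k ∈ M) : HasR B M (k v) (k a) μ := by
  obtain ⟨g, hg, h⟩ := h
  exact ⟨_, M.mul_mem (M.mul_mem hk hg) (M.inv_mem hk), h.conj (hM hk)⟩

theorem HasR.mul (hB : IsHermSymm B) {v a a' : V} {μ μ' : F} (h : HasR B M v a μ)
    (h' : HasR B M v a' μ') (hv : B v v = 0) (ha : B v a = 0) (ha' : B v a' = 0) :
    HasR B M v (a + a') (μ + μ' - B a a') := by
  obtain ⟨g, hg, h⟩ := h
  obtain ⟨g', hg', h'⟩ := h'
  exact ⟨_, M.mul_mem hg hg', h.mul hB h' hv ha ha'⟩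

theorem HasR.inv (hB : IsHermSymm B) {v a : V} {μ : F} (h : HasR B M v a μ) (hv : B v v = 0)
    (ha : B v a = 0) : HasR B M v (-a) (-μ - B a a) := by
  obtain ⟨g, hg, h⟩ := h
  exact ⟨_, M.inv_mem hg, h.inv hB hv ha⟩

theorem HasR.div (hB : IsHermSymm B) {v a : V} {μ μ' : F} (h : HasR B M v a μ)
    (h' : HasR B M v a μ') (hv : B v v = 0) (ha : B v a = 0) : HasR B M v 0 (μ - μ') :=
  (h.mul hB (h'.inv hB hv ha) hv ha (by simp [ha])).congr rfl (add_neg_cancel _) (by simp; ring)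

theorem hasR_zero (v : V) : HasR B M v 0 0 := ⟨1, M.one_mem, isRho_one v⟩

theorem HasR.sub0 (hB : IsHermSymm B) {v : V} {μ μ' : F} (h : HasR B M v 0 μ) (h' : HasR B M v 0 μ')
    (hv : B v v = 0) : HasR B M v 0 (μ - μ') := h.div hB h' hv (by simp)

theorem HasR.smul {v : V} {κ μ : F} (h : HasR B M (κ • v) 0 μ) : HasR B M v 0 (κ * σ κ * μ) := by
  obtain ⟨g, hg, h⟩ := h
  exact ⟨g, hg, h.smul⟩

theorem hasTv_of_hasR {v : V} (h : ∀ c, c + σ c = 0 → HasR B M v 0 c) : HasTv B M v := by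
  intro c hv hc
  obtain ⟨g, hg, h1⟩ := h c hc
  rwa [(isRho_tv hv hc).eq h1]

/-- the vectors `a` occurring in an Eichler map with centre `v` -/
def Ad (B : V →ₛₗ[σ] V →ₗ[F] F) (M : Subgroup (V ≃ₗ[F] V)) (v a : V) : Prop :=
  B v a = 0 ∧ ∃ μ, HasR B M v a μ

theorem Ad.add (hB : IsHermSymm B) {v a a' : V} (hv : B v v = 0) (h : Ad B M v a)
    (h' : Ad B M v a') : Ad B M v (a + a') := by
  obtain ⟨h1, μ, h⟩ := h
  obtain ⟨h1', μ', h'⟩ := h'
  exact ⟨by rw [map_add, h1, h1', add_zero], _, h.mul hB h' hv h1 h1'⟩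

theorem Ad.sub (hB : IsHermSymm B) {v a a' : V} (hv : B v v = 0) (h : Ad B M v a)
    (h' : Ad B M v a') : Ad B M v (a - a') := by
  obtain ⟨h1', μ', h'⟩ := h'
  rw [sub_eq_add_neg]
  exact h.add hB hv ⟨by simp [h1'], _, h'.inv hB hv h1'⟩

theorem ad_self {v : V} (hv : B v v = 0) (κ : F) : Ad B M v (κ • v) :=
  ⟨by simp [hv], σ κ - κ, 1, M.one_mem, fun x => by rw [smul_left, LinearEquiv.coe_one, id]; module⟩

theorem Ad.diff (hB : IsHermSymm B) (hM : M ≤ isom B) {v a : V} (hv : B v v = 0) (h : Ad B M v a)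
    {k : V ≃ₗ[F] V} (hk : k ∈ M) (hkv : k v = v) : Ad B M v (k a - a) := by
  refine Ad.sub hB hv ?_ h
  obtain ⟨h1, μ, h⟩ := h
  exact ⟨by rw [← hkv, hM hk, h1], μ, (h.map hM hk).congr hkv rfl rfl⟩

theorem hasTv_of_ad (hB : IsHermSymm B) {v e f : V} (hv : B v v = 0) (hef : B e f = 1)
    (he : Ad B M v e) (hf : ∀ κ : F, Ad B M v (κ • f)) : HasTv B M v := by
  refine hasTv_of_hasR fun c hc => ?_
  obtain ⟨b, hb⟩ := hB.inv.exists_trace_eq (map_one σ)
  obtain ⟨h1, μ, h⟩ := he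
  obtain ⟨h1', μ', h'⟩ := hf (c * b)
  refine ((h'.mul hB h hv h1' h1).div hB ((h.mul hB h' hv h1 h1').congr rfl (add_comm _ _) rfl) hv
    (by rw [map_add, h1, h1', add_zero])).congr rfl rfl ?_
  rw [smul_left, smul_right, hef, hB.flip_one hef, map_mul]
  linear_combination c * hb - σ b * hc

theorem exists_four [FiniteDimensional F V] (hB : IsHerm B) (hM : M ≤ isom B) {W : Submodule F V}
    (hW : NondegOn B W) {e φ : V} (he : B e e = 0) (heW : e ∈ perp B W) (hte : HasTv B M e)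
    (hA : ∀ a ∈ W, Ad B M e a) (hφ : B φ φ = 0) (htφ : HasTv B M φ) (heφ : B e φ ≠ 0) :
    ∃ U : Submodule F V, W ≤ U ∧ e ∈ U ∧ NondegOn B U ∧ finrank F U = finrank F W + 2 ∧
      ∀ x ∈ U, HasTv B M x := by
  have hS := hB.toIsHermSymm
  obtain ⟨f, hf0, hef, hfW, htf⟩ : ∃ f, B f f = 0 ∧ B e f = 1 ∧ f ∈ perp B W ∧ HasTv B M f := by
    obtain ⟨w, hw, r, hr, h1⟩ := hB.exists_add_perp hW ((B e φ)⁻¹ • φ)
    obtain ⟨-, μ, g, hg, h2⟩ := hA (-w) (W.neg_mem hw)
    have h3 : B e ((B e φ)⁻¹ • φ) = 1 := by rw [smul_right, inv_mul_cancel₀ heφ]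
    have h4 : g e = e := h2.apply_of_perp he (heW _ (W.neg_mem hw))
    refine ⟨g ((B e φ)⁻¹ • φ), isotropic_map (hM hg) (isotropic_smul hφ _),
      by rw [← h3, ← hM hg e ((B e φ)⁻¹ • φ), h4], ?_, (htφ.smul hS _).map (hM hg) hg⟩
    rw [h2, h3, h1]
    refine Submodule.add_mem _ (Submodule.sub_mem _ ?_ (Submodule.smul_mem _ _ heW))
      (Submodule.smul_mem _ _ heW)
    simpa using hr
  have hg := hS.gram_hyperbolic he hef
  have hP : Submodule.span F {e, f} ≤ perp B W := span_pair_le heW hfW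
  refine ⟨W ⊔ Submodule.span F {e, f}, le_sup_left,
    Submodule.mem_sup_right (Submodule.subset_span (by simp)),
    hS.nondegOn_sup hW (hS.nondegOn_span_pair hg) hP, ?_, ?_⟩
  · have := Submodule.finrank_sup_add_finrank_inf_eq W (Submodule.span F {e, f})
    rw [((hS.nondegOn_iff_disjoint.mp hW).mono_right hP).eq_bot, finrank_bot,
      finrank_span_pair_of_gram hg] at this
    omega
  have c1 : ∀ a ∈ W, ∀ α β : F, β ≠ 0 → HasTv B M (a + (α • e + β • f)) := by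
    intro a ha α β hβ
    obtain ⟨h0, μ, g, hg, h2⟩ := hA (β⁻¹ • a) (W.smul_mem _ ha)
    have h3 : g e = e := h2.apply_of_perp he (heW _ (W.smul_mem _ ha))
    have := hte.line hS hM ((htf.smul hS β).map (hM hg) hg) he
      (isotropic_map (hM hg) (isotropic_smul hf0 _))
      (by have := hM hg e (β • f); rw [h3] at this; rw [this]; simp [hef, hβ]) (α - μ * β)
    convert this using 1
    rw [h2, smul_right, smul_right, hef, hfW _ (W.smul_mem _ ha)]
    match_scalars <;> field_simp <;> ring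
  have c2 : ∀ a ∈ W, ∀ α β : F, α ≠ 0 → HasTv B M (a + (α • e + β • f)) := by
    intro a ha α β hα
    by_cases hβ : β ≠ 0
    · exact c1 a ha α β hβ
    obtain ⟨ω, hω, hω'⟩ := hS.inv.exists_skew'
    have := (c1 a ha α (ω * α) (mul_ne_zero hω hα)).map (inv_mem (hS.tv_mem_isom hf0 hω'))
      (inv_mem (htf ω hf0 hω'))
    convert this using 1
    apply (tv B f ω hf0 hω').injective
    rw [apply_inv_apply, tv_apply, not_not.mp hβ]
    simp only [map_add, smul_right, hS.flip_zero (hfW a ha), hS.flip_one hef, hf0]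
    module
  intro x hx
  obtain ⟨a, ha, z, hz, rfl⟩ := Submodule.mem_sup.mp hx
  obtain ⟨α, β, rfl⟩ := Submodule.mem_span_pair.mp hz
  by_cases hβ : β ≠ 0
  · exact c1 a ha α β hβ
  by_cases hα : α ≠ 0
  · exact c2 a ha α β hα
  rw [not_not.mp hβ, not_not.mp hα, zero_smul, zero_smul, add_zero, add_zero]
  by_cases h0 : ∀ a' ∈ W, B a a' = 0
  · rw [hW a ha h0]; exact hasTv_zero M
  push Not at h0
  obtain ⟨a', ha', h1⟩ := h0
  obtain ⟨-, μ, g, hg, h2⟩ := hA a' ha'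
  have := (c2 a ha (-B a' a) 0 (neg_ne_zero.mpr (hS.flip_ne_zero h1))).map (inv_mem (hM hg))
    (inv_mem hg)
  convert this using 1
  apply g.injective
  rw [apply_inv_apply, h2, hS.flip_zero (heW a ha)]
  module

/-- an additive set closed under multiplication by squares of fixed elements -/
theorem closed_fixed [Finite F] {P : F → Prop} (hsub : ∀ a b, P a → P b → P (a - b))
    (hsq : ∀ x a, σ x = x → P a → P (x ^ 2 * a)) (x a : F) (hx : σ x = x) (ha : P a) : P (x * a) := by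
  by_cases h2 : (2 : F) = 0
  · obtain ⟨z, rfl⟩ := Reg.exists_sq_two h2 x
    refine hsq z a ?_ ha
    have : (σ z - z) ^ 2 = 0 := by
      rw [map_pow] at hx
      linear_combination hx + (z ^ 2 - z * σ z) * h2
    exact sub_eq_zero.mp ((pow_eq_zero_iff two_ne_zero).mp this)
  · have := hsub _ _ (hsq ((x + 1) / 2) a (by simp [hx, map_ofNat]) ha)
      (hsq ((x - 1) / 2) a (by simp [hx, map_ofNat]) ha)
    convert this using 1
    field_simp
    ring

theorem exists_gen_fixed (σ : F →+* F) [Finite F] :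
    ∃ δ : F, δ ≠ 0 ∧ σ δ = δ ∧ ∀ x : F, σ x = x → x ≠ 0 → ∃ k : ℕ, δ ^ k = x := by
  obtain ⟨γ, h0, h1, -⟩ := Reg.exists_gen (fixedField σ)
  refine ⟨γ, by simpa using h0, γ.2, fun x hx hx0 => ?_⟩
  obtain ⟨k, hk⟩ := h1 ⟨x, hx⟩ (fun h => hx0 (congrArg Subtype.val h))
  exact ⟨k, by simpa using congrArg Subtype.val hk⟩

theorem two_swap [Finite F] (hB : IsHermSymm B) (h2 : (2 : F) = 0) (hM : M ≤ isom B) {e f : V}
    (he : B e e = 0) (hf : B f f = 0) (hef : B e f = 1) {x x' : F} (hx0 : x ≠ 0) (hx0' : x' ≠ 0)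
    (hx : σ x = x) (hx' : σ x' = x') (h1 : HasR B M e 0 x) (h3 : HasR B M f 0 x') {y : F}
    (hy : HasR B M e 0 y) : HasR B M f 0 (y * x' / x) := by
  obtain ⟨g1, hg1, e1⟩ := h1
  obtain ⟨g3, hg3, e3⟩ := h3
  obtain ⟨h, hh, κ, hκ, e4⟩ := Reg.exists_map_two (K := F) h2 (ι := RingHom.id F) (M := M) (e := e)
    (f := x' • f) (lam := x * x') (mul_ne_zero hx0 hx0')
    ⟨g3, hg3, by rw [e3, hB.flip_one hef]; simp, by rw [e3]; simp [hf]⟩
    ⟨g1, hg1, by rw [e1]; simp [he], by rw [e1]; simp [hef]⟩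
  have h5 := hy.map hM hh
  rw [e4, smul_smul, map_zero, RingHom.id_apply] at h5
  refine h5.smul.congr rfl rfl ?_
  have h6 : σ κ = κ := by
    have h7 := congrArg σ hκ
    rw [map_mul, map_mul, map_pow, hx, hx', map_one] at h7
    have : (σ κ - κ) ^ 2 * (x * x') = 0 := by
      linear_combination h7 + hκ + (1 - κ * σ κ * x * x') * h2
    exact sub_eq_zero.mp ((pow_eq_zero_iff two_ne_zero).mp
      ((mul_eq_zero.mp this).resolve_right (mul_ne_zero hx0 hx0')))
  rw [map_mul, h6, hx']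
  field_simp
  linear_combination y * hκ

end Cfsg.Agent.H28.RegU
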