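import Mathlib
import Cfsg.Agent.H28.RegSU

/-! Generation of the special unitary group of odd degree by three conjugate regular unipotent
elements. -/

set_option autoImplicit false
open Module

namespace Cfsg.Agent.H28.RegU

open Cfsg.Agent.H31

variable {F : Type*} [Field F] {σ : F →+* F} {V : Type*} [AddCommGroup V] [Module F V]
  {B : V →ₛₗ[σ] V →ₗ[F] F} {M : Subgroup (V ≃ₗ[F] V)}

/-- a standard basis of a unitary space of odd dimension -/
structure Std (B : V →ₛₗ[σ] V →ₗ[F] F) (L : ℕ) (e f : ℕ → V) (d : V) (δ : F) : Prop where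
  herm : IsHerm B
  ee : ∀ i j, B (e i) (e j) = 0
  ff : ∀ i j, B (f i) (f j) = 0
  fe : ∀ i, i ≤ L → B (f i) (e i) = 1
  fe' : ∀ i j, i ≠ j → B (f i) (e j) = 0
  de : ∀ i, B d (e i) = 0
  df : ∀ i, B d (f i) = 0
  dd : B d d = δ
  ne : δ ≠ 0
  span : ∀ W : Submodule F V, (∀ k, k ≤ L → e k ∈ W) → (∀ k, k ≤ L → f k ∈ W) → d ∈ W → W = ⊤

/-- the regular unipotent element of the Levi subgroup -/
structure Jor (L : ℕ) (e f : ℕ → V) (d : V) (y : V ≃ₗ[F] V) : Prop where
  y0 : y (e 0) = e 0
  ye : ∀ k, k < L → y (e (k + 1)) = e (k + 1) + e k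
  yf : ∀ k, k < L → y (f k + f (k + 1)) = f k
  yL : y (f L) = f L
  yd : y d = d

theorem exists_std_aux [Finite F] [FiniteDimensional F V] (hB : IsHerm B) {δ : F} (hδ : σ δ = δ)
    (h0 : δ ≠ 0) (m : ℕ) : ∀ W : Submodule F V, NondegOn B W → finrank F W = 2 * m + 1 →
      ∃ (e f : ℕ → V) (d : V), (∀ i, e i ∈ W) ∧ (∀ i, f i ∈ W) ∧ d ∈ W ∧
      (∀ i j, B (e i) (e j) = 0) ∧ (∀ i j, B (f i) (f j) = 0) ∧ (∀ i, i < m → B (f i) (e i) = 1) ∧
      (∀ i j, i ≠ j → B (f i) (e j) = 0) ∧ (∀ i, B d (e i) = 0) ∧ (∀ i, B d (f i) = 0) ∧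
      B d d = δ ∧
      ∀ S : Submodule F V, (∀ k, k < m → e k ∈ S) → (∀ k, k < m → f k ∈ S) → d ∈ S → W ≤ S := by
  have hS := hB.toIsHermSymm
  induction m with
  | zero =>
    intro W hW h1
    obtain ⟨d, hd, hd'⟩ := hS.exists_norm_eq hW (by rintro rfl; simp at h1) hδ
    have hd0 : d ≠ 0 := by rintro rfl; exact h0 (by simpa using hd'.symm)
    refine ⟨0, 0, d, fun _ => W.zero_mem, fun _ => W.zero_mem, hd, by simp, by simp, by simp,
      by simp, by simp, by simp, hd', fun S _ _ h => ?_⟩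
    rw [← Submodule.eq_of_le_of_finrank_eq ((Submodule.span_singleton_le_iff_mem _ _).mpr hd)
      (by rw [finrank_span_singleton hd0, h1])]
    exact (Submodule.span_singleton_le_iff_mem _ _).mpr h
  | succ m ih =>
    intro W hW h1
    obtain ⟨u, hu, hu0, hu1⟩ := hB.exists_isotropic hW (by omega)
    obtain ⟨v, hv, hv1, huv⟩ := hS.exists_hyperbolic_of_nondegOn hW hu1 hu0 hu
    have hg := hS.gram_hyperbolic hu1 huv
    have hP := hS.nondegOn_span_pair hg
    have hPW : Submodule.span F {u, v} ≤ W := span_pair_le hu hv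
    have h2 := hB.finrank_inf_perp hP hPW
    rw [finrank_span_pair_of_gram hg] at h2
    obtain ⟨e, f, d, a1, a2, a3, a4, a5, a6, a7, a8, a9, a10, a11⟩ :=
      ih _ (hB.nondegOn_inf_perp hP hW hPW) (by omega)
    have b1 : ∀ x ∈ W ⊓ perp B (Submodule.span F {u, v}), B u x = 0 := fun x hx =>
      hx.2 u (Submodule.subset_span (by simp))
    have b2 : ∀ x ∈ W ⊓ perp B (Submodule.span F {u, v}), B v x = 0 := fun x hx =>
      hx.2 v (Submodule.subset_span (by simp))
    refine ⟨fun i => if i = m then u else e i, fun i => if i = m then v else f i, d, ?_, ?_, a3.1,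
      ?_, ?_, ?_, ?_, ?_, ?_, a10, ?_⟩
    · intro i; dsimp only; split_ifs; exacts [hu, (a1 i).1]
    · intro i; dsimp only; split_ifs; exacts [hv, (a2 i).1]
    · intro i j; dsimp only; split_ifs
      exacts [hu1, b1 _ (a1 j), hS.flip_zero (b1 _ (a1 i)), a4 i j]
    · intro i j; dsimp only; split_ifs
      exacts [hv1, b2 _ (a2 j), hS.flip_zero (b2 _ (a2 i)), a5 i j]
    · intro i hi; dsimp only; split_ifs
      exacts [hS.flip_one huv, a6 i (by omega)]
    · intro i j hij; dsimp only; split_ifs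
      exacts [by omega, b2 _ (a1 j), hS.flip_zero (b1 _ (a2 i)), a7 i j hij]
    · intro i; dsimp only; split_ifs
      exacts [hS.flip_zero (b1 _ a3), a8 i]
    · intro i; dsimp only; split_ifs
      exacts [hS.flip_zero (b2 _ a3), a9 i]
    · intro S c1 c2 c3
      rw [← hB.sup_inf_perp hP hPW]
      refine sup_le (span_pair_le (by simpa using c1 m (by omega)) (by simpa using c2 m (by omega)))
        (a11 S (fun k hk => ?_) (fun k hk => ?_) c3)
      · simpa [hk.ne] using c1 k (by omega)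
      · simpa [hk.ne] using c2 k (by omega)

theorem exists_std [Finite F] [FiniteDimensional F V] (hB : IsHerm B) {δ : F} (hδ : σ δ = δ)
    (h0 : δ ≠ 0) {L : ℕ} (hV : finrank F V = 2 * (L + 1) + 1) :
    ∃ (e f : ℕ → V) (d : V), Std B L e f d δ := by
  obtain ⟨e, f, d, -, -, -, a4, a5, a6, a7, a8, a9, a10, a11⟩ :=
    exists_std_aux hB hδ h0 (L + 1) ⊤ hB.nondegOn_top (by rw [finrank_top, hV])
  exact ⟨e, f, d, hB, a4, a5, fun i hi => a6 i (by omega), a7, a8, a9, a10, h0, fun W h1 h2 h3 =>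
    eq_top_iff.mpr (a11 W (fun k hk => h1 k (by omega)) (fun k hk => h2 k (by omega)) h3)⟩

namespace Std

variable {L : ℕ} {e f : ℕ → V} {d : V} {δ μ : F} {y : V ≃ₗ[F] V}

theorem ef (C : Std B L e f d δ) (i : ℕ) (hi : i ≤ L) : B (e i) (f i) = 1 :=
  C.herm.flip_one (C.fe i hi)

theorem ef' (C : Std B L e f d δ) (i j : ℕ) (h : i ≠ j) : B (e i) (f j) = 0 :=
  C.herm.flip_zero (C.fe' j i h.symm)

theorem ed (C : Std B L e f d δ) (i : ℕ) : B (e i) d = 0 := C.herm.flip_zero (C.de i)

theorem fd (C : Std B L e f d δ) (i : ℕ) : B (f i) d = 0 := C.herm.flip_zero (C.df i)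

theorem fix (C : Std B L e f d δ) : σ δ = δ := C.dd ▸ C.herm.norm_fixed d

theorem ext_lin (C : Std B L e f d δ) {W : Type*} [AddCommGroup W] [Module F W] {φ ψ : V →ₗ[F] W}
    (h1 : ∀ k, k ≤ L → φ (e k) = ψ (e k)) (h2 : ∀ k, k ≤ L → φ (f k) = ψ (f k)) (h3 : φ d = ψ d) :
    φ = ψ := by
  rw [← LinearMap.eqLocus_eq_top]
  exact C.span _ h1 h2 h3

theorem exists_jor [FiniteDimensional F V] (C : Std B L e f d δ) :
    ∃ y ∈ sisom B, Jor L e f d y := by
  have key : ∀ k, k ≤ L → ∃ y ∈ sisom B, y (e 0) = e 0 ∧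
      (∀ j, j < k → y (e (j + 1)) = e (j + 1) + e j) ∧ (∀ j, k < j → y (e j) = e j) ∧
      (∀ j, j < k → y (f j + f (j + 1)) = f j) ∧ (∀ j, k ≤ j → y (f j) = f j) ∧ y d = d := by
    intro k
    induction k with
    | zero => exact fun _ => ⟨1, one_mem _, rfl, by simp, by simp, by simp, by simp, rfl⟩
    | succ k ih =>
      intro hk
      obtain ⟨y, hy, a1, a2, a3, a4, a5, a6⟩ := ih (by omega)
      obtain ⟨x, hx, b⟩ := exists_isRho C.herm.toIsHermSymm (v := f (k + 1)) (a := e k) (μ := 0)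
        (C.ff _ _) (C.fe' _ _ (by omega)) (by simp [C.ee])
      have b1 : ∀ j, j ≠ k + 1 → x (e j) = e j := fun j hj =>
        b.apply_of_perp (C.fe' _ _ hj.symm) (C.ee _ _)
      have b2 : ∀ j, j ≠ k → x (f j) = f j := fun j hj =>
        b.apply_of_perp (C.ff _ _) (C.ef' _ _ hj.symm)
      refine ⟨x * y, mul_mem hx hy, ?_, fun j hj => ?_, fun j hj => ?_, fun j hj => ?_,
        fun j hj => ?_, ?_⟩ <;> rw [LinearEquiv.mul_apply]
      · rw [a1, b1 0 (by omega)]
      · by_cases h : j = k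
        · rw [h, a3 _ (by omega), b, C.fe _ hk, C.ee]; simp
        · rw [a2 j (by omega), map_add, b1 _ (by omega), b1 _ (by omega)]
      · rw [a3 j (by omega), b1 j (by omega)]
      · by_cases h : j = k
        · rw [h, map_add, a5 k le_rfl, a5 (k + 1) (by omega), map_add, b2 (k + 1) (by omega), b, C.ff,
            C.ef k (by omega)]
          simp
        · rw [a4 j (by omega), b2 j h]
      · rw [a5 j (by omega), b2 j (by omega)]
      · rw [a6, b.apply_of_perp (C.fd _) (C.ed _)]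
  obtain ⟨y, hy, a1, a2, -, a4, a5, a6⟩ := key L le_rfl
  exact ⟨y, hy, a1, a2, a4, a5 L le_rfl, a6⟩

theorem exists_rev [FiniteDimensional F V] (C : Std B L e f d δ) (J : Jor L e f d y) :
    ∃ r ∈ sisom B, ∃ ε : F, ε * σ ε = 1 ∧ r (e L) = f 0 ∧ r d = ε • d ∧ r * y * r⁻¹ = y⁻¹ := by
  have hS := C.herm.toIsHermSymm
  let φ : V →ₗ[F] V := ∑ k ∈ Finset.range (L + 1),
    ((B (f k)).smulRight (f (L - k)) + (B (e k)).smulRight (e (L - k))) + (B d).smulRight (δ⁻¹ • d)
  have h1 : ∀ k, k ≤ L → φ (e k) = f (L - k) := by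
    intro k hk
    simp only [φ, LinearMap.sum_apply, LinearMap.add_apply, LinearMap.smulRight_apply, C.ee, C.de,
      zero_smul, add_zero]
    rw [Finset.sum_eq_single k (fun j _ hj => by rw [C.fe' j k hj, zero_smul])
      (fun h => absurd (Finset.mem_range.mpr (by omega)) h), C.fe k hk, one_smul]
  have h2 : ∀ k, k ≤ L → φ (f k) = e (L - k) := by
    intro k hk
    simp only [φ, LinearMap.sum_apply, LinearMap.add_apply, LinearMap.smulRight_apply, C.ff, C.df,
      zero_smul, zero_add, add_zero]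
    rw [Finset.sum_eq_single k (fun j _ hj => by rw [C.ef' j k hj, zero_smul])
      (fun h => absurd (Finset.mem_range.mpr (by omega)) h), C.ef k hk, one_smul]
  have h2' : φ d = d := by
    simp [φ, LinearMap.sum_apply, C.fd, C.ed, C.dd, smul_smul, C.ne]
  have h3 : ∀ x, (∀ k, k ≤ L → B (φ x) (f (L - k)) = B x (e k)) →
      (∀ k, k ≤ L → B (φ x) (e (L - k)) = B x (f k)) → B (φ x) d = B x d →
      ∀ z, B (φ x) (φ z) = B x z := by
    intro x a1 a2 a3 z
    have : (B (φ x)).comp φ = B x := C.ext_lin (fun k hk => by simp [h1 k hk, a1 k hk])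
      (fun k hk => by simp [h2 k hk, a2 k hk]) (by simp [h2', a3])
    exact LinearMap.congr_fun this z
  have h4 : ∀ x z, B (φ x) (φ z) = B x z := by
    intro x
    have a1 : ∀ k, k ≤ L → ∀ z, B (φ (e k)) (φ z) = B (e k) z := fun k hk => h3 _
      (fun j _ => by rw [h1 k hk, C.ff, C.ee]) (fun j hj => by
        rw [h1 k hk]
        by_cases h : k = j
        · rw [h, C.fe _ (by omega), C.ef _ hj]
        · rw [C.fe' _ _ (by omega), C.ef' _ _ h]) (by rw [h1 k hk, C.fd, C.ed])
    have a2 : ∀ k, k ≤ L → ∀ z, B (φ (f k)) (φ z) = B (f k) z := fun k hk => h3 _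
      (fun j hj => by
        rw [h2 k hk]
        by_cases h : k = j
        · rw [h, C.ef _ (by omega), C.fe _ hj]
        · rw [C.ef' _ _ (by omega), C.fe' _ _ h]) (fun j _ => by rw [h2 k hk, C.ff, C.ee])
      (by rw [h2 k hk, C.fd, C.ed])
    have a3 : ∀ z, B (φ d) (φ z) = B d z := h3 _ (fun j _ => by rw [h2', C.df, C.de])
      (fun j _ => by rw [h2', C.df, C.de]) (by rw [h2'])
    exact h3 x (fun k hk => by rw [← h1 k hk, ← hS.symm, a1 k hk, hS.symm])
      (fun k hk => by rw [← h2 k hk, ← hS.symm, a2 k hk, hS.symm])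
      (by rw [← hS.symm d, ← hS.symm d, ← a3 x, h2'])
  have h5 : Function.Injective φ := (injective_iff_map_eq_zero φ).mpr fun x hx =>
    C.herm.nondeg x fun v => by rw [← h4, hx]; simp
  obtain ⟨r, hr, b1, ε, hε, b2⟩ := C.herm.exists_sisom_of_isom
    (g := LinearEquiv.ofInjectiveEndo φ h5) h4 (v := d) (by rw [C.dd]; exact C.ne)
  have c1 : ∀ k, k ≤ L → r (e k) = f (L - k) := fun k hk => (b1 _ (C.de k)).trans (h1 k hk)
  have c2 : ∀ k, k ≤ L → r (f k) = e (L - k) := fun k hk => (b1 _ (C.df k)).trans (h2 k hk)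
  have c3 : r d = ε • d := b2.trans (congrArg _ h2')
  refine ⟨r, hr, ε, hε, by rw [c1 L le_rfl, Nat.sub_self], c3, ?_⟩
  have h6 : (y * r * y).toLinearMap = r.toLinearMap := by
    have a1 : ∀ j k, j + k = L → y (r (y (f k))) = r (f k) := by
      intro j
      induction j with
      | zero =>
        intro k hk
        rw [show k = L by omega, J.yL, c2 L le_rfl, Nat.sub_self, J.y0]
      | succ j ih =>
        intro k hk
        have a2 : y (r (y (f k + f (k + 1)))) = r (f k + f (k + 1)) := by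
          rw [J.yf k (by omega), map_add, c2 k (by omega), c2 (k + 1) (by omega),
            show L - k = j + 1 by omega, show L - (k + 1) = j by omega, J.ye j (by omega)]
        rw [map_add, map_add, map_add, map_add, ih (k + 1) (by omega)] at a2
        exact add_right_cancel a2
    refine C.ext_lin (fun k hk => ?_) (fun k hk => a1 (L - k) k (by omega)) ?_
    · change y (r (y (e k))) = r (e k)
      rcases k with _ | k
      · rw [J.y0, c1 0 hk, Nat.sub_zero, J.yL]
      · rw [J.ye k hk, map_add, c1 _ hk, c1 k (by omega), show L - k = L - (k + 1) + 1 by omega,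
          J.yf _ (by omega)]
    · change y (r (y d)) = r d
      rw [J.yd, c3, map_smul, J.yd]
  have h7 : y * r * y = r := LinearEquiv.toLinearMap_injective h6
  calc r * y * r⁻¹ = y⁻¹ * (y * r * y) * r⁻¹ := by group
    _ = y⁻¹ := by rw [h7]; group

/-- the vectors `u⁻¹`-chain -/
def gv (L : ℕ) (e f : ℕ → V) (d : V) (δ μ : F) (k : ℕ) : V :=
  if k = L then f L - d - (μ + δ) • e L else f k

section u

variable {ρ : V ≃ₗ[F] V} (C : Std B L e f d δ) (J : Jor L e f d y) (hρ : IsRho B ρ (e L) d μ)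
include C J hρ

omit J in
theorem rho_e (k : ℕ) : ρ (e k) = e k := hρ.apply_of_perp (C.ee _ _) (C.de _)

theorem u_e0 : (y * ρ) (e 0) = e 0 := by rw [LinearEquiv.mul_apply, C.rho_e hρ, J.y0]

theorem u_e (k : ℕ) (hk : k < L) : (y * ρ) (e (k + 1)) = e (k + 1) + e k := by
  rw [LinearEquiv.mul_apply, C.rho_e hρ, J.ye k hk]

theorem u_d : (y * ρ) (d + δ • e L) = d := by
  rw [LinearEquiv.mul_apply, hρ]
  simp [C.ed, C.dd, C.ee, C.de, J.yd]

omit J in
theorem rho_gL : ρ (gv L e f d δ μ L) = f L := by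
  rw [gv, if_pos rfl, hρ]
  simp only [map_sub, smul_right, C.ef L le_rfl, C.ed, C.ee, C.df, C.dd, C.de]
  module

theorem u_gL : (y * ρ) (gv L e f d δ μ L) = f L := by
  rw [LinearEquiv.mul_apply, C.rho_gL hρ, J.yL]

theorem u_g (k : ℕ) (hk : k < L) :
    (y * ρ) (gv L e f d δ μ k + gv L e f d δ μ (k + 1)) = gv L e f d δ μ k := by
  have h1 : ∀ j, j ≠ L → ρ (gv L e f d δ μ j) = f j := fun j hj => by
    rw [gv, if_neg hj, hρ.apply_of_perp (C.ef' _ _ hj.symm) (C.df _)]
  rw [LinearEquiv.mul_apply, map_add, h1 k hk.ne, show gv L e f d δ μ k = f k from if_neg hk.ne]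
  nth_rewrite 2 [← J.yf k hk]
  congr 2
  by_cases h : k + 1 = L
  · rw [h, C.rho_gL hρ]
  · exact h1 _ h

theorem span_top (hL : 1 ≤ L) {W : Submodule F V} (hW : y * ρ ∈ stab W) (h0 : f 0 ∈ W)
    (h1 : e L ∈ W) : W = ⊤ := by
  have hek : ∀ j k, j + k = L → e k ∈ W := by
    intro j
    induction j with
    | zero => intro k hk; rw [show k = L by omega]; exact h1
    | succ j ih =>
      intro k hk
      have := (hW _).mp (ih (k + 1) (by omega))
      rw [C.u_e J hρ k (by omega)] at this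
      simpa using W.sub_mem this (ih (k + 1) (by omega))
  have hg : ∀ k, k ≤ L → gv L e f d δ μ k ∈ W := by
    intro k
    induction k with
    | zero => intro _; rw [gv, if_neg (by omega)]; exact h0
    | succ k ih =>
      intro hk
      have := (hW _).mpr (by rw [C.u_g J hρ k hk]; exact ih (by omega))
      simpa using W.sub_mem this (ih (by omega))
  have hfL : f L ∈ W := by
    rw [← C.u_gL J hρ]; exact (hW _).mp (hg L le_rfl)
  refine C.span W (fun k hk => hek (L - k) k (by omega)) (fun k hk => ?_) ?_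
  · by_cases h : k = L
    · rw [h]; exact hfL
    · simpa only [gv, if_neg h] using hg k hk
  · have := W.sub_mem (W.sub_mem hfL (hg L le_rfl)) (W.smul_mem (μ + δ) h1)
    convert this using 1
    rw [gv, if_pos rfl]
    module

theorem regular : IsNilpotent ((y * ρ).toLinearMap - 1) ∧
    ((y * ρ).toLinearMap - 1) ^ (2 * (L + 1) + 1 - 1) ≠ 0 := by
  set U : Module.End F V := (y * ρ).toLinearMap with hU
  set N : Module.End F V := U - 1 with hN
  have hNa : ∀ x, N x = (y * ρ) x - x := fun x => rfl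
  have hc : Commute N (-U) := (Commute.sub_left (Commute.refl U) (Commute.one_left U)).neg_right
  have e0 : N (e 0) = 0 := by rw [hNa, C.u_e0 J hρ, sub_self]
  have e1 : ∀ k, k < L → N (e (k + 1)) = e k := fun k hk => by
    rw [hNa, C.u_e J hρ k hk, add_sub_cancel_left]
  have e2 : ∀ k, k ≤ L → (N ^ k) (e k) = e 0 := by
    intro k
    induction k with
    | zero => exact fun _ => rfl
    | succ k ih => intro hk; rw [pow_succ, Module.End.mul_apply, e1 k hk, ih (by omega)]
  have e3 : ∀ k, k ≤ L → ∀ j, k < j → (N ^ j) (e k) = 0 := by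
    intro k hk j hj
    obtain ⟨i, rfl⟩ : ∃ i, j = i + 1 + k := ⟨j - 1 - k, by omega⟩
    rw [pow_add, Module.End.mul_apply, e2 k hk, pow_succ, Module.End.mul_apply, e0, map_zero]
  set g := gv L e f d δ μ with hg
  have g1 : ∀ k, k < L → N (g k) = (-U) (g (k + 1)) := by
    intro k hk
    have : (y * ρ) (g k + g (k + 1)) = g k := C.u_g J hρ k hk
    rw [map_add] at this
    rw [hNa, LinearMap.neg_apply]
    nth_rewrite 2 [← this]
    exact sub_add_cancel_left _ _
  have d1 : N (d + δ • e L) = -δ • e L := by rw [hNa, C.u_d J hρ]; module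
  have d2 : ∀ j, (N ^ (j + 1)) (d + δ • e L) = -δ • (N ^ j) (e L) := fun j => by
    rw [pow_succ, Module.End.mul_apply, d1, map_smul]
  have g2 : N (g L) = (d + δ • e L) + μ • e L := by
    rw [hNa, C.u_gL J hρ, hg, gv, if_pos rfl]; module
  have g3 : ∀ j k, k + j ≤ L → (N ^ j) (g k) = ((-U) ^ j) (g (k + j)) := by
    intro j
    induction j with
    | zero => exact fun _ _ => rfl
    | succ j ih =>
      intro k hk
      rw [pow_succ', Module.End.mul_apply, ih k (by omega), ← Module.End.mul_apply,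
        (hc.pow_right j).eq, Module.End.mul_apply, g1 _ (by omega), pow_succ, Module.End.mul_apply,
        add_assoc]
  have g4 : ∀ k, k ≤ L → ∀ j, L ≤ j → (N ^ (j + 1 + 1 + (L - k))) (g k) =
      ((-U) ^ (L - k)) (-δ • (N ^ j) (e L)) := by
    intro k hk j hj
    rw [pow_add, Module.End.mul_apply, g3 _ _ (by omega), ← Module.End.mul_apply,
      (hc.pow_pow _ _).eq, Module.End.mul_apply, show k + (L - k) = L by omega, pow_succ,
      Module.End.mul_apply, g2, map_add, d2, map_smul, e3 L le_rfl (j + 1) (by omega), smul_zero,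
      add_zero]
  constructor
  · have a0 : (N ^ (2 * L + 3)) d = 0 := by
      have := d2 (2 * L + 2)
      rwa [map_add, map_smul, e3 L le_rfl _ (by omega), e3 L le_rfl _ (by omega), smul_zero,
        smul_zero, add_zero] at this
    refine ⟨2 * L + 3, C.ext_lin (fun k hk => e3 k hk _ (by omega)) (fun k hk => ?_) a0⟩
    have a1 : (N ^ (2 * L + 3)) (g k) = 0 := by
      rw [show 2 * L + 3 = (L + 1 + k) + 1 + 1 + (L - k) by omega, g4 k hk _ (by omega),
        e3 L le_rfl _ (by omega)]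
      simp
    by_cases h : k = L
    · subst h
      simp only [hg, gv, if_true, map_sub, map_smul] at a1
      rwa [e3 k le_rfl _ (by omega), a0, smul_zero, sub_zero, sub_zero] at a1
    · simpa only [hg, gv, if_neg h, LinearMap.zero_apply] using a1
  · intro h
    have a1 := g4 0 (by omega) L le_rfl
    rw [show L + 1 + 1 + (L - 0) = 2 * (L + 1) + 1 - 1 by omega, h, e2 L le_rfl] at a1
    have a2 : ∀ j : ℕ, ((-U) ^ j) (-δ • e 0) = ((-1) ^ j * -δ) • e 0 := by
      intro j
      induction j with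
      | zero => simp
      | succ j ih =>
        rw [pow_succ', Module.End.mul_apply, ih, map_smul, LinearMap.neg_apply,
          show U (e 0) = e 0 from C.u_e0 J hρ]
        module
    rw [a2] at a1
    have a3 := congrArg (B (f 0)) a1
    simp [C.fe 0 (by omega), C.ne] at a3

end u

end Std

end Cfsg.Agent.H28.RegU
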