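import Mathlib
import Cfsg.Agent.H28.RegSU2

/-! Generation of the special unitary group of odd degree by three conjugate regular unipotent
elements: the main argument. -/

set_option autoImplicit false
open Module

namespace Cfsg.Agent.H28.RegU

open Cfsg.Agent.H31

variable {F : Type*} [Field F] {σ : F →+* F} {V : Type*} [AddCommGroup V] [Module F V]
  {B : V →ₛₗ[σ] V →ₗ[F] F} {M : Subgroup (V ≃ₗ[F] V)}

namespace Std

variable {L : ℕ} {e f : ℕ → V} {d : V} {δ μ ε : F} {y ρ ρ' : V ≃ₗ[F] V}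

theorem le_big [Finite F] [FiniteDimensional F V] (C : Std B L e f d δ) (J : Jor L e f d y)
    (hL : 1 ≤ L) (hM : M ≤ isom B) (hgen : ∀ x : F, σ x = x → x ≠ 0 → ∃ k : ℕ, δ ^ k = x)
    (hμ : μ + σ μ + δ = 0) (hμ' : σ μ ≠ μ) (hε : ε * σ ε = 1) (hρ : IsRho B ρ (e L) d μ)
    (hρ' : IsRho B ρ' (f 0) (ε • d) μ) (hu : y * ρ ∈ M) (hg : ρ' * ρ ∈ M)
    (hz : HasR B M (e 0) d (σ μ)) : sisom B ≤ M := by
  have hS := C.herm.toIsHermSymm
  have hδ := C.ne
  have heL := C.ee L L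
  have g1 : (ρ' * ρ) (e L) = e L := by
    rw [LinearEquiv.mul_apply, C.rho_e hρ,
      hρ'.apply_of_perp (C.fe' _ _ (by omega)) (by simp [C.de])]
  have g2 : (ρ' * ρ) (e 0) = e 0 + ε • d + μ • f 0 := by
    rw [LinearEquiv.mul_apply, C.rho_e hρ, hρ', C.fe 0 (by omega)]; simp [C.de]
  have g3 : (ρ' * ρ) (f 0) = f 0 := by
    rw [LinearEquiv.mul_apply, hρ.apply_of_perp (C.ef' _ _ (by omega)) (C.df _),
      hρ'.apply_of_perp (C.ff _ _) (by simp [C.df])]
  have g4 : (ρ' * ρ) (ε • d) = ε • d - δ • f 0 - (ε * δ) • e L := by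
    rw [LinearEquiv.mul_apply, hρ, hρ']
    simp only [map_add, map_sub, smul_right, smul_left, C.ed, C.dd, C.fd, C.de,
      C.fe' 0 L (by omega)]
    match_scalars
    · ring
    · ring
    · linear_combination (-δ) * hε
  have gg : ∀ (κ : F) (x : V), (ρ' * ρ) x - x = κ • (ε • d + μ • f 0) →
      Ad B M (e L) x → Ad B M (e L) ((-δ * κ) • f 0) := by
    intro κ x h1 h2
    have h3 := (h2.diff hS hM heL hg g1).diff hS hM heL hg g1
    rw [h1] at h3
    have := h3.add hS heL (ad_self heL (κ * ε * δ))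
    convert this using 1
    rw [map_smul, map_add, g4, map_smul, g3]
    module
  obtain ⟨z, hzM, hz'⟩ := hz
  have z1 : z (e L) = e L := hz'.apply_of_perp (C.ee _ _) (C.de _)
  have z2 : z (e 0) = e 0 := hz'.apply_of_perp (C.ee _ _) (C.de _)
  have z3 : z (f 0) = f 0 + d + σ μ • e 0 := by rw [hz', C.ef 0 (by omega), C.df]; simp
  have z4 : z d = d - δ • e 0 := by rw [hz', C.ed, C.dd]; simp
  have p1 : ∀ κ : F, Ad B M (e L) (κ • e 0) → Ad B M (e L) ((-δ * κ) • f 0) := fun κ h =>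
    gg κ _ (by rw [map_smul, g2]; module) h
  have p2' : ∀ κ : F, Ad B M (e L) (κ • f 0) → Ad B M (e L) (κ • (d + σ μ • e 0)) := fun κ h => by
    convert h.diff hS hM heL hzM z1 using 1
    rw [map_smul, z3]; module
  have p2 : ∀ κ : F, Ad B M (e L) (κ • f 0) → Ad B M (e L) ((-δ * κ) • e 0) := fun κ h => by
    convert (p2' κ h).diff hS hM heL hzM z1 using 1
    rw [map_smul, map_add, map_smul, z2, z4]; module
  have p3 : ∀ κ : F, Ad B M (e L) (κ • f 0) → Ad B M (e L) ((-δ * (κ * σ μ)) • f 0) := fun κ h => by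
    have h1 := (p2' κ h).diff hS hM heL hg g1
    have h2 : (ρ' * ρ) d = d - (σ ε * δ) • f 0 - δ • e L := by
      have := congrArg (σ ε • ·) g4
      simp only [map_smul, smul_smul, smul_sub, mul_comm (σ ε) ε, hε, one_smul, ← mul_assoc,
        one_mul] at this
      exact this
    have h3 := h1.diff hS hM heL hg g1
    have := h3.add hS heL (ad_self heL (κ * σ μ * ε * δ))
    convert this using 1
    simp only [map_add, map_sub, map_smul, g1, g2, g3, h2]
    match_scalars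
    · linear_combination (κ * σ μ * δ) * hε
    · ring
    · ring
    · ring
  have p0 : Ad B M (e L) ((-δ) • e 0) := by
    have h1 := HasR.map hM ⟨z, hzM, hz'⟩ (M.inv_mem hu)
    have h2 : (y * ρ)⁻¹ (e 0) = e 0 := by
      conv_lhs => rw [← C.u_e0 J hρ]
      exact inv_apply_apply _ _
    have h3 : (y * ρ)⁻¹ d = d + δ • e L := by
      conv_lhs => rw [← C.u_d J hρ]
      exact inv_apply_apply _ _
    rw [h2, h3] at h1
    obtain ⟨k, hk, h4⟩ := ((HasR.inv hS ⟨z, hzM, hz'⟩ (C.ee _ _) (C.ed _)).mul hS h1 (C.ee _ _)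
      (by simp [C.ed]) (by simp [C.ed, C.ee])).congr (v' := e 0) (a' := δ • e L) (μ' := 0) rfl
      (by abel) (by simp only [neg_left, map_add, smul_right, C.dd, C.de]; ring)
    exact ⟨by simp [C.ee], 0, k, hk, (h4.symm hS).congr rfl (by rw [C.fix]) rfl⟩
  have p4 : ∀ x κ : F, σ x = x → Ad B M (e L) (κ • f 0) → Ad B M (e L) ((x * κ) • f 0) := by
    refine closed_fixed (P := fun κ => Ad B M (e L) (κ • f 0))
      (fun a b ha hb => by simpa only [sub_smul] using ha.sub hS heL hb) fun x a hx ha => ?_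
    by_cases h0 : x = 0
    · simpa [h0] using ad_self (M := M) heL 0
    obtain ⟨k, rfl⟩ := hgen x hx h0
    clear h0 hx
    induction k with
    | zero => simpa using ha
    | succ k ih => convert p1 _ (p2 _ ih) using 2; ring
  have p5 : ∀ κ : F, Ad B M (e L) (κ • f 0) := by
    have q1 := p1 _ p0
    have q2 : ∀ x : F, σ x = x → Ad B M (e L) (x • f 0) := fun x hx => by
      convert p4 (x / δ ^ 2) _ (by simp [hx, C.fix]) q1 using 2
      field_simp
    intro κ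
    obtain ⟨a, b, ha, hb, rfl⟩ := hS.inv.exists_coords (θ := σ μ)
      (by rw [hS.inv.invol]; exact hμ'.symm) κ
    rw [add_smul]
    refine (q2 a ha).add hS heL ?_
    convert p3 _ (q2 (-b / δ) (by simp [hb, C.fix])) using 2
    field_simp
  have p6 : ∀ κ : F, Ad B M (e L) (κ • e 0) := fun κ => by
    convert p2 _ (p5 (-κ / δ)) using 2
    field_simp
  have hte : HasTv B M (e L) := hasTv_of_ad hS heL (C.ef 0 (by omega)) (by simpa using p6 1) p5
  have hspan : ∀ r : V, r ≠ 0 → ∃ w, B w w = 0 ∧ HasTv B M w ∧ B r w ≠ 0 := by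
    set S := Submodule.span F {w | B w w = 0 ∧ HasTv B M w} with hSdef
    have s1 : ∀ k ∈ M, ∀ x ∈ S, k x ∈ S := by
      intro k hk x hx
      have : S ≤ S.comap (k : V →ₗ[F] V) := Submodule.span_le.mpr fun w hw =>
        Submodule.subset_span ⟨isotropic_map (hM hk) hw.1, hw.2.map (hM hk) hk⟩
      exact this hx
    have s2 : e L ∈ S := Submodule.subset_span ⟨heL, hte⟩
    have s3 : ∀ j k, j + k = L → e k ∈ S := by
      intro j
      induction j with
      | zero => intro k hk; rw [show k = L by omega]; exact s2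
      | succ j ih =>
        intro k hk
        have := s1 _ hu _ (ih (k + 1) (by omega))
        rw [C.u_e J hρ k (by omega)] at this
        simpa using S.sub_mem this (ih (k + 1) (by omega))
    have s4 := S.sub_mem (s1 _ hg _ (s3 L 0 rfl)) (s3 L 0 rfl)
    have s5 := S.smul_mem (-δ⁻¹) (S.add_mem (S.sub_mem (s1 _ hg _ s4) s4) (S.smul_mem (ε * δ) s2))
    have s6 : f 0 ∈ S := by
      convert s5 using 1
      rw [g2, add_assoc, add_sub_cancel_left, map_add, g4, map_smul, g3]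
      match_scalars <;> field_simp <;> ring
    have s7 := C.span_top J hρ hL (mem_stab_of_le (s1 _ hu)) s6 s2
    intro r hr
    by_contra h
    push Not at h
    refine hr (C.herm.nondeg r fun x => ?_)
    have : S ≤ LinearMap.ker (B r) := Submodule.span_le.mpr fun w hw => h w hw.1 hw.2
    exact this (s7 ▸ Submodule.mem_top)
  obtain ⟨φ, hφ, hφ', hφ''⟩ := hspan (e L) fun h => by
    have := C.fe L le_rfl
    rw [h, map_zero] at this
    exact zero_ne_one this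
  have hgr := hS.gram_hyperbolic (C.ee 0 0) (C.ef 0 (by omega))
  obtain ⟨U, u1, u2, u3, u4, u5⟩ := exists_four C.herm hM (hS.nondegOn_span_pair hgr) heL
    (mem_perp_span.mpr (by simp [C.ee, C.fe' 0 L (by omega)])) hte (fun a ha => by
      obtain ⟨α, β, rfl⟩ := Submodule.mem_span_pair.mp ha
      exact (p6 α).add hS heL (p5 β)) hφ hφ' hφ''
  rw [finrank_span_pair_of_gram hgr] at u4
  obtain ⟨E, e1, e2, e3, -, e4⟩ := C.herm.exists_grow hM hspan u3 (by omega)
    fun g hg => C.herm.mem_of_hasTv u3 u3 le_rfl u5 (Or.inl (by omega)) hg.1 hg.2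
  have m1 : e 0 ∈ E := e1 (u1 (Submodule.subset_span (by simp)))
  have m2 : f 0 ∈ E := e1 (u1 (Submodule.subset_span (by simp)))
  have e5 : E = ⊤ := C.span_top J hρ hL ((e4 _ hu).resolve_right fun h => by
    have := h _ m1 _ m2
    rw [C.u_e0 J hρ, C.fe 0 (by omega)] at this
    exact one_ne_zero this) m2 (e1 u2)
  rwa [e5, C.herm.suOn_top] at e3

theorem le_of_hasTv [Finite F] [FiniteDimensional F V] (C : Std B 0 e f d δ) (hV : finrank F V = 3)
    (hc : ∃ b : F, σ b = b ∧ b ≠ 0 ∧ b ≠ 1) (hM : M ≤ isom B) (hμ : μ + σ μ + δ = 0)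
    (hμ' : (2 : F) = 0 ∨ σ μ = μ) (hε : ε * σ ε = 1) (hρ' : IsRho B ρ' (f 0) (ε • d) μ)
    (hw : ρ' ∈ M) (ht : HasTv B M (e 0)) : sisom B ≤ M := by
  have hS := C.herm.toIsHermSymm
  have h1 : ρ' (e 0) = e 0 + ε • d + μ • f 0 := by rw [hρ', C.fe 0 le_rfl]; simp [C.de]
  have h2 : ρ'⁻¹ (e 0) = e 0 - ε • d + σ μ • f 0 := by
    rw [hρ'.inv hS (C.ff _ _) (by simp [C.fd]), C.fe 0 le_rfl]
    simp only [neg_left, smul_left, smul_right, C.de, C.dd]
    match_scalars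
    · ring
    · ring
    · linear_combination -hμ - δ * hε
  obtain ⟨E, -, -, -, -, e1, e2⟩ := C.herm.hasTv_of_triple hM (C.ee 0 0)
    (isotropic_map (hM hw) (C.ee 0 0)) (isotropic_map (hM (inv_mem hw)) (C.ee 0 0)) ht
    (ht.map (hM hw) hw) (ht.map (hM (inv_mem hw)) (inv_mem hw)) (by
      have h3 : B (e 0) (ρ' (e 0)) * B (ρ' (e 0)) (ρ'⁻¹ (e 0)) * B (ρ'⁻¹ (e 0)) (e 0) =
          μ ^ 2 * (μ + 3 * σ μ) := by
        rw [h2, h1]
        simp only [map_add, map_sub, LinearMap.add_apply, LinearMap.sub_apply, smul_left,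
          smul_right, C.ee, C.ff, C.ed, C.de, C.fd, C.df, C.dd, C.fe 0 le_rfl, C.ef 0 le_rfl,
          hS.inv.invol]
        linear_combination (-μ ^ 2) * hμ - μ ^ 2 * δ * hε
      rw [h3]
      simp only [map_mul, map_add, map_pow, map_ofNat, hS.inv.invol]
      intro h4
      by_cases h5 : (2 : F) = 0
      · refine pow_ne_zero 3 C.ne ?_
        rw [show δ = -(μ + σ μ) by linear_combination hμ]
        linear_combination -h4
      · have h6 := hμ'.resolve_left h5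
        rw [h6] at h4 hμ
        refine pow_ne_zero 3 C.ne ?_
        rw [show δ = -(μ + μ) by linear_combination hμ]
        linear_combination -h4)
  have e3 : E = ⊤ := Submodule.eq_top_of_finrank_eq (by rw [e1, hV])
  exact C.herm.sisom_le_of_hasTv (fun u => e2 u (e3 ▸ Submodule.mem_top)) (Or.inr hc)

theorem hasTv_two [Finite F] (C : Std B 0 e f d δ) (h2 : (2 : F) = 0) (hM : M ≤ isom B) {s : F}
    (hs : σ s = s) (hs0 : s ≠ 0) (hgen : ∀ x : F, σ x = x → x ≠ 0 → ∃ k : ℕ, (δ / s) ^ k = x)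
    (hε : ε * σ ε = 1) (h1 : HasR B M (e 0) d μ) (h3 : HasR B M (f 0) (ε • d) μ)
    (h4 : HasR B M (e 0) 0 s) : HasTv B M (e 0) := by
  have hS := C.herm.toIsHermSymm
  have hδ := C.ne
  have a1 : HasR B M (e 0) 0 δ := (h1.mul hS h1 (C.ee _ _) (C.ed _) (C.ed _)).congr rfl
    (Reg.add_self_two h2 _) (by rw [C.dd]; linear_combination (μ - δ) * h2)
  have a2 : HasR B M (f 0) 0 δ := (h3.mul hS h3 (C.ff _ _) (by simp [C.fd]) (by simp [C.fd])).congr
    rfl (Reg.add_self_two h2 _) (by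
      rw [smul_left, smul_right, C.dd]; linear_combination (μ - δ) * h2 - δ * hε)
  have a3 : ∀ k : ℕ, HasR B M (e 0) 0 ((δ / s) ^ k * δ) := by
    intro k
    induction k with
    | zero => simpa using a1
    | succ k ih =>
      refine (two_swap hS h2 hM (C.ff _ _) (C.ee _ _) (C.fe 0 le_rfl) hδ hδ C.fix C.fix a2 a1
        (two_swap hS h2 hM (C.ee _ _) (C.ff _ _) (C.ef 0 le_rfl) hs0 hδ hs C.fix h4 a2 ih)).congr
        rfl rfl ?_
      rw [pow_succ]
      field_simp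
  refine hasTv_of_hasR fun c hc => ?_
  by_cases h0 : c = 0
  · rw [h0]; exact hasR_zero _
  obtain ⟨k, hk⟩ := hgen (c / δ) (by
    rw [map_div₀, C.fix, show σ c = c by linear_combination hc - c * h2]) (div_ne_zero h0 hδ)
  exact (a3 k).congr rfl rfl (by rw [hk, div_mul_cancel₀ _ hδ])

theorem hasTv_odd [Finite F] (C : Std B 0 e f d δ) (h2 : (2 : F) ≠ 0) (hM : M ≤ isom B) {s : F}
    (hs : s + σ s = 0) {lam : fixedField σ} (h0 : lam ≠ 0)
    (hgen : ∀ x : fixedField σ, x ≠ 0 → ∃ k : ℕ, lam ^ k = x)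
    (h9 : ¬ (Nat.card (fixedField σ) = 9 ∧ lam ^ 2 = -1)) (hμ : σ μ = μ)
    (hlam : s ^ 2 * μ ^ 2 = lam) (hρ' : IsRho B ρ' (f 0) (ε • d) μ) (hw : ρ' ∈ M)
    (h4 : HasR B M (e 0) 0 s) : HasTv B M (e 0) := by
  have hS := C.herm.toIsHermSymm
  have hs0 : s ≠ 0 := by
    rintro rfl
    exact h0 (Subtype.ext (by simpa using hlam.symm))
  have h1 : B (e 0) (ρ' (e 0)) = μ := by
    rw [hρ', C.fe 0 le_rfl]; simp [C.de, C.ee, C.ed, C.ef 0 le_rfl]
  have h1' : B (ρ' (e 0)) (e 0) = μ := by rw [← hS.symm, h1, hμ]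
  have hv := isotropic_map (hM hw) (C.ee 0 0)
  obtain ⟨t', ht', e1⟩ := h4.map hM hw
  obtain ⟨t, ht, e2⟩ := id h4
  have a1 : ∀ x : F, σ x = x → HasR B M (e 0) 0 (x ^ 2 * s) := by
    intro x hx
    by_cases hx0 : x = 0
    · exact (hasR_zero _).congr rfl rfl (by simp [hx0])
    obtain ⟨h, hh, e3⟩ := Reg.exists_map_odd (K := fixedField σ)
      (fun h => h2 (congrArg Subtype.val h)) (ι := (fixedField σ).subtype) (M := M) (e := e 0)
      (f := (s * μ) • ρ' (e 0)) h0 (Reg.closure_eq_top_of_powers hgen) h9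
      ⟨t', ht', by rw [e1, h1']; simp, by rw [e1]; simp [hv]⟩
      ⟨t, ht, by rw [e2]; simp [C.ee], by
        rw [e2, smul_right, h1, Subfield.coe_subtype, ← hlam, zero_left]; module⟩
      (a := ⟨x, hx⟩) (c := 0) (Or.inl fun h => hx0 (congrArg Subtype.val h))
    have h5 := h4.map hM hh
    rw [e3, map_zero, zero_smul, add_zero, map_zero] at h5
    exact h5.smul.congr rfl rfl (by simp [hx, sq])
  refine hasTv_of_hasR fun c hc => ?_
  have hx : σ (c / s) = c / s := by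
    rw [map_div₀, show σ c = -c by linear_combination hc, show σ s = -s by linear_combination hs,
      neg_div_neg_eq]
  refine ((a1 ((c / s + 1) / 2) (by simp only [map_div₀ σ (_ + _), map_add, hx, map_one, map_ofNat])).sub0
    hS (a1 ((c / s - 1) / 2)
      (by simp only [map_div₀ σ (_ - _), map_sub, hx, map_one, map_ofNat])) (C.ee _ _)).congr rfl rfl ?_
  field_simp
  ring

end Std

theorem exists_skew_sq [Finite F] (h : IsInvol σ) (h2 : (2 : F) ≠ 0) {lam : fixedField σ}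
    (h0 : lam ≠ 0) (hgen : ∀ x : fixedField σ, x ≠ 0 → ∃ k : ℕ, lam ^ k = x) :
    ∃ s : F, s + σ s = 0 ∧ s ^ 2 = lam := by
  obtain ⟨ω, hω, hω'⟩ := h.exists_skew
  obtain ⟨k, hk⟩ := hgen ⟨ω ^ 2, by rw [mem_fixedField, map_pow, hω', neg_sq]⟩
    (fun h => hω (pow_eq_zero_iff two_ne_zero |>.mp (congrArg Subtype.val h)))
  have hk' : (lam : F) ^ k = ω ^ 2 := by simpa using congrArg Subtype.val hk
  have hl : σ lam = lam := lam.2
  have hl0 : (lam : F) ≠ 0 := fun h => h0 (Subtype.ext h)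
  obtain ⟨j, rfl | rfl⟩ := Nat.even_or_odd' k
  · exfalso
    rw [mul_comm, pow_mul, sq_eq_sq_iff_eq_or_eq_neg] at hk'
    have : σ ω = ω := by
      rcases hk' with h | h
      · rw [← h, map_pow, hl]
      · rw [← neg_eq_iff_eq_neg.mpr h, map_neg, map_pow, hl]
    exact mul_ne_zero h2 hω (by linear_combination hω' - this)
  · refine ⟨ω / lam ^ j, by rw [map_div₀, map_pow, hl, hω']; ring, ?_⟩
    rw [div_pow, ← hk']
    field_simp
    ring

theorem closure_eq_top {u w u' : V ≃ₗ[F] V} [FiniteDimensional F V] (hu : u ∈ sisom B)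
    {g h : V ≃ₗ[F] V} (hg : g ∈ sisom B) (hh : h ∈ sisom B) (h1 : g * u * g⁻¹ = w)
    (h2 : h * u * h⁻¹ = u')
    (H : ∀ M : Subgroup (V ≃ₗ[F] V), M ≤ isom B → u ∈ M → w ∈ M → u' ∈ M → sisom B ≤ M) :
    Subgroup.closure ({⟨u, hu⟩, ⟨g, hg⟩ * ⟨u, hu⟩ * ⟨g, hg⟩⁻¹, ⟨h, hh⟩ * ⟨u, hu⟩ * ⟨h, hh⟩⁻¹} :
      Set (sisom B)) = ⊤ := by
  refine eq_top_iff.mpr fun x _ => Subgroup.mem_closure.mpr fun K k1 => ?_
  obtain ⟨z, hz, hzx⟩ := H (K.map (sisom B).subtype) ((Subgroup.map_subtype_le K).trans sisom_le_isom)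
    ⟨_, k1 (Or.inl rfl), rfl⟩ ⟨_, k1 (Or.inr (Or.inl rfl)), h1⟩ ⟨_, k1 (Or.inr (Or.inr rfl)), h2⟩ x.2
  rwa [← Subtype.ext hzx]

theorem exists_three [Finite F] [FiniteDimensional F V] (hB : IsHerm B) {L : ℕ}
    (hV : finrank F V = 2 * (L + 1) + 1) (hc : L = 0 → ∃ b : F, σ b = b ∧ b ≠ 0 ∧ b ≠ 1) :
    ∃ u g h : sisom B, IsNilpotent (u.1.toLinearMap - 1) ∧
      (u.1.toLinearMap - 1) ^ (2 * (L + 1) + 1 - 1) ≠ 0 ∧
      Subgroup.closure ({u, g * u * g⁻¹, h * u * h⁻¹} : Set (sisom B)) = ⊤ := by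
  have hS := hB.toIsHermSymm
  obtain ⟨δ, hδ0, hδ, hgen⟩ := exists_gen_fixed σ
  obtain ⟨e, f, d, C⟩ := exists_std hB hδ hδ0 hV
  obtain ⟨y, hy, J⟩ := C.exists_jor
  obtain ⟨r, hr, ε, hε, r1, r2, r3⟩ := C.exists_rev J
  obtain ⟨μ, hμ, hμ1, hμ2⟩ : ∃ μ : F, μ + σ μ + δ = 0 ∧ (L ≠ 0 → σ μ ≠ μ) ∧
      (L = 0 → (2 : F) ≠ 0 → σ μ = μ) := by
    by_cases h : L = 0 ∧ (2 : F) ≠ 0
    · refine ⟨-δ / 2, ?_, fun h' => absurd h.1 h', fun _ _ => by simp [hδ, map_ofNat]⟩
      have := h.2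
      simp only [map_div₀, map_neg, hδ, map_ofNat]
      field_simp
      ring
    obtain ⟨θ, h1, h2⟩ : ∃ θ : F, σ θ ≠ θ ∧ θ + σ θ ≠ 0 := by
      obtain ⟨θ, hθ⟩ := hS.inv.ne_id
      by_cases h3 : θ + σ θ = 0
      · refine ⟨θ + 1, by simpa using hθ, fun h4 => hθ ?_⟩
        rw [map_add, map_one] at h4
        linear_combination h3 - θ * (h4 - h3)
      · exact ⟨θ, hθ, h3⟩
    refine ⟨-δ * θ / (θ + σ θ), ?_, fun _ h3 => h1 ?_, fun a b => absurd ⟨a, b⟩ h⟩
    · rw [map_div₀, hS.inv.trace_fixed, map_mul, map_neg, hδ]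
      field_simp
      ring
    · rw [map_div₀, hS.inv.trace_fixed, map_mul, map_neg, hδ, div_left_inj' h2] at h3
      exact mul_left_cancel₀ (neg_ne_zero.mpr hδ0) h3
  obtain ⟨ρ, hρs, hρ⟩ := exists_isRho hS (v := e L) (a := d) (μ := μ) (C.ee _ _) (C.ed _)
    (by rw [C.dd, hμ])
  have hρ' := (hρ.conj hr.1).congr r1 r2 rfl
  have w1 : (r * ρ * r⁻¹ * r) * (y * ρ) * (r * ρ * r⁻¹ * r)⁻¹ = r * ρ * r⁻¹ * y⁻¹ := by
    rw [← r3]; group
  have hg : r * ρ * r⁻¹ * r ∈ sisom B := mul_mem (conj_mem_sisom hr.1 hρs) hr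
  by_cases hL : L = 0
  · subst hL
    have y1 : y = 1 := LinearEquiv.toLinearMap_injective (C.ext_lin
      (fun k hk => by rw [Nat.le_zero.mp hk]; exact J.y0)
      (fun k hk => by rw [Nat.le_zero.mp hk]; exact J.yL) J.yd)
    have key : ∀ s : F, s + σ s = 0 → ∃ h ∈ sisom B, ∃ t, IsRho B t (e 0) 0 s ∧
        h * (y * ρ) * h⁻¹ = t * (y * ρ) := by
      intro s hs
      obtain ⟨b, hb⟩ := hS.inv.exists_trace_eq (map_one σ)
      obtain ⟨ν, hν⟩ := hS.inv.exists_trace_eq (a := -B ((s * b / δ) • d) ((s * b / δ) • d))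
        (by rw [map_neg, hS.norm_fixed])
      obtain ⟨h, hh, e1⟩ := exists_isRho hS (v := e 0) (a := (s * b / δ) • d) (μ := ν) (C.ee _ _)
        (by simp [C.ed]) (by rw [hν, neg_add_cancel])
      refine ⟨h, hh, _, isRho_tv (C.ee 0 0) hs, ?_⟩
      rw [y1, one_mul, mul_inv_eq_iff_eq_mul, mul_assoc]
      refine (e1.mul hS hρ (C.ee _ _) (by simp [C.ed]) (C.ed _)).eq
        (((isRho_tv (C.ee 0 0) hs).mul hS (hρ.mul hS e1 (C.ee _ _) (C.ed _) (by simp [C.ed]))
          (C.ee _ _) (by simp) (by simp [C.ed])).congr rfl (by abel) ?_)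
      simp only [smul_left, smul_right, C.dd, zero_left, map_div₀, map_mul, hδ]
      field_simp
      linear_combination -s * hb + σ b * hs
    by_cases h2 : (2 : F) = 0
    · obtain ⟨h, hh, t, ht, e1⟩ := key 1 (by rw [map_one]; linear_combination h2)
      refine ⟨⟨_, mul_mem hy hρs⟩, ⟨_, hg⟩, ⟨_, hh⟩, (C.regular J hρ).1, (C.regular J hρ).2,
        closure_eq_top (mul_mem hy hρs) hg hh w1 e1 fun M hM m1 m2 m3 => ?_⟩
      rw [Subgroup.mul_mem_cancel_right _ m1] at m3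
      rw [y1, one_mul] at m1
      rw [y1, inv_one, mul_one] at m2
      exact C.le_of_hasTv hV (hc rfl) hM hμ (Or.inl h2) hε hρ' m2 (C.hasTv_two h2 hM (map_one σ)
        one_ne_zero (by simpa using hgen) hε ⟨_, m1, hρ⟩ ⟨_, m2, hρ'⟩ ⟨_, m3, ht⟩)
    · obtain ⟨lam, l0, l1, l2⟩ := Reg.exists_gen (fixedField σ)
      obtain ⟨s, hs, hs'⟩ := exists_skew_sq hS.inv h2 l0 l1
      have hμ3 := hμ2 rfl h2
      have hμ0 : μ ≠ 0 := by rintro rfl; exact hδ0 (by simpa using hμ)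
      have hs1 : s / μ + σ (s / μ) = 0 := by rw [map_div₀, hμ3, ← add_div, hs, zero_div]
      obtain ⟨h, hh, t, ht, e1⟩ := key (s / μ) hs1
      refine ⟨⟨_, mul_mem hy hρs⟩, ⟨_, hg⟩, ⟨_, hh⟩, (C.regular J hρ).1, (C.regular J hρ).2,
        closure_eq_top (mul_mem hy hρs) hg hh w1 e1 fun M hM m1 m2 m3 => ?_⟩
      rw [Subgroup.mul_mem_cancel_right _ m1] at m3
      rw [y1, inv_one, mul_one] at m2
      exact C.le_of_hasTv hV (hc rfl) hM hμ (Or.inr hμ3) hε hρ' m2 (C.hasTv_odd h2 hM hs1 l0 l1 l2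
        hμ3 (by rw [← hs']; field_simp) hρ' m2 ⟨_, m3, ht⟩)
  · set a := f L + (μ / δ) • d with ha
    have a1 : B (e 0) a = 0 := by simp [ha, C.ed, C.ef' 0 L (Ne.symm hL)]
    have a2 : (y * ρ) a = a + d := by
      rw [LinearEquiv.mul_apply, hρ]
      simp only [ha, map_add, map_sub, map_smul, smul_eq_mul, C.ef L le_rfl, C.ed, C.df, C.dd, J.yL,
        J.yd]
      match_scalars <;> field_simp <;> ring
    obtain ⟨ν, hν⟩ := hS.inv.exists_trace_eq (a := -B a a) (by rw [map_neg, hS.norm_fixed])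
    obtain ⟨h, hh, e1⟩ := exists_isRho hS (v := e 0) (a := a) (μ := ν) (C.ee _ _) a1
      (by rw [hν, neg_add_cancel])
    have hu := mul_mem hy hρs
    have e2 := ((e1.inv hS (C.ee _ _) a1).mul hS ((e1.conj hu.1).congr (C.u_e0 J hρ) a2 rfl)
      (C.ee _ _) (by simp [a1]) (by simp [a1, C.ed])).congr (v' := e 0) (a' := d) (μ' := σ μ) rfl
      (by abel) (by
        have : B a d = σ μ := by
          simp only [ha, add_left, smul_left, C.fd, C.dd, map_div₀, hδ]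
          field_simp
          ring
        rw [neg_left, map_add (B a) a d, this]
        ring)
    refine ⟨⟨_, hu⟩, ⟨_, hg⟩, ⟨_, inv_mem hh⟩, (C.regular J hρ).1, (C.regular J hρ).2,
      closure_eq_top hu hg (inv_mem hh) w1 rfl fun M hM m1 m2 m3 => ?_⟩
    refine C.le_big J (by omega) hM hgen hμ (hμ1 hL) hε hρ hρ' m1
      (by simpa [mul_assoc] using M.mul_mem m2 m1) ⟨_, ?_, e2⟩
    simpa [mul_assoc] using M.mul_mem m3 (M.inv_mem m1)

end Cfsg.Agent.H28.RegU
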