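import Mathlib
import Cfsg.Agent.H28.RegSp2
import Cfsg.Agent.H27.SympBasic
import Cfsg.Agent.H32.RegUnip

/-! Generation of the symplectic group by three conjugate regular unipotent elements. -/

set_option autoImplicit false
open Module

namespace Cfsg.Agent.H28.Reg

open Cfsg.Agent.H27

variable {F V : Type*} [Field F] [AddCommGroup V] [Module F V] {B : LinearMap.BilinForm F V}

namespace Chain

variable {L : ℕ} {e f : ℕ → V} {y : V ≃ₗ[F] V}

theorem ext_lin (C : Chain B L e f y) {W : Type*} [AddCommGroup W] [Module F W] {φ ψ : V →ₗ[F] W}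
    (h1 : ∀ k, k ≤ L → φ (e k) = ψ (e k)) (h2 : ∀ k, k ≤ L → φ (f k) = ψ (f k)) : φ = ψ := by
  rw [← LinearMap.eqLocus_eq_top]
  exact C.span _ h1 h2

theorem exists_rev [FiniteDimensional F V] (C : Chain B L e f y) (hB : B.Nondegenerate) :
    ∃ r ∈ isomGroup B, r (e L) = f 0 ∧ r * y * r⁻¹ = y⁻¹ := by
  let φ : V →ₗ[F] V := ∑ k ∈ Finset.range (L + 1),
    ((B (f k)).smulRight (f (L - k)) + (B (e k)).smulRight (e (L - k)))
  have h1 : ∀ k, k ≤ L → φ (e k) = f (L - k) := by
    intro k hk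
    simp only [φ, LinearMap.sum_apply, LinearMap.add_apply, LinearMap.smulRight_apply, C.ee,
      zero_smul, add_zero]
    rw [Finset.sum_eq_single k (fun j _ hj => by rw [C.fe' j k hj, zero_smul])
      (fun h => absurd (Finset.mem_range.mpr (by omega)) h), C.fe k hk, one_smul]
  have h2 : ∀ k, k ≤ L → φ (f k) = -e (L - k) := by
    intro k hk
    simp only [φ, LinearMap.sum_apply, LinearMap.add_apply, LinearMap.smulRight_apply, C.ff,
      zero_smul, zero_add]
    rw [Finset.sum_eq_single k (fun j _ hj => by rw [C.ef' j k hj, zero_smul])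
      (fun h => absurd (Finset.mem_range.mpr (by omega)) h), C.ef k hk, neg_one_smul]
  have h3 : B.compl₁₂ φ φ = B := by
    refine C.ext_lin (fun i hi => C.ext_lin (fun j hj => ?_) fun j hj => ?_)
      fun i hi => C.ext_lin (fun j hj => ?_) fun j hj => ?_
    all_goals simp only [LinearMap.compl₁₂_apply, h1 _ hi, h1 _ hj, h2 _ hi, h2 _ hj, map_neg,
      LinearMap.neg_apply, C.ee, C.ff, neg_zero]
    · by_cases h : i = j
      · subst h; rw [C.fe _ (by omega), C.ef _ hi]
      · rw [C.fe' _ _ (by omega), C.ef' _ _ h, neg_zero]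
    · by_cases h : i = j
      · subst h; rw [C.ef _ (by omega), C.fe _ hi, neg_neg]
      · rw [C.ef' _ _ (by omega), C.fe' _ _ h, neg_zero]
  have h4 : ∀ u v, B (φ u) (φ v) = B u v := fun u v => by
    conv_rhs => rw [← h3]
    rfl
  have h5 : Function.Injective φ := (injective_iff_map_eq_zero φ).mpr fun x hx =>
    hB.1 x fun v => by rw [← h4, hx]; simp
  let r : V ≃ₗ[F] V := LinearEquiv.ofInjectiveEndo φ h5
  have hr : ∀ x, r x = φ x := fun x => rfl
  refine ⟨r, h4, by rw [hr, h1 L le_rfl, Nat.sub_self], ?_⟩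
  have h6 : (y * r * y).toLinearMap = r.toLinearMap := by
    have a1 : ∀ j k, j + k = L → y (φ (y (f k))) = φ (f k) := by
      intro j
      induction j with
      | zero =>
        intro k hk
        rw [show k = L by omega, C.yL, h2 L le_rfl, Nat.sub_self, map_neg, C.y0]
      | succ j ih =>
        intro k hk
        have a2 : y (φ (y (f k + f (k + 1)))) = φ (f k + f (k + 1)) := by
          rw [C.yf k (by omega), map_add, h2 k (by omega), h2 (k + 1) (by omega),
            show L - k = j + 1 by omega, show L - (k + 1) = j by omega, map_neg, C.ye j (by omega),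
            neg_add]
        rw [map_add, map_add, map_add, map_add, ih (k + 1) (by omega)] at a2
        exact add_right_cancel a2
    refine C.ext_lin (fun k hk => ?_) fun k hk => a1 (L - k) k (by omega)
    change y (φ (y (e k))) = φ (e k)
    rcases k with _ | k
    · rw [C.y0, h1 0 hk, Nat.sub_zero, C.yL]
    · rw [C.ye k hk, map_add, h1 _ hk, h1 k (by omega), show L - k = L - (k + 1) + 1 by omega,
        C.yf _ (by omega)]
  have h7 : y * r * y = r := LinearEquiv.toLinearMap_injective h6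
  calc r * y * r⁻¹ = y⁻¹ * (y * r * y) * r⁻¹ := by group
    _ = y⁻¹ := by rw [h7]; group

theorem conj_aux (C : Chain B L e f y) {k : V ≃ₗ[F] V} {b s : F}
    (h1 : y * k * y⁻¹ = k * altTv C.alt (e 0) s)
    (h2 : k * altTv C.alt (e L) b = altTv C.alt (e L) b * k) :
    k⁻¹ * (y * altTv C.alt (e L) b) * k⁻¹⁻¹ = altTv C.alt (e 0) s * (y * altTv C.alt (e L) b) := by
  rw [inv_inv, mul_assoc, mul_assoc, ← h2]
  calc k⁻¹ * (y * (k * altTv C.alt (e L) b)) = k⁻¹ * (y * k * y⁻¹) * (y * altTv C.alt (e L) b) := by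
        group
    _ = _ := by rw [h1]; group

theorem exists_conj_odd (C : Chain B L e f y) (hy : y ∈ isomGroup B) (h2 : (2 : F) ≠ 0) (b s : F) :
    ∃ h ∈ isomGroup B, h * (y * altTv C.alt (e L) b) * h⁻¹ =
      altTv C.alt (e 0) s * (y * altTv C.alt (e L) b) := by
  have hA := C.alt
  refine ⟨(altTv hA (e 0 + e 1) (s / 2) * altTv hA (e 1) (-(s / 2)))⁻¹,
    inv_mem (mul_mem (altTv_mem_isomGroup _ _ _) (altTv_mem_isomGroup _ _ _)), C.conj_aux ?_ ?_⟩
  · rw [← conj_mul, altTv_conj hA hy, altTv_conj hA hy, map_add, C.y0, C.ye 0 C.pos]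
    ext x
    simp only [LinearEquiv.mul_apply, altTv_apply, map_add, map_smul, LinearMap.add_apply,
      LinearMap.smul_apply, smul_eq_mul, C.ee, zero_add, mul_zero, add_zero]
    match_scalars <;> field_simp <;> ring
  · ext x
    simp only [LinearEquiv.mul_apply, altTv_apply, map_add, map_smul, LinearMap.add_apply,
      LinearMap.smul_apply, smul_eq_mul, C.ee, mul_zero, add_zero]
    module

theorem exists_conj_big (C : Chain B L e f y) (hy : y ∈ isomGroup B) (hL : 2 ≤ L) (b s : F) :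
    ∃ h ∈ isomGroup B, h * (y * altTv C.alt (e L) b) * h⁻¹ =
      altTv C.alt (e 0) s * (y * altTv C.alt (e L) b) := by
  have hA := C.alt
  refine ⟨(altTv hA (e 1) s * altTv hA (e 0 + e 2) (-s) * altTv hA (e 2) s)⁻¹,
    inv_mem (mul_mem (mul_mem (altTv_mem_isomGroup _ _ _) (altTv_mem_isomGroup _ _ _))
      (altTv_mem_isomGroup _ _ _)), C.conj_aux ?_ ?_⟩
  · rw [← conj_mul, ← conj_mul, altTv_conj hA hy, altTv_conj hA hy, altTv_conj hA hy, map_add, C.y0,
      C.ye 0 C.pos, C.ye 1 hL]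
    ext x
    simp only [LinearEquiv.mul_apply, altTv_apply, map_add, map_smul, LinearMap.add_apply,
      LinearMap.smul_apply, smul_eq_mul, C.ee, zero_add, mul_zero, add_zero]
    module
  · ext x
    simp only [LinearEquiv.mul_apply, altTv_apply, map_add, map_smul, LinearMap.add_apply,
      LinearMap.smul_apply, smul_eq_mul, C.ee, mul_zero, add_zero]
    module

theorem exists_conj_small (C : Chain B 1 e f y) (hy : y ∈ isomGroup B) (h2 : (2 : F) = 0)
    (b a : F) : ∃ h ∈ isomGroup B, h * (y * altTv C.alt (e 1) b) * h⁻¹ =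
      altTv C.alt (e 0) (b * (a ^ 2 + a)) * (y * altTv C.alt (e 1) b) := by
  have hA := C.alt
  set x := altTv hA (a • e 0 + f 1) 1 * altTv hA (f 1) (-1) with hx
  have hxi : x ∈ isomGroup B := mul_mem (altTv_mem_isomGroup _ _ _) (altTv_mem_isomGroup _ _ _)
  have h1 : y * x * y⁻¹ = x := by
    rw [hx, ← conj_mul, altTv_conj hA hy, altTv_conj hA hy, map_add, map_smul, C.y0, C.yL]
  have h3 : x (e 1) = e 1 - a • e 0 := by
    simp only [hx, LinearEquiv.mul_apply, altTv_apply, map_add, map_smul, LinearMap.add_apply,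
      LinearMap.smul_apply, smul_eq_mul, C.ee, C.ff, C.ef 1 le_rfl, C.fe' 1 0 one_ne_zero]
    module
  refine ⟨(altTv hA (e 1) (b * a))⁻¹ * x, mul_mem (inv_mem (altTv_mem_isomGroup _ _ _)) hxi, ?_⟩
  have h4 : (altTv hA (e 1) (b * a))⁻¹ * x * (y * altTv hA (e 1) b) *
      ((altTv hA (e 1) (b * a))⁻¹ * x)⁻¹ = (altTv hA (e 1) (b * a))⁻¹ *
      (y * (x * altTv hA (e 1) b * x⁻¹) * y⁻¹) * (y * altTv hA (e 1) (b * a) * y⁻¹) * y := by
    conv_lhs => rw [← h1]
    conv_rhs => rw [← h1]
    rw [h1]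
    have : x * y = y * x := by
      conv_lhs => rw [← h1]
      group
    calc _ = (altTv hA (e 1) (b * a))⁻¹ * (x * y) * altTv hA (e 1) b * x⁻¹ *
          altTv hA (e 1) (b * a) := by group
      _ = _ := by rw [this]; group
  have h5 : y * altTv hA (e 1) b = (y * altTv hA (e 1) b * y⁻¹) * y := by group
  rw [h4, h5, altTv_conj hA hxi, altTv_conj hA hy, altTv_conj hA hy, altTv_conj hA hy, ← mul_assoc,
    h3, map_sub, map_smul, C.y0, C.ye 0 one_pos, altTv_inv]
  congr 1
  ext z
  simp only [LinearEquiv.mul_apply, altTv_apply, map_add, map_sub, map_smul, LinearMap.add_apply,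
    LinearMap.sub_apply, LinearMap.smul_apply, smul_eq_mul, C.ee, zero_add, mul_zero, add_zero,
    sub_zero]
  match_scalars
  · ring
  · ring
  · linear_combination (-(b * a) * B z (e 0)) * h2

theorem regular (C : Chain B L e f y) {b : F} (hb : b ≠ 0) :
    IsNilpotent ((y * altTv C.alt (e L) b).toLinearMap - 1) ∧
      ((y * altTv C.alt (e L) b).toLinearMap - 1) ^ (2 * (L + 1) - 1) ≠ 0 := by
  have hpos := C.pos
  set U : Module.End F V := (y * altTv C.alt (e L) b).toLinearMap with hU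
  have hUa : ∀ x, U x = y (x + (b * B x (e L)) • e L) := fun x => by
    rw [← altTv_apply C.alt]; rfl
  set N : Module.End F V := U - 1 with hN
  have hNa : ∀ x, N x = U x - x := fun x => rfl
  have hc : Commute N (-U) := (Commute.sub_left (Commute.refl U) (Commute.one_left U)).neg_right
  have e0 : N (e 0) = 0 := by rw [hNa, hUa, C.ee]; simp [C.y0]
  have e1 : ∀ k, k < L → N (e (k + 1)) = e k := fun k hk => by
    rw [hNa, hUa, C.ee]; simp [C.ye k hk]
  have e2 : ∀ k, k ≤ L → (N ^ k) (e k) = e 0 := by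
    intro k
    induction k with
    | zero => exact fun _ => rfl
    | succ k ih => intro hk; rw [pow_succ, Module.End.mul_apply, e1 k hk, ih (by omega)]
  have e3 : ∀ k, k ≤ L → ∀ j, k < j → (N ^ j) (e k) = 0 := by
    intro k hk j hj
    obtain ⟨i, rfl⟩ : ∃ i, j = i + 1 + k := ⟨j - 1 - k, by omega⟩
    rw [pow_add, Module.End.mul_apply, e2 k hk, pow_succ, Module.End.mul_apply, e0, map_zero]
  let g : ℕ → V := fun k => if k = L then f L - b • e L else f k
  have g1 : ∀ k, k < L → N (g k) = (-U) (g (k + 1)) := by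
    intro k hk
    have : U (g k + g (k + 1)) = g k := by
      simp only [g, if_neg hk.ne]
      split_ifs with h
      · rw [hUa]
        simp only [map_add, map_sub, map_smul, LinearMap.add_apply, LinearMap.sub_apply,
          LinearMap.smul_apply, C.fe' k L hk.ne, C.fe L le_rfl, C.ee, smul_zero, zero_add, sub_zero,
          mul_one]
        rw [add_assoc, sub_add_cancel, ← map_add, ← h, C.yf k hk]
      · rw [hUa]
        simp only [map_add, LinearMap.add_apply, C.fe' k L hk.ne, C.fe' _ L h, add_zero, mul_zero,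
          zero_smul]
        rw [← map_add, C.yf k hk]
    rw [map_add] at this
    rw [hNa, LinearMap.neg_apply]
    nth_rewrite 2 [← this]
    abel
  have g2 : N (g L) = b • e L := by
    simp only [g, if_true]
    rw [hNa, hUa]
    simp [C.fe L le_rfl, C.ee, C.yL]
  have g3 : ∀ j k, k + j ≤ L → (N ^ j) (g k) = ((-U) ^ j) (g (k + j)) := by
    intro j
    induction j with
    | zero => exact fun _ _ => rfl
    | succ j ih =>
      intro k hk
      rw [pow_succ', Module.End.mul_apply, ih k (by omega), ← Module.End.mul_apply,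
        (hc.pow_right j).eq, Module.End.mul_apply, g1 _ (by omega), pow_succ, Module.End.mul_apply,
        add_assoc]
  have g4 : ∀ k, k ≤ L → ∀ j, (N ^ (j + 1 + (L - k))) (g k) =
      ((-U) ^ (L - k)) (b • (N ^ j) (e L)) := by
    intro k hk j
    rw [pow_add, Module.End.mul_apply, g3 _ _ (by omega), ← Module.End.mul_apply,
      (hc.pow_pow _ _).eq, Module.End.mul_apply, show k + (L - k) = L by omega, pow_succ,
      Module.End.mul_apply, g2, map_smul]
  constructor
  · refine ⟨2 * L + 2, C.ext_lin (fun k hk => e3 k hk _ (by omega)) fun k hk => ?_⟩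
    have a1 : (N ^ (2 * L + 2)) (g k) = 0 := by
      rw [show 2 * L + 2 = (L + 1 + k) + 1 + (L - k) by omega, g4 k hk, e3 L le_rfl _ (by omega)]
      simp
    by_cases h : k = L
    · subst h
      simp only [g, if_true, map_sub, map_smul] at a1
      rwa [e3 k le_rfl _ (by omega), smul_zero, sub_zero] at a1
    · simpa only [g, if_neg h, LinearMap.zero_apply] using a1
  · intro h
    have a1 := g4 0 (by omega) L
    rw [show L + 1 + (L - 0) = 2 * (L + 1) - 1 by omega, h, e2 L le_rfl] at a1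
    have a2 : ∀ j : ℕ, ((-U) ^ j) (b • e 0) = ((-1) ^ j * b) • e 0 := by
      intro j
      induction j with
      | zero => simp
      | succ j ih =>
        rw [pow_succ', Module.End.mul_apply, ih, map_smul, LinearMap.neg_apply,
          eq_of_sub_eq_zero ((hNa _).symm.trans e0)]
        module
    rw [a2] at a1
    have a3 := congrArg (B (f 0)) a1
    simp [C.fe 0 (by omega), hb] at a3

theorem exists_three [Finite F] [FiniteDimensional F V] (C : Chain B L e f y)
    (hB : B.Nondegenerate) (hy : y ∈ isomGroup B) (hex : L = 1 → ∃ a : F, a ≠ 0 ∧ a ≠ 1) :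
    ∃ u g h : isomGroup B, IsNilpotent (u.1.toLinearMap - 1) ∧
      (u.1.toLinearMap - 1) ^ (2 * (L + 1) - 1) ≠ 0 ∧
      Subgroup.closure ({u, g * u * g⁻¹, h * u * h⁻¹} : Set (isomGroup B)) = ⊤ := by
  have hA := C.alt
  obtain ⟨γ, hγ0, hγ, h9⟩ := exists_gen F
  obtain ⟨b, s, hb, hs, h, hh, hh'⟩ : ∃ b s : F, b ≠ 0 ∧ -(b * s) = γ ∧ ∃ h ∈ isomGroup B,
      h * (y * altTv C.alt (e L) b) * h⁻¹ = altTv C.alt (e 0) s * (y * altTv C.alt (e L) b) := by
    by_cases h2 : (2 : F) = 0
    · by_cases hL : L = 1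
      · subst hL
        obtain ⟨a, ha0, ha1⟩ := hex rfl
        have h3 : a ^ 2 + a ≠ 0 := by
          rw [show a ^ 2 + a = a * (a - 1) by linear_combination a * h2]
          exact mul_ne_zero ha0 (sub_ne_zero.mpr ha1)
        obtain ⟨b, hb⟩ := exists_sq_two h2 (-γ / (a ^ 2 + a))
        refine ⟨b, _, ?_, ?_, C.exists_conj_small hy h2 b a⟩
        · rintro rfl
          exact div_ne_zero (neg_ne_zero.mpr hγ0) h3 (by rw [← hb]; simp)
        · rw [← mul_assoc, ← sq, hb, div_mul_cancel₀ _ h3, neg_neg]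
      · exact ⟨1, -γ, one_ne_zero, by simp, C.exists_conj_big hy (by have := C.pos; omega) _ _⟩
    · exact ⟨1, -γ, one_ne_zero, by simp, C.exists_conj_odd hy h2 _ _⟩
  obtain ⟨r, hr, hr1, hr2⟩ := C.exists_rev hB
  refine ⟨⟨y * altTv hA (e L) b, mul_mem hy (altTv_mem_isomGroup _ _ _)⟩,
    ⟨altTv hA (f 0) b * r, mul_mem (altTv_mem_isomGroup _ _ _) hr⟩, ⟨h, hh⟩,
    (C.regular hb).1, (C.regular hb).2, ?_⟩
  refine eq_top_iff.mpr fun x _ => Subgroup.mem_closure.mpr fun K k1 => ?_
  have m1 : y * altTv hA (e L) b ∈ K.map (isomGroup B).subtype := ⟨_, k1 (Or.inl rfl), rfl⟩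
  have m2 : altTv hA (f 0) b * r * (y * altTv hA (e L) b) * (altTv hA (f 0) b * r)⁻¹ ∈
      K.map (isomGroup B).subtype := ⟨_, k1 (Or.inr (Or.inl rfl)), rfl⟩
  have m3 : h * (y * altTv hA (e L) b) * h⁻¹ ∈ K.map (isomGroup B).subtype :=
    ⟨_, k1 (Or.inr (Or.inr rfl)), rfl⟩
  rw [hh', Subgroup.mul_mem_cancel_right _ m1] at m3
  have m4 : altTv hA (f 0) b * r * (y * altTv hA (e L) b) * (altTv hA (f 0) b * r)⁻¹ =
      altTv hA (f 0) b * y⁻¹ := by
    calc _ = altTv hA (f 0) b * (r * y * r⁻¹) * (r * altTv hA (e L) b * r⁻¹) *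
          (altTv hA (f 0) b)⁻¹ := by group
      _ = _ := by rw [hr2, altTv_conj hA hr, hr1]; group
  rw [m4] at m2
  have := C.le_of_three hB (Subgroup.map_subtype_le K) hb hγ0 hs hγ h9 m1 m2 m3
  obtain ⟨z, hz, hzx⟩ := this x.2
  rwa [← Subtype.ext hzx]

end Chain

open Matrix H32 in
theorem exists_chain (F : Type*) [Field F] {L : ℕ} (hL : 1 ≤ L) :
    ∃ (e f : ℕ → Fin (L + 1) ⊕ Fin (L + 1) → F) (y : _ ≃ₗ[F] _),
      y ∈ isomGroup (jBilin (Fin (L + 1)) F) ∧ Chain (jBilin (Fin (L + 1)) F) L e f y := by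
  set J := jordanSL (L + 1) F
  have h1 : (J⁻¹).1ᵀ * J.1ᵀ = 1 := by
    rw [← transpose_mul, show J.1 * (J⁻¹).1 = 1 from congrArg Subtype.val (mul_inv_cancel J),
      transpose_one]
  have h2 : fromBlocks J.1 0 0 (J⁻¹).1ᵀ ∈ symplecticGroup (Fin (L + 1)) F := by
    rw [SymplecticGroup.fromBlocks_mem_iff]
    refine ⟨by simp, by simp, ?_⟩
    rw [← transpose_mul, show (J⁻¹).1 * J.1 = 1 from congrArg Subtype.val (inv_mul_cancel J)]
    simp
  have h3 : ∀ k, J.1ᵀ *ᵥ bv (L + 1) F k = bv _ F k + bv _ F (k + 1) := by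
    intro k
    change (1 + shiftN (L + 1) F)ᵀ *ᵥ _ = _
    rw [transpose_add, transpose_one, add_mulVec, one_mulVec, add_right_inj]
    ext i
    simp only [mulVec, dotProduct, transpose_apply, shiftN, of_apply, bv]
    by_cases hk : k < L + 1
    · rw [Finset.sum_eq_single ⟨k, hk⟩ (fun j _ hj => by
        rw [if_neg (show ¬ (j : ℕ) = k from fun h => hj (Fin.ext h)), mul_zero]) (by simp)]
      simp [eq_comm]
    · rw [if_neg (by have := i.2; omega)]
      exact Finset.sum_eq_zero fun j _ => by rw [if_neg (show ¬ (j : ℕ) = k by omega), mul_zero]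
  have h4 : ∀ k, (J⁻¹).1ᵀ *ᵥ (bv (L + 1) F k + bv _ F (k + 1)) = bv _ F k := fun k => by
    rw [← h3, mulVec_mulVec, h1, one_mulVec]
  have hB : ∀ a b c d : Fin (L + 1) → F,
      jBilin (Fin (L + 1)) F (Sum.elim a b) (Sum.elim c d) = b ⬝ᵥ c - a ⬝ᵥ d := by
    intro a b c d
    rw [jBilin_apply_sum, Finset.sum_sub_distrib]
    rfl
  have hy : ∀ a b : Fin (L + 1) → F, spToLin _ F ⟨_, h2⟩ (Sum.elim a b) =
      Sum.elim (J.1 *ᵥ a) ((J⁻¹).1ᵀ *ᵥ b) := by
    intro a b
    rw [spToLin_apply]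
    simp [fromBlocks_mulVec]
  have hadd : ∀ a b c d : Fin (L + 1) → F,
      Sum.elim a b + Sum.elim c d = Sum.elim (a + c) (b + d) := by
    intro a b c d
    ext (i | i) <;> rfl
  refine ⟨fun k => Sum.elim (bv _ F k) 0, fun k => Sum.elim 0 (bv _ F k), spToLin _ F ⟨_, h2⟩,
    spToLin_mem _, jBilin_isAlt, hL, fun i j => by simp [hB], fun i j => by simp [hB],
    fun i hi => by simp [hB, bv_dot_self (show i < L + 1 by omega)],
    fun i j h => by simp [hB, bv_dot_ne h], ?_, fun k hk => ?_, fun k hk => ?_, ?_, ?_⟩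
  · rw [hy, jordanSL_bv_zero, mulVec_zero]
  · rw [hy, jordanSL_bv_succ k (by omega), mulVec_zero, hadd, add_zero]
  · rw [hadd, hy, h4, add_zero, mulVec_zero]
  · have := h4 L
    rw [show bv (L + 1) F (L + 1) = 0 by
      ext i
      simp only [bv, Pi.zero_apply]
      rw [if_neg (by have := i.2; omega)], add_zero] at this
    rw [hy, this, mulVec_zero]
  · intro W a1 a2
    rw [eq_top_iff, ← (Pi.basisFun F _).span_eq, Submodule.span_le]
    rintro _ ⟨i | i, rfl⟩
    · convert SetLike.mem_coe.mpr (a1 i (by omega))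
      ext (j | j) <;> simp [bv, Pi.single_apply, Fin.ext_iff]
    · convert SetLike.mem_coe.mpr (a2 i (by omega))
      ext (j | j) <;> simp [bv, Pi.single_apply, Fin.ext_iff]

end Cfsg.Agent.H28.Reg
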