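import Mathlib
import Cfsg.Agent.H74.RuDefs

/-!
# The covering of the torus
-/

set_option autoImplicit false

namespace Cfsg.Agent.H28.RuTc

open Cfsg Cfsg.Agent.H74.Ru Cfsg.Agent.H31

theorem tc (ka : KaStmt) (kb : KbStmt) (bru : BruStmt) (rk : RkStmt) : TcStmt := by
  intro F V _ _ _ _ _ S K hK r3 v hv hct
  obtain ⟨-, -, -, -, a5, a6, a7, -⟩ := ka S v hv
  obtain ⟨b1, -⟩ := kb S v hv
  haveI : Finite V := Module.finite_of_finite F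
  haveI : Finite (V ≃ₗ[F] V) := Finite.of_injective (fun g : V ≃ₗ[F] V => (g : V → V))
    DFunLike.coe_injective
  let H : Subgroup S.G :=
    { carrier := {g | ∃ t, Tri v (g : V ≃ₗ[F] V) t}
      one_mem' := ⟨1, fun i => by simp⟩
      mul_mem' := fun ⟨t, ht⟩ ⟨s, hs⟩ => ⟨t * s, a5 _ _ t s ht hs⟩
      inv_mem' := fun ⟨t, ht⟩ => ⟨t⁻¹, a6 _ t ht⟩ }
  have hex : ∀ h : H, ∃ t : S.Tor, Tri v (h.1 : V ≃ₗ[F] V) t.1 := fun h => by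
    obtain ⟨t, ht⟩ := h.2
    exact ⟨⟨t, b1 _ h.1.2 t ht⟩, ht⟩
  choose f hf using hex
  let τ : H →* S.Tor := MonoidHom.mk' f fun a b =>
    Subtype.ext (a7 _ _ _ (hf (a * b)) (a5 _ _ _ _ (hf a) (hf b)))
  have link : ∀ θ θ' : H →* ℂˣ, Lnk H θ θ' → ∃ π, Rv π ∧ ∀ t : S.Tor, ∃ h h' : H,
      τ h = t ∧ (∀ i, (τ h').1 i = t.1 (π i)) ∧ θ' h = θ h' := by
    rintro θ θ' ⟨g, hg⟩
    obtain ⟨π, hπ, h⟩ := bru S v hv g.1 g.2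
    refine ⟨π, hπ, fun t => ?_⟩
    obtain ⟨h, hG, h1, h2⟩ := h t.1 t.2
    obtain ⟨x, hx⟩ : ∃ x : S.G, x.1 = h := ⟨⟨h, hG⟩, rfl⟩
    obtain ⟨y, hy⟩ : ∃ y : S.G, y = g⁻¹ * x * g := ⟨_, rfl⟩
    have hy' : y.1 = g.1⁻¹ * h * g.1 := by
      rw [hy, Subgroup.coe_mul, Subgroup.coe_mul, Subgroup.coe_inv, hx]
    rw [← hy'] at h2
    rw [← hx] at h1
    refine ⟨⟨x, t.1, h1⟩, ⟨y, _, h2⟩, Subtype.ext (a7 _ _ _ (hf _) h1),
      fun i => congrFun (a7 _ _ _ (hf ⟨y, _, h2⟩) h2) i, hg _ _ ?_⟩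
    change x * g = g * y
    rw [hy]
    group
  refine ⟨((K.subgroupOf S.G).subgroupOf H).map τ, ?_, fun θ θ' h1 h1' h2 h2' => ?_⟩
  · rintro _ ⟨h, hh, rfl⟩
    exact ⟨h.1.1, hh, hf h⟩
  have hne : ∃ g : S.G, ∀ h ∈ H, ∀ k ∈ K.subgroupOf S.G, g ≠ h * k := by
    by_contra hc
    push Not at hc
    refine hct fun g hg => ?_
    obtain ⟨h, hh, k, hk, e⟩ := hc ⟨g, hg⟩
    exact ⟨h.1, h.2, hh, k.1, hk, congrArg Subtype.val e⟩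
  have triv : ∀ η : S.Tor →* ℂˣ, Lnk H 1 (η.comp τ) → η = 1 := fun η h => by
    obtain ⟨π, -, h⟩ := link _ _ h
    refine MonoidHom.ext fun t => ?_
    obtain ⟨h, h', e1, -, e3⟩ := h t
    rw [← e1]
    exact e3
  rcases rk S.G (K.subgroupOf S.G) H r3 hne (θ.comp τ) (θ'.comp τ)
    (fun h hh => h2 _ ⟨h, hh, rfl⟩) (fun h hh => h2' _ ⟨h, hh, rfl⟩) with h | h | h
  · exact absurd (triv θ h) h1
  · exact absurd (triv θ' h) h1'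
  · obtain ⟨π, hπ, h⟩ := link _ _ h
    refine ⟨π, hπ, fun t t' e => ?_⟩
    obtain ⟨h, h', e1, e2, e3⟩ := h t
    have e4 : τ h' = t' := Subtype.ext (funext fun i => (e2 i).trans (e i).symm)
    rw [← e1, ← e4]
    exact e3

end Cfsg.Agent.H28.RuTc
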