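import Mathlib
import Cfsg.Agent.H5.S4Pre2

/-!
Project S4, piece SU2: transport of the unitary coordinates along the Weyl group.
-/

set_option autoImplicit false

namespace Cfsg.Agent.H28.S4Su2

open Cfsg Cfsg.Agent.H63 Cfsg.Agent.H63.SL Cfsg.Agent.H35.S4 Subgroup
open Cfsg.Agent.H5.S4P (kk eq_of_act)
open scoped commutatorElement

universe u v

theorem su2 : Su2Stmt.{u, v} := by
  intro F _ _ G _ _ L x t hC A _ j σ y hP
  have kb := hC.kb
  have kp := hC.kp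
  choose w wL wx wh _ using kb.rot
  have k1 : ∀ i, sh i → 1 + 2 * kk i = i := by decide
  have k2 : ∀ i, sh i → 2 + 2 * kk i = i + 1 := by decide
  have k3 : ∀ i, sh i → 3 + 2 * kk i = i + 2 := by decide
  have k4 : ∀ i, sh i → 4 + 2 * kk i = i + 3 := by decide
  have sj : ∀ u, σ (j u) = j u := fun u => (hP.quad.fix _).2 ⟨u, rfl⟩
  obtain ⟨z, hz⟩ : ∃ z : ZMod 8 → A → G, ∀ i a, z i a = w (kk i) * y a * (w (kk i))⁻¹ :=
    ⟨_, fun _ _ => rfl⟩
  have hat : ∀ i, sh i → ∀ p, p ∈ HatS L x t 0 i ↔ ∃ a, p = z i a := fun i hi p => by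
    have := wh (kk i) 0 1 ((w (kk i))⁻¹ * p * w (kk i))
    rw [k1 i hi, show w (kk i) * ((w (kk i))⁻¹ * p * w (kk i)) * (w (kk i))⁻¹ = p by group,
      hP.hat] at this
    rw [← this]
    refine exists_congr fun a => ?_
    rw [hz]
    constructor
    · intro e; rw [← e]; group
    · intro e; rw [e]; group
  have wey : ∀ k i, sh i → ∀ a, n2 x k * z i a * (n2 x k)⁻¹ = z (2 * k + 4 - i) (σ a) :=
    fun k i hi a => by
      have e : n2 x k * w (kk i) = w (kk (2 * k + 4 - i)) * n2 x 3 := by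
        refine eq_of_act kb (mul_mem (kb.nL _) (wL _)) (mul_mem (wL _) (kb.nL _)) fun r c => ?_
        calc n2 x k * w (kk i) * x r c * (n2 x k * w (kk i))⁻¹
            = n2 x k * (w (kk i) * x r c * (w (kk i))⁻¹) * (n2 x k)⁻¹ := by group
          _ = w (kk (2 * k + 4 - i)) * (n2 x 3 * x r c * (n2 x 3)⁻¹) *
              (w (kk (2 * k + 4 - i)))⁻¹ := by
            rw [wx, kp.nn, kp.nn, wx, (by decide : ∀ k i r : ZMod 8, sh i →
              2 * 3 + 4 - r + 2 * kk (2 * k + 4 - i) = 2 * k + 4 - (r + 2 * kk i)) k i r hi]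
          _ = _ := by group
      rw [hz, hz, ← hP.ref]
      calc n2 x k * (w (kk i) * y a * (w (kk i))⁻¹) * (n2 x k)⁻¹
          = n2 x k * w (kk i) * y a * (n2 x k * w (kk i))⁻¹ := by group
        _ = _ := by rw [e]; group
  have rot3 : ∀ i, sh i → ∀ a, w (kk i) * z 3 a * (w (kk i))⁻¹ = z (i + 2) a := fun i hi a => by
    have e : w (kk i) * w (kk 3) = w (kk (i + 2)) := by
      refine eq_of_act kb (mul_mem (wL _) (wL _)) (wL _) fun r c => ?_
      calc w (kk i) * w (kk 3) * x r c * (w (kk i) * w (kk 3))⁻¹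
          = w (kk i) * (w (kk 3) * x r c * (w (kk 3))⁻¹) * (w (kk i))⁻¹ := by group
        _ = _ := by
          rw [wx, wx, wx, (by decide : ∀ i r : ZMod 8, sh i →
            r + 2 * kk 3 + 2 * kk i = r + 2 * kk (i + 2)) i r hi]
    rw [hz, hz, ← e]; group
  have w0 : w 0 = 1 := eq_of_act kb (wL 0) (one_mem _) fun r c => by rw [wx]; simp
  have z3 : ∀ a, n2 x 4 * y a * (n2 x 4)⁻¹ = z 3 (σ a) := fun a => by
    have := wey 4 1 (by decide) a
    rwa [hz, show kk 1 = 0 by decide, w0, one_mul, inv_one, mul_one] at this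
  have cj : ∀ g a b : G, g * ⁅a, b⁆ * g⁻¹ = ⁅g * a * g⁻¹, g * b * g⁻¹⁆ := fun g a b => by
    simp only [commutatorElement_def]; group
  have s3 : ∀ i, sh i → ∀ a n, j n = a * σ a → ∀ u,
      ⁅z i a, x (i + 3) u⁆ = x (i + 1) (n * u) * z (i + 2) (σ a * j u) := fun i hi a n h u => by
    rw [hz, ← k4 i hi, ← wx, ← cj, hP.s3 a n h, ← conj_mul, wx, z3, rot3 i hi, k2 i hi, map_mul, sj]
  refine ⟨z, hP.quad, fun i _ a b => ?_, fun i _ a e => hP.inj a ?_, fun i hi a => ?_,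
    fun i _ a => ?_, fun i hi a u => ?_, fun i hi a b n h => ?_, fun i hi a n h u => ⟨s3 i hi a n h u, ?_⟩,
    wey, fun h hh α β hT i hi a => ?_, hat, fun i _ k hk c o p hp => ?_⟩
  · rw [hz, hz, hz, hP.add]; group
  · rw [hz] at e
    exact conj_eq_one_iff.1 e
  · rw [hz, hP.res, wx, k1 i hi]
  · have c := (kb.tL _ (wL (kk i))).eq
    rw [hz, hz, ← hP.conj]
    calc t * (w (kk i) * y a * (w (kk i))⁻¹) * t⁻¹ = t * w (kk i) * y a * (t * w (kk i))⁻¹ := by
          group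
      _ = _ := by rw [c]; group
  · have c := mem_centralizer_iff.1 ((hat i hi _).2 ⟨a, rfl⟩).1
    exact ⟨(c _ (mem_sup_right ((kp.memX _ _).2 ⟨u, rfl⟩))).symm,
      (c _ (mem_sup_left (mem_sup_left ((kp.memX _ _).2 ⟨u, rfl⟩)))).symm⟩
  · rw [hz, ← rot3 i hi, ← cj, ← hP.quad.sq b, ← z3, hP.s2 a b n h, wx, k2 i hi]
  · have := congrArg (fun g => n2 x (i + 2) * g * (n2 x (i + 2))⁻¹)
      (s3 i hi (σ a) n (by rw [h, hP.quad.sq, mul_comm]) u)
    rw [cj, ← conj_mul, wey _ _ hi, wey _ _ ((by decide : ∀ i, sh i → sh (i + 2)) i hi), kp.nn, kp.nn,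
      hP.quad.sq, map_mul, sj, (by decide : ∀ i : ZMod 8, 2 * (i + 2) + 4 - i = i),
      (by decide : ∀ i : ZMod 8, 2 * (i + 2) + 4 - (i + 3) = i - 3),
      (by decide : ∀ i : ZMod 8, 2 * (i + 2) + 4 - (i + 1) = i - 1),
      (by decide : ∀ i : ZMod 8, 2 * (i + 2) + 4 - (i + 2) = i - 2)] at this
    exact this
  · obtain ⟨g, hg⟩ : ∃ g, g = (w (kk i))⁻¹ * h * w (kk i) := ⟨_, rfl⟩
    have gL : g ∈ L := hg ▸ mul_mem (mul_mem (inv_mem (wL _)) hh) (wL _)
    have act : ∀ r c, g * x r c * g⁻¹ = x r (wt α β (r + 2 * kk i) * c) := fun r c => by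
      calc g * x r c * g⁻¹ = (w (kk i))⁻¹ * (h * (w (kk i) * x r c * (w (kk i))⁻¹) * h⁻¹) *
            w (kk i) := by rw [hg]; group
        _ = _ := by rw [wx, hT, ← wx]; group
    have gH : g ∈ HH x L := by
      refine mem_inf.2 ⟨gL, mem_iInf.2 fun r => mem_normalizer_fintype fun p hp => ?_⟩
      obtain ⟨c, rfl⟩ := (kp.memX r p).1 hp
      exact (kp.memX r _).2 ⟨_, act r c⟩
    obtain ⟨α', β', hT'⟩ := kp.memH g gH
    have e : (α' : F) = wt α β i := by
      have e1 : x 1 (α' * 1) = _ := (hT' 1 1).symm.trans (act 1 1)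
      rw [k1 i hi, mul_one, mul_one] at e1
      have e2 := hC.mod.pin.add 1 (α' - wt α β i) (wt α β i)
      rw [sub_add_cancel, e1] at e2
      exact sub_eq_zero.1 (hC.mod.pin.inj _ _ (right_eq_mul.1 e2))
    rw [hz, hz, ← e, ← hP.tor g gL α' β' hT', hg]; group
  · obtain ⟨a, rfl⟩ := hp
    have c1 : Commute k (w (kk i)) := (mem_centralizer_iff.1 hk _ (wL _)).symm
    rw [hz]
    exact (c1.mul_right (hP.odd k hk c o _ ⟨a, rfl⟩)).mul_right c1.inv_right

end Cfsg.Agent.H28.S4Su2
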