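import Mathlib
import Cfsg.Agent.H56.SpDefs
import Cfsg.Agent.S1248

/-! Project CY, chapter SP, piece X4: `U₃(4)` has no dihedral subgroup of order eight. -/

set_option autoImplicit false

namespace Cfsg.Agent.H28.SpX4

open Subgroup Cfsg.Agent.H56.Sp

theorem two_zpowers {X : Type*} [Group X] {a : X} (h : a ^ 4 = 1) : IsPGroup 2 (zpowers a) := by
  rintro ⟨_, k, rfl⟩
  refine ⟨2, Subtype.ext ?_⟩
  change (a ^ k) ^ 4 = 1
  rw [← zpow_natCast, zpow_comm, zpow_natCast, h, one_zpow]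

theorem exists_sylow {X : Type*} [Group X] {f u : X} (hu : u * u = 1) (hf : f ^ 4 = 1)
    (h : u * f * u⁻¹ = f⁻¹) : ∃ S : Sylow 2 X, f ∈ S ∧ u ∈ S := by
  have ui : u⁻¹ = u := inv_eq_of_mul_eq_one_right hu
  have key : ∀ y ∈ zpowers f, u * y * u⁻¹ ∈ zpowers f := by
    rintro _ ⟨k, rfl⟩
    change u * f ^ k * u⁻¹ ∈ _
    rw [← conj_zpow, h]
    exact zpow_mem (inv_mem (mem_zpowers f)) k
  have hn : zpowers u ≤ normalizer (zpowers f : Set X) := zpowers_le.2
    (mem_normalizer_iff.2 fun y => ⟨key y, fun hy => by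
      have := key _ hy
      rwa [show u * (u * y * u⁻¹) * u⁻¹ = (u * u) * y * (u * u)⁻¹ by group, hu, inv_one, one_mul,
        mul_one] at this⟩)
  obtain ⟨S, hS⟩ := ((two_zpowers (a := u) (by
    rw [show 4 = 2 * 2 from rfl, pow_mul, sq u, hu, one_pow])).to_sup_of_normal_right'
      (two_zpowers hf) hn).exists_le_sylow
  exact ⟨S, hS (mem_sup_right (mem_zpowers f)), hS (mem_sup_left (mem_zpowers u))⟩

theorem x4 : X4Stmt := by
  rintro G _ F _ _ hF ⟨e⟩ ⟨f, u, hu, f2, hf, h⟩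
  obtain ⟨S, h1, h2⟩ := exists_sylow (f := e f) (u := e u) (by rw [← map_mul, hu, map_one])
    (by rw [← map_pow, hf, map_one]) (by rw [← map_inv, ← map_mul, ← map_mul, h, map_inv])
  have c : u * f = f * u := by
    by_cases u1 : u = 1
    · simp [u1]
    have m : (⟨e u, h2⟩ : (S : Subgroup (Cfsg.PSU 3 F 4))) ∈ center _ := by
      rw [(S1248.result hF S).2.2.1]
      refine subset_closure (orderOf_eq_prime (Subtype.ext ?_) fun e' => u1 ?_)
      · change e u ^ 2 = 1
        rw [← map_pow, sq, hu, map_one]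
      · exact e.injective ((congrArg Subtype.val e').trans (map_one e).symm)
    apply e.injective
    rw [map_mul, map_mul]
    exact (congrArg Subtype.val (mem_center_iff.1 m ⟨e f, h1⟩)).symm
  rw [c, mul_inv_cancel_right] at h
  exact f2 (mul_eq_one_iff_eq_inv.2 h)

end Cfsg.Agent.H28.SpX4
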