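import Mathlib
import Cfsg.Agent.H58.SWDefs

/-! Project SW (S3694), piece KW: vectors in the range of an idempotent, frames. -/

set_option autoImplicit false
set_option linter.unusedSectionVars false
open Matrix Cfsg

namespace Cfsg.Agent.H28.SwKw

open Cfsg.Agent.H58.SW

variable {F : Type} [Field F] [Fintype F] [DecidableEq F] {n : ℕ} {c : Cl F n}

theorem hf_eq (v w : Vc n F) : c.hf v w = c.bar w ⬝ᵥ v := by
  rw [dotProduct_comm]; rfl

theorem nrm (ka : KA c) (hu : c.u = true) (e : Mt n F) (hs : c.st e = e) (he : e * e = e)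
    (h0 : e ≠ 0) : ∃ v, e *ᵥ v = v ∧ c.hf v v = 1 := by
  have ex : ∃ v, e *ᵥ v = v ∧ c.hf v v ≠ 0 := by
    by_contra hn
    push Not at hn
    have h1 : ∀ v w, e *ᵥ v = v → e *ᵥ w = w → c.hf v w = 0 := fun v w hv hw => by
      by_contra ht
      obtain ⟨θ, hθ⟩ := ka.th hu
      have h2 := hn ((θ / c.hf v w) • v + w) (by rw [mulVec_add, mulVec_smul, hv, hw])
      rw [ka.hf_add, ka.hf_add' hu, ka.hf_add' hu, hn w hw, ka.hf_smul, ka.hf_smul', hn v hv,
        ka.hf_smul, ka.hf_smul', ka.hf_symm hu v w, ← mul_pow, div_mul_cancel₀ _ ht] at h2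
      exact one_ne_zero (α := F) (by linear_combination h2 - hθ)
    refine h0 (ext_of_mulVec_single fun i => ?_)
    rw [zero_mulVec]
    refine ka.hf_nd _ fun y => ?_
    rw [← he, ← mulVec_mulVec]
    nth_rewrite 1 [← hs]
    rw [← ka.hf_adj hu]
    exact h1 _ _ (by rw [mulVec_mulVec, he]) (by rw [mulVec_mulVec, he])
  obtain ⟨v, hv, h1⟩ := ex
  obtain ⟨b, hb⟩ := ka.nsurj hu (c.hf v v)⁻¹ (by rw [inv_pow, ← ka.hf_symm hu]) (inv_ne_zero h1)
  refine ⟨b • v, by rw [mulVec_smul, hv], ?_⟩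
  rw [ka.hf_smul, ka.hf_smul', ← mul_assoc, ← pow_succ', hb, inv_mul_cancel₀ h1]

theorem bar_vecMul (ka : KA c) (hu : c.u = true) {e : Mt n F} (hs : c.st e = e) {v : Vc n F}
    (hv : e *ᵥ v = v) : c.bar v ᵥ* e = c.bar v := by
  have : ∀ x, (c.bar v ᵥ* e) ⬝ᵥ x = c.bar v ⬝ᵥ x := fun x => by
    rw [← dotProduct_mulVec, ← hf_eq, ← hf_eq, ka.hf_adj hu, hs, hv]
  exact dotProduct_eq _ _ this

theorem step (ka : KA c) (U : Prop) (e : Mt n F) (hU : U → c.u = true ∧ c.st e = e)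
    (he : e * e = e) (h0 : e ≠ 0) :
    ∃ v w : Vc n F, e *ᵥ v = v ∧ w ᵥ* e = w ∧ w ⬝ᵥ v = 1 ∧ (U → w = c.bar v) := by
  by_cases h : U
  · obtain ⟨hu, hs⟩ := hU h
    obtain ⟨v, hv, h1⟩ := nrm ka hu e hs he h0
    exact ⟨v, c.bar v, hv, bar_vecMul ka hu hs hv, by rw [← hf_eq, h1], fun _ => rfl⟩
  · obtain ⟨i, j, hij⟩ : ∃ i j, e i j ≠ 0 := by
      by_contra hn
      push Not at hn
      exact h0 (Matrix.ext hn)
    refine ⟨e *ᵥ Pi.single j 1, (e i j)⁻¹ • (Pi.single i 1 ᵥ* e), by rw [mulVec_mulVec, he],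
      by rw [smul_vecMul, vecMul_vecMul, he], ?_, fun h' => absurd h' h⟩
    rw [smul_dotProduct, ← dotProduct_mulVec, mulVec_mulVec, he]
    simp [hij]

theorem rank_of {ι κ : Type} [Fintype ι] [DecidableEq ι] [Fintype κ] (A : Matrix κ ι F)
    (B : Matrix ι κ F) (h : B * A = 1) : (A * B).rank = Fintype.card ι := by
  refine le_antisymm ((rank_mul_le_left _ _).trans (rank_le_card_width _)) ?_
  have : (1 : Matrix ι ι F) = B * (A * B) * A := by
    rw [← Matrix.mul_assoc, h, Matrix.one_mul, h]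
  rw [← rank_one (R := F) (n := ι), this]
  exact (rank_mul_le_left _ _).trans (rank_mul_le_right _ _)

/-- decomposition of an idempotent into idempotents of rank one -/
theorem dec (ka : KA c) (U : Prop) (e : Mt n F) (hU : U → c.u = true ∧ c.st e = e)
    (he : e * e = e) : ∃ (k : ℕ) (v w : Fin k → Vc n F), (∀ i, e *ᵥ v i = v i) ∧
      (∀ i, w i ᵥ* e = w i) ∧ (∀ i j, w i ⬝ᵥ v j = if i = j then 1 else 0) ∧
      e = ∑ i, vecMulVec (v i) (w i) ∧ (U → ∀ i, w i = c.bar (v i)) := by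
  induction hr : e.rank using Nat.strong_induction_on generalizing e with
  | _ r ih =>
  by_cases h0 : e = 0
  · exact ⟨0, Fin.elim0, Fin.elim0, fun i => i.elim0, fun i => i.elim0, fun i => i.elim0,
      by simp [h0], fun _ i => i.elim0⟩
  obtain ⟨v, w, hv, hw, h1, hb⟩ := step ka U e hU he h0
  set f := vecMulVec v w with hf
  have ef : e * f = f := by rw [hf, mul_vecMulVec, hv]
  have fe : f * e = f := by rw [hf, vecMulVec_mul, hw]
  have ff : f * f = f := by rw [hf, vecMulVec_mul_vecMulVec, h1, one_smul]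
  have fv : f *ᵥ v = v := by rw [hf, vecMulVec_mulVec, h1]; simp
  have wf : w ᵥ* f = w := by rw [hf, vecMul_vecMulVec, h1, one_smul]
  have e1 : e * (e - f) = e - f := by rw [Matrix.mul_sub, he, ef]
  have e2 : (e - f) * e = e - f := by rw [Matrix.sub_mul, he, fe]
  have e3 : (e - f) *ᵥ v = 0 := by rw [sub_mulVec, hv, fv, sub_self]
  have e4 : w ᵥ* (e - f) = 0 := by rw [vecMul_sub, hw, wf, sub_self]
  have lt : (e - f).rank < r := by
    rw [← hr]
    refine Submodule.finrank_lt_finrank_of_lt (lt_of_le_of_ne ?_ fun h => ?_)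
    · rintro _ ⟨x, rfl⟩
      exact ⟨(e - f) *ᵥ x, by simp only [mulVecLin_apply]; rw [mulVec_mulVec, e1]⟩
    · obtain ⟨x, hx⟩ : v ∈ LinearMap.range (e - f).mulVecLin := h ▸ ⟨v, hv⟩
      rw [← hx, mulVecLin_apply, dotProduct_mulVec, e4, zero_dotProduct] at h1
      exact zero_ne_one h1
  obtain ⟨k, v', w', hv', hw', h1', hs', hb'⟩ := ih _ lt (e - f) (fun h => ⟨(hU h).1, by
    rw [ka.st_sub (hU h).1, (hU h).2, hf, hb h, ka.st_vec (hU h).1]⟩)
    (by rw [Matrix.mul_sub, e2, Matrix.sub_mul, ef, ff, sub_self, sub_zero]) rfl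
  refine ⟨k + 1, Fin.cons v v', Fin.cons w w', fun i => ?_, fun i => ?_, fun i j => ?_, ?_,
    fun h i => ?_⟩
  · refine Fin.cases hv (fun i => ?_) i
    rw [Fin.cons_succ, ← hv', mulVec_mulVec, e1]
  · refine Fin.cases hw (fun i => ?_) i
    rw [Fin.cons_succ, ← hw', vecMul_vecMul, e2]
  · refine Fin.cases ?_ (fun i => ?_) i <;> refine Fin.cases ?_ (fun j => ?_) j
    · simpa using h1
    · rw [Fin.cons_zero, Fin.cons_succ, ← hv', dotProduct_mulVec, e4, zero_dotProduct,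
        if_neg (Fin.succ_ne_zero j).symm]
    · rw [Fin.cons_zero, Fin.cons_succ, ← hw', ← dotProduct_mulVec, e3, dotProduct_zero,
        if_neg (Fin.succ_ne_zero i)]
    · simpa using h1' i j
  · rw [Fin.sum_univ_succ]
    simp only [Fin.cons_zero, Fin.cons_succ]
    rw [← hs', ← hf, add_sub_cancel]
  · exact Fin.cases (hb h) (fun i => hb' h i) i

theorem dec' (ka : KA c) (U : Prop) (e : Mt n F) (hU : U → c.u = true ∧ c.st e = e)
    (he : e * e = e) : ∃ v w : Fin e.rank → Vc n F, (∀ i, e *ᵥ v i = v i) ∧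
      (∀ i, w i ᵥ* e = w i) ∧ (∀ i j, w i ⬝ᵥ v j = if i = j then 1 else 0) ∧
      e = ∑ i, vecMulVec (v i) (w i) ∧ (U → ∀ i, w i = c.bar (v i)) := by
  obtain ⟨k, v, w, h⟩ := dec ka U e hU he
  have : e.rank = k := by
    have h1 : e = (of fun r i => v i r) * (of fun i r => w i r) := by
      rw [h.2.2.2.1]
      ext r s
      simp [Matrix.sum_apply, vecMulVec_apply, mul_apply]
    rw [h1, rank_of, Fintype.card_fin]
    ext i j
    rw [one_apply, ← h.2.2.1]
    rfl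
  subst this
  exact ⟨v, w, h⟩

theorem two (ka : KA c) (U : Prop) (e : Mt n F) (hU : U → c.u = true ∧ c.st e = e)
    (he : e * e = e) (h2 : 2 ≤ e.rank) : ∃ v v' w w' : Vc n F, e *ᵥ v = v ∧ e *ᵥ v' = v' ∧
      w' ᵥ* e = w' ∧ w ⬝ᵥ v = 1 ∧ w' ⬝ᵥ v' = 1 ∧ w ⬝ᵥ v' = 0 ∧ w' ⬝ᵥ v = 0 ∧
      (U → w = c.bar v ∧ w' = c.bar v') := by
  obtain ⟨v, w, h1, h2', h3, -, h5⟩ := dec' ka U e hU he
  exact ⟨v ⟨0, by omega⟩, v ⟨1, by omega⟩, w ⟨0, by omega⟩, w ⟨1, by omega⟩, h1 _, h1 _, h2' _,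
    by simp [h3], by simp [h3], by simp [h3], by simp [h3], fun h => ⟨h5 h _, h5 h _⟩⟩

theorem iso (ka : KA c) (hu : c.u = true) (e : Mt n F) (hs : c.st e = e) (he : e * e = e)
    (h2 : 2 ≤ e.rank) : ∃ v, v ≠ 0 ∧ e *ᵥ v = v ∧ c.hf v v = 0 := by
  obtain ⟨v, v', w, w', hv, hv', -, h1, h1', h0, h0', hb⟩ :=
    two ka True e (fun _ => ⟨hu, hs⟩) he h2
  obtain ⟨rfl, rfl⟩ := hb trivial
  rw [← hf_eq] at h1 h1' h0 h0'
  have hm : (-1 : F) ^ c.q = -1 := by
    have := ka.fr_add hu 1 (-1)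
    rw [add_neg_cancel, zero_pow (by have := ka.two_le; omega), one_pow] at this
    linear_combination -this
  obtain ⟨b, hb⟩ := ka.nsurj hu (-1) hm (by simp)
  refine ⟨v + b • v', fun h => ?_, by rw [mulVec_add, mulVec_smul, hv, hv'], ?_⟩
  · have h3 := ka.hf_add v (b • v') v
    rw [h, ka.hf_smul, h0, h1, hf_eq, dotProduct_zero] at h3
    simp at h3
  · rw [ka.hf_add, ka.hf_add' hu, ka.hf_add' hu, ka.hf_smul, ka.hf_smul, ka.hf_smul', ka.hf_smul',
      h1, h1', h0, h0']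
    linear_combination hb

theorem btv (ka : KA c) (kv : KV c) (e : Mt n F) (hs : c.u = true → c.st e = e) (he : e * e = e)
    (h2 : 2 ≤ e.rank) : ∃ t ∈ c.S, t ≠ 1 ∧ Unip t ∧ ((t : Mt n F) - 1).rank = 1 ∧
      e * ((t : Mt n F) - 1) = (t : Mt n F) - 1 ∧ ((t : Mt n F) - 1) * e = (t : Mt n F) - 1 := by
  have key : ∃ t ∈ c.S, Unip t ∧ ∃ x y : Vc n F, x ≠ 0 ∧ y ≠ 0 ∧ e *ᵥ x = x ∧ y ᵥ* e = y ∧
      (t : Mt n F) = 1 + vecMulVec x y := by
    by_cases hu : c.u = true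
    · obtain ⟨v, hv0, hv, hi⟩ := iso ka hu e (hs hu) he h2
      have : Nontrivial {a : F // a ^ c.q = -a} :=
        Finite.one_lt_card_iff_nontrivial.1 (by rw [ka.tz hu]; exact ka.two_le)
      obtain ⟨a, ha⟩ := exists_ne (⟨0, by
        rw [zero_pow (by have := ka.two_le; omega), neg_zero]⟩ : {a : F // a ^ c.q = -a})
      obtain ⟨g, hg, hU, e'⟩ := kv.tvU hu v a hi a.2
      refine ⟨g, hg, hU, a.1 • v, c.bar v, smul_ne_zero (fun h => ha (Subtype.ext h)) hv0,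
        fun h => hv0 (funext fun i => pow_eq_zero_iff (n := c.q) (by have := ka.two_le; omega) |>.1
          (congrFun h i)), by rw [mulVec_smul, hv], bar_vecMul ka hu (hs hu) hv, ?_⟩
      rw [e', smul_vecMulVec]
    · obtain ⟨v, v', w, w', hv, -, hw', h1, h1', -, h0', -⟩ :=
        two ka False e False.elim he h2
      obtain ⟨g, e', hd, hU⟩ := kv.nil (vecMulVec v w') ⟨2, by
        rw [pow_two, vecMulVec_mul_vecMulVec, h0']; simp⟩
      refine ⟨g, (ka.mem_S g).2 ⟨(ka.mem_St g).2 fun h => absurd h hu, hd⟩, hU, v, w', ?_, ?_, hv,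
        hw', e'⟩
      · rintro rfl; simp at h1
      · rintro rfl; simp at h1'
  obtain ⟨t, ht, hU, x, y, hx, hy, ex, ye, e'⟩ := key
  have e2 : (t : Mt n F) - 1 = vecMulVec x y := by rw [e', add_sub_cancel_left]
  have h0 : vecMulVec x y ≠ 0 := vecMulVec_ne_zero hx hy
  refine ⟨t, ht, fun h => h0 (by rw [← e2, h]; simp), hU, ?_, by rw [e2, mul_vecMulVec, ex],
    by rw [e2, vecMulVec_mul, ye]⟩
  rw [e2]
  refine le_antisymm (rank_vecMulVec_le _ _) (Nat.one_le_iff_ne_zero.2 fun h => h0 ?_)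
  rw [Matrix.rank, Submodule.finrank_eq_zero, LinearMap.range_eq_bot] at h
  exact ext_of_mulVec_single fun i => by
    rw [zero_mulVec]; exact LinearMap.congr_fun h (Pi.single i 1)

/-- the frame of a family, indexed by a sigma type -/
theorem fam (ka : KA c) (U : Prop) (E : Finset (Mt n F)) (hE : Fam E)
    (hU : U → c.u = true ∧ ∀ e ∈ E, c.st e = e) :
    ∃ (A : Matrix (Fin n) (Σ e : E, Fin e.1.rank) F) (B : Matrix (Σ e : E, Fin e.1.rank) (Fin n) F),
      A * B = 1 ∧ B * A = 1 ∧ (∀ e ∈ E, ∀ r s, e r s = ∑ x, if x.1.1 = e then A r x * B x s else 0) ∧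
      (U → ∀ x r, B x r = A r x ^ c.q) := by
  choose v w h1 h2 h3 h4 h5 using fun e : E =>
    dec' ka U e.1 (fun h => ⟨(hU h).1, (hU h).2 e.1 e.2⟩) (hE.idem e.1 e.2)
  have h6 : ∀ (e : E) r s, e.1 r s = ∑ i, v e i r * w e i s := fun e r s => by
    conv_lhs => rw [h4 e]
    simp [Matrix.sum_apply, vecMulVec_apply]
  refine ⟨of fun r x => v x.1 x.2 r, of fun x r => w x.1 x.2 r, ?_, ?_, fun e he r s => ?_,
    fun h x r => congrFun (h5 x.1 h x.2) r⟩
  · ext r s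
    rw [← hE.sum, Matrix.sum_apply, mul_apply, Fintype.sum_sigma, ← Finset.sum_coe_sort E]
    exact Finset.sum_congr rfl fun e _ => (h6 e r s).symm
  · ext ⟨e, i⟩ ⟨f, j⟩
    change w e i ⬝ᵥ v f j = _
    by_cases h : e = f
    · subst h
      simp [h3, one_apply]
    · rw [← h2, ← h1, ← dotProduct_mulVec, mulVec_mulVec,
        hE.orth _ e.2 _ f.2 fun h' => h (Subtype.ext h'), one_apply_ne fun h' => h (congrArg Sigma.fst h')]
      simp
  · rw [Fintype.sum_sigma, Finset.sum_eq_single ⟨e, he⟩]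
    · simpa using h6 ⟨e, he⟩ r s
    · intro f _ hf
      exact Finset.sum_eq_zero fun i _ => if_neg fun h => hf (Subtype.ext h)
    · simp

theorem card_fam (ka : KA c) (E : Finset (Mt n F)) (hE : Fam E) :
    Fintype.card (Σ e : E, Fin e.1.rank) = n := by
  obtain ⟨A, B, h1, h2, -⟩ := fam ka False E hE False.elim
  rw [← rank_of A B h2, h1, rank_one, Fintype.card_fin]

theorem kw (hA : KAStmt) (hV : KVStmt) : KWStmt := fun F _ _ _ n c =>
  ⟨nrm (hA F n c), iso (hA F n c), btv (hA F n c) (hV F n c), fun E hE => by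
    refine Eq.trans ?_ (card_fam (hA F n c) E hE)
    rw [Fintype.card_sigma, ← Finset.sum_coe_sort E]
    simp⟩

theorem frame (hA : KAStmt) : FrameStmt := by
  intro F _ _ _ n c E hE hS
  have ka := hA F n c
  obtain ⟨A, B, h1, h2, h3, h4⟩ := fam ka (c.u = true) E hE fun h => ⟨h, hS h⟩
  let σ : Fin n ≃ Σ e : E, Fin e.1.rank :=
    (Fintype.equivFinOfCardEq (card_fam ka E hE)).symm
  have g1 : A.submatrix id σ * B.submatrix σ id = 1 := by
    rw [submatrix_mul_equiv, h1, submatrix_id_id]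
  have g2 : B.submatrix σ id * A.submatrix id σ = 1 := mul_eq_one_comm.1 g1
  refine ⟨⟨_, _, g1, g2⟩, (ka.mem_St _).2 fun hu => ?_, fun i => (σ i).1.1, fun i => (σ i).1.2,
    fun e he => ⟨?_, ?_⟩⟩
  · refine Eq.trans ?_ g2
    congr 1
    ext i r
    exact (h4 hu _ _).symm
  · ext r s
    change _ = (A.submatrix id σ * diagonal (fun i => if (σ i).1.1 = e then (1 : F) else 0) *
      B.submatrix σ id : Mt n F) r s
    rw [h3 e he, mul_apply, ← σ.sum_comp]
    refine Finset.sum_congr rfl fun i _ => ?_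
    rw [mul_diagonal]
    split_ifs <;> simp
  · rw [← Fintype.card_subtype]
    refine (Fintype.card_congr ((σ.subtypeEquiv (q := fun x => x.1 = ⟨e, he⟩) fun i =>
      by simp [Subtype.ext_iff]).trans (Equiv.sigmaSubtype _))).trans (Fintype.card_fin _)

end Cfsg.Agent.H28.SwKw
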