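import Mathlib
import Cfsg.Agent.H42.VpDefs

/-! Project VP, piece F2: the central quotient is a Frobenius group. -/

set_option autoImplicit false

namespace Cfsg.Agent.H28.VpF2

open Subgroup Cfsg Cfsg.Agent.H42.Vp
open scoped Pointwise

universe u

theorem f2 : F2Stmt.{u} := by
  intro G _ _ p hp K hKn hK ⟨k, hk⟩ hK0 hL ⟨x, ⟨m, hx⟩, hxZ⟩ hZ
  haveI := Fact.mk hp
  have hxp : IsPGroup p (zpowers x) := by
    obtain ⟨j, -, hj⟩ := (Nat.dvd_prime_pow hp).mp (orderOf_dvd_of_pow_eq_one hx)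
    exact IsPGroup.of_card (by rw [Nat.card_zpowers, hj])
  obtain ⟨P, hP⟩ := hxp.exists_le_sylow
  have hxP : x ∈ (P : Subgroup G) := hP (mem_zpowers x)
  have hZP : center G ≤ P := hZ.le_sylow_of_normal P
  have pw : ∀ a ∈ (P : Subgroup G), ∃ j, a ^ p ^ j = 1 := fun a ha => by
    obtain ⟨j, hj⟩ := P.2 ⟨a, ha⟩
    exact ⟨j, congrArg Subtype.val hj⟩
  have hPK : ∀ a ∈ (P : Subgroup G), a ∈ K → a = 1 := by
    intro a ha hb
    obtain ⟨j, h1⟩ := pw a ha
    have h2 : orderOf a ∣ Nat.card K := K.orderOf_dvd_natCard hb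
    exact orderOf_eq_one_iff.mp
      (Nat.eq_one_of_dvd_coprimes (hK.pow_right j) h2 (orderOf_dvd_of_pow_eq_one h1))
  have hsup : K ⊔ P = ⊤ := by
    rw [← index_eq_one]
    have h1 := index_dvd_of_le (le_sup_left : K ≤ K ⊔ P)
    have h2 := index_dvd_of_le (le_sup_right : (P : Subgroup G) ≤ K ⊔ P)
    rw [hk] at h1
    exact Nat.eq_one_of_dvd_coprimes
      (((Nat.Prime.coprime_iff_not_dvd hp).mpr P.not_dvd_index).pow_left k) h1 h2
  have dec : ∀ g : G, ∃ c ∈ K, ∃ v ∈ (P : Subgroup G), c * v = g := fun g => by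
    have h : g ∈ ((K ⊔ P : Subgroup G) : Set G) := by rw [hsup]; exact mem_top g
    rw [normal_mul] at h
    exact h
  have mem : ∀ g : G, (g : G ⧸ center G) ∈ (P : Subgroup G).map (QuotientGroup.mk' (center G)) →
      g ∈ (P : Subgroup G) := by
    rintro g ⟨a, ha, h⟩
    have h1 : a⁻¹ * g ∈ center G := QuotientGroup.eq.mp h
    simpa using mul_mem ha (hZP h1)
  refine ⟨(P : Subgroup G).map (QuotientGroup.mk' (center G)), ⟨fun h => hxZ ?_, fun h => hK0 ?_,
    fun g hg => ?_⟩, P.2.map _⟩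
  · have h1 : (x : G ⧸ center G) ∈ (P : Subgroup G).map (QuotientGroup.mk' (center G)) :=
      ⟨x, hxP, rfl⟩
    rw [h, mem_bot] at h1
    exact (QuotientGroup.eq_one_iff x).mp h1
  · rw [eq_bot_iff]
    intro c hc
    exact hPK c (mem c (by rw [h]; exact mem_top _)) hc
  · obtain ⟨g, rfl⟩ := QuotientGroup.mk_surjective g
    obtain ⟨c, hc, v, hv, rfl⟩ := dec g
    have hc1 : c ≠ 1 := by
      rintro rfl
      exact hg ⟨v, hv, by simp⟩
    rw [eq_bot_iff]
    rintro _ ⟨⟨a, ha, rfl⟩, h2⟩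
    have h3 : (c * v)⁻¹ * a * (c * v) ∈ (P : Subgroup G) := by
      apply mem
      have h4 := mem_pointwise_smul_iff_inv_smul_mem.mp h2
      simpa [mul_assoc] using h4
    have h5 : c⁻¹ * a * c ∈ (P : Subgroup G) := by
      have e : c⁻¹ * a * c = v * ((c * v)⁻¹ * a * (c * v)) * v⁻¹ := by group
      rw [e]
      exact mul_mem (mul_mem hv h3) (inv_mem hv)
    have h6 : c⁻¹ * a * c * a⁻¹ = 1 := hPK _ (mul_mem h5 (inv_mem ha)) (by
      have e : c⁻¹ * a * c * a⁻¹ = c⁻¹ * (a * c * a⁻¹) := by group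
      rw [e]
      exact mul_mem (inv_mem hc) (hKn.conj_mem c hc a))
    have h7 : Commute a c := by
      have e : a * c = c * (c⁻¹ * a * c * a⁻¹) * a := by group
      rw [h6, mul_one] at e
      exact e
    exact mem_bot.mpr ((QuotientGroup.eq_one_iff a).mpr (hL a (pw a ha) c hc hc1 h7))

end Cfsg.Agent.H28.VpF2
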